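import Mathlib
import Cfsg.Agent.Lib.CharTheory.Burnside
import Cfsg.Agent.Lib.CIT.Basic

/-!
Finite groups in which no prime divides three distinct element orders: first consequences, and the
hereditary condition `TwoQ` met when some element has order `2q`.
-/

set_option autoImplicit false
set_option linter.style.haveILetI false
set_option linter.unusedSectionVars false

namespace CfsgLib.NoThreeOrders

/-- No prime divides three pairwise distinct element orders. -/
def NoThree (G : Type*) [Group G] : Prop :=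
  ∀ p : ℕ, p.Prime → ∀ a b c : G, orderOf a ≠ orderOf b → orderOf b ≠ orderOf c →
    orderOf a ≠ orderOf c → ¬ (p ∣ orderOf a ∧ p ∣ orderOf b ∧ p ∣ orderOf c)

/-- The orders divisible by `2` are among `2, 2q` and those divisible by `q` among `q, 2q`. -/
structure TwoQ (G : Type*) [Group G] (q : ℕ) : Prop where
  hq : q.Prime
  hq2 : q ≠ 2
  two : ∀ g : G, 2 ∣ orderOf g → orderOf g = 2 ∨ orderOf g = 2 * q
  q_ord : ∀ g : G, q ∣ orderOf g → orderOf g = q ∨ orderOf g = 2 * q

variable {G : Type*} [Group G]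

theorem exists_orderOf_of_dvd [Finite G] (g : G) {d : ℕ} (hd : d ∣ orderOf g) :
    ∃ a : G, orderOf a = d := by
  obtain ⟨c, hc⟩ := hd
  have hc0 : c ≠ 0 := fun h => (orderOf_pos g).ne' (by rw [hc, h, mul_zero])
  exact ⟨g ^ c, by
    rw [orderOf_pow' g hc0, hc, Nat.gcd_mul_left_left, Nat.mul_div_cancel _ (Nat.pos_of_ne_zero hc0)]⟩

theorem exists_pow_orderOf [Finite G] (g : G) {d : ℕ} (hd : d ∣ orderOf g) :
    ∃ k : ℕ, orderOf (g ^ k) = d := by
  obtain ⟨c, hc⟩ := hd
  have hc0 : c ≠ 0 := fun h => (orderOf_pos g).ne' (by rw [hc, h, mul_zero])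
  exact ⟨c, by
    rw [orderOf_pow' g hc0, hc, Nat.gcd_mul_left_left, Nat.mul_div_cancel _ (Nat.pos_of_ne_zero hc0)]⟩

/-- A prime divides at most two element orders: `p` and one further `m`. -/
theorem NoThree.eq_or_eq [Finite G] (h : NoThree G) {p m : ℕ} (hp : p.Prime) {a : G} (ha : orderOf a = m)
    (hm : p ∣ m) (hmp : m ≠ p) (g : G) (hg : p ∣ orderOf g) : orderOf g = p ∨ orderOf g = m := by
  obtain ⟨b, hb⟩ := exists_orderOf_of_dvd g hg
  by_contra hc
  push Not at hc
  exact h p hp b a g (by rw [hb, ha]; exact hmp.symm) (by rw [ha]; exact hc.2.symm)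
    (by rw [hb]; exact hc.1.symm) ⟨by rw [hb], by rw [ha]; exact hm, hg⟩

theorem NoThree.subgroup (h : NoThree G) (H : Subgroup G) : NoThree H := fun p hp a b c h1 h2 h3 => by
  simp only [← Subgroup.orderOf_coe] at h1 h2 h3 ⊢
  exact h p hp _ _ _ h1 h2 h3

theorem NoThree.of_surjective [Finite G] {H : Type*} [Group H] (h : NoThree G) (f : G →* H)
    (hf : Function.Surjective f) : NoThree H := by
  have key : ∀ a : H, ∃ a' : G, orderOf a' = orderOf a := fun a => by
    obtain ⟨g, rfl⟩ := hf a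
    exact exists_orderOf_of_dvd g (orderOf_map_dvd f g)
  intro p hp a b c h1 h2 h3
  obtain ⟨a', ha⟩ := key a
  obtain ⟨b', hb⟩ := key b
  obtain ⟨c', hc⟩ := key c
  rw [← ha, ← hb] at h1
  rw [← hb, ← hc] at h2
  rw [← ha, ← hc] at h3
  rw [← ha, ← hb, ← hc]
  exact h p hp _ _ _ h1 h2 h3

theorem NoThree.twoQ [Finite G] (h : NoThree G) {q : ℕ} (hq : q.Prime) (hq2 : q ≠ 2) {g : G}
    (hg : orderOf g = 2 * q) : TwoQ G q := by
  have h2q : 2 * q ≠ 2 := by have := hq.two_le; omega
  have hqq : 2 * q ≠ q := by have := hq.two_le; omega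
  exact ⟨hq, hq2, fun x hx => h.eq_or_eq Nat.prime_two hg (dvd_mul_right 2 q) h2q x hx,
    fun x hx => h.eq_or_eq hq hg (dvd_mul_left q 2) hqq x hx⟩

namespace TwoQ

variable {q : ℕ} (h : TwoQ G q)
include h

theorem subgroup (H : Subgroup G) : TwoQ H q :=
  ⟨h.hq, h.hq2, fun g => by simpa only [← Subgroup.orderOf_coe] using h.two g,
    fun g => by simpa only [← Subgroup.orderOf_coe] using h.q_ord g⟩

theorem of_injective {H : Type*} [Group H] (f : H →* G) (hf : Function.Injective f) : TwoQ H q :=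
  ⟨h.hq, h.hq2, fun g => by rw [← orderOf_injective f hf g]; exact h.two (f g),
    fun g => by rw [← orderOf_injective f hf g]; exact h.q_ord (f g)⟩

theorem of_surjective [Finite G] {H : Type*} [Group H] (f : G →* H) (hf : Function.Surjective f) :
    TwoQ H q := by
  have key : ∀ a : H, ∃ a' : G, orderOf a' = orderOf a := fun a => by
    obtain ⟨g, rfl⟩ := hf a
    exact exists_orderOf_of_dvd g (orderOf_map_dvd f g)
  refine ⟨h.hq, h.hq2, fun a ha => ?_, fun a ha => ?_⟩ <;> obtain ⟨a', e⟩ := key a <;>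
    rw [← e] at ha ⊢
  · exact h.two a' ha
  · exact h.q_ord a' ha

theorem two_lt : 2 < q := lt_of_le_of_ne h.hq.two_le (Ne.symm h.hq2)

theorem coprime_two : Nat.Coprime 2 q :=
  (Nat.coprime_primes Nat.prime_two h.hq).2 (Ne.symm h.hq2)

theorem odd_q : Odd q := h.hq.odd_of_ne_two h.hq2

theorem not_four (g : G) : ¬ 4 ∣ orderOf g := by
  intro h4
  rcases h.two g (dvd_trans (by norm_num) h4) with e | e <;> rw [e] at h4
  · norm_num at h4
  · obtain ⟨c, hc⟩ := h4
    obtain ⟨d, hd⟩ := h.odd_q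
    omega

theorem not_sq (g : G) : ¬ q * q ∣ orderOf g := by
  intro hd
  rcases h.q_ord g ((dvd_mul_right q q).trans hd) with e | e <;> rw [e] at hd
  · exact absurd (Nat.le_of_dvd h.hq.pos hd) (by have := h.two_lt; nlinarith)
  · exact h.hq2 ((Nat.prime_dvd_prime_iff_eq h.hq Nat.prime_two).1
      ((Nat.mul_dvd_mul_iff_right h.hq.pos).1 hd))

/-- A prime other than `2, q` dividing an order excludes `2` and `q`. -/
theorem not_two_of_other (g : G) {r : ℕ} (hr : r.Prime) (hr2 : r ≠ 2) (hrq : r ≠ q)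
    (hrd : r ∣ orderOf g) : ¬ 2 ∣ orderOf g ∧ ¬ q ∣ orderOf g := by
  constructor <;> intro hd
  · rcases h.two g hd with e | e <;> rw [e] at hrd
    · exact hr2 ((Nat.prime_dvd_prime_iff_eq hr Nat.prime_two).1 hrd)
    · rcases hr.dvd_mul.1 hrd with h' | h'
      · exact hr2 ((Nat.prime_dvd_prime_iff_eq hr Nat.prime_two).1 h')
      · exact hrq ((Nat.prime_dvd_prime_iff_eq hr h.hq).1 h')
  · rcases h.q_ord g hd with e | e <;> rw [e] at hrd
    · exact hrq ((Nat.prime_dvd_prime_iff_eq hr h.hq).1 hrd)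
    · rcases hr.dvd_mul.1 hrd with h' | h'
      · exact hr2 ((Nat.prime_dvd_prime_iff_eq hr Nat.prime_two).1 h')
      · exact hrq ((Nat.prime_dvd_prime_iff_eq hr h.hq).1 h')

theorem mul_self_of_isPGroup {P : Subgroup G} (hP : IsPGroup 2 P) {a : G} (ha : a ∈ P) : a * a = 1 := by
  haveI : Fact (Nat.Prime 2) := ⟨Nat.prime_two⟩
  obtain ⟨k, hk⟩ := IsPGroup.iff_orderOf.1 hP ⟨a, ha⟩
  rw [Subgroup.orderOf_mk] at hk
  rw [← pow_two, ← orderOf_dvd_iff_pow_eq_one, hk]
  rcases k with _ | _ | k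
  · norm_num
  · norm_num
  · exact absurd (hk ▸ (pow_dvd_pow 2 (show 2 ≤ k + 2 by omega))) (h.not_four a)

theorem commute_of_isPGroup {P : Subgroup G} (hP : IsPGroup 2 P) {a b : G} (ha : a ∈ P) (hb : b ∈ P) :
    Commute a b := by
  have h1 := h.mul_self_of_isPGroup hP (P.mul_mem ha hb)
  have ha' := inv_eq_of_mul_eq_one_right (h.mul_self_of_isPGroup hP ha)
  have hb' := inv_eq_of_mul_eq_one_right (h.mul_self_of_isPGroup hP hb)
  have hab := inv_eq_of_mul_eq_one_right h1
  rw [mul_inv_rev, ha', hb'] at hab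
  exact hab.symm

theorem pow_q_of_isPGroup {P : Subgroup G} (hP : IsPGroup q P) {a : G} (ha : a ∈ P) : a ^ q = 1 := by
  haveI : Fact q.Prime := ⟨h.hq⟩
  obtain ⟨k, hk⟩ := IsPGroup.iff_orderOf.1 hP ⟨a, ha⟩
  rw [Subgroup.orderOf_mk] at hk
  rw [← orderOf_dvd_iff_pow_eq_one, hk]
  rcases k with _ | _ | k
  · simp
  · simp
  · exfalso
    refine h.not_sq a ?_
    rw [hk, ← pow_two]
    exact pow_dvd_pow q (by omega)

variable [Finite G]

/-- Elements commuting with an element of order `2` or `q` have order dividing `2q`. -/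
theorem orderOf_dvd_of_commute {a b : G} (ha : orderOf a = 2 ∨ orderOf a = q) (hab : Commute b a) :
    orderOf b ∣ 2 * q := by
  have hprimes : ∀ r : ℕ, r.Prime → r ∣ orderOf b → r = 2 ∨ r = q := by
    intro r hr hd
    by_contra hc
    push Not at hc
    obtain ⟨k, hk⟩ := exists_pow_orderOf b hd
    have hcop : Nat.Coprime r (orderOf a) := by
      rcases ha with e | e <;> rw [e]
      · exact (Nat.coprime_primes hr Nat.prime_two).2 hc.1
      · exact (Nat.coprime_primes hr h.hq).2 hc.2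
    have ho : orderOf (b ^ k * a) = r * orderOf a := by
      rw [(hab.pow_left k).orderOf_mul_eq_mul_orderOf_of_coprime (by rw [hk]; exact hcop), hk]
    have := h.not_two_of_other (b ^ k * a) hr hc.1 hc.2 (ho ▸ dvd_mul_right r _)
    rcases ha with e | e <;> rw [ho, e] at this
    · exact this.1 (dvd_mul_left 2 r)
    · exact this.2 (dvd_mul_left q r)
  by_cases h1 : orderOf b = 1
  · rw [h1]; exact one_dvd _
  obtain ⟨r, hr, hd⟩ := Nat.exists_prime_and_dvd h1
  rcases hprimes r hr hd with rfl | rfl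
  · rcases h.two b hd with e | e <;> rw [e]
    exact dvd_mul_right 2 q
  · rcases h.q_ord b hd with e | e <;> rw [e]
    exact dvd_mul_left r 2

/-- Prime divisors of a centraliser of an element of order `2` or `q`. -/
theorem primes_centralizer {a : G} (ha : orderOf a = 2 ∨ orderOf a = q) {r : ℕ} (hr : r.Prime)
    (hd : r ∣ Nat.card (Subgroup.centralizer ({a} : Set G))) : r = 2 ∨ r = q := by
  haveI : Fact r.Prime := ⟨hr⟩
  obtain ⟨⟨b, hb⟩, hbo⟩ := exists_prime_orderOf_dvd_card' r hd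
  rw [Subgroup.orderOf_mk] at hbo
  have := h.orderOf_dvd_of_commute ha (Subgroup.mem_centralizer_singleton_iff.1 hb)
  rw [hbo] at this
  rcases hr.dvd_mul.1 this with h' | h'
  · exact Or.inl ((Nat.prime_dvd_prime_iff_eq hr Nat.prime_two).1 h')
  · exact Or.inr ((Nat.prime_dvd_prime_iff_eq hr h.hq).1 h')

theorem isSolvable_centralizer {a : G} (ha : orderOf a = 2 ∨ orderOf a = q) :
    Group.IsSolvable (Subgroup.centralizer ({a} : Set G)) := by
  set C := Subgroup.centralizer ({a} : Set G)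
  obtain ⟨i, j, hij⟩ : ∃ i j : ℕ, Nat.card C = 2 ^ i * q ^ j := by
    haveI : Fact q.Prime := ⟨h.hq⟩
    refine ⟨(Nat.card C).factorization 2, (Nat.card C).factorization q, ?_⟩
    apply Nat.eq_of_factorization_eq Nat.card_pos.ne'
      (mul_ne_zero (by positivity) (pow_ne_zero _ h.hq.pos.ne'))
    intro r
    rw [Nat.factorization_mul (by positivity) (pow_ne_zero _ h.hq.pos.ne'),
      Nat.Prime.factorization_pow Nat.prime_two, Nat.Prime.factorization_pow h.hq]
    simp only [Finsupp.coe_add, Pi.add_apply]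
    by_cases hr2 : r = 2
    · subst hr2
      simp [Finsupp.single_eq_of_ne (Ne.symm h.hq2)]
    by_cases hrq : r = q
    · subst hrq
      simp [Finsupp.single_eq_of_ne hr2]
    rw [Finsupp.single_eq_of_ne hr2, Finsupp.single_eq_of_ne hrq]
    by_cases hr : r.Prime
    · refine Nat.factorization_eq_zero_of_not_dvd fun hd => ?_
      rcases h.primes_centralizer ha hr hd with e | e
      · exact hr2 e
      · exact hrq e
    · exact Nat.factorization_eq_zero_of_not_prime _ hr
  exact CfsgLib.CharTheory.isSolvable_of_card_dvd_pow_mul_pow 2 q i j Nat.prime_two h.hq (dvd_of_eq hij)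

end TwoQ

end CfsgLib.NoThreeOrders
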