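import Cfsg.Agent.Lib.NoThreeOrders.Norm
import Cfsg.Agent.Lib.CoprimeAction.Sylow
import Cfsg.Agent.Lib.CoprimeAction.Abelian
import Cfsg.Agent.Lib.Balance.CentralizerCore

/-!
Invariant subgroups of odd order under a four-group are `q`-groups, and the core of the centralizer
of an involution meets a solvable subgroup inside its core.
-/

set_option autoImplicit false
set_option linter.style.haveILetI false
set_option linter.unusedSectionVars false

open Cfsg

namespace CfsgLib.NoThreeOrders

variable {G : Type*} [Group G] [Finite G] {q : ℕ}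

omit [Finite G] in
theorem isMulCommutative_of_mul_self {A : Subgroup G} (hA2 : ∀ a ∈ A, a * a = 1) : IsMulCommutative A :=
  IsMulCommutative.of_comm fun a b => Subtype.ext (by
    have h1 := inv_eq_of_mul_eq_one_right (hA2 _ (A.mul_mem a.2 b.2))
    rw [mul_inv_rev, inv_eq_of_mul_eq_one_right (hA2 _ a.2), inv_eq_of_mul_eq_one_right (hA2 _ b.2)] at h1
    exact h1.symm)

omit [Finite G] in
theorem isPGroup_two_of_mul_self {A : Subgroup G} (hA2 : ∀ a ∈ A, a * a = 1) : IsPGroup 2 A :=
  fun a => ⟨1, Subtype.ext (by rw [pow_one, pow_two]; exact hA2 _ a.2)⟩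

omit [Finite G] in
theorem orderOf_eq_two {a : G} (h : a * a = 1) (h1 : a ≠ 1) : orderOf a = 2 := by
  haveI : Fact (Nat.Prime 2) := ⟨Nat.prime_two⟩
  exact orderOf_eq_prime (by rw [pow_two]; exact h) h1

theorem coprime_two_group {A K : Subgroup G} (hA2 : ∀ a ∈ A, a * a = 1) (hK : Odd (Nat.card K)) :
    (Nat.card A).Coprime (Nat.card K) := by
  haveI : Fact (Nat.Prime 2) := ⟨Nat.prime_two⟩
  obtain ⟨k, hk⟩ := (isPGroup_two_of_mul_self hA2).exists_card_eq
  rw [hk]
  exact Nat.Coprime.pow_left k (Nat.coprime_two_left.2 hK)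

/-- A group of odd order normalised by a four-group is a `q`-group. -/
theorem TwoQ.isPGroup_of_odd (h : TwoQ G q) {E K : Subgroup G} (hE2 : ∀ a ∈ E, a * a = 1)
    (hEnc : ¬ IsCyclic E) (hEK : E ≤ Subgroup.normalizer (K : Set G)) (hK : Odd (Nat.card K)) :
    IsPGroup q K := by
  haveI := isMulCommutative_of_mul_self hE2
  refine IsPGroup.of_card (n := (Nat.card K).primeFactorsList.length)
    (Nat.eq_prime_pow_of_unique_prime_dvd Nat.card_pos.ne' fun {r} hr hd => ?_)
  by_contra hrq
  haveI : Fact r.Prime := ⟨hr⟩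
  have hr2 : r ≠ 2 := by
    rintro rfl
    exact Nat.not_even_iff_odd.2 hK (even_iff_two_dvd.2 hd)
  have hcop := coprime_two_group hE2 hK
  obtain ⟨R, hR⟩ := CfsgLib.CoprimeAction.exists_invariant_sylow hEK hcop
    (Or.inl (CfsgLib.CoprimeAction.isSolvable_of_isMulCommutative E)) r
  set R' := (R : Subgroup K).map K.subtype with hR'
  have hbot : R' ≤ ⊥ := by
    refine CfsgLib.CoprimeAction.le_of_centralizers hEnc hR
      (hcop.coprime_dvd_right (Subgroup.card_dvd_of_le (Subgroup.map_subtype_le _)))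
      fun a ha ha1 => ?_
    rintro x ⟨hxR, hxa⟩
    rw [Subgroup.mem_bot]
    obtain ⟨k, hk⟩ := IsPGroup.iff_orderOf.1 (R.isPGroup'.map K.subtype) ⟨x, hxR⟩
    rw [Subgroup.orderOf_mk] at hk
    rw [← orderOf_eq_one_iff, hk]
    rcases k with _ | k
    · rfl
    exfalso
    have hd2 := h.orderOf_dvd_of_commute (Or.inl (orderOf_eq_two (hE2 a ha) ha1))
      (Subgroup.mem_centralizer_singleton_iff.1 hxa : Commute x a)
    rw [hk, pow_succ] at hd2
    rcases hr.dvd_mul.1 ((dvd_mul_left r _).trans hd2) with h' | h'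
    · exact hr2 ((Nat.prime_dvd_prime_iff_eq hr Nat.prime_two).1 h')
    · exact hrq ((Nat.prime_dvd_prime_iff_eq hr h.hq).1 h')
  have hcard : Nat.card R' = 1 := by rw [le_bot_iff.1 hbot, Subgroup.card_bot]
  rw [hR', Subgroup.card_map_of_injective K.subtype_injective] at hcard
  exact R.not_dvd_index ((Subgroup.card_mul_index (R : Subgroup K)).symm ▸ hd |> fun h' => by
    rwa [hcard, one_mul] at h')

/-- The core of the centralizer of an involution meets a solvable subgroup inside its core. -/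
theorem inf_le_core {a : G} (ha : orderOf a = 2) (M : Subgroup G) [Group.IsSolvable M] (haM : a ∈ M) :
    centralizerPPrimeCore 2 a ⊓ M ≤ (pPrimeCore 2 M).map M.subtype := by
  haveI : Fact (Nat.Prime 2) := ⟨Nat.prime_two⟩
  intro x hx
  refine ⟨⟨x, hx.2⟩, ?_, rfl⟩
  have haa : (⟨a, haM⟩ : M) ^ 2 = 1 := Subtype.ext (by
    show a ^ 2 = 1
    rw [← ha, pow_orderOf_eq_one])
  refine CfsgLib.Balance.le_pPrimeCore_of_centralizes CfsgLib.Balance.centralizer_pCore_le_of_isSolvable
    (P := Subgroup.zpowers (⟨a, haM⟩ : M)) (X := (centralizerPPrimeCore 2 a).subgroupOf M) ?_ ?_ ?_ ?_ hx.1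
  · refine IsPGroup.of_card (n := 1) ?_
    rw [pow_one, Nat.card_zpowers, Subgroup.orderOf_mk, ha]
  · intro hd
    refine CfsgLib.Balance.not_dvd_card_centralizerPPrimeCore (p := 2) a (hd.trans ?_)
    rw [← Subgroup.card_map_of_injective (K := (centralizerPPrimeCore 2 a).subgroupOf M) M.subtype_injective]
    exact Subgroup.card_dvd_of_le fun y ⟨z, hz, hzy⟩ => hzy ▸ hz
  · intro y hy
    rw [Subgroup.mem_centralizer_iff]
    intro z hz
    obtain ⟨k, rfl⟩ := Subgroup.mem_zpowers_iff.1 hz
    have hya : Commute (⟨a, haM⟩ : M) y := Subtype.ext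
      (Subgroup.mem_centralizer_singleton_iff.1
        (CfsgLib.Balance.centralizerPPrimeCore_le_centralizer 2 a hy)).symm
    exact (hya.zpow_left k).eq
  · intro g hg
    have hga : (g : G) ∈ Subgroup.centralizer ({a} : Set G) := by
      rw [Subgroup.mem_centralizer_singleton_iff]
      exact (congrArg Subtype.val (Subgroup.mem_centralizer_iff.1 hg _ (Subgroup.mem_zpowers _))).symm
    rw [Subgroup.mem_normalizer_iff]
    intro y
    simp only [Subgroup.mem_subgroupOf, Subgroup.coe_mul, Subgroup.coe_inv]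
    exact Subgroup.mem_normalizer_iff.1
      (CfsgLib.Balance.centralizer_le_normalizer_centralizerPPrimeCore 2 a hga) _

theorem odd_card_map_pPrimeCore (M : Subgroup G) : Odd (Nat.card ((pPrimeCore 2 M).map M.subtype)) := by
  rw [Subgroup.card_map_of_injective M.subtype_injective]
  exact Nat.coprime_two_right.1 (CfsgLib.Cores.card_pPrimeCore_coprime 2)

omit [Finite G] in
theorem le_normalizer_map_pPrimeCore (p : ℕ) (M : Subgroup G) :
    M ≤ Subgroup.normalizer (((pPrimeCore p M).map M.subtype : Subgroup G) : Set G) := by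
  intro g hg
  have h1 : (⟨g, hg⟩ : M) ∈ Subgroup.normalizer (pPrimeCore p M : Set M) := by
    rw [Subgroup.normalizer_eq_top (H := pPrimeCore p M)]
    exact Subgroup.mem_top _
  exact Subgroup.le_normalizer_map M.subtype ⟨_, h1, rfl⟩

/-- The odd core of a group normalised by a four-group is a `q`-group. -/
theorem TwoQ.isPGroup_core (h : TwoQ G q) {E M : Subgroup G} (hE2 : ∀ a ∈ E, a * a = 1)
    (hEnc : ¬ IsCyclic E) (hEM : E ≤ M) : IsPGroup q ((pPrimeCore 2 M).map M.subtype) :=
  h.isPGroup_of_odd hE2 hEnc (hEM.trans (le_normalizer_map_pPrimeCore 2 M)) (odd_card_map_pPrimeCore M)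

end CfsgLib.NoThreeOrders
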