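import Cfsg.Agent.Lib.NoThreeOrders.Spectra
import Cfsg.Agent.Lib.NoThreeOrders.Odd
import Cfsg.Agent.Lib.CNStruct.Structure
import Cfsg.Agent.Lib.CNStruct.CIT
import Cfsg.Agent.Lib.SuzukiIdent.Classification
import Cfsg.Agent.Lib.SmallSpectrum.Main
import Cfsg.Agent.Lib.PSLKleinAut.Basic
import Cfsg.Agent.Lib.Suzuki.LieBridge

/-!
Nonsolvable groups with the condition and no element of order `2r`, `r` an odd prime.
-/

set_option autoImplicit false
set_option linter.style.haveILetI false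
set_option linter.unusedSectionVars false

open Cfsg CfsgLib.CIT
open scoped Pointwise MatrixGroups

namespace CfsgLib.NoThreeOrders

theorem alternating_six_pow :
    ∀ x : alternatingGroup (Fin 6), x ^ 3 = 1 ∨ x ^ 4 = 1 ∨ x ^ 5 = 1 := by decide +kernel

variable {G : Type*} [Group G] [Finite G]

/-- Without elements of order `2r` the centralisers of involutions are 2-groups. -/
theorem isCIT_of_no_double (hno : ∀ r : ℕ, r.Prime → r ≠ 2 → ∀ g : G, orderOf g ≠ 2 * r) : IsCIT G := by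
  haveI : Fact (Nat.Prime 2) := ⟨Nat.prime_two⟩
  intro t ht
  rw [IsPGroup.iff_orderOf]
  rintro ⟨b, hb⟩
  rw [Subgroup.orderOf_mk]
  have hc : Commute b t := Subgroup.mem_centralizer_singleton_iff.1 hb
  refine ⟨_, Nat.eq_prime_pow_of_unique_prime_dvd (orderOf_pos b).ne' fun {r} hr hd => ?_⟩
  by_contra hr2
  obtain ⟨k, hk⟩ := exists_pow_orderOf b hd
  refine hno r hr hr2 (b ^ k * t) ?_
  rw [(hc.pow_left k).orderOf_mul_eq_mul_orderOf_of_coprime
    (by rw [hk, ht]; exact (Nat.coprime_primes hr Nat.prime_two).2 hr2), hk, ht, mul_comm]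

/-- No group with the condition has a subgroup of index two isomorphic to `PSL₂(9)`. -/
theorem NoThree.false_of_index_two (h : NoThree G) (hcit : IsCIT G) (hns : ¬ Group.IsSolvable G)
    {N : Subgroup G} [N.Normal] (hidx : N.index = 2) {F : Type} [Field F] [Fintype F]
    (hF : Fintype.card F = 9) (iso : N ≃* Matrix.ProjectiveSpecialLinearGroup (Fin 2) F) : False := by
  haveI : Fact (Nat.Prime 2) := ⟨Nat.prime_two⟩
  have hcard : Nat.card N = 360 := by
    rw [Nat.card_congr iso.toEquiv, CfsgLib.SL2.card_PSL, Nat.card_eq_fintype_card, hF]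
    norm_num
  haveI : IsSimpleGroup (Matrix.ProjectiveSpecialLinearGroup (Fin 2) F) :=
    CfsgLib.PSLKleinAut.isSimpleGroup_psl2 (by omega)
  haveI : IsSimpleGroup N := iso.isSimpleGroup
  obtain ⟨e6⟩ := Cfsg.Agent.S0497.result (G := N) hcard
  -- an element of order four
  obtain ⟨y, hy⟩ := exists_psl_torus (F := F) (e := 8) (Or.inl (by omega)) (by norm_num)
  obtain ⟨g4, hg4⟩ := exists_orderOf_of_dvd ((iso.symm y : N) : G) (d := 4) (by
    rw [Subgroup.orderOf_coe, MulEquiv.orderOf_eq]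
    exact Nat.dvd_of_mul_dvd_mul_left two_pos (by simpa using hy))
  have heven : ∀ g : G, 2 ∣ orderOf g → orderOf g = 2 ∨ orderOf g = 4 := fun g hg =>
    h.eq_or_eq Nat.prime_two hg4 (by norm_num) (by norm_num) g hg
  have hspec : CfsgLib.SmallSpectrum.Spec G := by
    intro g
    by_cases hg : 2 ∣ orderOf g
    · rcases heven g hg with e | e <;> omega
    · have hgN : g ∈ N := by
        have d1 := orderOf_map_dvd (QuotientGroup.mk' N) g
        have d2 : orderOf (QuotientGroup.mk' N g) ∣ 2 := by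
          rw [← hidx, Subgroup.index_eq_card]; exact orderOf_dvd_natCard _
        exact (QuotientGroup.eq_one_iff g).1 (orderOf_eq_one_iff.1 (Nat.eq_one_of_dvd_coprimes
          ((Nat.prime_two.coprime_iff_not_dvd).2 hg) d2 d1))
      rw [show orderOf g = orderOf (e6 ⟨g, hgN⟩) by rw [MulEquiv.orderOf_eq, Subgroup.orderOf_mk]]
      rcases alternating_six_pow (e6 ⟨g, hgN⟩) with e | e | e <;>
        exact (Nat.le_of_dvd (by norm_num) (orderOf_dvd_of_pow_eq_one e)).trans (by norm_num)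
  have hG : Nat.card G = 720 := by rw [← N.card_mul_index, hcard, hidx]
  rcases hspec.good hns with ⟨⟨e⟩⟩ | ⟨K, _, hK, ⟨e⟩⟩
  · rw [Nat.card_congr e.toEquiv, CfsgLib.SmallSpectrum.card_alternatingGroup_six] at hG
    omega
  · have hp : IsPGroup 2 K := fun g => ⟨1, Subtype.ext (hK.2 g g.2)⟩
    obtain ⟨k, hk⟩ := hp.exists_card_eq
    rw [Subgroup.card_eq_card_quotient_mul_card_subgroup K, Nat.card_congr e.toEquiv,
      CfsgLib.SmallSpectrum.card_alternatingGroup_five, hk] at hG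
    have h12 : 2 ^ k = 12 := by omega
    rcases k with _ | _ | _ | _ | k <;> first | (norm_num at h12; done) | (rw [pow_succ, pow_succ, pow_succ, pow_succ] at h12; omega)

/-- No group with the condition is a nontrivial 2-group extended by a Suzuki group. -/
theorem NoThree.false_of_suzuki_quotient (h : NoThree G) (hcit : IsCIT G) (hE1 : pCore 2 G ≠ ⊥)
    (hS : Cfsg.Lie.IsoSuzuki (G ⧸ pCore 2 G)) : False := by
  classical
  haveI : Fact (Nat.Prime 2) := ⟨Nat.prime_two⟩
  set E := pCore 2 G with hEdef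
  have hE : IsPGroup 2 E := CfsgLib.Cores.isPGroup_pCore 2 G
  have hQ : IsCIT (G ⧸ E) := hcit.quotient hE
  obtain ⟨F, _, _, m, hm, hF, ⟨e0⟩⟩ := hS
  set hy := CfsgLib.Suzuki.Hyp.of_fintype hm hF
  have hQs : IsCIT (Cfsg.Sz F m) := hQ.of_equiv (e0.trans hy.lieEquiv.symm)
  obtain ⟨U, hUc, hUk, hUcent, hUN⟩ := Cfsg.Agent.S0333.result hm hF _ (Set.mem_insert _ _)
  set k := 2 ^ (2 * m + 1) + 2 ^ (m + 1) + 1 with hk
  have hkodd : Odd k := ⟨2 ^ (2 * m) + 2 ^ m, by rw [hk, pow_succ, pow_succ]; ring⟩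
  haveI : Finite (Cfsg.Sz F m) := hy.finite_group
  obtain ⟨⟨u, huU⟩, hu⟩ := hUc.exists_ofOrder_eq_natCard
  rw [Subgroup.orderOf_mk, hUk] at hu
  have hgen : Subgroup.zpowers u = U := Subgroup.eq_of_le_of_card_ge (Subgroup.zpowers_le.2 huU)
    (by rw [Nat.card_zpowers, hu, hUk])
  have hk1 : 1 < k := by
    have : 0 < 2 ^ (m + 1) := by positivity
    omega
  have hu1 : u ≠ 1 := fun e => by rw [e, orderOf_one] at hu; omega
  set NU := Subgroup.normalizer (U : Set (Cfsg.Sz F m))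
  -- an element of order four normalising the torus
  obtain ⟨T4, hT4⟩ := Sylow.exists_subgroup_card_pow_prime (G := NU) 2 (n := 2)
    (by rw [hUN]; exact ⟨k, by norm_num⟩)
  have hinv : ∀ a : NU, orderOf a = 2 → (a : Cfsg.Sz F m) * u * (a : Cfsg.Sz F m)⁻¹ = u⁻¹ := by
    intro a ha
    set w := u * ((a : Cfsg.Sz F m) * u * (a : Cfsg.Sz F m)⁻¹) with hw
    have haU : (a : Cfsg.Sz F m) * u * (a : Cfsg.Sz F m)⁻¹ ∈ U :=
      (Subgroup.mem_normalizer_iff.1 a.2 u).1 huU
    have haa : (a : Cfsg.Sz F m) * a = 1 := congrArg Subtype.val (CfsgLib.Involutions.mul_self_eq_one ha)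
    have hai : (a : Cfsg.Sz F m)⁻¹ = a := inv_eq_of_mul_eq_one_right haa
    have hcomm : ∀ x ∈ U, ∀ y ∈ U, x * y = y * x := fun x hx y hy' => by
      haveI := hUc.isMulCommutative
      exact congrArg Subtype.val (mul_comm' (⟨x, hx⟩ : U) ⟨y, hy'⟩)
    have hca : Commute (a : Cfsg.Sz F m) w := by
      show _ = _
      calc (a : Cfsg.Sz F m) * w = ((a : Cfsg.Sz F m) * u * (a : Cfsg.Sz F m)⁻¹) *
              ((a : Cfsg.Sz F m) * a * u) * (a : Cfsg.Sz F m)⁻¹ := by rw [hw]; group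
        _ = (((a : Cfsg.Sz F m) * u * (a : Cfsg.Sz F m)⁻¹) * u) * (a : Cfsg.Sz F m) := by rw [haa, one_mul, hai]
        _ = w * a := by rw [hw, hcomm _ haU u huU]
    have hw1 := hQs.eq_one_of_commute (a := (a : Cfsg.Sz F m)) (by rw [Subgroup.orderOf_coe, ha])
      ((hUk ▸ hkodd).of_dvd_nat (Subgroup.orderOf_dvd_natCard U (U.mul_mem huU haU))) hca
    exact (inv_eq_of_mul_eq_one_right hw1).symm
  obtain ⟨g, hg⟩ : ∃ g : NU, orderOf g = 4 := by
    by_contra! hno
    have hsq : ∀ a ∈ T4, a * a = 1 := fun a ha => by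
      have hd : orderOf a ∣ 2 ^ 2 := hT4 ▸ Subgroup.orderOf_dvd_natCard T4 ha
      obtain ⟨i, hi, hia⟩ := (Nat.dvd_prime_pow Nat.prime_two).1 hd
      interval_cases i
      · rw [orderOf_eq_one_iff.1 (show orderOf a = 1 by simpa using hia), one_mul]
      · exact CfsgLib.Involutions.mul_self_eq_one (by simpa using hia)
      · exact absurd hia (by simpa using hno a)
    haveI := isMulCommutative_of_mul_self hsq
    obtain ⟨a, b, ha, hb, ha1, hb1, hab⟩ : ∃ a b : NU, a ∈ T4 ∧ b ∈ T4 ∧ a ≠ 1 ∧ b ≠ 1 ∧ a ≠ b := by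
      by_contra! hall
      letI := Fintype.ofFinite T4
      obtain ⟨⟨a, ha⟩, ha1⟩ := Subgroup.ne_bot_iff_exists_ne_one.1 (show T4 ≠ ⊥ from fun e => by
        rw [e, Subgroup.card_bot] at hT4; norm_num at hT4)
      have hle : T4 ≤ Subgroup.zpowers a := fun b hb => by
        by_cases hb1 : b = 1
        · rw [hb1]; exact one_mem _
        · rw [← hall a b ha hb (fun e => ha1 (Subtype.ext e)) hb1]; exact Subgroup.mem_zpowers a
      have := Subgroup.card_le_of_le hle
      rw [hT4, Nat.card_zpowers] at this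
      have := Nat.le_of_dvd two_pos (orderOf_dvd_of_pow_eq_one (pow_two a ▸ hsq a ha))
      omega
    have hab2 : orderOf (a * b) = 2 := orderOf_eq_two (hsq _ (T4.mul_mem ha hb)) fun e =>
      hab ((eq_inv_of_mul_eq_one_left e).trans (inv_eq_of_mul_eq_one_right (hsq b hb)))
    have hc : ((a * b : NU) : Cfsg.Sz F m) ∈ U := by
      rw [← hUcent u huU hu1, Subgroup.mem_centralizer_singleton_iff]
      have i1 := hinv a (orderOf_eq_two (hsq a ha) ha1)
      have i2 := hinv b (orderOf_eq_two (hsq b hb) hb1)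
      have i2' : (b : Cfsg.Sz F m) * u⁻¹ * (b : Cfsg.Sz F m)⁻¹ = u := by
        calc (b : Cfsg.Sz F m) * u⁻¹ * (b : Cfsg.Sz F m)⁻¹ = ((b : Cfsg.Sz F m) * u * (b : Cfsg.Sz F m)⁻¹)⁻¹ := by group
          _ = u := by rw [i2, inv_inv]
      rw [Subgroup.coe_mul]
      calc (a : Cfsg.Sz F m) * b * u
          = (a : Cfsg.Sz F m) * ((b : Cfsg.Sz F m) * u * (b : Cfsg.Sz F m)⁻¹) * b := by group
        _ = ((a : Cfsg.Sz F m) * u * (a : Cfsg.Sz F m)⁻¹)⁻¹ * a * b := by rw [i2]; group
        _ = u * (a * b) := by rw [i1, inv_inv, mul_assoc]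
    have := Subgroup.orderOf_dvd_natCard U hc
    rw [Subgroup.orderOf_coe, hab2, hUk] at this
    exact hkodd.not_two_dvd_nat this
  -- lift the pair
  set φ := e0.trans hy.lieEquiv.symm
  set π := QuotientGroup.mk' E
  obtain ⟨c, hc, hco⟩ := CfsgLib.Subnormal.exists_odd_lift (QuotientGroup.mk'_surjective E)
    (k := φ.symm u) (by rw [MulEquiv.orderOf_eq, hu]; exact hkodd)
  obtain ⟨g', hg'⟩ := QuotientGroup.mk'_surjective E (φ.symm (g : Cfsg.Sz F m))
  obtain ⟨i, hi⟩ := Subgroup.mem_zpowers_iff.1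
    (hgen.symm ▸ (Subgroup.mem_normalizer_iff.1 g.2 u).1 huU : (g : Cfsg.Sz F m) * u * (g : Cfsg.Sz F m)⁻¹ ∈ Subgroup.zpowers u)
  have hci : π (c ^ i) = π (g' * c * g'⁻¹) := by
    rw [map_zpow, map_mul, map_mul, map_inv, hc, hg', ← map_zpow, hi, map_mul, map_mul, map_inv]
  have hcE : ∀ x ∈ Subgroup.zpowers c, x ∈ E → x = 1 := fun x hx hxE => by
    by_contra hx1
    exact (hco.of_dvd_nat (orderOf_dvd_of_mem_zpowers hx)).not_two_dvd_nat (two_dvd_orderOf_of_mem hE hxE hx1)
  have hfix : ∀ x ∈ Subgroup.zpowers c, x ≠ 1 → ∀ v ∈ E, Commute v x → v = 1 := fun x hx hx1 v hv hvx =>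
    hcit.fpf hE hv (hco.of_dvd_nat (orderOf_dvd_of_mem_zpowers hx)) hx1 hvx
  have hc1 : c ^ i ≠ 1 := fun e => by
    rw [e, map_one] at hci
    have h0 : g' * c * g'⁻¹ ∈ E := (QuotientGroup.eq_one_iff _).1 hci.symm
    have h1 : c ∈ E := by
      have := (inferInstance : (pCore 2 G).Normal).conj_mem _ h0 g'⁻¹
      simpa [mul_assoc] using this
    have h2 := hcE c (Subgroup.mem_zpowers c) h1
    rw [h2, map_one] at hc
    exact hu1 (φ.symm.injective (by rw [map_one]; exact hc.symm))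
  -- the coset of `c ^ i` is one orbit
  obtain ⟨e, he⟩ : ∃ e : E, (e : G) * c ^ i * (e : G)⁻¹ = g' * c * g'⁻¹ := by
    let f : E → E := fun e => ⟨(e : G) * (c ^ i * (e : G)⁻¹ * (c ^ i)⁻¹),
      E.mul_mem e.2 ((inferInstance : (pCore 2 G).Normal).conj_mem _ (E.inv_mem e.2) _)⟩
    have hf : Function.Injective f := by
      intro a b hab
      have e1 : (a : G) * (c ^ i * (a : G)⁻¹ * (c ^ i)⁻¹) = (b : G) * (c ^ i * (b : G)⁻¹ * (c ^ i)⁻¹) :=
        congrArg Subtype.val hab
      have hcomm : Commute ((b : G)⁻¹ * a) (c ^ i) := by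
        show _ = _
        calc (b : G)⁻¹ * a * c ^ i = (b : G)⁻¹ * ((a : G) * (c ^ i * (a : G)⁻¹ * (c ^ i)⁻¹)) * c ^ i * a := by group
          _ = c ^ i * ((b : G)⁻¹ * a) := by rw [e1]; group
      exact Subtype.ext (inv_mul_eq_one.1 (hfix _ (Subgroup.zpow_mem_zpowers c i) hc1 _
        (E.mul_mem (E.inv_mem b.2) a.2) hcomm)).symm
    have hmem : g' * c * g'⁻¹ * (c ^ i)⁻¹ ∈ E := by
      rw [← QuotientGroup.eq_one_iff]
      show π (g' * c * g'⁻¹ * (c ^ i)⁻¹) = 1
      rw [map_mul, map_inv, hci, mul_inv_cancel]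
    obtain ⟨e, he⟩ := (Finite.injective_iff_surjective.1 hf) ⟨_, hmem⟩
    have he' : (e : G) * (c ^ i * (e : G)⁻¹ * (c ^ i)⁻¹) = g' * c * g'⁻¹ * (c ^ i)⁻¹ := congrArg Subtype.val he
    exact ⟨e, by
      calc (e : G) * c ^ i * (e : G)⁻¹ = (e : G) * (c ^ i * (e : G)⁻¹ * (c ^ i)⁻¹) * c ^ i := by group
        _ = g' * c * g'⁻¹ := by rw [he']; group⟩
  set y := (e : G)⁻¹ * g' with hydef
  have hπy : π y = φ.symm (g : Cfsg.Sz F m) := by
    rw [hydef, map_mul, map_inv, (show π (e : G) = 1 from (QuotientGroup.eq_one_iff (e : G)).2 e.2), inv_one, one_mul, hg']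
  have hyC : y ∈ Subgroup.normalizer (Subgroup.zpowers c : Set G) := by
    refine CfsgLib.CoprimeAction.mem_normalizer_of_conj_mem fun x hx => ?_
    obtain ⟨j, rfl⟩ := Subgroup.mem_zpowers_iff.1 hx
    rw [← conj_zpow]
    refine Subgroup.zpow_mem _ ?_ j
    have : y * c * y⁻¹ = c ^ i := by
      calc y * c * y⁻¹ = (e : G)⁻¹ * (g' * c * g'⁻¹) * e := by rw [hydef]; group
        _ = c ^ i := by rw [← he]; group
    rw [this]
    exact Subgroup.zpow_mem_zpowers c i
  have hπy4 : orderOf (π y) = 4 := by rw [hπy, MulEquiv.orderOf_eq, Subgroup.orderOf_coe, hg]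
  have h4 : ∀ x : G, orderOf (π x) = 4 → orderOf x = 4 := by
    intro x hx
    obtain ⟨z, hz⟩ := exists_orderOf_of_dvd x (hx ▸ orderOf_map_dvd π x)
    rcases h.eq_or_eq Nat.prime_two hz (by norm_num) (by norm_num) x
      ((dvd_mul_right 2 2).trans (by simpa [hx] using orderOf_map_dvd π x)) with e' | e'
    · have := orderOf_map_dvd π x
      rw [hx, e'] at this
      norm_num at this
    · exact e'
  have hy4 := h4 y hπy4
  set V := (Subgroup.center E).map E.subtype with hV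
  have hVE : V ≤ E := Subgroup.map_subtype_le _
  haveI : V.Normal := inferInstance
  have hV1 : V ≠ ⊥ := by
    haveI : Nontrivial E := (Subgroup.nontrivial_iff_ne_bot E).2 hE1
    haveI := hE.center_nontrivial
    exact fun e => Subgroup.nontrivial_iff_ne_bot (Subgroup.center E) |>.1 inferInstance
      ((Subgroup.map_eq_bot_iff_of_injective _ E.subtype_injective).1 e)
  have hall : ∀ z : G, z ∈ Subgroup.normalizer (V : Set G) := fun z => by
    rw [Subgroup.normalizer_eq_top (H := V)]; exact Subgroup.mem_top _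
  obtain ⟨n, hn⟩ := (hE.to_le hVE).exists_card_eq
  obtain ⟨v, hv, hv'⟩ := exists_orbitProd_ne_one' (N := Subgroup.zpowers c) (V := V) (y := y) (r := 4)
    (by norm_num) hyC
    (fun j hj0 hj x hx hjx => by
      by_contra hx1
      refine hx1 (hcit.eq_one_of_commute ?_ (hco.of_dvd_nat (orderOf_dvd_of_mem_zpowers hx)) hjx)
      rw [orderOf_pow' y hj0, hy4]
      interval_cases j <;> first | exact absurd rfl hj0 | norm_num)
    (fun a ha b hb => by
      obtain ⟨a', ha', rfl⟩ := ha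
      obtain ⟨b', -, rfl⟩ := hb
      exact congrArg Subtype.val (Subgroup.mem_center_iff.1 ha' b').symm)
    (fun z _ => hall z) (hall y) hV1
    (by rw [hn, Nat.card_zpowers]; exact Nat.Coprime.pow_left n (Nat.coprime_two_left.2 hco))
    (fun w hw hwc => hfix c (Subgroup.mem_zpowers c)
      (fun e' => hu1 (φ.symm.injective (by rw [map_one, ← hc, e', map_one])))
      w (hVE hw) (hwc c (Subgroup.mem_zpowers c)).symm)
  refine hv' ?_
  have hvy : orderOf (v * y) = 4 := h4 _ (by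
    rw [map_mul, (show π v = 1 from (QuotientGroup.eq_one_iff v).2 (hVE hv)), one_mul, hπy4])
  have := pow_orderOf_eq_one (v * y)
  rw [hvy, mul_pow_eq_orbitProd] at this
  rw [← hy4, pow_orderOf_eq_one, mul_one] at this
  rw [← hy4]
  exact this

/-- The outcomes for groups without elements of order `2r`. -/
theorem NoThree.cit_cases (h : NoThree G) (hns : ¬ Group.IsSolvable G) (hcit : IsCIT G) :
    (∃ (F : Type) (_ : Field F) (_ : Fintype F), CharP F 2 ∧ 4 ≤ Fintype.card F ∧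
        Nonempty (G ⧸ Cfsg.pCore 2 G ≃* Matrix.ProjectiveSpecialLinearGroup (Fin 2) F)) ∨
    (∃ (F : Type) (_ : Field F) (_ : Fintype F), (Fintype.card F = 7 ∨ Fintype.card F = 9) ∧
        Nonempty (G ≃* Matrix.ProjectiveSpecialLinearGroup (Fin 2) F)) ∨
    (∃ (F : Type) (_ : Field F) (_ : Fintype F), Fintype.card F = 4 ∧
        Nonempty (G ≃* Matrix.ProjectiveSpecialLinearGroup (Fin 3) F)) ∨
    Cfsg.Lie.IsoSuzuki G := by
  classical
  have h2 := CfsgLib.CNStruct.two_dvd_card hns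
  rcases eq_or_ne (pCore 2 G) ⊥ with hO | hO
  swap
  · rcases CfsgLib.CNStruct.core_ne_bot_cases hcit hns h2 hO with ⟨F, _, _, h20, h4, ⟨e⟩⟩ | ⟨-, hS⟩
    · haveI : CharP F 2 := CharTwo.of_one_ne_zero_of_two_eq_zero one_ne_zero h20
      have hc : Subgroup.center SL(2, F) = ⊥ := (Subgroup.eq_bot_iff_forall _).2 fun z hz => by
        rcases (CfsgLib.SL2.mem_center_iff z).1 hz with e' | e'
        · exact e'
        · rw [e']
          ext i j
          have hneg : (-1 : F) = 1 := CharTwo.neg_eq 1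
          fin_cases i <;> fin_cases j <;> simp [hneg]
      exact Or.inl ⟨F, inferInstance, inferInstance, inferInstance, h4,
        ⟨e.trans ((QuotientGroup.quotientMulEquivOfEq hc).trans QuotientGroup.quotientBot).symm⟩⟩
    · exact (h.false_of_suzuki_quotient hcit hO hS).elim
  rcases CfsgLib.CNStruct.core_trivial_cases hcit hns h2 hO with ⟨hsimple, hna⟩ | ⟨N, hN, hidx, F, _, _, hF, ⟨e⟩⟩
  swap
  · exact (h.false_of_index_two hcit hns hidx hF e).elim
  haveI := hsimple
  let eq0 : G ⧸ pCore 2 G ≃* G := (QuotientGroup.quotientMulEquivOfEq hO).trans QuotientGroup.quotientBot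
  have hnab : ∃ a b : G, a * b ≠ b * a := by
    by_contra! hall
    exact hna ⟨⟨hall⟩⟩
  rcases CfsgLib.SuzukiIdent.simple_cit hnab hcit with ⟨F, _, _, hc, ⟨e⟩⟩ | h' | h'
  swap
  · exact Or.inr (Or.inr (Or.inl h'))
  swap
  · exact Or.inr (Or.inr (Or.inr h'))
  have h3 : 3 < Fintype.card F := by
    by_contra hle
    refine hns ?_
    have h23 : Fintype.card F = 2 ∨ Fintype.card F = 3 := by
      have := Fintype.one_lt_card (α := F)
      omega
    refine CfsgLib.CharTheory.isSolvable_of_card_dvd_pow_mul_pow 2 3 2 1 Nat.prime_two Nat.prime_three ?_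
    rw [Nat.card_congr e.toEquiv, CfsgLib.SL2.card_PSL, Nat.card_eq_fintype_card]
    rcases h23 with h' | h' <;> rw [h'] <;> norm_num
  rcases hc with h9 | ⟨n, hn⟩ | ⟨hp, k, hk⟩
  · exact Or.inr (Or.inl ⟨F, inferInstance, inferInstance, Or.inr h9, ⟨e⟩⟩)
  · have hn0 : n ≠ 0 := fun e' => by rw [e', pow_zero] at hn; omega
    have hch : ringChar F = 2 := FiniteField.even_card_iff_char_two.2
      (Nat.mod_eq_zero_of_dvd (hn ▸ dvd_pow_self 2 hn0))
    exact Or.inl ⟨F, inferInstance, inferInstance, hch ▸ ringChar.charP F, h3, ⟨eq0.trans e⟩⟩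
  rcases Nat.lt_or_ge k 4 with hk4 | hk4
  · have h57 : Fintype.card F = 5 ∨ Fintype.card F = 7 := by
      interval_cases k <;> rcases hk with hk | hk <;> (try norm_num at hk) <;> first
        | omega
        | (exfalso; rw [hk] at hp; norm_num at hp)
    rcases h57 with h5 | h7
    swap
    · exact Or.inr (Or.inl ⟨F, inferInstance, inferInstance, Or.inl h7, ⟨e⟩⟩)
    haveI : Fact (Nat.Prime 2) := ⟨Nat.prime_two⟩
    let K := GaloisField 2 2
    letI : Fintype K := Fintype.ofFinite K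
    have hK : Fintype.card K = 4 := by
      rw [← Nat.card_eq_fintype_card, GaloisField.card 2 2 (by norm_num)]
      norm_num
    haveI := CfsgLib.PSLKleinAut.isSimpleGroup_psl2 (F := K) (by omega)
    obtain ⟨e1⟩ := Cfsg.Agent.S0494.result (G := G) (by
      rw [Nat.card_congr e.toEquiv, CfsgLib.SL2.card_PSL, Nat.card_eq_fintype_card, h5]; norm_num)
    obtain ⟨e2⟩ := Cfsg.Agent.S0494.result (G := Matrix.ProjectiveSpecialLinearGroup (Fin 2) K) (by
      rw [CfsgLib.SL2.card_PSL, Nat.card_eq_fintype_card, hK]; norm_num)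
    exact Or.inl ⟨K, inferInstance, inferInstance, inferInstance, hK.ge, ⟨eq0.trans (e1.trans e2.symm)⟩⟩
  · exfalso
    obtain ⟨y, hy⟩ := exists_psl_torus (F := F) (e := 2 ^ k)
      (by rcases hk with hk | hk <;> omega) (by
        have : 2 ^ 4 ≤ 2 ^ k := Nat.pow_le_pow_right two_pos hk4
        omega)
    refine h.not_eight (e.symm y) ?_
    rw [MulEquiv.orderOf_eq]
    have h16 : 2 ^ 4 ∣ 2 * orderOf y := (pow_dvd_pow 2 hk4).trans hy
    exact Nat.dvd_of_mul_dvd_mul_left two_pos (by simpa using h16)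

end CfsgLib.NoThreeOrders
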