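import Cfsg.Agent.Lib.NoThreeOrders.Basic
import Cfsg.Agent.Lib.CoprimeAction.Basic

/-!
Norm arguments: an element of prime order whose orbit product on a coprime module is nontrivial
yields an element order which the condition `TwoQ` forbids.
-/

set_option autoImplicit false
set_option linter.style.haveILetI false
set_option linter.unusedSectionVars false

namespace CfsgLib.NoThreeOrders

universe u

open scoped commutatorElement

variable {G : Type u} [Group G]

/-- The product of the first `n` conjugates of `v` by the powers of `y`. -/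
def orbitProd (y v : G) (n : ℕ) : G := ((List.range n).map fun i => y ^ i * v * (y ^ i)⁻¹).prod

theorem orbitProd_succ (y v : G) (n : ℕ) :
    orbitProd y v (n + 1) = orbitProd y v n * (y ^ n * v * (y ^ n)⁻¹) := by
  simp [orbitProd, List.range_succ]

theorem mul_pow_eq_orbitProd (y v : G) : ∀ n : ℕ, (v * y) ^ n = orbitProd y v n * y ^ n
  | 0 => by simp [orbitProd]
  | n + 1 => by
    rw [pow_succ, mul_pow_eq_orbitProd y v n, orbitProd_succ, pow_succ y n]
    group

theorem pow_conj_mem {V : Subgroup G} {y v : G} (hy : y ∈ Subgroup.normalizer (V : Set G)) (hv : v ∈ V)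
    (i : ℕ) : y ^ i * v * (y ^ i)⁻¹ ∈ V :=
  (Subgroup.mem_normalizer_iff.1 ((Subgroup.normalizer (V : Set G)).pow_mem hy i) v).1 hv

theorem orbitProd_mem {V : Subgroup G} {y v : G} (hy : y ∈ Subgroup.normalizer (V : Set G)) (hv : v ∈ V) :
    ∀ n : ℕ, orbitProd y v n ∈ V
  | 0 => by simp [orbitProd]
  | n + 1 => by
    rw [orbitProd_succ]
    exact V.mul_mem (orbitProd_mem hy hv n) (pow_conj_mem hy hv n)

variable [Finite G] {q : ℕ}

/-- A nontrivial orbit product of exponent `q` under an element of odd prime order is impossible. -/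
theorem TwoQ.orbitProd_eq_one_of_q (h : TwoQ G q) {V : Subgroup G} (hV : IsPGroup q V) {y v : G} {r : ℕ}
    (hr : r.Prime) (hr2 : r ≠ 2) (hy : orderOf y = r) (hyV : y ∈ Subgroup.normalizer (V : Set G))
    (hv : v ∈ V) (hyn : y ∉ V) : orbitProd y v r = 1 := by
  by_contra hN
  haveI : Fact q.Prime := ⟨h.hq⟩
  set N := orbitProd y v r with hNdef
  have hpow : (v * y) ^ r = N := by
    rw [mul_pow_eq_orbitProd, ← hy, pow_orderOf_eq_one, mul_one, hy]
  have hNV : N ∈ V := orbitProd_mem hyV hv r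
  have hNo : orderOf N = q := orderOf_eq_prime (h.pow_q_of_isPGroup hV hNV) hN
  have hd : orderOf (v * y) ∣ r * q := orderOf_dvd_of_pow_eq_one (by
    rw [pow_mul, hpow, ← hNo, pow_orderOf_eq_one])
  have hqd : q ∣ orderOf (v * y) := by
    rw [← hNo, ← hpow]
    exact orderOf_pow_dvd r
  rcases h.q_ord _ hqd with e | e
  · have hq1 : (v * y) ^ q = 1 := by rw [← e, pow_orderOf_eq_one]
    by_cases hrq : r = q
    · exact hN (by rw [← hpow, hrq, hq1])
    · refine hyn ?_
      have hmem : v * y ∈ V := by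
        have hcop : Nat.Coprime r (orderOf (v * y)) := by
          rw [e]; exact (Nat.coprime_primes hr h.hq).2 hrq
        obtain ⟨k, hk⟩ := exists_pow_eq_self_of_coprime hcop
        rw [← hk, hpow]
        exact V.pow_mem hNV k
      simpa using V.mul_mem (V.inv_mem hv) hmem
  · rw [e] at hd
    have h2 : 2 ∣ r * q := (dvd_mul_right 2 q).trans hd
    rcases Nat.prime_two.dvd_mul.1 h2 with h' | h'
    · exact hr2 ((Nat.prime_dvd_prime_iff_eq Nat.prime_two hr).1 h').symm
    · exact h.hq2 ((Nat.prime_dvd_prime_iff_eq Nat.prime_two h.hq).1 h').symm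

/-- A nontrivial orbit product of exponent `2` under an element of odd prime order other than `q`. -/
theorem TwoQ.orbitProd_eq_one_of_two (h : TwoQ G q) {V : Subgroup G} (hV : IsPGroup 2 V) {y v : G} {r : ℕ}
    (hr : r.Prime) (hr2 : r ≠ 2) (hrq : r ≠ q) (hy : orderOf y = r)
    (hyV : y ∈ Subgroup.normalizer (V : Set G)) (hv : v ∈ V) : orbitProd y v r = 1 := by
  by_contra hN
  haveI : Fact (Nat.Prime 2) := ⟨Nat.prime_two⟩
  set N := orbitProd y v r with hNdef
  have hpow : (v * y) ^ r = N := by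
    rw [mul_pow_eq_orbitProd, ← hy, pow_orderOf_eq_one, mul_one, hy]
  have hNV : N ∈ V := orbitProd_mem hyV hv r
  have hNo : orderOf N = 2 := orderOf_eq_prime (by rw [pow_two]; exact h.mul_self_of_isPGroup hV hNV) hN
  have hd : orderOf (v * y) ∣ r * 2 := orderOf_dvd_of_pow_eq_one (by
    rw [pow_mul, hpow, ← hNo, pow_orderOf_eq_one])
  have h2d : 2 ∣ orderOf (v * y) := by
    rw [← hNo, ← hpow]
    exact orderOf_pow_dvd r
  rcases h.two _ h2d with e | e
  · have hmem : v * y ∈ V := by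
      have hcop : Nat.Coprime r (orderOf (v * y)) := by
        rw [e]; exact (Nat.coprime_primes hr Nat.prime_two).2 hr2
      obtain ⟨k, hk⟩ := exists_pow_eq_self_of_coprime hcop
      rw [← hk, hpow]
      exact V.pow_mem hNV k
    have hyV' : y ∈ V := by simpa using V.mul_mem (V.inv_mem hv) hmem
    obtain ⟨k, hk⟩ := IsPGroup.iff_orderOf.1 hV ⟨y, hyV'⟩
    rw [Subgroup.orderOf_mk, hy] at hk
    exact hr2 ((Nat.prime_dvd_prime_iff_eq hr Nat.prime_two).1 (hr.dvd_of_dvd_pow (dvd_of_eq hk)))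
  · rw [e] at hd
    have hq' : q ∣ r * 2 := (dvd_mul_left q 2).trans hd
    rcases h.hq.dvd_mul.1 hq' with h' | h'
    · exact hrq ((Nat.prime_dvd_prime_iff_eq h.hq hr).1 h').symm
    · exact h.hq2 ((Nat.prime_dvd_prime_iff_eq h.hq Nat.prime_two).1 h')

omit [Finite G] in
theorem eq_one_of_eq_inv {v : G} {n : ℕ} (hn : Odd n) (hv : v ^ n = 1) (h : v = v⁻¹) : v = 1 := by
  obtain ⟨k, hk⟩ := hn
  have h2 : v ^ 2 = 1 := by
    rw [pow_two]
    exact mul_eq_one_iff_eq_inv.2 h
  rw [hk, pow_succ, pow_mul, h2, one_pow, one_mul] at hv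
  exact hv

/-- The abelian case of `false_of_moved`. -/
theorem TwoQ.false_of_moved_abelian (h : TwoQ G q) {A V : Subgroup G} {y a₀ : G} {r : ℕ}
    (hAc : ∀ a ∈ A, ∀ b ∈ A, Commute a b) (hA2 : ∀ a ∈ A, a * a = 1)
    (hV : IsPGroup q V) (hVc : ∀ a ∈ V, ∀ b ∈ V, Commute a b)
    (hAV : A ≤ Subgroup.normalizer (V : Set G)) (hyV : y ∈ Subgroup.normalizer (V : Set G))
    (hyA : y ∈ Subgroup.normalizer (A : Set G)) (ha₀ : a₀ ∈ A)
    (hr : r.Prime) (hr2 : r ≠ 2) (hy : orderOf y = r)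
    (hmove : ¬ ∀ v ∈ V, Commute (a₀⁻¹ * (y * a₀ * y⁻¹)) v) : False := by
  classical
  haveI : Fintype G := Fintype.ofFinite G
  set c := a₀⁻¹ * (y * a₀ * y⁻¹) with hc
  have hcA : c ∈ A := A.mul_mem (A.inv_mem ha₀) ((Subgroup.mem_normalizer_iff.1 hyA a₀).1 ha₀)
  have hconj : ∀ a ∈ A, ∀ v ∈ V, a * v * a⁻¹ ∈ V := fun a ha v hv =>
    (Subgroup.mem_normalizer_iff.1 (hAV ha) v).1 hv
  have hinvA : ∀ a ∈ A, a⁻¹ = a := fun a ha => inv_eq_of_mul_eq_one_right (hA2 a ha)
  -- a common eigenvector inverted by `c`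
  have hex : ∀ S : Finset G, (∀ a ∈ S, a ∈ A) → ∃ v ∈ V, v ≠ 1 ∧ c * v * c⁻¹ = v⁻¹ ∧
      ∀ a ∈ S, a * v * a⁻¹ = v ∨ a * v * a⁻¹ = v⁻¹ := by
    intro S
    induction S using Finset.induction_on with
    | empty =>
      intro _
      push Not at hmove
      obtain ⟨w, hw, hcw⟩ := hmove
      have hw' := hconj c hcA w hw
      refine ⟨w⁻¹ * (c * w * c⁻¹), V.mul_mem (V.inv_mem hw) hw', fun e => hcw ?_, ?_, by simp⟩
      · rw [inv_mul_eq_one] at e
        exact mul_inv_eq_iff_eq_mul.1 e.symm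
      · have h2 : c * (c * w * c⁻¹) * c⁻¹ = w := by
          calc c * (c * w * c⁻¹) * c⁻¹ = (c * c) * w * (c * c)⁻¹ := by group
            _ = w := by rw [hA2 c hcA]; group
        calc c * (w⁻¹ * (c * w * c⁻¹)) * c⁻¹ = (c * w * c⁻¹)⁻¹ * (c * (c * w * c⁻¹) * c⁻¹) := by group
          _ = (c * w * c⁻¹)⁻¹ * w := by rw [h2]
          _ = (w⁻¹ * (c * w * c⁻¹))⁻¹ := by group
    | insert a S _ ih =>
      intro hS
      obtain ⟨v, hv, hv1, hcv, hSv⟩ := ih fun b hb => hS b (Finset.mem_insert_of_mem hb)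
      have haA := hS a (Finset.mem_insert_self a S)
      by_cases hva : v * (a * v * a⁻¹) = 1
      · refine ⟨v, hv, hv1, hcv, fun b hb => ?_⟩
        rcases Finset.mem_insert.1 hb with rfl | hb
        · exact Or.inr (eq_inv_of_mul_eq_one_right hva)
        · exact hSv b hb
      have hav := hconj a haA v hv
      have hcomm : ∀ b ∈ A, ∀ e : G, (b * v * b⁻¹ = e) →
          b * (a * v * a⁻¹) * b⁻¹ = a * e * a⁻¹ := fun b hb e he => by
        calc b * (a * v * a⁻¹) * b⁻¹ = (b * a) * v * (b * a)⁻¹ := by group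
          _ = (a * b) * v * (a * b)⁻¹ := by rw [(hAc b hb a haA).eq]
          _ = a * (b * v * b⁻¹) * a⁻¹ := by group
          _ = a * e * a⁻¹ := by rw [he]
      have hexp : ∀ b ∈ A, ∀ e : G, (b * v * b⁻¹ = e) →
          b * (v * (a * v * a⁻¹)) * b⁻¹ = e * (a * e * a⁻¹) := fun b hb e he => by
        rw [show b * (v * (a * v * a⁻¹)) * b⁻¹ = (b * v * b⁻¹) * (b * (a * v * a⁻¹) * b⁻¹) by group,
          he, hcomm b hb e he]
      have hinv : v⁻¹ * (a * v⁻¹ * a⁻¹) = (v * (a * v * a⁻¹))⁻¹ := by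
        rw [(hVc v hv _ hav).eq]; group
      refine ⟨v * (a * v * a⁻¹), V.mul_mem hv hav, hva, by rw [hexp c hcA _ hcv, hinv], fun b hb => ?_⟩
      rcases Finset.mem_insert.1 hb with rfl | hb
      · left
        have h2 : b * (b * v * b⁻¹) * b⁻¹ = v := by
          calc b * (b * v * b⁻¹) * b⁻¹ = (b * b) * v * (b * b)⁻¹ := by group
            _ = v := by rw [hA2 b haA]; group
        calc b * (v * (b * v * b⁻¹)) * b⁻¹ = (b * v * b⁻¹) * (b * (b * v * b⁻¹) * b⁻¹) := by group
          _ = (b * v * b⁻¹) * v := by rw [h2]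
          _ = v * (b * v * b⁻¹) := (hVc v hv _ hav).eq.symm
      · rcases hSv b hb with e | e
        · exact Or.inl (hexp b (hS b (Finset.mem_insert_of_mem hb)) v e)
        · exact Or.inr (by rw [hexp b (hS b (Finset.mem_insert_of_mem hb)) _ e, hinv])
  obtain ⟨v, hv, hv1, hcv, hall⟩ := hex (Finset.univ.filter (· ∈ A)) (by simp)
  have heig : ∀ a ∈ A, a * v * a⁻¹ = v ∨ a * v * a⁻¹ = v⁻¹ := fun a ha => hall a (by simp [ha])
  have hne : v ≠ v⁻¹ := fun e => hv1 (eq_one_of_eq_inv h.odd_q (h.pow_q_of_isPGroup hV hv) e)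
  -- signs
  have hPc : ¬ ((a₀ * v * a₀⁻¹ = v) ↔ ((y * a₀ * y⁻¹) * v * (y * a₀ * y⁻¹)⁻¹ = v)) := by
    intro hiff
    have hya : y * a₀ * y⁻¹ ∈ A := (Subgroup.mem_normalizer_iff.1 hyA a₀).1 ha₀
    have hsame : (y * a₀ * y⁻¹) * v * (y * a₀ * y⁻¹)⁻¹ = a₀ * v * a₀⁻¹ := by
      rcases heig a₀ ha₀ with e1 | e1 <;> rcases heig _ hya with e2 | e2
      · rw [e1, e2]
      · exact absurd ((hiff.1 e1).symm.trans e2) hne
      · exact absurd ((hiff.2 e2).symm.trans e1) hne
      · rw [e1, e2]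
    have : c * v * c⁻¹ = v := by
      calc c * v * c⁻¹ = a₀⁻¹ * ((y * a₀ * y⁻¹) * v * (y * a₀ * y⁻¹)⁻¹) * a₀ := by rw [hc]; group
        _ = a₀⁻¹ * (a₀ * v * a₀⁻¹) * a₀ := by rw [hsame]
        _ = v := by group
    exact hne (this.symm.trans hcv)
  letI : CommGroup V :=
    { (inferInstance : Group V) with mul_comm := fun a b => Subtype.ext (hVc a a.2 b b.2).eq }
  let cf : Subgroup.normalizer (V : Set G) → (V →* V) := fun g =>
    { toFun := fun x => ⟨(g : G) * x * (g : G)⁻¹, (Subgroup.mem_normalizer_iff.1 g.2 x).1 x.2⟩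
      map_one' := Subtype.ext (by simp)
      map_mul' := fun a b => Subtype.ext (by simp [mul_assoc]) }
  set vi : ℕ → V := fun i => ⟨y ^ i * v * (y ^ i)⁻¹, pow_conj_mem hyV hv i⟩ with hvi
  -- the signs of the translates
  have hsign : ∀ i, ∀ a ∈ A, ((y ^ i)⁻¹ * a * y ^ i ∈ A) ∧
      ∀ e : G, ((y ^ i)⁻¹ * a * y ^ i) * v * ((y ^ i)⁻¹ * a * y ^ i)⁻¹ = e →
        a * (y ^ i * v * (y ^ i)⁻¹) * a⁻¹ = y ^ i * e * (y ^ i)⁻¹ := by
    intro i a ha
    refine ⟨(Subgroup.mem_normalizer_iff''.1 ((Subgroup.normalizer (A : Set G)).pow_mem hyA i) a).1 ha,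
      fun e he => ?_⟩
    rw [← he]
    group
  have hsep : ∀ i ∈ Finset.Ico 1 r, ∃ a ∈ A,
      ¬ ((a * v * a⁻¹ = v) ↔ (((y ^ i)⁻¹ * a * y ^ i) * v * ((y ^ i)⁻¹ * a * y ^ i)⁻¹ = v)) := by
    intro i hi
    rw [Finset.mem_Ico] at hi
    by_contra hall'
    push Not at hall'
    refine hPc ?_
    have hiter : ∀ k : ℕ, ∀ a ∈ A, ((a * v * a⁻¹ = v) ↔
        ((((y ^ i) ^ k)⁻¹ * a * (y ^ i) ^ k) * v * (((y ^ i) ^ k)⁻¹ * a * (y ^ i) ^ k)⁻¹ = v)) := by
      intro k
      induction k with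
      | zero => intro a _; simp
      | succ k ih =>
        intro a ha
        have hmem : ((y ^ i) ^ k)⁻¹ * a * (y ^ i) ^ k ∈ A :=
          (Subgroup.mem_normalizer_iff''.1 ((Subgroup.normalizer (A : Set G)).pow_mem
            ((Subgroup.normalizer (A : Set G)).pow_mem hyA i) k) a).1 ha
        have h1 := hall' _ hmem
        rw [show (y ^ i)⁻¹ * (((y ^ i) ^ k)⁻¹ * a * (y ^ i) ^ k) * y ^ i =
          ((y ^ i) ^ (k + 1))⁻¹ * a * (y ^ i) ^ (k + 1) by rw [pow_succ]; group] at h1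
        exact (ih a ha).trans h1
    have hcop : Nat.Coprime i (orderOf y) := by
      rw [hy]
      exact ((Nat.Prime.coprime_iff_not_dvd hr).2 fun hd => by
        have := Nat.le_of_dvd (by omega) hd; omega).symm
    obtain ⟨k, hk⟩ := exists_pow_eq_self_of_coprime hcop
    have := hiter k (y * a₀ * y⁻¹) ((Subgroup.mem_normalizer_iff.1 hyA a₀).1 ha₀)
    rw [hk, show y⁻¹ * (y * a₀ * y⁻¹) * y = a₀ by group] at this
    exact this.symm
  -- the separating homomorphism
  have hT : ∀ S : Finset ℕ, S ⊆ Finset.Ico 1 r → ∃ (T : V →* V) (m : ℕ), T (vi 0) = vi 0 ^ (2 ^ m) ∧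
      (∀ i, ∃ e : ℤ, T (vi i) = vi i ^ e) ∧ ∀ i ∈ S, T (vi i) = 1 := by
    intro S
    induction S using Finset.induction_on with
    | empty => exact fun _ => ⟨MonoidHom.id V, 0, by simp, fun i => ⟨1, by simp⟩, by simp⟩
    | insert j S _ ih =>
      intro hS
      obtain ⟨T, m, hT0, hTi, hTS⟩ := ih fun x hx => hS (Finset.mem_insert_of_mem hx)
      obtain ⟨a, ha, hdiff⟩ := hsep j (hS (Finset.mem_insert_self j S))
      have hca : ∀ i, ∃ e : ℤ, cf ⟨a, hAV ha⟩ (vi i) = vi i ^ e ∧ (e = 1 ∨ e = -1) ∧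
          (e = 1 ↔ ((y ^ i)⁻¹ * a * y ^ i) * v * ((y ^ i)⁻¹ * a * y ^ i)⁻¹ = v) := by
        intro i
        obtain ⟨hm, he⟩ := hsign i a ha
        rcases heig _ hm with e | e
        · exact ⟨1, Subtype.ext (by rw [zpow_one]; exact he _ e), Or.inl rfl, fun _ => e, fun _ => rfl⟩
        · refine ⟨-1, Subtype.ext ?_, Or.inr rfl, fun hh => absurd hh (by norm_num),
            fun hh => absurd (hh.symm.trans e) hne⟩
          rw [zpow_neg_one]
          show a * (y ^ i * v * (y ^ i)⁻¹) * a⁻¹ = (y ^ i * v * (y ^ i)⁻¹)⁻¹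
          rw [he _ e]; group
      choose ε hε hεv hεiff using hca
      let U : V →* V := MonoidHom.id V * (zpowGroupHom (ε 0)).comp (cf ⟨a, hAV ha⟩)
      have hU : ∀ i, U (vi i) = vi i ^ (1 + ε i * ε 0) := fun i => by
        show vi i * (cf ⟨a, hAV ha⟩ (vi i)) ^ (ε 0) = _
        rw [hε i, ← zpow_mul, zpow_add, zpow_one]
      refine ⟨U.comp T, m + 1, ?_, fun i => ?_, fun i hi => ?_⟩
      · rw [MonoidHom.comp_apply, hT0, map_pow, hU 0,
          show (1 + ε 0 * ε 0 : ℤ) = 2 by rcases hεv 0 with e | e <;> rw [e] <;> norm_num,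
          zpow_two, ← pow_two, ← pow_mul, pow_succ 2 m, mul_comm]
      · obtain ⟨e, he⟩ := hTi i
        exact ⟨(1 + ε i * ε 0) * e, by rw [MonoidHom.comp_apply, he, map_zpow, hU, ← zpow_mul]⟩
      · rcases Finset.mem_insert.1 hi with rfl | hi'
        · obtain ⟨e, he⟩ := hTi i
          have hopp : (1 + ε i * ε 0 : ℤ) = 0 := by
            have h0 : (ε 0 = 1 ↔ a * v * a⁻¹ = v) := by simpa using hεiff 0
            rcases hεv i with e1 | e1 <;> rcases hεv 0 with e2 | e2
            · exact absurd ⟨fun _ => (hεiff i).1 e1, fun _ => h0.1 e2⟩ hdiff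
            · rw [e1, e2]; norm_num
            · rw [e1, e2]; norm_num
            · refine absurd ⟨fun hh => ?_, fun hh => ?_⟩ hdiff
              · have := h0.2 hh; omega
              · have := (hεiff i).2 hh; omega
          rw [MonoidHom.comp_apply, he, map_zpow, hU, hopp, zpow_zero, one_zpow]
        · rw [MonoidHom.comp_apply, hTS i hi', map_one]
  obtain ⟨T, m, hT0, -, hTS⟩ := hT _ subset_rfl
  have hyn : y ∉ V := fun hyV' => by
    have hqy := h.pow_q_of_isPGroup hV hyV'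
    have : c = 1 := by
      have hd : orderOf y ∣ q := orderOf_dvd_of_pow_eq_one hqy
      rw [hy] at hd
      have hrq : r = q := (Nat.prime_dvd_prime_iff_eq hr h.hq).1 hd
      -- `[a₀,y] ∈ A ∩ V` is trivial
      have hcV : c ∈ V := by
        rw [hc, show a₀⁻¹ * (y * a₀ * y⁻¹) = (a₀⁻¹ * y * a₀) * y⁻¹ by group]
        refine V.mul_mem ?_ (V.inv_mem hyV')
        have := hconj a₀⁻¹ (A.inv_mem ha₀) y hyV'
        simpa using this
      have h1 := h.pow_q_of_isPGroup hV hcV
      refine eq_one_of_eq_inv h.odd_q h1 (hinvA c hcA).symm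
    exact hmove fun w _ => by rw [this]; exact Commute.one_left w
  have hprod := h.orbitProd_eq_one_of_q hV hr hr2 hy hyV hv hyn
  have hP : (∏ i ∈ Finset.range r, vi i) = 1 := by
    refine Subtype.ext (Eq.trans ?_ hprod)
    have : ∀ n, ((∏ i ∈ Finset.range n, vi i : V) : G) = orbitProd y v n := by
      intro n
      induction n with
      | zero => simp [orbitProd]
      | succ n ih => rw [Finset.prod_range_succ, orbitProd_succ, Subgroup.coe_mul, ih]
    exact this r
  have := congrArg T hP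
  rw [map_prod, map_one, Finset.prod_eq_single 0 (fun i hi hi0 => hTS i (Finset.mem_Ico.2
      ⟨Nat.pos_of_ne_zero hi0, Finset.mem_range.1 hi⟩))
    (fun h0 => absurd (Finset.mem_range.2 hr.pos) h0), hT0] at this
  have hv0 : (vi 0 : G) = v := by simp [hvi]
  have hpw : v ^ (2 ^ m) = 1 := by
    rw [← hv0, ← Subgroup.coe_pow, this, Subgroup.coe_one]
  exact hv1 (orderOf_eq_one_iff.1 (Nat.eq_one_of_dvd_coprimes (h.coprime_two.pow_left m)
    (orderOf_dvd_of_pow_eq_one hpw) (orderOf_dvd_of_pow_eq_one (h.pow_q_of_isPGroup hV hv))))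

/-- The same for a `q`-group which need not be abelian. -/
theorem TwoQ.false_of_moved_prime (n : ℕ) : ∀ {G : Type u} [Group G] [Finite G] {q : ℕ} (_ : TwoQ G q)
    {A W : Subgroup G} {y a₀ : G} {r : ℕ}, Nat.card W ≤ n →
    (∀ a ∈ A, ∀ b ∈ A, Commute a b) → (∀ a ∈ A, a * a = 1) → IsPGroup q W →
    A ≤ Subgroup.normalizer (W : Set G) → y ∈ Subgroup.normalizer (W : Set G) →
    y ∈ Subgroup.normalizer (A : Set G) → a₀ ∈ A → r.Prime → r ≠ 2 → orderOf y = r →
    (¬ ∀ v ∈ W, Commute (a₀⁻¹ * (y * a₀ * y⁻¹)) v) → False := by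
  induction n with
  | zero =>
    intro G _ _ q _ A W y a₀ r hn
    have := Nat.card_pos (α := W)
    omega
  | succ n ih =>
    intro G _ _ q h A W y a₀ r hn hAc hA2 hW hAW hyW hyA ha₀ hr hr2 hy hmove
    haveI : Fact q.Prime := ⟨h.hq⟩
    by_cases hWc : ∀ a ∈ W, ∀ b ∈ W, Commute a b
    · exact h.false_of_moved_abelian hAc hA2 hW hWc hAW hyW hyA ha₀ hr hr2 hy hmove
    haveI := hW.isNilpotent
    haveI : Group.IsSolvable W := inferInstance
    have hW1 : W ≠ ⊥ := fun e => hWc fun a ha b hb => by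
      rw [e, Subgroup.mem_bot] at ha
      rw [ha]; exact Commute.one_left b
    set W' := ⁅W, W⁆
    have hlt : W' < W := CfsgLib.CoprimeAction.commutator_lt_of_isSolvable W hW1
    have hcard : Nat.card W' < Nat.card W := by
      by_contra hge
      exact hlt.ne (Subgroup.eq_of_le_of_card_ge hlt.le (not_lt.1 hge))
    have hnn := CfsgLib.CoprimeAction.normalizer_le_normalizer_commutator W
    by_cases hc' : ∀ v ∈ W', Commute (a₀⁻¹ * (y * a₀ * y⁻¹)) v
    swap
    · exact ih h (by omega) hAc hA2 (hW.to_le hlt.le) (hAW.trans hnn) (hnn hyW) hyA ha₀ hr hr2 hy hc'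
    -- pass to the quotient by `W'`
    set H := Subgroup.normalizer (W : Set G)
    have hWH : W ≤ H := Subgroup.le_normalizer
    haveI hNn : (W'.subgroupOf H).Normal := ⟨fun x hx g => by
      rw [Subgroup.mem_subgroupOf] at hx ⊢
      exact (Subgroup.mem_normalizer_iff.1 (hnn g.2) _).1 hx⟩
    let π := QuotientGroup.mk' (W'.subgroupOf H)
    have hπ : Function.Surjective π := QuotientGroup.mk'_surjective _
    let A' := (A.subgroupOf H).map π
    let Wb := (W.subgroupOf H).map π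
    have hmem : ∀ {S : Subgroup G}, ∀ g : H, (g : G) ∈ Subgroup.normalizer (S : Set G) →
        π g ∈ Subgroup.normalizer ((S.subgroupOf H).map π : Set (H ⧸ W'.subgroupOf H)) := by
      intro S g hg
      refine Subgroup.le_normalizer_map π ⟨g, ?_, rfl⟩
      rw [SetLike.mem_coe, Subgroup.mem_normalizer_iff]
      intro x
      simp only [Subgroup.mem_subgroupOf, Subgroup.coe_mul, Subgroup.coe_inv]
      exact Subgroup.mem_normalizer_iff.1 hg _
    have h' : TwoQ (H ⧸ W'.subgroupOf H) q := (h.subgroup H).of_surjective π hπ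
    have hy' : orderOf (π ⟨y, hyW⟩) = r := by
      refine ((hr.eq_one_or_self_of_dvd _ (by
        rw [← hy, ← Subgroup.orderOf_mk y hyW]; exact orderOf_map_dvd π _)).resolve_left ?_)
      rw [orderOf_eq_one_iff]
      intro e
      have hyW' : y ∈ W' := (QuotientGroup.eq_one_iff (⟨y, hyW⟩ : H)).1 e
      refine hmove fun v hv => ?_
      have : a₀⁻¹ * (y * a₀ * y⁻¹) = 1 := by
        have hcV : a₀⁻¹ * (y * a₀ * y⁻¹) ∈ W := by
          rw [show a₀⁻¹ * (y * a₀ * y⁻¹) = (a₀⁻¹ * y * a₀) * y⁻¹ by group]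
          refine W.mul_mem ?_ (W.inv_mem (hlt.le hyW'))
          have := (Subgroup.mem_normalizer_iff.1 (hAW (A.inv_mem ha₀)) y).1 (hlt.le hyW')
          simpa using this
        have hcA : a₀⁻¹ * (y * a₀ * y⁻¹) ∈ A :=
          A.mul_mem (A.inv_mem ha₀) ((Subgroup.mem_normalizer_iff.1 hyA a₀).1 ha₀)
        exact eq_one_of_eq_inv h.odd_q (h.pow_q_of_isPGroup hW hcV)
          (inv_eq_of_mul_eq_one_right (hA2 _ hcA)).symm
      rw [this]; exact Commute.one_left v
    refine ih (G := H ⧸ W'.subgroupOf H) h' (A := A') (W := Wb) (y := π ⟨y, hyW⟩)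
      (a₀ := π ⟨a₀, hAW ha₀⟩) (r := r) ?_ ?_ ?_ ?_ ?_ (hmem _ hyW) (hmem _ hyA) ⟨_, ha₀, rfl⟩ hr hr2 hy' ?_
    · -- the image is smaller
      have hd : Nat.card Wb < Nat.card W := by
        have hne : ¬ Function.Injective (π.comp (Subgroup.inclusion hWH)) := by
          intro hinj
          refine hWc fun a ha b hb => ?_
          have hab : ⁅a, b⁆ ∈ W' := Subgroup.commutator_mem_commutator ha hb
          have h1 : (⟨⁅a, b⁆, hlt.le hab⟩ : W) = 1 := hinj (by
            rw [map_one]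
            exact (QuotientGroup.eq_one_iff _).2 hab)
          exact commutatorElement_eq_one_iff_commute.1 (congrArg Subtype.val h1)
        have hrange : (π.comp (Subgroup.inclusion hWH)).range = Wb := by
          ext x
          simp only [MonoidHom.mem_range, Wb, Subgroup.mem_map, Subgroup.mem_subgroupOf, MonoidHom.comp_apply]
          exact ⟨fun ⟨w, hw⟩ => ⟨_, w.2, hw⟩, fun ⟨g, hg, hx⟩ => ⟨⟨g, hg⟩, hx⟩⟩
        rw [← hrange]
        exact lt_of_le_of_ne (Nat.card_le_card_of_surjective _ (MonoidHom.rangeRestrict_surjective _))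
          fun e => hne fun a b hab => by
            have hbij := (Nat.bijective_iff_surjective_and_card
              (π.comp (Subgroup.inclusion hWH)).rangeRestrict).2 ⟨MonoidHom.rangeRestrict_surjective _, e.symm⟩
            exact hbij.1 (Subtype.ext hab)
      omega
    · rintro _ ⟨a, ha, rfl⟩ _ ⟨b, hb, rfl⟩
      exact (show Commute a b from Subtype.ext (hAc _ ha _ hb).eq).map π
    · rintro _ ⟨a, ha, rfl⟩
      rw [← map_mul, show a * a = 1 from Subtype.ext (hA2 _ ha), map_one]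
    · exact (hW.comap_of_injective H.subtype H.subtype_injective).map π
    · rintro _ ⟨a, ha, rfl⟩
      exact hmem a (hAW ha)
    · intro hall
      refine hmove ?_
      set c := a₀⁻¹ * (y * a₀ * y⁻¹)
      have hcA : c ∈ A := A.mul_mem (A.inv_mem ha₀) ((Subgroup.mem_normalizer_iff.1 hyA a₀).1 ha₀)
      have hC : Subgroup.zpowers c ≤ Subgroup.centralizer (W : Set G) := by
        refine CfsgLib.CoprimeAction.le_centralizer_of_series hlt.le ?_ ?_ ?_
        · obtain ⟨k, hk⟩ := IsPGroup.iff_card.1 (hW.to_le hlt.le)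
          rw [hk, Nat.card_zpowers]
          exact (h.coprime_two.pow_right k).coprime_dvd_left
            (orderOf_dvd_of_pow_eq_one (by rw [pow_two]; exact hA2 c hcA))
        · rw [Subgroup.zpowers_le, Subgroup.mem_centralizer_iff]
          exact fun v hv => (hc' v hv).eq.symm
        · intro a ha v hv
          have hg : (⟨v, hWH hv⟩ : H) ∈ W.subgroupOf H := hv
          have hcomm := (hall _ ⟨_, hg, rfl⟩).zpow_left
          obtain ⟨j, rfl⟩ := Subgroup.mem_zpowers_iff.1 ha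
          have hj := hcomm j
          rw [← map_inv, ← map_mul, ← map_inv, ← map_mul, ← map_mul, ← map_zpow] at hj
          have := (QuotientGroup.eq (s := W'.subgroupOf H)).1 hj.eq.symm
          rw [Subgroup.mem_subgroupOf] at this
          have hmemW' := this
          simp only [Subgroup.coe_mul, Subgroup.coe_inv, SubgroupClass.coe_zpow, mul_inv_rev] at hmemW'
          have hn' : c ^ j ∈ Subgroup.normalizer (W' : Set G) := hnn (zpow_mem (hAW hcA) j)
          rw [show a₀⁻¹ * (y * a₀ * y⁻¹) = c from rfl] at hmemW'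
          have := (Subgroup.mem_normalizer_iff.1 hn' _).1 hmemW'
          convert this using 1
          group
      intro v hv
      exact (Subgroup.mem_centralizer_iff.1 (hC (Subgroup.mem_zpowers c)) v hv).symm

/-- An element normalising an elementary abelian 2-group `A` acting faithfully on a `q`-group and
normalising it must centralise `A`. -/
theorem TwoQ.commute_of_faithful (h : TwoQ G q) {A W : Subgroup G} {y : G}
    (hA2 : ∀ a ∈ A, a * a = 1) (hW : IsPGroup q W) (hAW : A ≤ Subgroup.normalizer (W : Set G))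
    (hyW : y ∈ Subgroup.normalizer (W : Set G)) (hyA : y ∈ Subgroup.normalizer (A : Set G))
    (hfaith : ∀ a ∈ A, (∀ w ∈ W, Commute a w) → a = 1) : ∀ a ∈ A, Commute y a := by
  haveI : Fact q.Prime := ⟨h.hq⟩
  have hAc : ∀ a ∈ A, ∀ b ∈ A, Commute a b := fun a ha b hb => by
    have h1 := inv_eq_of_mul_eq_one_right (hA2 _ (A.mul_mem ha hb))
    rw [mul_inv_rev, inv_eq_of_mul_eq_one_right (hA2 a ha), inv_eq_of_mul_eq_one_right (hA2 b hb)] at h1
    exact h1.symm
  have hprime : ∀ k : ℕ, (orderOf (y ^ k)).Prime → ∀ a ∈ A, Commute (y ^ k) a := by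
    intro k hk a ha
    set z := y ^ k
    have hzA : z ∈ Subgroup.normalizer (A : Set G) := (Subgroup.normalizer (A : Set G)).pow_mem hyA k
    have hzW : z ∈ Subgroup.normalizer (W : Set G) := (Subgroup.normalizer (W : Set G)).pow_mem hyW k
    by_cases h2 : orderOf z = 2
    · have hzz : z * z = 1 := by rw [← pow_two, ← h2, pow_orderOf_eq_one]
      have hza : z * a * z ∈ A := by
        have := (Subgroup.mem_normalizer_iff.1 hzA a).1 ha
        rwa [inv_eq_of_mul_eq_one_right hzz] at this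
      have h4 : (z * a) ^ 4 = 1 := by
        calc (z * a) ^ 4 = ((z * a * z) * a) * ((z * a * z) * a) := by simp only [pow_succ, pow_zero, one_mul, mul_assoc]
          _ = 1 := hA2 _ (A.mul_mem hza ha)
      have h22 : (z * a) ^ 2 = 1 := by
        rw [← orderOf_dvd_iff_pow_eq_one]
        obtain ⟨i, hi, hie⟩ := (Nat.dvd_prime_pow Nat.prime_two).1
          (show orderOf (z * a) ∣ 2 ^ 2 from orderOf_dvd_of_pow_eq_one h4)
        rw [hie]
        interval_cases i
        · norm_num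
        · norm_num
        · exact absurd (by rw [hie]; norm_num) (h.not_four (z * a))
      rw [pow_two] at h22
      have h3 := inv_eq_of_mul_eq_one_right h22
      rw [mul_inv_rev, inv_eq_of_mul_eq_one_right (hA2 a ha), inv_eq_of_mul_eq_one_right hzz] at h3
      exact h3.symm
    · by_contra hne
      refine TwoQ.false_of_moved_prime _ h le_rfl hAc hA2 hW hAW hzW hzA ha hk h2 rfl fun hall => hne ?_
      have h1 := hfaith _ (A.mul_mem (A.inv_mem ha) ((Subgroup.mem_normalizer_iff.1 hzA a).1 ha)) hall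
      rw [inv_mul_eq_one] at h1
      exact (mul_inv_eq_iff_eq_mul.1 h1.symm)
  intro a ha
  by_cases ha1 : a = 1
  · rw [ha1]; exact Commute.one_right y
  have ha2 : orderOf a = 2 := by
    haveI : Fact (Nat.Prime 2) := ⟨Nat.prime_two⟩
    exact orderOf_eq_prime (by rw [pow_two]; exact hA2 a ha) ha1
  -- all primes of `y` lie in `{2, q}`
  have hd : orderOf y ∣ 2 * q := by
    by_cases h1 : orderOf y = 1
    · rw [h1]; exact one_dvd _
    obtain ⟨r, hr, hrd⟩ := Nat.exists_prime_and_dvd h1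
    obtain ⟨k, hk⟩ := exists_pow_orderOf y hrd
    have := h.orderOf_dvd_of_commute (Or.inl ha2) (hprime k (hk ▸ hr) a ha)
    rw [hk] at this
    rcases hr.dvd_mul.1 this with h' | h'
    · rcases h.two y ((Nat.prime_dvd_prime_iff_eq hr Nat.prime_two).1 h' ▸ hrd) with e | e <;> rw [e]
      exact dvd_mul_right 2 q
    · rcases h.q_ord y ((Nat.prime_dvd_prime_iff_eq hr h.hq).1 h' ▸ hrd) with e | e <;> rw [e]
      exact dvd_mul_left q 2
  have hsplit : ∀ m : ℕ, y ^ (2 * q) = 1 → m.Prime → (y ^ m) ^ (2 * q / m) = 1 → m ∣ 2 * q →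
      (2 * q / m).Prime → Commute (y ^ m) a := by
    intro m _ _ hpow _ hpr
    by_cases e : y ^ m = 1
    · rw [e]; exact Commute.one_left a
    exact hprime m (by
      haveI := Fact.mk hpr
      rw [orderOf_eq_prime hpow e]; exact hpr) a ha
  have hy1 : y ^ (2 * q) = 1 := orderOf_dvd_iff_pow_eq_one.1 hd
  have c2 : Commute (y ^ 2) a := hsplit 2 hy1 Nat.prime_two
    (by rw [Nat.mul_div_cancel_left _ two_pos, ← pow_mul]; exact hy1) (dvd_mul_right 2 q)
    (by rw [Nat.mul_div_cancel_left _ two_pos]; exact h.hq)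
  have cq : Commute (y ^ q) a := hsplit q hy1 h.hq
    (by rw [Nat.mul_div_cancel _ h.hq.pos, ← pow_mul, mul_comm]; exact hy1) (dvd_mul_left q 2)
    (by rw [Nat.mul_div_cancel _ h.hq.pos]; exact Nat.prime_two)
  obtain ⟨k, hk⟩ := h.odd_q
  have : y = y ^ q * ((y ^ 2) ^ k)⁻¹ := by rw [← pow_mul, hk, pow_succ']; group
  rw [this]
  exact cq.mul_left (c2.pow_left k).inv_left

/-- A Frobenius action: orbit products of the translates generate the module. -/
theorem mem_of_orbitProd' {N V H : Subgroup G} {y : G} {r : ℕ} (hr : 0 < r)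
    (hyN : y ∈ Subgroup.normalizer (N : Set G)) (hfree : ∀ i : ℕ, i ≠ 0 → i < r → ∀ n ∈ N, Commute (y ^ i) n → n = 1)
    (hVc : ∀ a ∈ V, ∀ b ∈ V, Commute a b) (hNV : N ≤ Subgroup.normalizer (V : Set G))
    (hyV : y ∈ Subgroup.normalizer (V : Set G))
    (hcop : (Nat.card V).Coprime (Nat.card N))
    (hfix : ∀ v ∈ V, (∀ n ∈ N, Commute n v) → v = 1)
    (hH : ∀ v ∈ V, ∀ k ∈ N, k * orbitProd y v r * k⁻¹ ∈ H) {w : G} (hw : w ∈ V) : w ∈ H := by
  classical
  haveI : Fintype N := Fintype.ofFinite N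
  letI : CommGroup V :=
    { (inferInstance : Group V) with mul_comm := fun a b => Subtype.ext (hVc a a.2 b b.2).eq }
  set f : G → G → G := fun g x => g * x * g⁻¹
  let F : ℕ → N → V := fun i k => ⟨((k : G) * y ^ i * (k : G)⁻¹) * w * ((k : G) * y ^ i * (k : G)⁻¹)⁻¹,
    (Subgroup.mem_normalizer_iff.1 (mul_mem (mul_mem (hNV k.2)
      ((Subgroup.normalizer (V : Set G)).pow_mem hyV i)) (inv_mem (hNV k.2))) w).1 hw⟩
  -- along the translates of the complement
  have hcol : ∀ k : N, ∏ i ∈ Finset.range r, F i k ∈ H.subgroupOf V := by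
    intro k
    set w' := (k : G)⁻¹ * w * k
    have hw' : w' ∈ V := (Subgroup.mem_normalizer_iff''.1 (hNV k.2) w).1 hw
    have : ∀ n, ((∏ i ∈ Finset.range n, F i k : V) : G) = (k : G) * orbitProd y w' n * (k : G)⁻¹ := by
      intro n
      induction n with
      | zero => simp [orbitProd]
      | succ n ih =>
        rw [Finset.prod_range_succ, orbitProd_succ, Subgroup.coe_mul, ih]
        simp only [F, w']
        group
    rw [Subgroup.mem_subgroupOf, this r]
    exact hH w' hw' k k.2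
  -- along the kernel, for a nontrivial power of `y`
  have hrow : ∀ i ∈ Finset.range r, i ≠ 0 → ∏ k : N, F i k = 1 := by
    intro i hi hi0
    set z := y ^ i
    have hzN : z ∈ Subgroup.normalizer (N : Set G) := (Subgroup.normalizer (N : Set G)).pow_mem hyN i
    have hzfree : ∀ n ∈ N, Commute z n → n = 1 := hfree i hi0 (Finset.mem_range.1 hi)
    let g : N → N := fun k => ⟨(k : G) * (z * (k : G)⁻¹ * z⁻¹),
      N.mul_mem k.2 ((Subgroup.mem_normalizer_iff.1 hzN _).1 (N.inv_mem k.2))⟩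
    have hinj : Function.Injective g := by
      intro a b hab
      have e : (a : G) * (z * (a : G)⁻¹ * z⁻¹) = (b : G) * (z * (b : G)⁻¹ * z⁻¹) := congrArg Subtype.val hab
      refine Subtype.ext (inv_mul_eq_one.1
        (hzfree ((b : G)⁻¹ * a) (N.mul_mem (N.inv_mem b.2) a.2) ?_)).symm
      calc z * ((b : G)⁻¹ * a) = (b : G)⁻¹ * ((b : G) * (z * (b : G)⁻¹ * z⁻¹)) * z * a := by group
        _ = (b : G)⁻¹ * ((a : G) * (z * (a : G)⁻¹ * z⁻¹)) * z * a := by rw [e]
        _ = ((b : G)⁻¹ * a) * z := by group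
    set x := z * w * z⁻¹
    have hx : x ∈ V := (Subgroup.mem_normalizer_iff.1 ((Subgroup.normalizer (V : Set G)).pow_mem hyV i) w).1 hw
    let Φ : N → V := fun m => ⟨(m : G) * x * (m : G)⁻¹, (Subgroup.mem_normalizer_iff.1 (hNV m.2) x).1 hx⟩
    have hFΦ : ∀ k, F i k = Φ (g k) := fun k => Subtype.ext (by
      simp only [F, Φ, g, x, z]
      group)
    rw [Finset.prod_congr rfl fun k _ => hFΦ k,
      Fintype.prod_bijective g (Finite.injective_iff_bijective.1 hinj) _ Φ fun _ => rfl]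
    refine Subtype.ext (hfix _ (∏ m : N, Φ m).2 fun n hn => ?_)
    let cn : V →* V :=
      { toFun := fun u => ⟨n * u * n⁻¹, (Subgroup.mem_normalizer_iff.1 (hNV hn) u).1 u.2⟩
        map_one' := Subtype.ext (by simp)
        map_mul' := fun a b => Subtype.ext (by simp [mul_assoc]) }
    have hperm : cn (∏ m : N, Φ m) = ∏ m : N, Φ m := by
      rw [map_prod]
      exact Fintype.prod_equiv (Equiv.mulLeft (⟨n, hn⟩ : N)) _ _ fun m => Subtype.ext (by
        simp [cn, Φ, mul_assoc])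
    exact mul_inv_eq_iff_eq_mul.1 (congrArg Subtype.val hperm)
  have h0 : ∀ k : N, F 0 k = ⟨w, hw⟩ := fun k => Subtype.ext (by simp [F])
  have hpow : (⟨w, hw⟩ : V) ^ Nat.card N ∈ H.subgroupOf V := by
    have hmem := Subgroup.prod_mem (H.subgroupOf V) (t := (Finset.univ : Finset N))
      (f := fun k => ∏ i ∈ Finset.range r, F i k) fun k _ => hcol k
    rwa [Finset.prod_comm, Finset.prod_eq_single 0 hrow (fun e => absurd (Finset.mem_range.2 hr) e),
      Finset.prod_congr rfl fun k _ => h0 k, Finset.prod_const, Finset.card_univ,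
      ← Nat.card_eq_fintype_card] at hmem
  obtain ⟨m, hm⟩ := exists_pow_eq_self_of_coprime
    ((hcop.coprime_dvd_left (orderOf_dvd_natCard (⟨w, hw⟩ : V))).symm)
  have := (H.subgroupOf V).pow_mem hpow m
  rwa [hm, Subgroup.mem_subgroupOf] at this

/-- The same for a complement of prime order. -/
theorem mem_of_orbitProd {N V H : Subgroup G} {y : G} {r : ℕ} (hy : orderOf y = r) (hr : r.Prime)
    (hyN : y ∈ Subgroup.normalizer (N : Set G)) (hfree : ∀ n ∈ N, Commute y n → n = 1)
    (hVc : ∀ a ∈ V, ∀ b ∈ V, Commute a b) (hNV : N ≤ Subgroup.normalizer (V : Set G))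
    (hyV : y ∈ Subgroup.normalizer (V : Set G))
    (hcop : (Nat.card V).Coprime (Nat.card N))
    (hfix : ∀ v ∈ V, (∀ n ∈ N, Commute n v) → v = 1)
    (hH : ∀ v ∈ V, ∀ k ∈ N, k * orbitProd y v r * k⁻¹ ∈ H) {w : G} (hw : w ∈ V) : w ∈ H := by
  refine mem_of_orbitProd' hr.pos hyN (fun i hi0 hi n hn hc => hfree n hn ?_) hVc hNV hyV hcop hfix hH hw
  have hcop' : Nat.Coprime i (orderOf y) := by
    rw [hy]
    exact ((Nat.Prime.coprime_iff_not_dvd hr).2 fun hd => by
      have := Nat.le_of_dvd (Nat.pos_of_ne_zero hi0) hd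
      omega).symm
  obtain ⟨m, hm⟩ := exists_pow_eq_self_of_coprime hcop'
  rw [← hm]
  exact hc.pow_left m

/-- A Frobenius action: some orbit product of a complement is nontrivial. -/
theorem exists_orbitProd_ne_one {N V : Subgroup G} {y : G} {r : ℕ} (hy : orderOf y = r) (hr : r.Prime)
    (hyN : y ∈ Subgroup.normalizer (N : Set G)) (hfree : ∀ n ∈ N, Commute y n → n = 1)
    (hVc : ∀ a ∈ V, ∀ b ∈ V, Commute a b) (hNV : N ≤ Subgroup.normalizer (V : Set G))
    (hyV : y ∈ Subgroup.normalizer (V : Set G)) (hV1 : V ≠ ⊥)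
    (hcop : (Nat.card V).Coprime (Nat.card N))
    (hfix : ∀ v ∈ V, (∀ n ∈ N, Commute n v) → v = 1) : ∃ v ∈ V, orbitProd y v r ≠ 1 := by
  by_contra hall
  push Not at hall
  refine hV1 ((Subgroup.eq_bot_iff_forall V).2 fun w hw => Subgroup.mem_bot.1 ?_)
  exact mem_of_orbitProd hy hr hyN hfree hVc hNV hyV hcop hfix
    (fun v hv k _ => by rw [Subgroup.mem_bot, hall v hv]; group) hw

/-- A Frobenius action of a cyclic group of any order: some orbit product is nontrivial. -/
theorem exists_orbitProd_ne_one' {N V : Subgroup G} {y : G} {r : ℕ} (hr : 0 < r)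
    (hyN : y ∈ Subgroup.normalizer (N : Set G))
    (hfree : ∀ i : ℕ, i ≠ 0 → i < r → ∀ n ∈ N, Commute (y ^ i) n → n = 1)
    (hVc : ∀ a ∈ V, ∀ b ∈ V, Commute a b) (hNV : N ≤ Subgroup.normalizer (V : Set G))
    (hyV : y ∈ Subgroup.normalizer (V : Set G)) (hV1 : V ≠ ⊥)
    (hcop : (Nat.card V).Coprime (Nat.card N))
    (hfix : ∀ v ∈ V, (∀ n ∈ N, Commute n v) → v = 1) : ∃ v ∈ V, orbitProd y v r ≠ 1 := by
  by_contra hall
  push Not at hall
  refine hV1 ((Subgroup.eq_bot_iff_forall V).2 fun w hw => Subgroup.mem_bot.1 ?_)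
  exact mem_of_orbitProd' hr hyN hfree hVc hNV hyV hcop hfix
    (fun v hv k _ => by rw [Subgroup.mem_bot, hall v hv]; group) hw

end CfsgLib.NoThreeOrders
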