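import Cfsg.Agent.Lib.NoThreeOrders.Radical
import Cfsg.Agent.Lib.CIT.Main
import Cfsg.Agent.Lib.CIT.TISylow
import Cfsg.Agent.Lib.TwoFusion.ElemCentField
import Cfsg.Agent.Lib.SL2.Torus

/-!
An element of order `q` outside cannot centralise an involution of a simple normal subgroup without
elements of order `2q`.
-/

set_option autoImplicit false
set_option linter.style.haveILetI false
set_option linter.unusedSectionVars false

open Cfsg CfsgLib.CIT
open scoped Pointwise MatrixGroups

namespace CfsgLib.NoThreeOrders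

/-- A permutation of prime order `q` fixes as many points as there are, modulo `q`. -/
theorem card_modEq_fixed {α : Type*} [Finite α] {q : ℕ} [hq : Fact q.Prime] (e : Equiv.Perm α)
    (he : e ^ q = 1) : Nat.card α ≡ Nat.card {y : α // e y = y} [MOD q] := by
  have hp : IsPGroup q (Subgroup.zpowers e) := by
    obtain ⟨i, -, hi⟩ := (Nat.dvd_prime_pow hq.out).1 ((pow_one q).symm ▸ orderOf_dvd_of_pow_eq_one he)
    exact IsPGroup.of_card (n := i) (by rw [Nat.card_zpowers, hi])
  have hc : Nat.card (MulAction.fixedPoints (Subgroup.zpowers e) α) = Nat.card {y : α // e y = y} := ?_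
  · rw [← hc]; exact hp.card_modEq_card_fixedPoints α
  refine Nat.card_congr (Equiv.subtypeEquivRight fun y => ⟨fun hy => hy ⟨e, Subgroup.mem_zpowers e⟩, ?_⟩)
  rintro hy ⟨g, hg⟩
  have : Subgroup.zpowers e ≤ MulAction.stabilizer (Equiv.Perm α) y := Subgroup.zpowers_le.2 hy
  exact this hg

variable {G : Type*} [Group G] [Finite G] {q : ℕ}

/-- A group without elements of order `2q` has centralisers of involutions 2-groups. -/
theorem TwoQ.isCIT (h : TwoQ G q) (hno : ∀ g : G, orderOf g ≠ 2 * q) : IsCIT G := by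
  haveI : Fact (Nat.Prime 2) := ⟨Nat.prime_two⟩
  intro t ht
  rw [IsPGroup.iff_orderOf]
  rintro ⟨b, hb⟩
  rw [Subgroup.orderOf_mk]
  have hc : Commute b t := Subgroup.mem_centralizer_singleton_iff.1 hb
  have hd := h.orderOf_dvd_of_commute (Or.inl ht) hc
  have hnq : ¬ q ∣ orderOf b := by
    intro hqb
    rcases h.q_ord b hqb with e | e
    · refine hno (b * t) ?_
      rw [hc.orderOf_mul_eq_mul_orderOf_of_coprime (by rw [e, ht]; exact h.coprime_two.symm), e, ht, mul_comm]
    · exact hno b e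
  have : orderOf b ∣ 2 := ((h.hq.coprime_iff_not_dvd).2 hnq).symm.dvd_of_dvd_mul_right hd
  obtain ⟨i, -, hi⟩ := (Nat.dvd_prime_pow Nat.prime_two).1 ((pow_one 2).symm ▸ this)
  exact ⟨i, hi⟩

/-- No element of order `q` centralises an involution of a simple normal subgroup that has no element of
order `2q`. -/
theorem TwoQ.false_of_outer (h : TwoQ G q) {T : Subgroup G} [T.Normal] [IsSimpleGroup T]
    (hna : ¬ IsMulCommutative T) (hno : ∀ g : T, orderOf g ≠ 2 * q) {x : G} (hx : orderOf x = q)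
    {a : T} (ha : orderOf a = 2) (hxa : Commute x (a : G)) : False := by
  classical
  haveI : Fact (Nat.Prime 2) := ⟨Nat.prime_two⟩
  haveI : Fact q.Prime := ⟨h.hq⟩
  have hT := h.subgroup T
  have hns : ¬ Group.IsSolvable T := fun hs => hna ⟨⟨IsSimpleGroup.comm_iff_isSolvable.2 hs⟩⟩
  have hnc : ∃ u v : T, u * v ≠ v * u := by
    by_contra! hall
    exact hna ⟨⟨hall⟩⟩
  have hcit := hT.isCIT hno
  have h2 : 2 ∣ Nat.card T := ha ▸ orderOf_dvd_natCard a
  have hO : pCore 2 T = ⊥ := pCore_eq_bot_of_simple hnc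
  obtain ⟨P, hP⟩ := (isPGroup_zpowers_of_orderOf ha).exists_le_sylow
  have haP : a ∈ (P : Subgroup T) := hP (Subgroup.mem_zpowers a)
  have hsq := hT.sylow_sq P
  have hcomm : ∀ u ∈ (P : Subgroup T), ∀ v ∈ (P : Subgroup T), Commute u v := fun u hu v hv =>
    hT.commute_of_isPGroup P.isPGroup' hu hv
  have h4 := hT.four_le hns P
  have hsylc : ∀ (S : Sylow 2 T) (v : T), v ∈ (S : Subgroup T) → orderOf v = 2 →
      Subgroup.centralizer ({v} : Set T) = (S : Subgroup T) := fun S v hv hv2 =>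
    hcit.centralizer_eq_sylow hv2 fun b hb => (hT.commute_of_isPGroup S.isPGroup' hb hv).eq
  have hTI : TISylow T := by
    intro S S' hSS
    obtain ⟨⟨v, hv⟩, hv1⟩ := Subgroup.ne_bot_iff_exists_ne_one.1 hSS
    have hv2 : orderOf v = 2 := orderOf_eq_two (hT.sylow_sq S v hv.1) fun e => hv1 (Subtype.ext e)
    exact Sylow.ext ((hsylc S v hv.1 hv2).symm.trans (hsylc S' v hv.2 hv2))
  obtain ⟨z, -, -, hc⟩ := hTI.tiConfig hcit hO h2 P
  set M := Subgroup.normalizer ((P : Subgroup T) : Set T) with hMdef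
  have hPa := hsylc P a haP ha
  -- the involutions of `M`
  have hm : TIConfig.m M (P : Subgroup T) + 1 = Nat.card (P : Subgroup T) := by
    have e : {v : T // orderOf v = 2 ∧ v ∈ M} ≃ {v : (P : Subgroup T) // v ≠ 1} :=
      { toFun := fun v => ⟨⟨v, (hc.invol_mem v.2.1 v.2.2).2⟩,
          fun e => Involutions.ne_one v.2.1 (congrArg Subtype.val e)⟩
        invFun := fun v => ⟨(v : (P : Subgroup T)),
          orderOf_eq_two (hsq _ (v : (P : Subgroup T)).2) fun e => v.2 (Subtype.ext e),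
          hc.le (v : (P : Subgroup T)).2⟩
        left_inv := fun v => rfl
        right_inv := fun v => rfl }
    letI := Fintype.ofFinite (P : Subgroup T)
    rw [← hc.card_involutions.2, Nat.card_congr e, Nat.card_eq_fintype_card, Nat.card_eq_fintype_card,
      Fintype.card_subtype_compl, Fintype.card_subtype_eq]
    have := Fintype.card_pos_iff.2 ⟨(1 : (P : Subgroup T))⟩
    omega
  have hidx := hc.index_eq (by omega)
  -- the automorphism
  let χ : T ≃* T := MulAut.conjNormal x
  have hχ : ∀ v : T, ((χ v : T) : G) = x * v * x⁻¹ := fun v => MulAut.conjNormal_apply x v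
  have hfixc : ∀ v : T, χ v = v ↔ Commute x (v : G) := fun v => by
    rw [← Subtype.coe_inj, hχ]
    exact ⟨fun e => mul_inv_eq_iff_eq_mul.1 e, fun e => mul_inv_eq_iff_eq_mul.2 e⟩
  have hχa : χ a = a := (hfixc a).2 hxa
  have hχP : ∀ v : T, χ v ∈ (P : Subgroup T) ↔ v ∈ (P : Subgroup T) := fun v => by
    rw [← hPa, Subgroup.mem_centralizer_singleton_iff, Subgroup.mem_centralizer_singleton_iff]
    constructor
    · intro e
      refine χ.injective ?_
      rw [map_mul, map_mul, hχa]
      exact e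
    · intro e
      have := congrArg χ e
      rwa [map_mul, map_mul, hχa] at this
  have hχM : ∀ v : T, χ v ∈ M ↔ v ∈ M := fun v => by
    rw [hMdef, Subgroup.mem_normalizer_iff, Subgroup.mem_normalizer_iff]
    constructor
    · intro e b
      rw [← hχP b, ← hχP (v * b * v⁻¹), map_mul, map_mul, map_inv]
      exact e (χ b)
    · intro e b
      obtain ⟨b', rfl⟩ := χ.surjective b
      rw [← map_inv, ← map_mul, ← map_mul, hχP, hχP]
      exact e b'
  have hχq : ∀ v : T, (χ ^ q) v = v := fun v => by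
    have : χ ^ q = 1 := by
      show (MulAut.conjNormal x : MulAut T) ^ q = 1
      rw [← map_pow, ← hx, pow_orderOf_eq_one, map_one]
    rw [this]; rfl
  -- its action on the points
  let e : Equiv.Perm (T ⧸ M) := Quotient.congr χ.toEquiv fun u v => by
    rw [QuotientGroup.leftRel_apply, QuotientGroup.leftRel_apply]
    show _ ↔ (χ u)⁻¹ * χ v ∈ M
    rw [← map_inv, ← map_mul, hχM]
  have he : ∀ v : T, e (QuotientGroup.mk v) = QuotientGroup.mk (χ v) := fun v => rfl
  have heq : e ^ q = 1 := by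
    have key : ∀ (n : ℕ) (v : T), (e ^ n) (QuotientGroup.mk v) = QuotientGroup.mk ((χ ^ n) v) := by
      intro n
      induction n with
      | zero => intro v; rfl
      | succ n ih => intro v; rw [pow_succ, pow_succ, Equiv.Perm.mul_apply, he, ih]; rfl
    refine Equiv.ext fun y => ?_
    obtain ⟨v, rfl⟩ := QuotientGroup.mk_surjective y
    rw [key, hχq]; rfl
  have hesmul : ∀ (g : T) (y : T ⧸ M), e (g • y) = χ g • e y := by
    intro g y
    obtain ⟨v, rfl⟩ := QuotientGroup.mk_surjective y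
    show e (QuotientGroup.mk (g * v)) = QuotientGroup.mk (χ g * χ v)
    rw [he, map_mul]
  set o : T ⧸ M := TIConfig.pt M with hodef
  have heo : e o = o := by
    show e (QuotientGroup.mk 1) = QuotientGroup.mk 1
    rw [he, map_one]
  -- a second fixed point
  obtain ⟨ω, hω, heω⟩ : ∃ ω : T ⧸ M, ω ≠ o ∧ e ω = ω := by
    by_contra! hall
    have h1 := card_modEq_fixed e heq
    have h3 : Nat.card {y : T ⧸ M // e y = y} = 1 := Nat.card_eq_one_iff_exists.2
      ⟨⟨o, heo⟩, fun y => Subtype.ext (by_contra fun hy => hall _ hy y.2)⟩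
    rw [h3, ← Subgroup.index_eq_card, hidx] at h1
    have hd : q ∣ Nat.card (P : Subgroup T) :=
      Nat.modEq_zero_iff_dvd.1 (Nat.ModEq.add_right_cancel' 1 (by simpa using h1))
    obtain ⟨n, hn⟩ := P.isPGroup'.exists_card_eq
    rw [hn] at hd
    exact h.hq2 ((Nat.prime_dvd_prime_iff_eq h.hq Nat.prime_two).1 (h.hq.dvd_of_dvd_pow hd))
  -- `P` is regular on the other points
  have hne : ∀ τ ∈ (P : Subgroup T), ∀ y : T ⧸ M, y ≠ o → τ • y ≠ o := fun τ hτ y hy e' =>
    hy (MulAction.injective τ (e'.trans ((TIConfig.smul_pt_eq τ).2 (hc.le hτ)).symm))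
  have hfree : ∀ τ ∈ (P : Subgroup T), ∀ y : T ⧸ M, y ≠ o → τ • y = y → τ = 1 := by
    intro τ hτ y hy hfix
    obtain ⟨t, -, htM, hty, -, -⟩ := hc.exists_swap hy
    have h1 : τ ∈ (P : Subgroup T) ⊓ M.map (MulAut.conj t).toMonoidHom :=
      ⟨hτ, (TIConfig.smul_smul_pt_eq t τ).1 (by rw [hty]; exact hfix)⟩
    rwa [hc.disj t htM, Subgroup.mem_bot] at h1
  have hinj : ∀ σ ∈ (P : Subgroup T), ∀ τ ∈ (P : Subgroup T), ∀ y : T ⧸ M, y ≠ o →
      σ • y = τ • y → σ = τ := fun σ hσ τ hτ y hy e' => by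
    have := hfree (τ⁻¹ * σ) (mul_mem (inv_mem hτ) hσ) y hy (by rw [mul_smul, e', inv_smul_smul])
    exact (inv_mul_eq_one.1 this).symm
  have hreg : ∀ y w : T ⧸ M, y ≠ o → w ≠ o → ∃ τ ∈ (P : Subgroup T), τ • y = w := by
    intro y w hy hw
    letI := Fintype.ofFinite (T ⧸ M)
    let f : ↥(P : Subgroup T) → {u : T ⧸ M // u ≠ o} := fun τ => ⟨(τ : T) • y, hne τ τ.2 y hy⟩
    have hf : Function.Injective f := fun σ τ e' =>
      Subtype.ext (hinj σ σ.2 τ τ.2 y hy (congrArg Subtype.val e'))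
    obtain ⟨τ, hτ⟩ := (hf.bijective_of_nat_card_le (by
      rw [Nat.card_eq_fintype_card (α := {u : T ⧸ M // u ≠ o}), Fintype.card_subtype_compl,
        Fintype.card_subtype_eq, ← Nat.card_eq_fintype_card, ← Subgroup.index_eq_card, hidx]
      omega)).2 ⟨w, hw⟩
    exact ⟨τ, τ.2, congrArg Subtype.val hτ⟩
  -- the centraliser of `x`
  set S : Subgroup T := MonoidHom.eqLocus χ.toMonoidHom (MonoidHom.id T) with hSdef
  have hmemS : ∀ v : T, v ∈ S ↔ χ v = v := fun v => Iff.rfl
  have hprimes : ∀ r : ℕ, r.Prime → r ∣ Nat.card S → r = 2 ∨ r = q := by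
    intro r hr hd
    haveI := Fact.mk hr
    obtain ⟨⟨y, hy⟩, hyo⟩ := exists_prime_orderOf_dvd_card' r hd
    rw [Subgroup.orderOf_mk, ← Subgroup.orderOf_coe] at hyo
    by_contra! hne'
    have ho : orderOf (x * (y : G)) = q * r := by
      rw [((hfixc y).1 hy).orderOf_mul_eq_mul_orderOf_of_coprime
        (by rw [hx, hyo]; exact (Nat.coprime_primes h.hq hr).2 hne'.2.symm), hx, hyo]
    rcases h.q_ord _ (ho ▸ dvd_mul_right q r) with e' | e' <;> rw [ho] at e'
    · exact hr.ne_one (Nat.eq_of_mul_eq_mul_left h.hq.pos (e'.trans (mul_one q).symm))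
    · exact hne'.1 (Nat.eq_of_mul_eq_mul_left h.hq.pos (e'.trans (mul_comm 2 q)))
  set PC := (P : Subgroup T) ⊓ S with hPC
  have hPfix : ∀ τ ∈ (P : Subgroup T), e (τ • ω) = τ • ω → τ ∈ PC := fun τ hτ e' => by
    rw [hesmul, heω] at e'
    exact ⟨hτ, (hmemS τ).2 (hinj _ ((hχP τ).2 hτ) τ hτ ω hω e')⟩
  -- `ω` is in the orbit of the base point under `S`
  have hωorb : ω ∈ MulAction.orbit S o := by
    obtain ⟨g, hg⟩ := QuotientGroup.mk_surjective ω
    have hgo : g • o = ω := by
      rw [hodef, ← hg]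
      show QuotientGroup.mk (g * 1) = QuotientGroup.mk g
      rw [mul_one]
    have h1 : g⁻¹ • o ≠ o := fun e' => hω (by
      rw [inv_smul_eq_iff] at e'
      exact hgo.symm.trans e'.symm)
    have hA1 : a ≠ 1 := Involutions.ne_one ha
    have h3 : g⁻¹ • (a • ω) ≠ o := fun e' => by
      rw [inv_smul_eq_iff, hgo] at e'
      exact hA1 (hfree a haP ω hω e')
    obtain ⟨p, hp, hpe⟩ := hreg _ _ h1 h3
    set u := g * p * g⁻¹ with hu
    have huo : u • o = a • ω := by rw [hu, mul_smul, mul_smul, hpe, smul_inv_smul]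
    have hg' : g⁻¹ * χ g ∈ M := by
      have : e ω = ω := heω
      rw [← hg, he] at this
      exact QuotientGroup.eq.1 this.symm
    set p' := (g⁻¹ * χ g) * χ p * (g⁻¹ * χ g)⁻¹ with hp'
    have hp'P : p' ∈ (P : Subgroup T) := (Subgroup.mem_normalizer_iff.1 hg' _).1 ((hχP p).2 hp)
    have hχu : χ u = g * p' * g⁻¹ := by
      rw [hu, hp', map_mul, map_mul, map_inv]; group
    have hpp : p' = p := by
      refine hinj p' hp'P p hp _ h1 ?_
      have h5 : χ u • o = a • ω := by
        have := congrArg e huo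
        rw [hesmul, hesmul, heo, heω, hχa] at this
        exact this
      rw [hχu, mul_smul, mul_smul, ← eq_inv_smul_iff] at h5
      rw [h5, hpe]
    have huS : u ∈ S := (hmemS u).2 (by rw [hχu, hpp])
    refine ⟨(⟨a, (hmemS a).2 hχa⟩ : S) * ⟨u, huS⟩, ?_⟩
    show (a * u) • o = ω
    rw [mul_smul, huo, ← mul_smul, Involutions.mul_self_eq_one ha, one_smul]
  -- the fixed points
  have horb : MulAction.orbit S o = {y : T ⧸ M | e y = y} := by
    ext y
    constructor
    · rintro ⟨⟨s, hs⟩, rfl⟩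
      show e (s • o) = s • o
      rw [hesmul, heo, (hmemS s).1 hs]
    · intro hy
      by_cases hyo : y = o
      · rw [hyo]; exact MulAction.mem_orbit_self o
      obtain ⟨τ, hτ, rfl⟩ := hreg ω y hω hyo
      obtain ⟨s, hs⟩ := hωorb
      refine ⟨(⟨τ, (hPfix τ hτ hy).2⟩ : S) * s, ?_⟩
      show (τ * (s : T)) • o = τ • ω
      rw [mul_smul]
      exact congrArg (τ • ·) hs
  have hcard : Nat.card {y : T ⧸ M // e y = y} = Nat.card PC + 1 := by
    let f : Option PC → {y : T ⧸ M // e y = y} := fun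
      | none => ⟨o, heo⟩
      | some τ => ⟨(τ : T) • ω, by rw [hesmul, heω, (hmemS (τ : T)).1 τ.2.2]⟩
    have hf : Function.Bijective f := by
      constructor
      · rintro (_ | σ) (_ | τ) e'
        · rfl
        · exact absurd (congrArg Subtype.val e').symm (hne τ τ.2.1 ω hω)
        · exact absurd (congrArg Subtype.val e') (hne σ σ.2.1 ω hω)
        · exact congrArg some (Subtype.ext (hinj σ σ.2.1 τ τ.2.1 ω hω (congrArg Subtype.val e')))
      · rintro ⟨y, hy⟩
        by_cases hyo : y = o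
        · exact ⟨none, Subtype.ext hyo.symm⟩
        obtain ⟨τ, hτ, rfl⟩ := hreg ω y hω hyo
        exact ⟨some ⟨τ, hPfix τ hτ hy⟩, rfl⟩
    rw [← Nat.card_eq_of_bijective f hf, Finite.card_option]
  have hd1 : Nat.card PC + 1 ∣ Nat.card S := by
    rw [← hcard]
    have := (MulAction.stabilizer S o).index_dvd_card
    rw [MulAction.index_stabilizer, horb] at this
    exact this
  -- the two point stabiliser
  set DC := (M ⊓ MulAction.stabilizer T ω) ⊓ S with hDC
  have hDinj : ∀ d ∈ M ⊓ MulAction.stabilizer T ω, ∀ d' ∈ M ⊓ MulAction.stabilizer T ω,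
      d * a * d⁻¹ = d' * a * d'⁻¹ → d = d' := by
    intro d hd d' hd' e'
    have h6 : d'⁻¹ * d ∈ (P : Subgroup T) := by
      rw [← hPa, Subgroup.mem_centralizer_singleton_iff]
      calc d'⁻¹ * d * a = d'⁻¹ * (d * a * d⁻¹) * d := by group
        _ = a * (d'⁻¹ * d) := by rw [e']; group
    exact (inv_mul_eq_one.1 (hfree _ h6 ω hω
      (mul_mem (inv_mem (Subgroup.mem_inf.1 hd').2) (Subgroup.mem_inf.1 hd).2))).symm
  have hd2 : Nat.card PC - 1 ∣ Nat.card S := by
    let f : DC → {b : PC // b ≠ 1} := fun d => ⟨⟨(d : T) * a * (d : T)⁻¹,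
      (Subgroup.mem_normalizer_iff.1 d.2.1.1 a).1 haP, (hmemS _).2 (by
        rw [map_mul, map_mul, map_inv, (hmemS (d : T)).1 d.2.2, hχa])⟩,
      fun e' => Involutions.ne_one ha (conj_eq_one_iff.1 (congrArg Subtype.val e'))⟩
    have hf : Function.Bijective f := by
      constructor
      · intro d d' e'
        exact Subtype.ext (hDinj d d.2.1 d' d'.2.1 (congrArg (fun b : {b : PC // b ≠ 1} => ((b : PC) : T)) e'))
      · rintro ⟨⟨b, hb⟩, hb1⟩
        have hb2 : orderOf b = 2 := orderOf_eq_two (hsq b hb.1) fun e' => hb1 (Subtype.ext e')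
        obtain ⟨g, hg⟩ := isConj_iff.1 ((hc.isConj_z ha).symm.trans (hc.isConj_z hb2))
        have hgM : g ∈ M := Involutions.mem_of_conj_mem_of_stronglyEmbedded hc.se (hc.le haP) ha
          (hg ▸ hc.le hb.1)
        obtain ⟨τ, hτ, d, hdM, hdω, rfl⟩ := hc.exists_eq_mul hω hgM
        have hd : d ∈ M ⊓ MulAction.stabilizer T ω := ⟨hdM, hdω⟩
        have hdb : d * a * d⁻¹ = b := by
          rw [← hg, show τ * d * a * (τ * d)⁻¹ = τ * (d * a * d⁻¹) * τ⁻¹ by group,
            conj_eq_of_commute (hcomm τ hτ _ ((Subgroup.mem_normalizer_iff.1 hdM a).1 haP))]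
        have hχd : χ d ∈ M ⊓ MulAction.stabilizer T ω := by
          refine ⟨(hχM d).2 hdM, ?_⟩
          have := congrArg e hdω
          rwa [hesmul, heω] at this
        have hdS : χ d = d := hDinj _ hχd d hd (by
          have := congrArg χ hdb
          rw [map_mul, map_mul, map_inv, hχa, (hmemS b).1 hb.2] at this
          rw [this, hdb])
        exact ⟨⟨d, hd, (hmemS d).2 hdS⟩, Subtype.ext (Subtype.ext hdb)⟩
    letI := Fintype.ofFinite PC
    have h7 : Nat.card DC = Nat.card PC - 1 := by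
      rw [Nat.card_eq_of_bijective f hf, Nat.card_eq_fintype_card, Fintype.card_subtype_compl,
        Fintype.card_subtype_eq, Nat.card_eq_fintype_card]
    rw [← h7]
    exact Subgroup.card_dvd_of_le inf_le_right
  obtain ⟨k, hk⟩ := (P.isPGroup'.to_le (inf_le_left : PC ≤ P)).exists_card_eq
  have hk2 : 2 ≤ Nat.card PC := by
    have : orderOf a ∣ Nat.card PC := Subgroup.orderOf_dvd_natCard PC ⟨haP, (hmemS a).2 hχa⟩
    exact ha ▸ Nat.le_of_dvd Nat.card_pos this
  have hodd : ∀ r : ℕ, r.Prime → (r ∣ Nat.card PC + 1 ∨ r ∣ Nat.card PC - 1) → r = q := by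
    intro r hr hd
    refine (hprimes r hr (hd.elim (fun d => d.trans hd1) fun d => d.trans hd2)).resolve_left ?_
    rintro rfl
    obtain ⟨c, hc'⟩ : 2 ∣ Nat.card PC := by
      rw [hk]
      refine dvd_pow_self 2 fun e' => ?_
      rw [e', pow_zero] at hk
      exact absurd (hk2.trans_eq hk) (by norm_num)
    rcases hd with d | d <;> omega
  have hPC2 : Nat.card PC = 2 := by
    by_contra hne'
    obtain ⟨r, hr, hrd⟩ := Nat.exists_prime_and_dvd (show Nat.card PC - 1 ≠ 1 by omega)
    obtain ⟨s, hs, hsd⟩ := Nat.exists_prime_and_dvd (show Nat.card PC + 1 ≠ 1 by omega)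
    rw [hodd r hr (Or.inr hrd)] at hrd
    rw [hodd s hs (Or.inl hsd)] at hsd
    have := Nat.dvd_sub hsd hrd
    rw [show Nat.card PC + 1 - (Nat.card PC - 1) = 2 by omega] at this
    exact h.hq2 ((Nat.prime_dvd_prime_iff_eq h.hq Nat.prime_two).1 this)
  have hq3 : q = 3 := (hodd 3 Nat.prime_three (Or.inl (by rw [hPC2]))).symm
  subst hq3
  -- the fixed points in `P`
  have hN3 : Nat.card (P : Subgroup T) % 3 = 2 := by
    let eP : Equiv.Perm (P : Subgroup T) := χ.toEquiv.subtypeEquiv fun v => (hχP v).symm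
    have hePq : eP ^ 3 = 1 := by
      refine Equiv.ext fun v => Subtype.ext ?_
      have key : ∀ (n : ℕ) (w : (P : Subgroup T)), (((eP ^ n) w : (P : Subgroup T)) : T) = (χ ^ n) (w : T) := by
        intro n
        induction n with
        | zero => intro w; rfl
        | succ n ih => intro w; rw [pow_succ, pow_succ, Equiv.Perm.mul_apply, ih]; rfl
      rw [key, hχq]; rfl
    have h8 := card_modEq_fixed eP hePq
    have h9 : Nat.card {v : (P : Subgroup T) // eP v = v} = Nat.card PC := Nat.card_congr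
      { toFun := fun v => ⟨(v : (P : Subgroup T)), (v : (P : Subgroup T)).2, congrArg Subtype.val v.2⟩
        invFun := fun v => ⟨⟨v, v.2.1⟩, Subtype.ext v.2.2⟩
        left_inv := fun v => rfl
        right_inv := fun v => rfl }
    rw [h9, hPC2] at h8
    exact h8
  -- the torus
  have hE : TwoFusion.ElemCentHyp P := by
    refine ⟨not_isCyclic_of_card hsq h4, fun hn => TISylow.normalizer_ne_top hO h2 P
      (Subgroup.normalizer_eq_top_iff.2 hn), fun t ht => ?_⟩
    obtain ⟨S', hS'⟩ := (isPGroup_zpowers_of_orderOf ht).exists_le_sylow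
    rw [hsylc S' t (hS' (Subgroup.mem_zpowers t)) ht]
    exact ⟨hT.sylow_comm S', fun c hc' => by rw [pow_two]; exact hT.sylow_sq S' c hc'⟩
  obtain ⟨F, _, _, hF, -, ⟨iso⟩⟩ := hE.exists_mulEquiv_SL2
  obtain ⟨g, -, hg, -⟩ := CfsgLib.SL2.exists_torus_generator (F := F) (e := Fintype.card F + 1)
    (by rw [Nat.card_eq_fintype_card]; exact Or.inr rfl) (by omega)
  have ho : orderOf ((iso.symm g : T) : G) = Fintype.card F + 1 := by
    rw [Subgroup.orderOf_coe, MulEquiv.orderOf_eq, hg]
  have h2P : 2 ∣ Nat.card (P : Subgroup T) := (dvd_of_eq ha.symm).trans (Subgroup.orderOf_dvd_natCard (P : Subgroup T) haP)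
  rcases h.q_ord _ (by rw [ho, hF]; omega) with e' | e' <;> rw [ho, hF] at e' <;> omega

end CfsgLib.NoThreeOrders
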