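import Cfsg.Agent.Lib.NoThreeOrders.Rank3Setup
import Cfsg.Agent.Lib.Involutions.BrauerSuzuki
import Cfsg.Agent.Lib.SolvableStructure.MinimalNormal
import Cfsg.Agent.Lib.Hall.Existence

/-!
A nonsolvable group with the condition `TwoQ` has a simple normal subgroup of odd index with trivial
centralizer.
-/

set_option autoImplicit false
set_option linter.style.haveILetI false
set_option linter.unusedSectionVars false

open Cfsg
open scoped IsMulCommutative Pointwise

namespace CfsgLib.NoThreeOrders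

universe u

variable {G : Type u} [Group G] [Finite G] {q : ℕ}

/-- A group with a Sylow 2-subgroup central in its normalizer is solvable when that subgroup is. -/
theorem isSolvable_of_burnside (P : Sylow 2 G) [IsMulCommutative (P : Subgroup G)]
    (hN : Subgroup.normalizer ((P : Subgroup G) : Set G) ≤ Subgroup.centralizer ((P : Subgroup G) : Set G)) :
    Group.IsSolvable G := by
  haveI : Fact (Nat.Prime 2) := ⟨Nat.prime_two⟩
  set f := MonoidHom.transferSylow P hN
  have hodd : Odd (Nat.card f.ker) := Nat.not_even_iff_odd.1 fun he =>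
    MonoidHom.not_dvd_card_ker_transferSylow P hN (even_iff_two_dvd.1 he)
  haveI : Group.IsSolvable f.ker := Cfsg.Agent.S0205.result hodd
  haveI : Group.IsSolvable (P : Subgroup G) := Group.isSolvable_of_comm fun a b => mul_comm a b
  exact Group.isSolvable_of_ker_le_range f.ker.subtype f (by simp)

theorem TwoQ.sylow_comm (h : TwoQ G q) (P : Sylow 2 G) : IsMulCommutative (P : Subgroup G) :=
  isMulCommutative_of_mul_self (h.sylow_sq P)

/-- The Sylow 2-subgroups have order at least four. -/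
theorem TwoQ.four_le (h : TwoQ G q) (hns : ¬ Group.IsSolvable G) (P : Sylow 2 G) :
    4 ≤ Nat.card (P : Subgroup G) := by
  haveI : Fact (Nat.Prime 2) := ⟨Nat.prime_two⟩
  by_contra hlt
  haveI := h.sylow_comm P
  refine hns (isSolvable_of_burnside P fun n hn => Subgroup.mem_centralizer_iff.2 fun a ha => ?_)
  by_cases ha1 : a = 1
  · rw [ha1, one_mul, mul_one]
  have hna : n * a * n⁻¹ ∈ (P : Subgroup G) := (Subgroup.mem_normalizer_iff.1 hn a).1 ha
  obtain ⟨i, hi⟩ := P.isPGroup'.exists_card_eq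
  have hi1 : i ≤ 1 := by
    by_contra hh
    exact hlt (hi ▸ le_trans (by norm_num) (Nat.pow_le_pow_right two_pos (show 2 ≤ i by omega)))
  have hcard : Nat.card (P : Subgroup G) ≤ 2 := hi ▸ le_trans (Nat.pow_le_pow_right two_pos hi1) (by norm_num)
  have heq : Subgroup.zpowers a = (P : Subgroup G) := Subgroup.eq_of_le_of_card_ge (Subgroup.zpowers_le.2 ha)
    (by rw [Nat.card_zpowers, orderOf_eq_two (h.sylow_sq P a ha) ha1]; exact hcard)
  rw [← heq] at hna
  obtain ⟨j, hj⟩ := Subgroup.mem_zpowers_iff.1 hna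
  have hzero : ∀ c : ℤ, a ^ (2 * c) = 1 := fun c => by rw [zpow_mul, zpow_two, h.sylow_sq P a ha, one_zpow]
  rcases Int.even_or_odd j with ⟨c, hc⟩ | ⟨c, hc⟩
  · rw [hc, ← two_mul, hzero] at hj
    exact absurd (conj_eq_one_iff.1 hj.symm) ha1
  · rw [hc, zpow_add_one, hzero, one_mul] at hj
    exact (mul_inv_eq_iff_eq_mul.1 hj.symm).symm

omit [Finite G] in
theorem normal_centralizer (N : Subgroup G) [hN : N.Normal] : (Subgroup.centralizer (N : Set G)).Normal :=
  ⟨fun c hc g => Subgroup.mem_centralizer_iff.2 fun x hx => by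
    have := Subgroup.mem_centralizer_iff.1 hc (g⁻¹ * x * g) (by simpa using hN.conj_mem x hx g⁻¹)
    calc x * (g * c * g⁻¹) = g * ((g⁻¹ * x * g) * c) * g⁻¹ := by group
      _ = g * (c * (g⁻¹ * x * g)) * g⁻¹ := by rw [this]
      _ = g * c * g⁻¹ * x := by group⟩

/-- An element of odd prime power order normalising `P` centralises `P` modulo the centralizer of a
normal `q`-group. -/
theorem TwoQ.comm_mem_centralizer (h : TwoQ G q) (P : Sylow 2 G) {O : Subgroup G} [O.Normal]
    (hO : IsPGroup q O) {r i : ℕ} (hr : r.Prime) (hr2 : r ≠ 2) {n : G} (hn : orderOf n = r ^ i)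
    (hnP : n ∈ Subgroup.normalizer ((P : Subgroup G) : Set G)) :
    ∀ a ∈ (P : Subgroup G), a⁻¹ * (n * a * n⁻¹) ∈ Subgroup.centralizer (O : Set G) := by
  haveI := normal_centralizer O
  have hall : ∀ y : G, y ∈ Subgroup.normalizer (O : Set G) := fun y => by
    rw [Subgroup.normalizer_eq_top (H := O)]; exact Subgroup.mem_top _
  have hsq := h.sylow_sq P
  have hcomm : ∀ a ∈ (P : Subgroup G), ∀ b ∈ (P : Subgroup G), Commute a b := fun a ha b hb =>
    h.commute_of_isPGroup P.isPGroup' ha hb
  have prime : ∀ z : G, orderOf z = r → z ∈ Subgroup.normalizer ((P : Subgroup G) : Set G) →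
      ∀ a ∈ (P : Subgroup G), a⁻¹ * (z * a * z⁻¹) ∈ Subgroup.centralizer (O : Set G) := by
    intro z hz hzP a ha
    by_contra hnot
    refine TwoQ.false_of_moved_prime _ h le_rfl hcomm hsq hO (fun b _ => hall b) (hall z) hzP ha hr hr2 hz
      fun hc => hnot (Subgroup.mem_centralizer_iff.2 fun v hv => (hc v hv).eq.symm)
  rcases i with _ | _ | i
  · intro a _
    rw [pow_zero, orderOf_eq_one_iff] at hn
    rw [hn, one_mul, inv_one, mul_one, inv_mul_cancel]
    exact one_mem _
  · exact prime n (by rw [hn, zero_add, pow_one]) hnP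
  intro a ha
  -- a power of order `r` centralises an involution outside the kernel
  set z := n ^ (r ^ (i + 1)) with hz
  have hzo : orderOf z = r := by
    rw [hz, orderOf_pow' _ (pow_ne_zero _ hr.ne_zero), hn,
      Nat.gcd_eq_right (pow_dvd_pow r (Nat.le_succ _)), Nat.pow_div (Nat.le_succ _) hr.pos]
    simp
  have hzP : z ∈ Subgroup.normalizer ((P : Subgroup G) : Set G) :=
    (Subgroup.normalizer ((P : Subgroup G) : Set G)).pow_mem hnP _
  have hrq : r ≠ q := by
    rintro rfl
    exact h.not_sq n (by rw [hn, ← pow_two]; exact pow_dvd_pow r (by omega))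
  set w := orbitProd z a r with hw
  have hwP : w ∈ (P : Subgroup G) := orbitProd_mem hzP ha r
  have hwc : Commute w z := by
    have hpow : (a * z) ^ r = w := by rw [mul_pow_eq_orbitProd, ← hzo, pow_orderOf_eq_one, mul_one, hzo]
    have h1 : Commute w (a * z) := hpow ▸ Commute.pow_self _ r
    have h2 := (hcomm w hwP a ha).inv_right.mul_right h1
    rwa [inv_mul_cancel_left] at h2
  have hkey : ∀ j : ℕ, a⁻¹ * (z ^ j * a * (z ^ j)⁻¹) ∈ Subgroup.centralizer (O : Set G) := by
    intro j
    induction j with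
    | zero => simp
    | succ j ih =>
      have h1 := (normal_centralizer O).conj_mem _ (prime z hzo hzP a ha) (z ^ j)
      have h2 : a⁻¹ * (z ^ (j + 1) * a * (z ^ (j + 1))⁻¹) =
          a⁻¹ * (z ^ j * a * (z ^ j)⁻¹) * (z ^ j * (a⁻¹ * (z * a * z⁻¹)) * (z ^ j)⁻¹) := by
        rw [pow_succ]; group
      rw [h2]
      exact mul_mem ih h1
  by_cases hw1 : w = 1
  · -- then `a` itself is in the kernel
    have hprod : ∀ j : ℕ, (a ^ j)⁻¹ * orbitProd z a j ∈ Subgroup.centralizer (O : Set G) := by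
      intro j
      induction j with
      | zero => simp [orbitProd]
      | succ j ih =>
        rw [orbitProd_succ]
        have h2 : (a ^ (j + 1))⁻¹ * (orbitProd z a j * (z ^ j * a * (z ^ j)⁻¹)) =
            a⁻¹ * ((a ^ j)⁻¹ * orbitProd z a j) * a * (a⁻¹ * (z ^ j * a * (z ^ j)⁻¹)) := by
          rw [pow_succ]; group
        rw [h2]
        refine mul_mem ?_ (hkey j)
        simpa using (normal_centralizer O).conj_mem _ ih a⁻¹
    have h3 := hprod r
    rw [← hw, hw1, mul_one] at h3
    have hra : a ^ r = a := by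
      obtain ⟨c, hc⟩ := hr.odd_of_ne_two hr2
      rw [hc, pow_succ, pow_mul, pow_two, hsq a ha, one_pow, one_mul]
    rw [hra] at h3
    exact mul_mem h3 ((normal_centralizer O).conj_mem _ (by simpa using inv_mem h3) n)
  · exfalso
    refine hrq ?_
    have := h.orderOf_dvd_of_commute (Or.inl (orderOf_eq_two (hsq w hwP) hw1)) hwc.symm
    rw [hzo] at this
    rcases hr.dvd_mul.1 this with h' | h'
    · exact absurd ((Nat.prime_dvd_prime_iff_eq hr Nat.prime_two).1 h') hr2
    · exact (Nat.prime_dvd_prime_iff_eq hr h.hq).1 h'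

omit [Finite G] in
theorem isSolvable_of_extension {N : Subgroup G} [N.Normal] (h1 : Group.IsSolvable N)
    (h2 : Group.IsSolvable (G ⧸ N)) : Group.IsSolvable G :=
  Group.isSolvable_of_ker_le_range N.subtype (QuotientGroup.mk' N) (by simp)

/-- There is no nontrivial normal subgroup of prime power order. -/
theorem TwoQ.pCore_eq_bot (h : TwoQ G q) (hns : ¬ Group.IsSolvable G) {r : ℕ} (hr : r.Prime) :
    pCore r G = ⊥ := by
  haveI : Fact r.Prime := ⟨hr⟩
  haveI : Fact (Nat.Prime 2) := ⟨Nat.prime_two⟩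
  haveI : Fact q.Prime := ⟨h.hq⟩
  by_contra hO1
  obtain ⟨P⟩ : Nonempty (Sylow 2 G) := inferInstance
  set O := pCore r G with hOdef
  have hO : IsPGroup r O := CfsgLib.Cores.isPGroup_pCore r G
  haveI := h.sylow_comm P
  set C := Subgroup.centralizer (O : Set G) with hC
  haveI : C.Normal := normal_centralizer O
  have hsq := h.sylow_sq P
  have h4 := h.four_le hns P
  obtain ⟨⟨x, hx⟩, hx1⟩ := Subgroup.ne_bot_iff_exists_ne_one.1 hO1
  have hx1' : x ≠ 1 := fun e => hx1 (Subtype.ext e)
  by_cases hr2 : r = 2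
  · subst hr2
    -- all 2-elements centralise `O`
    have hPC : (P : Subgroup G) ≤ C := fun b hb => Subgroup.mem_centralizer_iff.2 fun v hv =>
      (h.commute_of_isPGroup P.isPGroup' (CfsgLib.Cores.pCore_le_sylow P hv) hb).eq
    haveI : Group.IsSolvable C := by
      haveI := h.isSolvable_centralizer (a := x)
        (Or.inl (orderOf_eq_two (hsq x (CfsgLib.Cores.pCore_le_sylow P hx)) hx1'))
      exact CfsgLib.CoprimeAction.isSolvable_of_le
        (Subgroup.centralizer_le (s := ({x} : Set G)) (Set.singleton_subset_iff.2 hx))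
    have hodd : Odd (Nat.card (G ⧸ C)) := by
      rw [← Subgroup.index_eq_card]
      exact Nat.not_even_iff_odd.1 fun he =>
        P.not_dvd_index ((even_iff_two_dvd.1 he).trans (Subgroup.index_dvd_of_le hPC))
    exact hns (isSolvable_of_extension ‹Group.IsSolvable C› (Cfsg.Agent.S0205.result hodd))
  have hnc : ¬ IsCyclic (P : Subgroup G) := not_isCyclic_of_card hsq h4
  have hOodd : Odd (Nat.card O) := by
    obtain ⟨j, hj⟩ := hO.exists_card_eq
    exact hj ▸ (hr.odd_of_ne_two hr2).pow
  have hall : ∀ y : G, y ∈ Subgroup.normalizer (O : Set G) := fun y => by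
    rw [Subgroup.normalizer_eq_top (H := O)]; exact Subgroup.mem_top _
  have hq : IsPGroup q O := h.isPGroup_of_odd hsq hnc (fun b _ => hall b) hOodd
  haveI : Group.IsSolvable C := by
    haveI := h.isSolvable_centralizer (a := x) (Or.inr (orderOf_eq_prime (h.pow_q_of_isPGroup hq hx) hx1'))
    exact CfsgLib.CoprimeAction.isSolvable_of_le
      (Subgroup.centralizer_le (s := ({x} : Set G)) (Set.singleton_subset_iff.2 hx))
  set π := QuotientGroup.mk' C
  set Pb : Sylow 2 (G ⧸ C) := P.mapSurjective (QuotientGroup.mk'_surjective C)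
  haveI : IsMulCommutative (Pb : Subgroup (G ⧸ C)) := IsMulCommutative.of_comm fun u v => by
    obtain ⟨a, ha, ea⟩ := u.2
    obtain ⟨b, hb, eb⟩ := v.2
    refine Subtype.ext ?_
    show (u : G ⧸ C) * v = v * u
    rw [← ea, ← eb, ← map_mul, ← map_mul, (h.commute_of_isPGroup P.isPGroup' ha hb).eq]
  have hkey : ∀ n ∈ Subgroup.normalizer ((P : Subgroup G) : Set G), ∀ a ∈ (P : Subgroup G),
      a⁻¹ * (n * a * n⁻¹) ∈ C := by
    set N := Subgroup.normalizer ((P : Subgroup G) : Set G)
    let S0 : Subgroup N :=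
      { carrier := {n | ∀ a ∈ (P : Subgroup G), a⁻¹ * ((n : G) * a * (n : G)⁻¹) ∈ C}
        one_mem' := fun a _ => by simp
        mul_mem' := fun {m n} hm hn a ha => by
          have h1 := hm _ ((Subgroup.mem_normalizer_iff.1 n.2 a).1 ha)
          have := mul_mem (hn a ha) h1
          convert this using 1
          push_cast
          group
        inv_mem' := fun {n} hn a ha => by
          have hb := (Subgroup.mem_normalizer_iff.1 (inv_mem n.2) a).1 ha
          have := inv_mem (hn _ hb)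
          convert this using 1
          push_cast
          group }
    suffices S0 = ⊤ from fun n hn a ha => (this ▸ Subgroup.mem_top (⟨n, hn⟩ : N) : (⟨n, hn⟩ : N) ∈ S0) a ha
    refine Subgroup.eq_top_of_card_eq _ (Nat.dvd_antisymm (Subgroup.card_subgroup_dvd_card _)
      ((Nat.dvd_iff_prime_pow_dvd_dvd _ _).mpr fun s e hs hse => ?_))
    haveI := Fact.mk hs
    obtain ⟨R⟩ : Nonempty (Sylow s N) := inferInstance
    have hpd : s ^ e ∣ Nat.card R :=
      R.card_eq_multiplicity ▸ Nat.pow_dvd_pow s ((hs.pow_dvd_iff_le_factorization Nat.card_pos.ne').mp hse)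
    refine hpd.trans (Subgroup.card_dvd_of_le fun n hn => ?_)
    obtain ⟨i, hi⟩ := IsPGroup.iff_orderOf.1 R.isPGroup' ⟨n, hn⟩
    rw [Subgroup.orderOf_mk, ← Subgroup.orderOf_coe] at hi
    by_cases hs2 : s = 2
    · subst hs2
      intro a ha
      have hnP : (n : G) ∈ (P : Subgroup G) := by
        haveI : ((P.subtype (Subgroup.le_normalizer : (P : Subgroup G) ≤ N) : Sylow 2 N) : Subgroup N).Normal :=
          (Subgroup.normal_subgroupOf_iff_le_normalizer Subgroup.le_normalizer).2 le_rfl
        haveI := Sylow.unique_of_normal (P.subtype (Subgroup.le_normalizer : (P : Subgroup G) ≤ N)) inferInstance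
        rw [Subsingleton.elim R (P.subtype (Subgroup.le_normalizer : (P : Subgroup G) ≤ N))] at hn
        exact hn
      rw [conj_eq_of_commute (h.commute_of_isPGroup P.isPGroup' hnP ha), inv_mul_cancel]
      exact one_mem _
    · exact h.comm_mem_centralizer P hq hs hs2 hi n.2
  refine hns (isSolvable_of_extension ‹Group.IsSolvable C› (isSolvable_of_burnside Pb fun g hg => ?_))
  obtain ⟨g, rfl⟩ := QuotientGroup.mk'_surjective C g
  -- Frattini
  set X := (Pb : Subgroup (G ⧸ C)).comap π with hX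
  have hPX : (P : Subgroup G) ≤ X := fun b hb => ⟨b, hb, rfl⟩
  have hgX : ∀ b ∈ (P : Subgroup G), g * b * g⁻¹ ∈ X := fun b hb => by
    rw [hX, Subgroup.mem_comap, map_mul, map_mul, map_inv]
    exact (Subgroup.mem_normalizer_iff.1 hg _).1 ⟨b, hb, rfl⟩
  obtain ⟨c, hc⟩ := MulAction.exists_smul_eq X (P.subtype hPX)
    ((g • P).subtype (show ((g • P : Sylow 2 G) : Subgroup G) ≤ X by
      rw [Sylow.coe_subgroup_smul]
      rintro _ ⟨b, hb, rfl⟩
      exact hgX b hb))
  have hn : (c : G)⁻¹ * g ∈ Subgroup.normalizer ((P : Subgroup G) : Set G) := by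
    refine CfsgLib.CoprimeAction.mem_normalizer_of_conj_mem fun b hb => ?_
    have h1 : (⟨g * b * g⁻¹, hgX b hb⟩ : X) ∈ ((c • P.subtype hPX : Sylow 2 X) : Subgroup X) := by
      rw [hc]
      show g * b * g⁻¹ ∈ ((g • P : Sylow 2 G) : Subgroup G)
      rw [Sylow.coe_subgroup_smul]
      exact ⟨b, hb, rfl⟩
    rw [Sylow.coe_subgroup_smul, CfsgLib.CoprimeAction.mem_conj_iff] at h1
    have h2 : (c : G)⁻¹ * (g * b * g⁻¹) * c ∈ (P : Subgroup G) := h1
    convert h2 using 1
    group
  rw [Subgroup.mem_centralizer_iff]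
  rintro _ ⟨a, ha, rfl⟩
  have h1 : π ((c : G)⁻¹ * g) * π a = π a * π ((c : G)⁻¹ * g) := by
    have h0 : π (a⁻¹ * (((c : G)⁻¹ * g) * a * ((c : G)⁻¹ * g)⁻¹)) = 1 :=
      (QuotientGroup.eq_one_iff _).2 (hkey _ hn a ha)
    rw [map_mul, map_inv, inv_mul_eq_one, map_mul, map_mul, map_inv] at h0
    exact (mul_inv_eq_iff_eq_mul.1 h0.symm)
  obtain ⟨b, hb, hbc⟩ := c.2
  have h2 : π (c : G) * π a = π a * π (c : G) := by
    show π (c : G) * π a = π a * π (c : G)
    rw [← hbc, ← map_mul, ← map_mul, (h.commute_of_isPGroup P.isPGroup' hb ha).eq]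
  rw [map_mul, map_inv] at h1
  calc π a * π g = π (c : G) * ((π (c : G))⁻¹ * (π a * π g)) := by group
    _ = π (c : G) * (((π (c : G))⁻¹ * π a) * π g) := by group
    _ = π (c : G) * ((π a * (π (c : G))⁻¹) * π g) := by
        rw [((show Commute (π (c : G)) (π a) from h2).inv_left).eq]
    _ = π (c : G) * (((π (c : G))⁻¹ * π g) * π a) := by rw [mul_assoc (π a), ← h1]
    _ = π g * π a := by group

/-- A solvable normal subgroup is trivial. -/
theorem TwoQ.eq_bot_of_solvable (h : TwoQ G q) (hns : ¬ Group.IsSolvable G) (N : Subgroup G) [N.Normal]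
    [Group.IsSolvable N] : N = ⊥ := by
  by_contra hN
  haveI : Nontrivial N := (Subgroup.nontrivial_iff_ne_bot N).2 hN
  obtain ⟨r, hr, hne⟩ := CfsgLib.Hall.exists_pCore_ne_bot (G := N)
  haveI := Fact.mk hr
  refine hne ((Subgroup.map_eq_bot_iff_of_injective _ N.subtype_injective).1 (le_bot_iff.1 ?_))
  rw [← h.pCore_eq_bot hns hr]
  exact CfsgLib.Cores.le_pCore (N := (pCore r N).map N.subtype) ((CfsgLib.Cores.isPGroup_pCore r N).map _)

/-- A subgroup centralising a nonsolvable subgroup is trivial when its prime divisors force solvability. -/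
theorem TwoQ.isSolvable_of_commute (h : TwoQ G q) {A : Subgroup G} {z : G} (hz : orderOf z = 2)
    (hc : ∀ x ∈ A, Commute x z) : Group.IsSolvable A := by
  haveI := h.isSolvable_centralizer (Or.inl hz)
  exact CfsgLib.CoprimeAction.isSolvable_of_le fun x hx => Subgroup.mem_centralizer_singleton_iff.2 (hc x hx).eq

omit [Finite G] in
theorem conj_smul_normal {T : Subgroup G} [T.Normal] (N : Subgroup G) (hN : N ≤ T)
    (hn : T ≤ Subgroup.normalizer (N : Set G)) (g : G) :
    (MulAut.conj g • N : Subgroup G) ≤ T ∧ T ≤ Subgroup.normalizer ((MulAut.conj g • N : Subgroup G) : Set G) := by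
  constructor
  · intro x hx
    rw [CfsgLib.CoprimeAction.mem_conj_iff] at hx
    have := (inferInstance : T.Normal).conj_mem _ (hN hx) g
    convert this using 1
    group
  · intro t ht
    rw [Subgroup.mem_normalizer_iff]
    intro x
    simp only [CfsgLib.CoprimeAction.mem_conj_iff]
    have ht' : g⁻¹ * t * g ∈ T := by simpa using (inferInstance : T.Normal).conj_mem t ht g⁻¹
    have := Subgroup.mem_normalizer_iff.1 (hn ht') (g⁻¹ * x * g)
    rw [show g⁻¹ * t * g * (g⁻¹ * x * g) * (g⁻¹ * t * g)⁻¹ = g⁻¹ * (t * x * t⁻¹) * g by group] at this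
    exact this

/-- A nonsolvable group with the condition has a simple normal subgroup with trivial centralizer. -/
theorem TwoQ.exists_simple_normal (h : TwoQ G q) (hns : ¬ Group.IsSolvable G) :
    ∃ T : Subgroup G, T.Normal ∧ IsSimpleGroup T ∧ ¬ IsMulCommutative T ∧
      Subgroup.centralizer (T : Set G) = ⊥ := by
  haveI : Fact (Nat.Prime 2) := ⟨Nat.prime_two⟩
  haveI : Nontrivial G := by
    by_contra hnt
    haveI := not_nontrivial_iff_subsingleton.1 hnt
    exact hns inferInstance
  obtain ⟨T, -, hTn, hT1, hTmin⟩ := CfsgLib.SolvableStructure.exists_minimal_normal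
    (N := (⊤ : Subgroup G)) inferInstance top_ne_bot
  haveI := hTn
  have hTns : ¬ Group.IsSolvable T := fun hs => hT1 (h.eq_bot_of_solvable hns T)
  have hTq := h.subgroup T
  -- a subgroup centralised by a nonsolvable one is solvable
  have hsolv : ∀ A B : Subgroup G, ¬ Group.IsSolvable B → (∀ a ∈ A, ∀ b ∈ B, Commute a b) → Group.IsSolvable A := by
    intro A B hB hAB
    have h2 : 2 ∣ Nat.card B := by
      by_contra hnd
      exact hB (Cfsg.Agent.S0205.result (Nat.odd_iff.2 (by omega)))
    obtain ⟨⟨z, hzB⟩, hz⟩ := exists_prime_orderOf_dvd_card' (G := B) 2 h2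
    rw [Subgroup.orderOf_mk] at hz
    exact h.isSolvable_of_commute hz fun a ha => hAB a ha z hzB
  have hcent : Subgroup.centralizer (T : Set G) = ⊥ := by
    haveI := normal_centralizer T
    haveI := hsolv (Subgroup.centralizer (T : Set G)) T hTns
      fun a ha b hb => (Subgroup.mem_centralizer_iff.1 ha b hb).symm
    exact h.eq_bot_of_solvable hns _
  refine ⟨T, hTn, ?_, fun hc => hTns (by haveI := hc; exact Group.isSolvable_of_comm fun a b => mul_comm a b), hcent⟩
  haveI : Nontrivial T := (Subgroup.nontrivial_iff_ne_bot T).2 hT1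
  -- a minimal `T`-invariant subgroup
  obtain ⟨N, hN⟩ : ∃ N, Minimal (fun N : Subgroup G => N ≤ T ∧ T ≤ Subgroup.normalizer (N : Set G) ∧ N ≠ ⊥) N :=
    Set.Finite.exists_minimal (Set.toFinite _) ⟨T, le_rfl, Subgroup.le_normalizer, hT1⟩
  obtain ⟨hNT, hTN, hN1⟩ := hN.prop
  have hsolvbot : ∀ A : Subgroup G, A ≤ T → T ≤ Subgroup.normalizer (A : Set G) → Group.IsSolvable A → A = ⊥ := by
    intro A hAT hTA hA
    haveI : (A.subgroupOf T).Normal := (Subgroup.normal_subgroupOf_iff_le_normalizer hAT).2 hTA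
    haveI : Group.IsSolvable (A.subgroupOf T) :=
      Group.isSolvable_of_isSolvable_injective (f := (Subgroup.subgroupOfEquivOfLe hAT).toMonoidHom)
        (Subgroup.subgroupOfEquivOfLe hAT).injective
    have := hTq.eq_bot_of_solvable hTns (A.subgroupOf T)
    rw [Subgroup.subgroupOf_eq_bot] at this
    exact le_bot_iff.1 (fun x hx => this.le_bot ⟨hx, hAT hx⟩)
  have hNns : ¬ Group.IsSolvable N := fun hs => hN1 (hsolvbot N hNT hTN hs)
  have hNnormal : N.Normal := by
    refine Subgroup.normalizer_eq_top_iff.1 ((Subgroup.eq_top_iff' _).2 fun g => ?_)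
    rw [← CfsgLib.CoprimeAction.conj_smul_eq_self]
    by_contra hne
    set N' : Subgroup G := MulAut.conj g • N
    obtain ⟨hN'T, hTN'⟩ := conj_smul_normal N hNT hTN g
    have hI : N ⊓ N' = ⊥ := by
      by_contra hI
      have := hN.eq_of_le (y := N ⊓ N') ⟨inf_le_left.trans hNT, fun t ht =>
        CfsgLib.CoprimeAction.mem_normalizer_of_conj_mem fun x hx =>
          ⟨CfsgLib.CoprimeAction.conj_mem (hTN ht) hx.1, CfsgLib.CoprimeAction.conj_mem (hTN' ht) hx.2⟩, hI⟩ inf_le_left
      have hle : N ≤ N' := this.ge.trans inf_le_right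
      exact hne (Subgroup.eq_of_le_of_card_ge hle (by rw [CfsgLib.CoprimeAction.card_conj_smul])).symm
    have hcomm : ∀ a ∈ N', ∀ b ∈ N, Commute a b := by
      intro a ha b hb
      have hmem : a * b * a⁻¹ * b⁻¹ ∈ N ⊓ N' := by
        refine ⟨N.mul_mem (CfsgLib.CoprimeAction.conj_mem (hTN (hN'T ha)) hb) (N.inv_mem hb), ?_⟩
        show a * b * a⁻¹ * b⁻¹ ∈ N'
        rw [show a * b * a⁻¹ * b⁻¹ = a * (b * a⁻¹ * b⁻¹) by group]
        exact N'.mul_mem ha (CfsgLib.CoprimeAction.conj_mem (hTN' (hNT hb)) (N'.inv_mem ha))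
      rw [hI, Subgroup.mem_bot] at hmem
      exact mul_inv_eq_iff_eq_mul.1 (mul_inv_eq_one.1 hmem)
    have hbot := hsolvbot N' hN'T hTN' (hsolv N' N hNns hcomm)
    exact hN1 (by
      have := CfsgLib.CoprimeAction.card_conj_smul g N
      rw [show (MulAut.conj g • N : Subgroup G) = ⊥ from hbot, Subgroup.card_bot] at this
      exact Subgroup.card_eq_one.1 this.symm)
  have hNeq : N = T := (hTmin N hNnormal hNT).resolve_left hN1
  refine ⟨fun H hH => ?_⟩
  by_cases h0 : H = ⊥
  · exact Or.inl h0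
  right
  have hle : H.map T.subtype ≤ T := Subgroup.map_subtype_le _
  have hT' : T ≤ Subgroup.normalizer (H.map T.subtype : Set G) := fun t ht =>
    Subgroup.le_normalizer_map T.subtype ⟨⟨t, ht⟩, by
      rw [SetLike.mem_coe, Subgroup.normalizer_eq_top (H := H)]; exact Subgroup.mem_top _, rfl⟩
  have hmin := hN.eq_of_le (y := H.map T.subtype)
    ⟨hle, hT', fun e => h0 ((Subgroup.map_eq_bot_iff_of_injective _ T.subtype_injective).1 e)⟩ (hNeq ▸ hle)
  refine (Subgroup.eq_top_iff' H).2 fun x => ?_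
  have hx : (x : G) ∈ H.map T.subtype := by rw [hmin, hNeq]; exact x.2
  obtain ⟨y, hy, hxy⟩ := hx
  rwa [Subtype.ext hxy] at hy

/-- A normal subgroup with trivial centralizer contains every involution. -/
theorem TwoQ.mem_of_involution (h : TwoQ G q) {T : Subgroup G} [T.Normal] (hTns : ¬ Group.IsSolvable T)
    (hcent : Subgroup.centralizer (T : Set G) = ⊥) {x : G} (hx : orderOf x = 2) : x ∈ T := by
  classical
  haveI : Fact (Nat.Prime 2) := ⟨Nat.prime_two⟩
  by_contra hxT
  set H := T ⊔ Subgroup.zpowers x with hH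
  have hxH : x ∈ H := Subgroup.mem_sup_right (Subgroup.mem_zpowers x)
  set xs : H := ⟨x, hxH⟩
  have hxs : orderOf xs = 2 := by rw [Subgroup.orderOf_mk]; exact hx
  have hHq := h.subgroup H
  set T' := T.subgroupOf H with hT'
  have hxT' : xs ∉ T' := hxT
  obtain ⟨S, hS⟩ := (IsPGroup.of_card (p := 2) (n := 1) (by rw [Nat.card_zpowers, hxs, pow_one]) :
    IsPGroup 2 (Subgroup.zpowers xs)).exists_le_sylow
  haveI := hHq.sylow_comm S
  -- `H / T` has order two
  have hidx : ∀ z : H, z ∈ T' ∨ xs⁻¹ * z ∈ T' := by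
    intro z
    have hz : (z : G) ∈ ((T : Set G) * (Subgroup.zpowers x : Set G)) := by
      rw [← Subgroup.normal_mul]; exact z.2
    obtain ⟨t, ht, w, hw, e⟩ := hz
    obtain ⟨j, rfl⟩ := Subgroup.mem_zpowers_iff.1 hw
    have hxx : x * x = 1 := CfsgLib.Involutions.mul_self_eq_one hx
    rcases Int.even_or_odd j with ⟨c, hc⟩ | ⟨c, hc⟩
    · left
      show (z : G) ∈ T
      rw [← e, hc, ← two_mul, zpow_mul, zpow_two, hxx, one_zpow]
      simpa using ht
    · right
      show x⁻¹ * (z : G) ∈ T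
      rw [← e, hc, zpow_add_one, zpow_mul, zpow_two, hxx, one_zpow, one_mul]
      have := (inferInstance : T.Normal).conj_mem t ht x⁻¹
      convert this using 1
      group
  set N := Subgroup.normalizer ((S : Subgroup H) : Set H)
  set SN := (S : Subgroup H).subgroupOf N
  haveI : SN.Normal := (Subgroup.normal_subgroupOf_iff_le_normalizer Subgroup.le_normalizer).2 le_rfl
  haveI : Fintype (N ⧸ SN) := Fintype.ofFinite _
  let cS : N → ↥(S : Subgroup H) → ↥(S : Subgroup H) := fun n s =>
    ⟨(n : H) * s * (n : H)⁻¹, (Subgroup.mem_normalizer_iff.1 n.2 s).1 s.2⟩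
  have hxS : xs ∈ (S : Subgroup H) := hS (Subgroup.mem_zpowers _)
  let f : N ⧸ SN → ↥(S : Subgroup H) := Quotient.lift (fun n => cS n ⟨xs, hxS⟩) fun n n' hnn => by
    have h0 : ((n : H)⁻¹ * (n' : H)) ∈ (S : Subgroup H) :=
      Subgroup.mem_subgroupOf.1 ((QuotientGroup.leftRel_apply).1 hnn)
    refine Subtype.ext ?_
    show (n : H) * xs * (n : H)⁻¹ = (n' : H) * xs * (n' : H)⁻¹
    calc (n : H) * xs * (n : H)⁻¹ = (n : H) * (((n : H)⁻¹ * n') * xs * ((n : H)⁻¹ * n')⁻¹) * (n : H)⁻¹ := by
          rw [conj_eq_of_commute (hHq.commute_of_isPGroup S.isPGroup' h0 hxS)]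
      _ = (n' : H) * xs * (n' : H)⁻¹ := by group
  set z : ↥(S : Subgroup H) := ∏ u : N ⧸ SN, f u with hzdef
  haveI hTn' : T'.Normal := Subgroup.Normal.subgroupOf inferInstance H
  have hfx : ∀ u : N ⧸ SN, QuotientGroup.mk' T' (f u : H) = QuotientGroup.mk' T' xs := by
    intro u
    obtain ⟨n, rfl⟩ := QuotientGroup.mk_surjective u
    show QuotientGroup.mk' T' ((n : H) * xs * (n : H)⁻¹) = _
    refine (QuotientGroup.eq.2 ?_).symm
    rcases hidx ((n : H) * xs * (n : H)⁻¹) with h1 | h1
    · exact absurd (by simpa [mul_assoc] using hTn'.conj_mem _ h1 ((n : H)⁻¹)) hxT'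
    · exact h1
  have hzx : QuotientGroup.mk' T' (z : H) = QuotientGroup.mk' T' xs := by
    have hpow : ∀ s : Finset (N ⧸ SN), QuotientGroup.mk' T' (((∏ u ∈ s, f u : ↥(S : Subgroup H))) : H) =
        QuotientGroup.mk' T' xs ^ s.card := by
      intro s
      induction s using Finset.induction_on with
      | empty => simp
      | insert a s ha ih =>
        rw [Finset.prod_insert ha, Subgroup.coe_mul, map_mul, hfx, ih, Finset.card_insert_of_notMem ha, pow_succ']
    have hodd : Odd (Finset.univ : Finset (N ⧸ SN)).card := by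
      rw [Finset.card_univ, ← Nat.card_eq_fintype_card, ← Subgroup.index_eq_card]
      exact Nat.not_even_iff_odd.1 fun he => S.not_dvd_index
        ((even_iff_two_dvd.1 he).trans (Subgroup.relIndex_dvd_index_of_le Subgroup.le_normalizer))
    obtain ⟨c, hc⟩ := hodd
    rw [hzdef, hpow, hc, pow_succ, pow_mul, ← map_pow,
      show xs ^ 2 = 1 by rw [← hxs, pow_orderOf_eq_one], map_one, one_pow, one_mul]
  have hfix : ∀ m ∈ N, m * (z : H) * m⁻¹ = z := by
    intro m hm
    let g : ↥(S : Subgroup H) →* ↥(S : Subgroup H) :=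
      { toFun := cS ⟨m, hm⟩
        map_one' := Subtype.ext (by simp [cS])
        map_mul' := fun a b => Subtype.ext (by simp [cS, mul_assoc]) }
    have hperm : g z = z := by
      rw [hzdef, map_prod]
      refine Fintype.prod_equiv (Equiv.mulLeft (QuotientGroup.mk (⟨m, hm⟩ : N) : N ⧸ SN)) _ _ fun u => ?_
      obtain ⟨n, rfl⟩ := QuotientGroup.mk_surjective u
      refine Subtype.ext ?_
      show m * ((n : H) * xs * (n : H)⁻¹) * m⁻¹ = (m * n) * xs * (m * n)⁻¹
      group
    exact congrArg Subtype.val hperm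
  have hz1 : (z : H) ≠ 1 := fun e => hxT' ((QuotientGroup.eq_one_iff xs).1 (by
    show QuotientGroup.mk' T' xs = 1
    rw [← hzx, e, map_one]))
  have hz2 : orderOf (z : H) = 2 := orderOf_eq_two (hHq.sylow_sq S _ z.2) hz1
  have hOdd : oddCore H = ⊥ := by
    refine (Subgroup.eq_bot_iff_forall _).2 fun w hw => ?_
    haveI hOn : (oddCore H).Normal := inferInstanceAs (pPrimeCore 2 H).Normal
    have hoddw : ∀ v ∈ oddCore H, Odd (orderOf v) := fun v hv =>
      (Nat.coprime_two_right.1 (CfsgLib.Cores.card_pPrimeCore_coprime (G := H) 2)).of_dvd_nat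
        (Subgroup.orderOf_dvd_natCard _ hv)
    have hwT : w ∈ T' := by
      rcases hidx w with h1 | h1
      · exact h1
      · exfalso
        refine hxT' ((QuotientGroup.eq_one_iff xs).1 ?_)
        have e : QuotientGroup.mk' T' xs = QuotientGroup.mk' T' w := QuotientGroup.eq.2 h1
        have d1 := orderOf_map_dvd (QuotientGroup.mk' T') w
        have d2 := orderOf_map_dvd (QuotientGroup.mk' T') xs
        rw [← e] at d1
        rw [hxs] at d2
        exact orderOf_eq_one_iff.1 (Nat.eq_one_of_dvd_coprimes (Nat.coprime_two_left.2 (hoddw w hw)) d2 d1)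
    set X := (oddCore H ⊓ T').map H.subtype
    have hXT : X ≤ T := by rintro _ ⟨v, hv, rfl⟩; exact hv.2
    haveI : (X.subgroupOf T).Normal := by
      refine (Subgroup.normal_subgroupOf_iff_le_normalizer hXT).2 fun t ht => ?_
      exact Subgroup.le_normalizer_map H.subtype ⟨⟨t, Subgroup.mem_sup_left ht⟩, by
        rw [SetLike.mem_coe, Subgroup.normalizer_eq_top (H := oddCore H ⊓ T')]; exact Subgroup.mem_top _, rfl⟩
    have hsol : Group.IsSolvable (X.subgroupOf T) := Cfsg.Agent.S0205.result (by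
      rw [Nat.card_congr (Subgroup.subgroupOfEquivOfLe hXT).toEquiv,
        Subgroup.card_map_of_injective H.subtype_injective]
      exact (Nat.coprime_two_right.1 (CfsgLib.Cores.card_pPrimeCore_coprime (G := H) 2)).of_dvd_nat
        (Subgroup.card_dvd_of_le inf_le_left))
    haveI := hsol
    have h3 := (h.subgroup T).eq_bot_of_solvable hTns (X.subgroupOf T)
    have hwX : (⟨(w : G), hwT⟩ : T) ∈ X.subgroupOf T := ⟨w, ⟨hw, hwT⟩, rfl⟩
    rw [h3, Subgroup.mem_bot] at hwX
    exact Subtype.ext (congrArg Subtype.val hwX : (w : G) = 1)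
  have hcen := CfsgLib.Involutions.mem_center_of_isolated S hz2 (fun g hg => by
    obtain ⟨n, hn, he⟩ := S.conj_eq_normalizer_conj_of_mem (z : H) g⁻¹ z.2 (by rwa [inv_inv])
    rw [inv_inv] at he
    rw [he, show n⁻¹ * (z : H) * n = n⁻¹ * z * n⁻¹⁻¹ by rw [inv_inv]]
    exact hfix _ (inv_mem hn)) hOdd
  refine hz1 (Subtype.ext (Subgroup.mem_bot.1 (hcent ▸ ?_ : ((z : H) : G) ∈ (⊥ : Subgroup G))))
  exact Subgroup.mem_centralizer_iff.2 fun t ht =>
    congrArg Subtype.val (Subgroup.mem_center_iff.1 hcen ⟨t, Subgroup.mem_sup_left ht⟩)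

end CfsgLib.NoThreeOrders
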