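import Cfsg.Agent.Lib.NoThreeOrders.Rank3Setup
import Cfsg.Agent.S1224
import Cfsg.Agent.S1225

/-!
Facts on `M = N(P)` and `C = C(P)` used in the analysis of elementary abelian Sylow 2-subgroups of order
at least eight.
-/

set_option autoImplicit false
set_option linter.style.haveILetI false
set_option linter.unusedSectionVars false

open Cfsg
open scoped IsMulCommutative Pointwise

namespace CfsgLib.NoThreeOrders.BigData

variable {G : Type*} [Group G] [Finite G] {q : ℕ} {P : Sylow 2 G} {W : Subgroup G}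
  (hd : BigData G q P W)

local notation "M₀" => Subgroup.normalizer ((P : Subgroup G) : Set G)
local notation "C₀" => Subgroup.centralizer ((P : Subgroup G) : Set G)

theorem C_le_M : C₀ ≤ M₀ := fun g hg => by
  refine CfsgLib.CoprimeAction.mem_normalizer_of_conj_mem fun x hx => ?_
  rw [conj_eq_of_commute (Subgroup.mem_centralizer_iff.1 hg x hx).symm]
  exact hx

instance C_normal : ((C₀).subgroupOf M₀).Normal := by
  rw [← Subgroup.normalizerMonoidHom_ker]
  infer_instance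

theorem conj_mem_C {m c : G} (hm : m ∈ M₀) (hc : c ∈ C₀) : m * c * m⁻¹ ∈ C₀ :=
  C_normal.conj_mem ⟨c, C_le_M hc⟩ hc ⟨m, hm⟩

include hd

theorem comm' : IsMulCommutative (P : Subgroup G) := hd.toBigTwo.comm

theorem sq : ∀ a ∈ (P : Subgroup G), a * a = 1 := hd.h.sylow_sq P

theorem P_le_C : (P : Subgroup G) ≤ C₀ := by rw [hd.centralizer_P]; exact le_sup_left

theorem W_le_C : W ≤ C₀ := by rw [hd.centralizer_P]; exact le_sup_right

theorem odd_relIndex : Odd ((C₀).relIndex M₀) := by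
  haveI : Fact (Nat.Prime 2) := ⟨Nat.prime_two⟩
  refine Nat.not_even_iff_odd.1 fun he => P.not_dvd_index ((even_iff_two_dvd.1 he).trans ?_)
  exact (Subgroup.index_dvd_of_le fun x (hx : x ∈ (P : Subgroup G).subgroupOf M₀) => hd.P_le_C hx).trans
    (Subgroup.relIndex_dvd_index_of_le (hd.P_le_C.trans C_le_M))

theorem C_le_centralizer {t : G} (ht : t ∈ (P : Subgroup G)) :
    C₀ ≤ Subgroup.centralizer ({t} : Set G) := fun _ hc =>
  Subgroup.mem_centralizer_singleton_iff.2 (Subgroup.mem_centralizer_iff.1 hc t ht).symm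

theorem orderOf_dvd_of_mem_C {c : G} (hc : c ∈ C₀) : orderOf c ∣ 2 * q := by
  obtain ⟨t, ht, ht1⟩ := hd.exists_ne_one
  exact hd.h.orderOf_dvd_of_commute (Or.inl (orderOf_eq_two (hd.sq t ht) ht1))
    (Subgroup.mem_centralizer_singleton_iff.1 (hd.C_le_centralizer ht hc))

theorem prime_dvd_card_C {r : ℕ} (hr : r.Prime) (hdvd : r ∣ Nat.card C₀) : r = 2 ∨ r = q := by
  obtain ⟨t, ht, ht1⟩ := hd.exists_ne_one
  exact hd.h.primes_centralizer (Or.inl (orderOf_eq_two (hd.sq t ht) ht1)) hr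
    (hdvd.trans (Subgroup.card_dvd_of_le (hd.C_le_centralizer ht)))

theorem coprime_card_C {r : ℕ} (hr : r.Prime) (hr2 : r ≠ 2) (hrq : r ≠ q) : ¬ r ∣ Nat.card C₀ :=
  fun h => (hd.prime_dvd_card_C hr h).elim hr2 hrq

/-- The odd part of `C` is `W`. -/
theorem mem_W_of_mem_C {c : G} (hc : c ∈ C₀) (hodd : Odd (orderOf c)) : c ∈ W := by
  rw [hd.centralizer_P] at hc
  have hn : W ≤ Subgroup.normalizer ((P : Subgroup G) : Set G) := hd.W_le_C.trans C_le_M
  rw [← SetLike.mem_coe, Subgroup.coe_mul_of_right_le_normalizer_left _ _ hn] at hc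
  obtain ⟨e, he, w, hw, rfl⟩ := hc
  suffices e = 1 by simpa [this] using hw
  have hew : Commute e w := (Subgroup.mem_centralizer_iff.1 (hd.hPW he) w hw).symm
  haveI : Fact q.Prime := ⟨hd.h.hq⟩
  have hwq := hd.h.pow_q_of_isPGroup hd.hW hw
  have h1 : (e * w) ^ q = e := by
    rw [hew.mul_pow, hwq, mul_one]
    obtain ⟨j, hj⟩ := hd.h.odd_q
    rw [hj, pow_succ, pow_mul, pow_two, hd.sq e he, one_pow, one_mul]
  have h2 : Odd (orderOf e) := h1 ▸ hodd.of_dvd_nat (orderOf_pow_dvd q)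
  by_contra he1
  rw [orderOf_eq_two (hd.sq e he) he1] at h2
  exact absurd h2 (by decide)

theorem M_le_normalizer_W : M₀ ≤ Subgroup.normalizer (W : Set G) := by
  intro g hg
  refine CfsgLib.CoprimeAction.mem_normalizer_of_conj_mem fun w hw => ?_
  refine hd.mem_W_of_mem_C (conj_mem_C hg (hd.W_le_C hw)) ?_
  rw [CfsgLib.Involutions.orderOf_conj]
  exact hd.h.odd_q.of_dvd_nat (orderOf_dvd_of_pow_eq_one (hd.h.pow_q_of_isPGroup hd.hW hw))

theorem W_eq_bot_iff : W = ⊥ ↔ C₀ = (P : Subgroup G) := by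
  refine ⟨fun h => by rw [hd.centralizer_P, h, sup_bot_eq], fun h => (Subgroup.eq_bot_iff_forall W).2 fun w hw => ?_⟩
  have hwP : w ∈ (P : Subgroup G) := h ▸ hd.W_le_C hw
  by_contra hw1
  have h1 := orderOf_eq_two (hd.sq w hwP) hw1
  have h2 := orderOf_dvd_of_pow_eq_one (hd.h.pow_q_of_isPGroup hd.hW hw)
  rw [h1] at h2
  exact hd.h.hq2 ((Nat.prime_dvd_prime_iff_eq Nat.prime_two hd.h.hq).1 h2).symm

theorem transitive' {a b : G} (ha : a ∈ (P : Subgroup G)) (ha1 : a ≠ 1) (hb : b ∈ (P : Subgroup G))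
    (hb1 : b ≠ 1) : ∃ n ∈ M₀, n * a * n⁻¹ = b :=
  hd.toBigTwo.transitive hd.stronglyEmbedded ha ha1 hb hb1

theorem isSolvable_M : Group.IsSolvable M₀ := by
  obtain ⟨t, ht, ht1⟩ := hd.exists_ne_one
  haveI := hd.h.isSolvable_centralizer (Or.inl (orderOf_eq_two (hd.sq t ht) ht1))
  haveI : Group.IsSolvable ((C₀).subgroupOf M₀) := by
    haveI := CfsgLib.CoprimeAction.isSolvable_of_le (hd.C_le_centralizer ht)
    exact Group.isSolvable_of_isSolvable_injective (f := (Subgroup.subgroupOfEquivOfLe (C_le_M (P := P))).toMonoidHom)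
      (Subgroup.subgroupOfEquivOfLe (C_le_M (P := P))).injective
  have hodd : Odd (Nat.card (M₀ ⧸ (C₀).subgroupOf M₀)) := by
    rw [← Subgroup.index_eq_card]; exact hd.odd_relIndex
  have h2 : Group.IsSolvable (M₀ ⧸ (C₀).subgroupOf M₀) := Cfsg.Agent.S0205.result hodd
  exact Group.isSolvable_of_ker_le_range ((C₀).subgroupOf M₀).subtype
    (QuotientGroup.mk' ((C₀).subgroupOf M₀)) (by simp)

theorem mem_P_of_orderOf_two {x : G} (hx : x ∈ M₀) (h2 : orderOf x = 2) : x ∈ (P : Subgroup G) := by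
  haveI : Fact (Nat.Prime 2) := ⟨Nat.prime_two⟩
  haveI : ((P.subtype Subgroup.le_normalizer : Sylow 2 M₀) : Subgroup M₀).Normal :=
    Subgroup.normal_subgroupOf_iff_le_normalizer Subgroup.le_normalizer |>.2 le_rfl
  obtain ⟨Q, hQ⟩ := (IsPGroup.of_card (p := 2) (n := 1) (by
    rw [Nat.card_zpowers, Subgroup.orderOf_mk, h2, pow_one]) :
    IsPGroup 2 (Subgroup.zpowers (⟨x, hx⟩ : M₀))).exists_le_sylow
  haveI := Sylow.unique_of_normal (P.subtype (Subgroup.le_normalizer : (P : Subgroup G) ≤ M₀)) inferInstance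
  rw [Subsingleton.elim Q (P.subtype Subgroup.le_normalizer)] at hQ
  exact hQ (Subgroup.mem_zpowers _)

/-- The transitivity of an overgroup gives the index of a point stabiliser. -/
theorem relIndex_eq {T : Subgroup G} (hT : T ≤ M₀) {a : G} (ha : a ∈ (P : Subgroup G)) (ha1 : a ≠ 1)
    (htr : ∀ b ∈ (P : Subgroup G), b ≠ 1 → ∃ n ∈ T, n * a * n⁻¹ = b) :
    (Subgroup.centralizer ({a} : Set G)).relIndex T + 1 = Nat.card (P : Subgroup G) := by
  classical
  have feq : ∀ x y : G, x * a * x⁻¹ = y * a * y⁻¹ ↔ x⁻¹ * y ∈ Subgroup.centralizer ({a} : Set G) := by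
    intro x y
    rw [Subgroup.mem_centralizer_singleton_iff]
    constructor
    · intro e
      calc x⁻¹ * y * a = x⁻¹ * (y * a * y⁻¹) * y := by group
        _ = a * (x⁻¹ * y) := by rw [← e]; group
    · intro e
      calc x * a * x⁻¹ = x * (a * (x⁻¹ * y)) * y⁻¹ := by group
        _ = x * (x⁻¹ * y * a) * y⁻¹ := by rw [e]
        _ = y * a * y⁻¹ := by group
  let f : T ⧸ (Subgroup.centralizer ({a} : Set G)).subgroupOf T → {b : (P : Subgroup G) // b ≠ 1} :=
    Quotient.lift (fun x => ⟨⟨(x : G) * a * (x : G)⁻¹, (Subgroup.mem_normalizer_iff.1 (hT x.2) a).1 ha⟩,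
      fun e => ha1 (conj_eq_one_iff.1 (congrArg Subtype.val e))⟩) fun x y hxy =>
      Subtype.ext (Subtype.ext ((feq x y).2 (Subgroup.mem_subgroupOf.1 ((QuotientGroup.leftRel_apply).1 hxy))))
  have hbij : Function.Bijective f := by
    constructor
    · intro x y
      refine Quotient.inductionOn₂ x y fun x y e => Quotient.sound ((QuotientGroup.leftRel_apply).2 ?_)
      exact Subgroup.mem_subgroupOf.2 ((feq x y).1 (congrArg (fun z => ((z.1 : (P : Subgroup G)) : G)) e))
    · rintro ⟨⟨b, hb⟩, hb1⟩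
      obtain ⟨n, hn, hnb⟩ := htr b hb fun e => hb1 (Subtype.ext e)
      exact ⟨QuotientGroup.mk ⟨n, hn⟩, Subtype.ext (Subtype.ext hnb)⟩
  rw [Subgroup.relIndex, Subgroup.index_eq_card, Nat.card_eq_of_bijective f hbij]
  haveI := Fintype.ofFinite (P : Subgroup G)
  rw [Nat.card_eq_fintype_card, Nat.card_eq_fintype_card, Fintype.card_subtype_compl,
    Fintype.card_subtype_eq]
  have := Fintype.card_pos (α := (P : Subgroup G))
  omega

/-- An involution outside `M` reaching a given point. -/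
theorem exists_swap {g : G} (hg : g ∉ M₀) :
    ∃ u : G, orderOf u = 2 ∧ u ∉ M₀ ∧ u⁻¹ * g ∈ M₀ ∧
      Nat.card {i : G // orderOf i = 2 ∧ i⁻¹ * g ∈ M₀} + 1 = Nat.card (P : Subgroup G) := by
  classical
  have hne : (QuotientGroup.mk 1 : G ⧸ M₀) ≠ QuotientGroup.mk g := fun e => hg (by
    have := QuotientGroup.eq.1 e
    rwa [inv_one, one_mul] at this)
  have hc := Cfsg.Agent.S1224.result M₀ hd.stronglyEmbedded _ _ hne
  have hiff : ∀ i : G, i • (QuotientGroup.mk 1 : G ⧸ M₀) = QuotientGroup.mk g ↔ i⁻¹ * g ∈ M₀ := fun i => by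
    show (QuotientGroup.mk (i * 1) : G ⧸ M₀) = QuotientGroup.mk g ↔ _
    rw [mul_one, QuotientGroup.eq]
  have hc' : Nat.card {i : G // orderOf i = 2 ∧ i⁻¹ * g ∈ M₀} + 1 = Nat.card (P : Subgroup G) := by
    rw [← Nat.card_congr (Equiv.subtypeEquivRight fun i => and_congr_right fun _ => hiff i), hc]
    haveI := Fintype.ofFinite (P : Subgroup G)
    rw [Nat.card_congr (show {t : G // orderOf t = 2 ∧ t ∈ M₀} ≃ {b : (P : Subgroup G) // b ≠ 1} from
      { toFun := fun t => ⟨⟨t, hd.mem_P_of_orderOf_two t.2.2 t.2.1⟩, fun e => by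
          have h1 := t.2.1
          rw [show (t : G) = 1 from congrArg Subtype.val e, orderOf_one] at h1
          omega⟩
        invFun := fun b => ⟨b.1, orderOf_eq_two (hd.sq _ b.1.2) (fun e => b.2 (Subtype.ext e)),
          Subgroup.le_normalizer b.1.2⟩
        left_inv := fun _ => rfl
        right_inv := fun _ => rfl }), Nat.card_eq_fintype_card, Nat.card_eq_fintype_card,
      Fintype.card_subtype_compl, Fintype.card_subtype_eq]
    have := Fintype.card_pos (α := (P : Subgroup G))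
    omega
  obtain ⟨⟨u, hu2, hug⟩⟩ : Nonempty {i : G // orderOf i = 2 ∧ i⁻¹ * g ∈ M₀} := by
    refine (Nat.card_pos_iff.1 ?_).1
    have := hd.big
    omega
  exact ⟨u, hu2, fun hu => hg (by simpa using Subgroup.mul_mem _ hu hug), hug, hc'⟩

/-- All involutions are conjugate to those of `P`. -/
theorem exists_conj_mem_P {u a : G} (hu : orderOf u = 2) (ha : a ∈ (P : Subgroup G)) (ha1 : a ≠ 1) :
    ∃ c : G, c * a * c⁻¹ = u := by
  have ha2 := orderOf_eq_two (hd.sq a ha) ha1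
  haveI := hd.simple
  obtain ⟨g, hg⟩ : ∃ g : G, g ∉ M₀ := by
    by_contra hall
    push Not at hall
    exact hd.toBigTwo.normalizer_ne_top ((Subgroup.eq_top_iff' _).2 hall)
  obtain ⟨v, hv2, hvM, -, -⟩ := hd.exists_swap hg
  exact isConj_iff.1 ((Cfsg.Agent.S1225.result M₀ hd.stronglyEmbedded v hv2 hvM a a ha2
    (Subgroup.le_normalizer ha) ha2 (Subgroup.le_normalizer ha)).2 a u ha2 hu)

end CfsgLib.NoThreeOrders.BigData
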