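import Cfsg.Agent.Lib.NoThreeOrders.Rank3Complement

/-!
The complement `L`, and the case `W ≠ 1`.
-/

set_option autoImplicit false
set_option linter.style.haveILetI false
set_option linter.unusedSectionVars false

open Cfsg
open scoped IsMulCommutative Pointwise

namespace CfsgLib.NoThreeOrders.Compl

variable {G : Type*} [Group G] [Finite G] {q : ℕ} {P : Sylow 2 G} {W : Subgroup G} {p : ℕ} {k : G}
  (hc : Compl G q P W p k)

local notation "M₀" => Subgroup.normalizer ((P : Subgroup G) : Set G)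
local notation "C₀" => Subgroup.centralizer ((P : Subgroup G) : Set G)
local notation "L₀" => (Subgroup.normalizer ((P : Subgroup G) : Set G) ⊓ Subgroup.normalizer (Subgroup.zpowers k : Set G) : Subgroup G)

include hc

theorem isPGroup_R : IsPGroup p (Subgroup.zpowers k) :=
  IsPGroup.of_card (n := 1) (by rw [Nat.card_zpowers, hc.k_ord, pow_one])

theorem k_mem_L : k ∈ L₀ := ⟨hc.k_mem, Subgroup.le_normalizer (Subgroup.mem_zpowers k)⟩

theorem eq_one_of_mem_L {x : G} (hx : x ∈ L₀) (hxC : x ∈ C₀) : x = 1 :=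
  Subgroup.mem_bot.1 (hc.inf_eq ▸ ⟨hx, hxC⟩)

/-- Congruent elements of `L` are equal. -/
theorem eq_of_mem_L {x y : G} (hx : x ∈ L₀) (hy : y ∈ L₀) (h : x⁻¹ * y ∈ C₀) : x = y :=
  inv_mul_eq_one.1 (hc.eq_one_of_mem_L (mul_mem (inv_mem hx) hy) h)

theorem card_L : Nat.card L₀ = (C₀).relIndex M₀ := by
  rw [Subgroup.relIndex, Subgroup.index_eq_card]
  refine Nat.card_eq_of_bijective
    (fun l : L₀ => (QuotientGroup.mk (⟨l, l.2.1⟩ : M₀) : M₀ ⧸ (C₀).subgroupOf M₀)) ⟨fun a b hab => ?_, fun z => ?_⟩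
  · have h0 : (a : G)⁻¹ * b ∈ C₀ := (QuotientGroup.eq (s := (C₀).subgroupOf M₀)).1 hab
    exact Subtype.ext (hc.eq_of_mem_L a.2 b.2 h0)
  · obtain ⟨m, rfl⟩ := QuotientGroup.mk_surjective z
    obtain ⟨l, hl, c, hcC, he⟩ := hc.dec m m.2
    refine ⟨⟨l, hl⟩, QuotientGroup.eq.2 ?_⟩
    show l⁻¹ * (m : G) ∈ C₀
    rw [he, inv_mul_cancel_left]
    exact hcC

theorem odd_L : Odd (Nat.card L₀) := by rw [hc.card_L]; exact hc.toBigData.odd_relIndex

theorem odd_orderOf {x : G} (hx : x ∈ L₀) : Odd (orderOf x) :=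
  hc.odd_L.of_dvd_nat (Subgroup.orderOf_dvd_natCard _ hx)

theorem transitive_L {a b : G} (ha : a ∈ (P : Subgroup G)) (ha1 : a ≠ 1) (hb : b ∈ (P : Subgroup G))
    (hb1 : b ≠ 1) : ∃ l ∈ L₀, l * a * l⁻¹ = b := by
  obtain ⟨m, hm, hmb⟩ := hc.toBigData.transitive' ha ha1 hb hb1
  obtain ⟨l, hl, c, hcC, rfl⟩ := hc.dec m hm
  refine ⟨l, hl, ?_⟩
  rw [← hmb]
  have hca : Commute c a := (Subgroup.mem_centralizer_iff.1 hcC a ha).symm
  calc l * a * l⁻¹ = l * (c * a * c⁻¹) * l⁻¹ := by rw [conj_eq_of_commute hca]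
    _ = l * c * a * (l * c)⁻¹ := by group

theorem orderOf_dvd_of_fix {l a : G} (hl : l ∈ L₀) (ha : a ∈ (P : Subgroup G)) (ha1 : a ≠ 1)
    (h : Commute l a) : orderOf l ∣ q := by
  have h1 := hc.h.orderOf_dvd_of_commute (Or.inl (orderOf_eq_two (hc.toBigData.sq a ha) ha1)) h
  exact (Nat.coprime_two_right.2 (hc.odd_orderOf hl)).dvd_of_dvd_mul_left h1

theorem k_free {a : G} (ha : a ∈ (P : Subgroup G)) {x : G} (hx : x ∈ Subgroup.zpowers k) (hx1 : x ≠ 1)
    (h : Commute x a) : a = 1 := by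
  by_contra ha1
  exact hx1 (hc.h.eq_one_of_commute (Or.inl (orderOf_eq_two (hc.toBigData.sq a ha) ha1)) hc.hp hc.hp2
    hc.hpq hc.isPGroup_R hx h)

theorem k_ne_one : k ≠ 1 := fun e => hc.hp.ne_one (by rw [← hc.k_ord, e, orderOf_one])

/-- An element of order `q` of `L` acts without fixed points on `⟨k⟩`. -/
theorem free_of_order_q {y : G} (hy : orderOf y = q) {n : G} (hn : n ∈ Subgroup.zpowers k)
    (h : Commute y n) : n = 1 :=
  hc.h.eq_one_of_commute (Or.inr hy) hc.hp hc.hp2 hc.hpq hc.isPGroup_R hn h.symm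

theorem not_dvd_L_of_W (hW : W ≠ ⊥) : ¬ q ∣ Nat.card L₀ := by
  intro hqd
  haveI : Fact q.Prime := ⟨hc.h.hq⟩
  obtain ⟨⟨y, hyL⟩, hy⟩ := exists_prime_orderOf_dvd_card' (G := L₀) q hqd
  rw [Subgroup.orderOf_mk] at hy
  haveI : Nontrivial W := (Subgroup.nontrivial_iff_ne_bot W).2 hW
  haveI := hc.hW.center_nontrivial
  set Z := (Subgroup.center W).map W.subtype with hZ
  have hZW : Z ≤ W := Subgroup.map_subtype_le _
  have hZn : M₀ ≤ Subgroup.normalizer (Z : Set G) := by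
    intro g hg
    have hgW := hc.toBigData.M_le_normalizer_W hg
    refine CfsgLib.CoprimeAction.mem_normalizer_of_conj_mem fun z hz => ?_
    obtain ⟨z', hz', rfl⟩ := hz
    refine ⟨⟨g * (z' : G) * g⁻¹, (Subgroup.mem_normalizer_iff.1 hgW _).1 z'.2⟩, ?_, rfl⟩
    refine Subgroup.mem_center_iff.2 fun w => Subtype.ext ?_
    have hw : g⁻¹ * (w : G) * g ∈ W := (Subgroup.mem_normalizer_iff''.1 hgW _).1 w.2
    have h2 : g⁻¹ * (w : G) * g * (z' : G) = (z' : G) * (g⁻¹ * (w : G) * g) :=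
      congrArg Subtype.val (Subgroup.mem_center_iff.1 hz' ⟨_, hw⟩)
    show (w : G) * (g * (z' : G) * g⁻¹) = g * (z' : G) * g⁻¹ * w
    calc (w : G) * (g * (z' : G) * g⁻¹) = g * (g⁻¹ * (w : G) * g * (z' : G)) * g⁻¹ := by group
      _ = g * ((z' : G) * (g⁻¹ * (w : G) * g)) * g⁻¹ := by rw [h2]
      _ = g * (z' : G) * g⁻¹ * w := by group
  have hZ1 : Z ≠ ⊥ := by
    rw [hZ, Ne, Subgroup.map_eq_bot_iff_of_injective _ W.subtype_injective]
    exact (Subgroup.nontrivial_iff_ne_bot _).1 inferInstance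
  have hyn : y ∉ Z := fun h => by
    have := hc.eq_one_of_mem_L hyL (hc.toBigData.W_le_C (hZW h))
    rw [this, orderOf_one] at hy
    exact hc.h.hq.ne_one hy.symm
  have hcop : (Nat.card Z).Coprime (Nat.card (Subgroup.zpowers k)) := by
    obtain ⟨i, hi⟩ := (hc.hW.to_le hZW).exists_card_eq
    rw [hi, Nat.card_zpowers, hc.k_ord]
    exact Nat.Coprime.pow_left i ((Nat.coprime_primes hc.h.hq hc.hp).2 (Ne.symm hc.hpq))
  obtain ⟨v, hv, hv'⟩ := exists_orbitProd_ne_one (N := Subgroup.zpowers k) (V := Z) hy hc.h.hq hyL.2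
    (fun n hn h => hc.free_of_order_q hy hn h) (fun a ha b hb => by
      obtain ⟨a', ha', rfl⟩ := ha
      obtain ⟨b', -, rfl⟩ := hb
      exact (congrArg Subtype.val (Subgroup.mem_center_iff.1 ha' b')).symm)
    (Subgroup.zpowers_le.2 (hZn hc.k_mem)) (hZn hyL.1) hZ1 hcop (fun v hv h => by
      by_contra hv1
      have hvo : orderOf v = q := orderOf_eq_prime (hc.h.pow_q_of_isPGroup hc.hW (hZW hv)) hv1
      exact hc.k_ne_one (hc.h.eq_one_of_commute (Or.inr hvo) hc.hp hc.hp2 hc.hpq hc.isPGroup_R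
        (Subgroup.mem_zpowers k) (h k (Subgroup.mem_zpowers k))))
  exact hv' (hc.h.orbitProd_eq_one_of_q (hc.hW.to_le hZW) hc.h.hq hc.h.hq2 hy (hZn hyL.1) hv hyn)

/-- The case `W ≠ 1` gives a Zassenhaus group whose degree is impossible. -/
theorem W_eq_bot : W = ⊥ := by
  by_contra hW
  haveI := hc.simple
  haveI : Fact q.Prime := ⟨hc.h.hq⟩
  haveI : Fact (Nat.Prime 2) := ⟨Nat.prime_two⟩
  have hd := hc.toBigData
  have hqL := hc.not_dvd_L_of_W hW
  obtain ⟨t, ht, ht1⟩ := hd.exists_ne_one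
  have ht2 := orderOf_eq_two (hd.sq t ht) ht1
  have hfix : ∀ x ∈ M₀, Commute x t → x ∈ C₀ := by
    intro x hx hxt
    obtain ⟨l, hl, c, hcC, rfl⟩ := hc.dec x hx
    have hlt : Commute l t := by
      have := hxt.mul_left (show Commute c t from (Subgroup.mem_centralizer_iff.1 hcC t ht).symm).inv_left
      rwa [mul_assoc, mul_inv_cancel, mul_one] at this
    have hl1 : l = 1 := by
      rcases (Nat.dvd_prime hc.h.hq).1 (hc.orderOf_dvd_of_fix hl ht ht1 hlt) with e | e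
      · exact orderOf_eq_one_iff.1 e
      · exact absurd (e ▸ Subgroup.orderOf_dvd_natCard _ hl) hqL
    rw [hl1, one_mul]; exact hcC
  have hcq : ∀ r : ℕ, r.Prime → r ∣ Nat.card L₀ → r ≠ 2 ∧ r ≠ q := fun r hr hrd => ⟨by
    rintro rfl
    exact Nat.not_even_iff_odd.2 hc.odd_L (even_iff_two_dvd.2 hrd), by rintro rfl; exact hqL hrd⟩
  have hcfg : CfsgLib.CIT.TIConfig M₀ C₀ t := by
    refine ⟨hd.stronglyEmbedded, ?_, BigData.C_le_M, fun m hm => ?_, ht2, le_antisymm (fun x hx => ?_) (hd.C_le_centralizer ht),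
      fun g hg => ?_, ?_⟩
    · obtain ⟨g, hg⟩ : ∃ g : G, g ∉ M₀ := by
        by_contra hall
        push Not at hall
        exact hd.toBigTwo.normalizer_ne_top ((Subgroup.eq_top_iff' _).2 hall)
      obtain ⟨u, hu, huM, -, -⟩ := hd.exists_swap hg
      exact ⟨u, hu, huM⟩
    · exact CfsgLib.CoprimeAction.mem_normalizer_of_conj_mem fun x hx => BigData.conj_mem_C hm hx
    · exact hfix x (hd.centralizer_le_normalizer ht ht1 hx) (Subgroup.mem_centralizer_singleton_iff.1 hx)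
    · rw [Subgroup.eq_bot_iff_forall]
      rintro x ⟨hxC, hxg⟩
      replace hxg : g⁻¹ * x * g ∈ M₀ := CfsgLib.Involutions.mem_map_conj.1 hxg
      by_contra hx1
      obtain ⟨r, hr, hrd⟩ := Nat.exists_prime_and_dvd (fun e => hx1 (orderOf_eq_one_iff.1 e))
      obtain ⟨i, hi⟩ := exists_pow_orderOf x hrd
      have hzC : x ^ i ∈ C₀ := pow_mem hxC i
      have hzg : g⁻¹ * x ^ i * g ∈ M₀ := by
        have := pow_mem hxg i
        rwa [show (g⁻¹ * x * g) ^ i = g⁻¹ * x ^ i * g by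
          have := conj_pow (i := i) (a := g⁻¹) (b := x)
          rwa [inv_inv] at this] at this
      have hd2q := hrd.trans (hd.orderOf_dvd_of_mem_C hxC)
      rcases hr.dvd_mul.1 hd2q with h' | h'
      · rw [(Nat.prime_dvd_prime_iff_eq hr Nat.prime_two).1 h'] at hi
        exact hg (CfsgLib.Involutions.mem_of_conj_mem_of_stronglyEmbedded hd.stronglyEmbedded hzg
          (by rw [show g⁻¹ * x ^ i * g = g⁻¹ * x ^ i * g⁻¹⁻¹ by rw [inv_inv], CfsgLib.Involutions.orderOf_conj, hi])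
          (by rw [show g * (g⁻¹ * x ^ i * g) * g⁻¹ = x ^ i by group]; exact BigData.C_le_M hzC))
      rw [(Nat.prime_dvd_prime_iff_eq hr hc.h.hq).1 h'] at hi
      set z := x ^ i
      set z' := g⁻¹ * z * g with hz'
      have hz'o : orderOf z' = q := by
        rw [hz', show g⁻¹ * z * g = g⁻¹ * z * g⁻¹⁻¹ by rw [inv_inv], CfsgLib.Involutions.orderOf_conj, hi]
      obtain ⟨l, hl, c, hcC, he⟩ := hc.dec z' hzg
      -- the image of `z'` in `M/C` has order prime to `q`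
      have hz'C : z' ∈ C₀ := by
        have h1 := orderOf_map_dvd (QuotientGroup.mk' ((C₀).subgroupOf M₀)) (⟨z', hzg⟩ : M₀)
        rw [Subgroup.orderOf_mk, hz'o] at h1
        have h2 : orderOf (QuotientGroup.mk' ((C₀).subgroupOf M₀) (⟨z', hzg⟩ : M₀)) ∣ Nat.card L₀ := by
          rw [hc.card_L, Subgroup.relIndex, Subgroup.index_eq_card]
          exact orderOf_dvd_natCard _
        rcases (Nat.dvd_prime hc.h.hq).1 h1 with e | e
        · exact (QuotientGroup.eq_one_iff (⟨z', hzg⟩ : M₀)).1 (orderOf_eq_one_iff.1 e)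
        · exact absurd (e ▸ h2) hqL
      haveI := hc.h.isSolvable_centralizer (a := z) (Or.inr hi)
      have hle : Subgroup.centralizer ({z} : Set G) ≤ M₀ := hd.solvable_le _ fun b hb =>
        Subgroup.mem_centralizer_singleton_iff.2 (Subgroup.mem_centralizer_iff.1 hzC b hb)
      refine hg (CfsgLib.Involutions.mem_of_conj_mem_of_stronglyEmbedded hd.stronglyEmbedded
        (Subgroup.le_normalizer ht) ht2 (hle (Subgroup.mem_centralizer_singleton_iff.2 ?_)))
      have h3 : Commute t z' := Subgroup.mem_centralizer_iff.1 hz'C t ht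
      calc g * t * g⁻¹ * z = g * (t * z') * g⁻¹ := by rw [hz']; group
        _ = g * (z' * t) * g⁻¹ := by rw [h3.eq]
        _ = z * (g * t * g⁻¹) := by rw [hz']; group
    · rw [← hc.card_L]
      refine Nat.coprime_of_dvd fun r hr h1 h2 => ?_
      obtain ⟨hr2, hrq⟩ := hcq r hr h2
      exact hd.coprime_card_C hr hr2 hrq h1
  have hm : 1 < CfsgLib.CIT.TIConfig.m M₀ C₀ := by
    show 1 < (C₀).relIndex M₀
    rw [← hc.card_L]
    have h1 := Subgroup.orderOf_dvd_natCard _ hc.k_mem_L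
    rw [hc.k_ord] at h1
    exact lt_of_lt_of_le hc.hp.one_lt (Nat.le_of_dvd Nat.card_pos h1)
  haveI := Fintype.ofFinite (G ⧸ M₀)
  have hpp := Cfsg.Agent.S0346.result (hcfg.zassenhaus hm)
  rw [← Nat.card_eq_fintype_card, ← Subgroup.index_eq_card, hcfg.index_eq hm, Nat.add_sub_cancel] at hpp
  obtain ⟨r, j, hr', -, hre⟩ := (isPrimePow_def _).1 hpp
  have hr : r.Prime := Nat.prime_iff.2 hr'
  have h2 : 2 ∣ Nat.card C₀ := (dvd_of_eq ht2.symm).trans (Subgroup.orderOf_dvd_natCard _ (hd.P_le_C ht))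
  have hq : q ∣ Nat.card C₀ := by
    obtain ⟨⟨w, hw⟩, hw1⟩ := Subgroup.ne_bot_iff_exists_ne_one.1 hW
    have hwo : orderOf w = q := orderOf_eq_prime (hc.h.pow_q_of_isPGroup hc.hW hw) fun e => hw1 (Subtype.ext e)
    exact hwo ▸ Subgroup.orderOf_dvd_natCard _ (hd.W_le_C hw)
  rw [← hre] at h2 hq
  exact hc.h.hq2 (((Nat.prime_dvd_prime_iff_eq hc.h.hq hr).1 (hc.h.hq.dvd_of_dvd_pow hq)).trans
    ((Nat.prime_dvd_prime_iff_eq Nat.prime_two hr).1 (Nat.prime_two.dvd_of_dvd_pow h2)).symm)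

end CfsgLib.NoThreeOrders.Compl
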