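import Cfsg.Agent.Lib.NoThreeOrders.Rank3Basic
import Cfsg.Agent.Lib.CIT.TI
import Cfsg.Agent.Lib.Hall.Existence
import Cfsg.Agent.S0346

/-!
`N(P) = L C(P)` with `L` normalising a subgroup of prime order `p` acting without fixed points.
-/

set_option autoImplicit false
set_option linter.style.haveILetI false
set_option linter.unusedSectionVars false

open Cfsg
open scoped IsMulCommutative Pointwise commutatorElement

namespace CfsgLib.NoThreeOrders

variable {G : Type*} [Group G] [Finite G] {q : ℕ}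

/-- An element of `p`-power order, `p` neither `2` nor `q`, commuting with an element of order `2` or `q` is
trivial. -/
theorem TwoQ.eq_one_of_commute (h : TwoQ G q) {a x : G} (ha : orderOf a = 2 ∨ orderOf a = q) {p : ℕ}
    (hp : p.Prime) (hp2 : p ≠ 2) (hpq : p ≠ q) {R : Subgroup G} (hR : IsPGroup p R) (hx : x ∈ R)
    (hxa : Commute x a) : x = 1 := by
  haveI : Fact p.Prime := ⟨hp⟩
  obtain ⟨j, hj⟩ := IsPGroup.iff_orderOf.1 hR ⟨x, hx⟩
  rw [Subgroup.orderOf_mk] at hj
  have hd := h.orderOf_dvd_of_commute ha hxa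
  rw [hj] at hd
  rcases j with _ | j
  · exact orderOf_eq_one_iff.1 (by rw [hj, pow_zero])
  exfalso
  rcases hp.dvd_mul.1 ((dvd_pow_self p (Nat.succ_ne_zero j)).trans hd) with h' | h'
  · exact hp2 ((Nat.prime_dvd_prime_iff_eq hp Nat.prime_two).1 h')
  · exact hpq ((Nat.prime_dvd_prime_iff_eq hp h.hq).1 h')

/-- An abelian `p`-group normalising a nontrivial 2-group is cyclic. -/
theorem TwoQ.isCyclic_of_fpf (h : TwoQ G q) {E R : Subgroup G} (hE2 : ∀ a ∈ E, a * a = 1) (hE : E ≠ ⊥)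
    {p : ℕ} (hp : p.Prime) (hp2 : p ≠ 2) (hpq : p ≠ q) (hR : IsPGroup p R) [IsMulCommutative R]
    (hRE : R ≤ Subgroup.normalizer (E : Set G)) : IsCyclic R := by
  haveI : Fact p.Prime := ⟨hp⟩
  haveI : Fact (Nat.Prime 2) := ⟨Nat.prime_two⟩
  by_contra hc
  refine hE (le_bot_iff.1 (CfsgLib.CoprimeAction.le_of_centralizers hc hRE
    ?_ fun x hx hx1 => ?_))
  · obtain ⟨i, hi⟩ := hR.exists_card_eq
    obtain ⟨j, hj⟩ := (isPGroup_two_of_mul_self hE2).exists_card_eq
    rw [hi, hj]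
    exact Nat.Coprime.pow i j ((Nat.coprime_primes hp Nat.prime_two).2 hp2)
  · rintro a ⟨ha, hax⟩
    rw [Subgroup.mem_bot]
    by_contra ha1
    exact hx1 (h.eq_one_of_commute (Or.inl (orderOf_eq_two (hE2 a ha) ha1)) hp hp2 hpq hR hx
      (Subgroup.mem_centralizer_singleton_iff.1 hax).symm)

/-- `k` generates a subgroup of prime order `p` whose normalizer in `N(P)` complements `C(P)`. -/
structure Compl (G : Type*) [Group G] (q : ℕ) (P : Sylow 2 G) (W : Subgroup G) (p : ℕ) (k : G) : Prop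
    extends BigData G q P W where
  hp : p.Prime
  hp2 : p ≠ 2
  hpq : p ≠ q
  k_ord : orderOf k = p
  k_mem : k ∈ Subgroup.normalizer ((P : Subgroup G) : Set G)
  dec : ∀ m ∈ Subgroup.normalizer ((P : Subgroup G) : Set G),
    ∃ l ∈ Subgroup.normalizer ((P : Subgroup G) : Set G) ⊓ Subgroup.normalizer (Subgroup.zpowers k : Set G),
      ∃ c ∈ Subgroup.centralizer ((P : Subgroup G) : Set G), m = l * c
  inf_eq : Subgroup.normalizer ((P : Subgroup G) : Set G) ⊓ Subgroup.normalizer (Subgroup.zpowers k : Set G) ⊓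
      Subgroup.centralizer ((P : Subgroup G) : Set G) = ⊥

namespace BigData

variable {P : Sylow 2 G} {W : Subgroup G} (hd : BigData G q P W)

local notation "M₀" => Subgroup.normalizer ((P : Subgroup G) : Set G)
local notation "C₀" => Subgroup.centralizer ((P : Subgroup G) : Set G)

include hd

theorem exists_compl (hQ : ¬ ∀ r : ℕ, r.Prime → r ∣ (C₀).relIndex M₀ → r = q) :
    ∃ p k, Compl G q P W p k := by
  classical
  push Not at hQ
  obtain ⟨r, hr, hrd, hrq⟩ := hQ
  haveI : Fact q.Prime := ⟨hd.h.hq⟩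
  haveI : Fact r.Prime := ⟨hr⟩
  haveI := hd.comm'
  set Cs := (C₀).subgroupOf M₀ with hCs
  set π := QuotientGroup.mk' Cs
  haveI := hd.isSolvable_M
  haveI : Group.IsSolvable (M₀ ⧸ Cs) := Group.isSolvable_of_surjective (QuotientGroup.mk'_surjective Cs)
  haveI : Nontrivial (M₀ ⧸ Cs) := by
    refine QuotientGroup.nontrivial_iff.2 fun e => hr.not_dvd_one ?_
    have : Cs.index = 1 := by rw [e, Subgroup.index_top]
    exact this ▸ hrd
  obtain ⟨p, hp, hne⟩ := CfsgLib.Hall.exists_pCore_ne_bot (G := M₀ ⧸ Cs)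
  haveI : Fact p.Prime := ⟨hp⟩
  set K := pCore p (M₀ ⧸ Cs) with hKdef
  have hKp : IsPGroup p K := CfsgLib.Cores.isPGroup_pCore p _
  have hr2 : r ≠ 2 := by
    rintro rfl
    exact Nat.not_even_iff_odd.2 hd.odd_relIndex (even_iff_two_dvd.2 hrd)
  have hodd : Odd (Nat.card (M₀ ⧸ Cs)) := by rw [← Subgroup.index_eq_card]; exact hd.odd_relIndex
  have hKdvd : p ∣ Nat.card K := by
    obtain ⟨i, hi⟩ := hKp.exists_card_eq
    rcases i with _ | i
    · exact absurd (Subgroup.card_eq_one.1 (by simpa using hi)) hne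
    · exact hi ▸ dvd_pow_self p (Nat.succ_ne_zero i)
  have hp2 : p ≠ 2 := by
    rintro rfl
    exact Nat.not_even_iff_odd.2 hodd (even_iff_two_dvd.2 (hKdvd.trans (Subgroup.card_subgroup_dvd_card K)))
  have hCcard : Nat.card Cs = Nat.card C₀ :=
    Nat.card_congr (Subgroup.subgroupOfEquivOfLe C_le_M).toEquiv
  obtain ⟨a, ha, ha1⟩ := hd.exists_ne_one
  -- the preimage of a normal subgroup
  have hpre : ∀ J : Subgroup (M₀ ⧸ Cs), Nat.card (J.comap π) = Nat.card J * Nat.card C₀ := by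
    intro J
    have h1 := Subgroup.index_comap_of_surjective J (QuotientGroup.mk'_surjective Cs)
    have h2 := (J.comap π).card_mul_index
    have h3 := J.card_mul_index
    have h4 := Cs.card_mul_index
    rw [h1] at h2
    rw [Subgroup.index_eq_card Cs, hCcard, ← h3, ← mul_assoc, ← h2] at h4
    have h5 := Nat.eq_of_mul_eq_mul_right (Nat.pos_of_ne_zero Subgroup.index_ne_zero_of_finite) h4
    rw [← h5, mul_comm]
  have hpq : p ≠ q := by
    intro e
    subst e
    set N := (K.comap π).map (M₀).subtype with hN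
    have hNM : N ≤ M₀ := Subgroup.map_subtype_le _
    have hMN : M₀ ≤ Subgroup.normalizer (N : Set G) := by
      intro g hg
      refine Subgroup.le_normalizer_map (M₀).subtype ⟨⟨g, hg⟩, ?_, rfl⟩
      rw [SetLike.mem_coe, Subgroup.normalizer_eq_top (H := K.comap π)]
      exact Subgroup.mem_top _
    have hNr : ¬ r ∣ Nat.card N := by
      rw [hN, Subgroup.card_map_of_injective (M₀).subtype_injective, hpre]
      intro hdd
      rcases hr.dvd_mul.1 hdd with h1 | h1
      · obtain ⟨i, hi⟩ := hKp.exists_card_eq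
        rw [hi] at h1
        exact hrq ((Nat.prime_dvd_prime_iff_eq hr hp).1 (hr.dvd_of_dvd_pow h1))
      · exact hd.coprime_card_C hr hr2 hrq h1
    obtain ⟨s, hs⟩ := exists_prime_orderOf_dvd_card' (G := M₀) r
      (hrd.trans (Cs.index_dvd_card))
    have hso : orderOf (s : G) = r := by rw [Subgroup.orderOf_coe]; exact hs
    have hcop : (Nat.card (Subgroup.zpowers (s : G))).Coprime (Nat.card N) := by
      rw [Nat.card_zpowers, hso]
      exact (Nat.Prime.coprime_iff_not_dvd hr).2 hNr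
    obtain ⟨S, hS⟩ := CfsgLib.CoprimeAction.exists_invariant_sylow (A := Subgroup.zpowers (s : G)) (K := N)
      (Subgroup.zpowers_le.2 (hMN s.2)) hcop (Or.inl (CfsgLib.CoprimeAction.isSolvable_zpowers _)) p
    set Qs := (S : Subgroup N).map N.subtype
    have hQs : IsPGroup p Qs := S.isPGroup'.map N.subtype
    have hQsN : Qs ≤ N := Subgroup.map_subtype_le _
    -- `Qs` covers `K`
    have hcover : ∀ x ∈ N, ∃ z ∈ Qs, z⁻¹ * x ∈ C₀ := by
      intro x hx
      let g : N →* K :=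
        { toFun := fun y => ⟨π ⟨y, hNM y.2⟩, by
            obtain ⟨w, hw, hwy⟩ := y.2
            have hwy' : (⟨y, hNM y.2⟩ : M₀) = w := Subtype.ext hwy.symm
            rw [hwy']; exact hw⟩
          map_one' := Subtype.ext (map_one π)
          map_mul' := fun u v => Subtype.ext (map_mul π ⟨u, hNM u.2⟩ ⟨v, hNM v.2⟩) }
      have hg : Function.Surjective g := by
        rintro ⟨z, hz⟩
        obtain ⟨w, rfl⟩ := QuotientGroup.mk'_surjective Cs z
        exact ⟨⟨w, ⟨w, hz, rfl⟩⟩, rfl⟩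
      have htop : ((S.mapSurjective hg) : Subgroup K) = ⊤ :=
        ((S.mapSurjective hg).is_maximal' (hKp.to_subgroup ⊤) le_top).symm
      have : g ⟨x, hx⟩ ∈ ((S : Subgroup N).map g) := by
        show g ⟨x, hx⟩ ∈ ((S.mapSurjective hg) : Subgroup K)
        rw [htop]; exact Subgroup.mem_top _
      obtain ⟨z, hz, hzx⟩ := this
      refine ⟨z, ⟨z, hz, rfl⟩, ?_⟩
      have h0 : (⟨z, hNM z.2⟩ : M₀)⁻¹ * ⟨x, hNM hx⟩ ∈ Cs :=
        (QuotientGroup.eq (s := Cs)).1 (congrArg Subtype.val hzx)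
      exact h0
    have hfix : ∀ v ∈ (P : Subgroup G), (∀ z ∈ Qs, Commute z v) → v = 1 := by
      intro v hv hvz
      by_contra hv1
      refine hne ((Subgroup.eq_bot_iff_forall K).2 fun z hz => ?_)
      obtain ⟨w, rfl⟩ := QuotientGroup.mk'_surjective Cs z
      refine (QuotientGroup.eq_one_iff w).2 ?_
      show (w : G) ∈ C₀
      rw [Subgroup.mem_centralizer_iff]
      intro b hb
      by_cases hb1 : b = 1
      · rw [hb1, one_mul, mul_one]
      obtain ⟨m, hm, hmb⟩ := hd.transitive' hv hv1 hb hb1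
      have hx : m⁻¹ * (w : G) * m ∈ N := (Subgroup.mem_normalizer_iff''.1 (hMN hm) _).1 ⟨w, hz, rfl⟩
      obtain ⟨z', hz', hzC⟩ := hcover _ hx
      have hcomm : Commute (z' * (z'⁻¹ * (m⁻¹ * (w : G) * m))) v :=
        (hvz z' hz').mul_left (Subgroup.mem_centralizer_iff.1 hzC v hv).symm
      rw [mul_inv_cancel_left] at hcomm
      rw [← hmb]
      calc m * v * m⁻¹ * (w : G) = m * (v * (m⁻¹ * (w : G) * m)) * m⁻¹ := by group
        _ = m * ((m⁻¹ * (w : G) * m) * v) * m⁻¹ := by rw [hcomm.eq]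
        _ = (w : G) * (m * v * m⁻¹) := by group
    haveI : Fact (Nat.Prime 2) := ⟨Nat.prime_two⟩
    have hcop2 : (Nat.card (P : Subgroup G)).Coprime (Nat.card Qs) := by
      obtain ⟨i, hi⟩ := P.isPGroup'.exists_card_eq
      obtain ⟨j, hj⟩ := hQs.exists_card_eq
      rw [hi, hj]
      exact Nat.Coprime.pow i j hd.h.coprime_two
    obtain ⟨v, hv, hv'⟩ := exists_orbitProd_ne_one (N := Qs) (V := (P : Subgroup G)) hso hr
      (hS (Subgroup.mem_zpowers _)) (fun n hn hc => by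
        by_contra hn1
        have hno : orderOf n = p := orderOf_eq_prime (hd.h.pow_q_of_isPGroup hQs hn) hn1
        exact hr.ne_one ((orderOf_eq_one_iff.2 (hd.h.eq_one_of_commute (Or.inr hno) hr hr2 hrq
          (IsPGroup.of_card (p := r) (n := 1) (by rw [Nat.card_zpowers, hso, pow_one]))
          (Subgroup.mem_zpowers (s : G)) hc)).symm.trans hso).symm)
      (fun x hx y hy => hd.h.commute_of_isPGroup P.isPGroup' hx hy) (hQsN.trans hNM) s.2
      hd.toBigTwo.P_ne_bot hcop2 hfix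
    exact hv' (hd.h.orbitProd_eq_one_of_two P.isPGroup' hr hr2 hrq hso s.2 hv)
  -- a normal elementary abelian `p`-subgroup of `M/C`
  set V : Subgroup (M₀ ⧸ Cs) :=
    { carrier := {x | x ∈ K ∧ (∀ y ∈ K, Commute x y) ∧ x ^ p = 1}
      one_mem' := ⟨one_mem _, fun y _ => Commute.one_left y, one_pow p⟩
      mul_mem' := fun {x y} hx hy => ⟨mul_mem hx.1 hy.1, fun z hz => (hx.2.1 z hz).mul_left (hy.2.1 z hz),
        by rw [(hx.2.1 y hy.1).mul_pow, hx.2.2, hy.2.2, one_mul]⟩
      inv_mem' := fun {x} hx => ⟨inv_mem hx.1, fun z hz => (hx.2.1 z hz).inv_left,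
        by rw [inv_pow, hx.2.2, inv_one]⟩ } with hV
  haveI hVn : V.Normal := ⟨fun x hx g => ⟨(inferInstance : K.Normal).conj_mem x hx.1 g, fun z hz => by
    have hc := hx.2.1 (g⁻¹ * z * g) (by have := (inferInstance : K.Normal).conj_mem z hz g⁻¹; rwa [inv_inv] at this)
    calc g * x * g⁻¹ * z = g * (x * (g⁻¹ * z * g)) * g⁻¹ := by group
      _ = g * ((g⁻¹ * z * g) * x) * g⁻¹ := by rw [hc.eq]
      _ = z * (g * x * g⁻¹) := by group, by rw [conj_pow, hx.2.2, mul_one, mul_inv_cancel]⟩⟩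
  have hVK : V ≤ K := fun x hx => hx.1
  have hVp : IsPGroup p V := hKp.to_le hVK
  have hV1 : V ≠ ⊥ := by
    haveI : Nontrivial K := (Subgroup.nontrivial_iff_ne_bot K).2 hne
    haveI := hKp.center_nontrivial
    have hz : p ∣ Nat.card (Subgroup.center K) := by
      obtain ⟨i, hi⟩ := (hKp.to_subgroup (Subgroup.center K)).exists_card_eq
      rcases i with _ | i
      · exact absurd hi (by have := Finite.one_lt_card_iff_nontrivial.2 (inferInstance : Nontrivial (Subgroup.center K)); rw [pow_zero]; omega)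
      · exact hi ▸ dvd_pow_self p (Nat.succ_ne_zero i)
    obtain ⟨⟨⟨z, hzK⟩, hzc⟩, hzo⟩ := exists_prime_orderOf_dvd_card' (G := Subgroup.center K) p hz
    intro hbot
    have hzo' : orderOf z = p := by rw [← hzo, Subgroup.orderOf_mk, Subgroup.orderOf_mk]
    have hmem : z ∈ V := ⟨hzK, fun y hy => congrArg Subtype.val ((Subgroup.mem_center_iff.1 hzc ⟨y, hy⟩)).symm,
      by rw [← hzo', pow_orderOf_eq_one]⟩
    rw [hbot, Subgroup.mem_bot] at hmem
    rw [hmem, orderOf_one] at hzo'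
    exact hp.ne_one hzo'.symm
  set N := (V.comap π) with hN
  have hpC : ¬ p ∣ Nat.card C₀ := hd.coprime_card_C hp hp2 hpq
  obtain ⟨R⟩ : Nonempty (Sylow p N) := inferInstance
  set RG := ((R : Subgroup N).map N.subtype).map (M₀).subtype with hRG
  have hRp : IsPGroup p RG := (R.isPGroup'.map _).map _
  have hRM : RG ≤ M₀ := Subgroup.map_subtype_le _
  have hRV : ∀ x ∈ RG, ∀ hx : x ∈ M₀, π ⟨x, hx⟩ ∈ V := by
    rintro _ ⟨y, ⟨z, hz, rfl⟩, rfl⟩ hx
    exact z.2
  have hRinj : ∀ x ∈ RG, x ∈ C₀ → x = 1 := fun x hx hxC => by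
    obtain ⟨i, hi⟩ := IsPGroup.iff_orderOf.1 hRp ⟨x, hx⟩
    rw [Subgroup.orderOf_mk] at hi
    rcases i with _ | i
    · exact orderOf_eq_one_iff.1 (by rw [hi, pow_zero])
    · exact absurd ((dvd_pow_self p (Nat.succ_ne_zero i)).trans (hi ▸ Subgroup.orderOf_dvd_natCard _ hxC)) hpC
  have hRexp : ∀ x ∈ RG, x ^ p = 1 := fun x hx => by
    refine hRinj _ (pow_mem hx p) ?_
    have h0 : (⟨x, hRM hx⟩ : M₀) ^ p ∈ Cs := (QuotientGroup.eq_one_iff _).1 (by
      rw [QuotientGroup.mk_pow]; exact (hRV x hx (hRM hx)).2.2)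
    exact h0
  haveI : IsMulCommutative RG := IsMulCommutative.of_comm fun u v => by
    refine Subtype.ext (commutatorElement_eq_one_iff_mul_comm.1 (hRinj ⁅(u : G), (v : G)⁆ ?_ ?_))
    · rw [commutatorElement_def]
      exact mul_mem (mul_mem (mul_mem u.2 v.2) (inv_mem u.2)) (inv_mem v.2)
    · have h0 : ⁅(⟨u, hRM u.2⟩ : M₀), (⟨v, hRM v.2⟩ : M₀)⁆ ∈ Cs := (QuotientGroup.eq_one_iff _).1 (by
        show π ⁅(⟨u, hRM u.2⟩ : M₀), (⟨v, hRM v.2⟩ : M₀)⁆ = 1
        rw [map_commutatorElement, commutatorElement_eq_one_iff_mul_comm]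
        exact ((hRV u u.2 (hRM u.2)).2.1 _ (hVK (hRV v v.2 (hRM v.2)))).eq)
      exact h0
  haveI : IsCyclic RG := hd.h.isCyclic_of_fpf hd.sq hd.toBigTwo.P_ne_bot hp hp2 hpq hRp hRM
  obtain ⟨⟨k, hkR⟩, hk⟩ := IsCyclic.exists_generator (α := RG)
  have hRG1 : RG ≠ ⊥ := by
    intro e
    rw [hRG, Subgroup.map_eq_bot_iff_of_injective _ (M₀).subtype_injective,
      Subgroup.map_eq_bot_iff_of_injective _ N.subtype_injective] at e
    refine R.ne_bot_of_dvd_card ?_ e
    rw [hN, hpre]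
    refine Dvd.dvd.mul_right ?_ _
    obtain ⟨i, hi⟩ := hVp.exists_card_eq
    rcases i with _ | i
    · exact absurd (Subgroup.card_eq_one.1 (by simpa using hi)) hV1
    · exact hi ▸ dvd_pow_self p (Nat.succ_ne_zero i)
  have hkeq : RG = Subgroup.zpowers k := by
    refine le_antisymm (fun x hx => ?_) (Subgroup.zpowers_le.2 hkR)
    obtain ⟨i, hi⟩ := Subgroup.mem_zpowers_iff.1 (hk ⟨x, hx⟩)
    exact ⟨i, congrArg Subtype.val hi⟩
  have hk1 : k ≠ 1 := fun e => hRG1 (by rw [hkeq, e, Subgroup.zpowers_one_eq_bot])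
  have hko : orderOf k = p := orderOf_eq_prime (hRexp k hkR) hk1
  refine ⟨p, k, hd, hp, hp2, hpq, hko, hRM hkR, fun m hm => ?_, ?_⟩
  · -- Frattini
    have htop := Sylow.normalizer_sup_eq_top R
    have hmem : (⟨m, hm⟩ : M₀) ∈ Subgroup.normalizer (((R : Subgroup N).map N.subtype : Subgroup M₀) : Set M₀) ⊔ N :=
      htop ▸ Subgroup.mem_top _
    rw [← SetLike.mem_coe, Subgroup.mul_normal] at hmem
    obtain ⟨n, hn, w, hw, he⟩ := hmem
    have hnR : (n : G) ∈ Subgroup.normalizer (RG : Set G) := Subgroup.le_normalizer_map (M₀).subtype ⟨n, hn, rfl⟩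
    -- split the element of `N`
    obtain ⟨z, hz, hzC⟩ : ∃ z ∈ RG, z⁻¹ * (w : G) ∈ C₀ := by
      let g : N →* V :=
        { toFun := fun y => ⟨π y.1, y.2⟩
          map_one' := Subtype.ext (map_one π)
          map_mul' := fun u v => Subtype.ext (map_mul π u.1 v.1) }
      have hg : Function.Surjective g := by
        rintro ⟨z, hz⟩
        obtain ⟨y, rfl⟩ := QuotientGroup.mk'_surjective Cs z
        exact ⟨⟨y, hz⟩, rfl⟩
      have htop' : ((R.mapSurjective hg) : Subgroup V) = ⊤ :=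
        ((R.mapSurjective hg).is_maximal' (hVp.to_subgroup ⊤) le_top).symm
      have hmem' : g ⟨w, hw⟩ ∈ (R : Subgroup N).map g := by
        show g ⟨w, hw⟩ ∈ ((R.mapSurjective hg) : Subgroup V)
        rw [htop']; exact Subgroup.mem_top _
      obtain ⟨z, hz, hzw⟩ := hmem'
      refine ⟨((z : M₀) : G), ⟨z, ⟨z, hz, rfl⟩, rfl⟩, ?_⟩
      have h0 : (z : M₀)⁻¹ * w ∈ Cs := (QuotientGroup.eq (s := Cs)).1 (congrArg Subtype.val hzw)
      exact h0
    refine ⟨(n : G) * z, ⟨mul_mem n.2 (hRM hz), ?_⟩, z⁻¹ * (w : G), hzC, ?_⟩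
    · rw [← hkeq]
      exact mul_mem hnR (Subgroup.le_normalizer hz)
    · rw [mul_assoc, mul_inv_cancel_left]
      exact (congrArg Subtype.val he).symm
  · rw [Subgroup.eq_bot_iff_forall]
    rintro x ⟨⟨hxM, hxk⟩, hxC⟩
    rw [SetLike.mem_coe, ← hkeq] at hxk
    have hcomm : Commute x k := by
      refine commutatorElement_eq_one_iff_commute.1 (hRinj ⁅x, k⁆ ?_ ?_)
      · rw [commutatorElement_def]
        exact mul_mem ((Subgroup.mem_normalizer_iff.1 hxk k).1 hkR) (inv_mem hkR)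
      · rw [commutatorElement_def, mul_assoc, mul_assoc, ← mul_assoc k]
        exact mul_mem hxC (conj_mem_C (hRM hkR) (inv_mem hxC))
    by_contra hx1
    obtain ⟨d, hd', hdd⟩ := Nat.exists_prime_and_dvd (fun e => hx1 (orderOf_eq_one_iff.1 e))
    obtain ⟨i, hi⟩ := exists_pow_orderOf x hdd
    have hd2q := hdd.trans (hd.orderOf_dvd_of_mem_C hxC)
    have hzo : orderOf (x ^ i) = 2 ∨ orderOf (x ^ i) = q := by
      rw [hi]
      rcases hd'.dvd_mul.1 hd2q with h' | h'
      · exact Or.inl ((Nat.prime_dvd_prime_iff_eq hd' Nat.prime_two).1 h')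
      · exact Or.inr ((Nat.prime_dvd_prime_iff_eq hd' hd.h.hq).1 h')
    exact hk1 (hd.h.eq_one_of_commute hzo hp hp2 hpq hRp hkR (hcomm.pow_left i).symm)

end BigData

end CfsgLib.NoThreeOrders
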