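import Cfsg.Agent.Lib.NoThreeOrders.Rank3Hom

/-!
The case `C(P) = P`: counting fixed points gives `q = 3`.
-/

set_option autoImplicit false
set_option linter.style.haveILetI false
set_option linter.unusedSectionVars false

open Cfsg
open scoped IsMulCommutative Pointwise

namespace CfsgLib.NoThreeOrders

variable {G : Type*} [Group G] [Finite G]

/-- A `q`-element acting without fixed points on a subgroup. -/
theorem card_modEq_one {q : ℕ} [Fact q.Prime] {K : Subgroup G} {y : G} (hy : orderOf y = q)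
    (hyK : y ∈ Subgroup.normalizer (K : Set G)) (hfree : ∀ x ∈ K, Commute y x → x = 1) :
    Nat.card K ≡ 1 [MOD q] := by
  set Y := Subgroup.zpowers y
  have hle : Y ≤ Subgroup.normalizer (K : Set G) := Subgroup.zpowers_le.2 hyK
  letI : MulAction Y K :=
    { smul := fun g x => ⟨(g : G) * x * (g : G)⁻¹, (Subgroup.mem_normalizer_iff.1 (hle g.2) x).1 x.2⟩
      one_smul := fun x => Subtype.ext (by show (1 : G) * x * (1 : G)⁻¹ = x; simp)
      mul_smul := fun g h x => Subtype.ext (by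
        show ((g : G) * h) * x * ((g : G) * h)⁻¹ = (g : G) * ((h : G) * x * (h : G)⁻¹) * (g : G)⁻¹
        group) }
  have hY : IsPGroup q Y := IsPGroup.of_card (n := 1) (by rw [Nat.card_zpowers, hy, pow_one])
  have h1 := hY.card_modEq_card_fixedPoints K
  have h2 : Nat.card (MulAction.fixedPoints Y K) = 1 := by
    have hm : (1 : K) ∈ MulAction.fixedPoints Y K := fun g => Subtype.ext (by
      show (g : G) * (1 : G) * (g : G)⁻¹ = 1; simp)
    refine Nat.card_eq_one_iff_unique.2 ⟨⟨fun u v => ?_⟩, ⟨⟨_, hm⟩⟩⟩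
    have key : ∀ w : MulAction.fixedPoints Y K, (w : K) = 1 := fun w => by
      have := congrArg Subtype.val (w.2 ⟨y, Subgroup.mem_zpowers y⟩)
      exact Subtype.ext (hfree _ (w : K).2 (mul_inv_eq_iff_eq_mul.1 this))
    exact Subtype.ext ((key u).trans (key v).symm)
  rwa [h2] at h1

namespace Compl

variable {q : ℕ} {P : Sylow 2 G} {W : Subgroup G} {p : ℕ} {k : G} (hc : Compl G q P W p k)

local notation "M₀" => Subgroup.normalizer ((P : Subgroup G) : Set G)
local notation "C₀" => Subgroup.centralizer ((P : Subgroup G) : Set G)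
local notation "L₀" => (Subgroup.normalizer ((P : Subgroup G) : Set G) ⊓ Subgroup.normalizer (Subgroup.zpowers k : Set G) : Subgroup G)

include hc

/-- Every element of order `p` of `L` lies in `⟨k⟩`. -/
theorem order_p_mem {x : G} (hx : x ∈ L₀) (hxp : x ^ p = 1) : x ∈ Subgroup.zpowers k := by
  haveI : Fact p.Prime := ⟨hc.hp⟩
  haveI := hc.toBigData.comm'
  obtain ⟨i, hi⟩ := exists_conj_eq_zpow hx.2
  -- `x` centralises `k`
  have hiter : ∀ j : ℕ, x ^ j * k * (x ^ j)⁻¹ = k ^ (i ^ j) := by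
    intro j
    induction j with
    | zero => simp
    | succ j ih =>
      calc x ^ (j + 1) * k * (x ^ (j + 1))⁻¹ = x * (x ^ j * k * (x ^ j)⁻¹) * x⁻¹ := by rw [pow_succ']; group
        _ = (x * k * x⁻¹) ^ (i ^ j) := by rw [ih, conj_zpow]
        _ = k ^ (i ^ (j + 1)) := by rw [hi, ← zpow_mul, pow_succ']
  have hp1 := hiter p
  rw [hxp, one_mul, inv_one, mul_one] at hp1
  have h1 : (p : ℤ) ∣ i ^ p - 1 := by
    rw [← hc.k_ord, orderOf_dvd_iff_zpow_eq_one, hc.k_ord, zpow_sub, zpow_one, ← hp1, mul_inv_cancel]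
  have h2 : (p : ℤ) ∣ i - 1 := by
    rw [← ZMod.intCast_zmod_eq_zero_iff_dvd] at h1 ⊢
    push_cast at h1 ⊢
    rwa [ZMod.pow_card] at h1
  have hk : k ^ i = k := by
    rw [← hc.k_ord, orderOf_dvd_iff_zpow_eq_one, zpow_sub, zpow_one, mul_inv_eq_one] at h2
    exact h2
  have hcomm : Commute x k := mul_inv_eq_iff_eq_mul.1 (hi.trans hk)
  set T := Subgroup.closure ({k, x} : Set G) with hT
  have hTset : ∀ u ∈ ({k, x} : Set G), ∀ v ∈ ({k, x} : Set G), Commute u v := by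
    rintro u (rfl | rfl) v (rfl | rfl)
    exacts [Commute.refl _, hcomm.symm, hcomm, Commute.refl _]
  have hTc : IsMulCommutative T := Subgroup.isMulCommutative_closure fun u hu v hv => (hTset u hu v hv).eq
  haveI := hTc
  have hTp : IsPGroup p T := fun z => ⟨1, Subtype.ext (by
    rw [pow_one]
    show (z : G) ^ p = 1
    refine Subgroup.closure_induction (p := fun g _ => g ^ p = 1) ?_ (one_pow p) (fun g h hg hh eg eh => ?_)
      (fun g _ eg => by rw [inv_pow, eg, inv_one]) z.2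
    · rintro g (rfl | rfl)
      · rw [← hc.k_ord, pow_orderOf_eq_one]
      · exact hxp
    · have : Commute g h := congrArg Subtype.val (mul_comm (⟨g, hg⟩ : T) ⟨h, hh⟩)
      rw [this.mul_pow, eg, eh, one_mul])⟩
  have hTM : T ≤ M₀ := (Subgroup.closure_le _).2 (by rintro g (rfl | rfl); exacts [hc.k_mem, hx.1])
  haveI : IsCyclic T := hc.h.isCyclic_of_fpf hc.toBigData.sq hc.toBigData.toBigTwo.P_ne_bot hc.hp hc.hp2 hc.hpq hTp hTM
  obtain ⟨g, hg⟩ := IsCyclic.exists_generator (α := T)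
  have hkT : k ∈ T := Subgroup.subset_closure (Or.inl rfl)
  have hxT : x ∈ T := Subgroup.subset_closure (Or.inr rfl)
  have hle : Nat.card T ≤ p := by
    rw [← orderOf_eq_card_of_forall_mem_zpowers hg]
    obtain ⟨j, hj⟩ := hTp g
    refine Nat.le_of_dvd hc.hp.pos (orderOf_dvd_of_pow_eq_one (Subtype.ext ?_))
    show (g : G) ^ p = 1
    refine Subgroup.closure_induction (p := fun g _ => g ^ p = 1) ?_ (one_pow p) (fun g h hg hh eg eh => ?_)
      (fun g _ eg => by rw [inv_pow, eg, inv_one]) g.2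
    · rintro g (rfl | rfl)
      · rw [← hc.k_ord, pow_orderOf_eq_one]
      · exact hxp
    · have : Commute g h := congrArg Subtype.val (mul_comm (⟨g, hg⟩ : T) ⟨h, hh⟩)
      rw [this.mul_pow, eg, eh, one_mul]
  rw [← Subgroup.eq_of_le_of_card_ge (Subgroup.zpowers_le.2 hkT) (by rw [Nat.card_zpowers, hc.k_ord]; exact hle)] at hxT
  exact hxT

/-- Right translates by `P` of an element of `⟨k⟩` are its conjugates. -/
theorem exists_conj_of_mul {x e : G} (hx : x ∈ Subgroup.zpowers k) (hx1 : x ≠ 1) (he : e ∈ (P : Subgroup G)) :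
    ∃ e' ∈ (P : Subgroup G), e' * x * e'⁻¹ = x * e := by
  have hxM : x ∈ M₀ := (Subgroup.zpowers_le.2 hc.k_mem) hx
  let f : ↥(P : Subgroup G) → ↥(P : Subgroup G) := fun u => ⟨x⁻¹ * u * x * (u : G)⁻¹,
    Subgroup.mul_mem _ ((Subgroup.mem_normalizer_iff''.1 hxM u).1 u.2) (inv_mem u.2)⟩
  have hinj : Function.Injective f := by
    intro u v huv
    have e0 : x⁻¹ * u * x * (u : G)⁻¹ = x⁻¹ * v * x * (v : G)⁻¹ := congrArg Subtype.val huv
    have hc1 : Commute x ((v : G)⁻¹ * u) := by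
      have : (v : G)⁻¹ * u * x = x * ((v : G)⁻¹ * u) := by
        calc (v : G)⁻¹ * u * x = (v : G)⁻¹ * (x * (x⁻¹ * u * x * (u : G)⁻¹)) * u := by group
          _ = (v : G)⁻¹ * (x * (x⁻¹ * v * x * (v : G)⁻¹)) * u := by rw [e0]
          _ = x * ((v : G)⁻¹ * u) := by group
      exact this.symm
    exact Subtype.ext (inv_mul_eq_one.1 (hc.k_free (mul_mem (inv_mem v.2) u.2) hx hx1 hc1)).symm
  obtain ⟨⟨u, hu⟩, hue⟩ := (Finite.injective_iff_surjective.1 hinj) ⟨e, he⟩
  refine ⟨u, hu, ?_⟩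
  have e1 : x⁻¹ * u * x * u⁻¹ = e := congrArg Subtype.val hue
  rw [← e1]; group

/-- The two-point stabiliser of a point fixed by `y`. -/
theorem twoPoint {a y : G} (ha : a ∈ (P : Subgroup G)) (ha1 : a ≠ 1) (hyL : y ∈ L₀) (hy : orderOf y = q)
    (hya : Commute y a) (φ : M₀ →* Multiplicative (ZMod q)) (hφy : φ ⟨y, hyL.1⟩ ≠ 1)
    (hφ : ∀ x : M₀, (orderOf x).Coprime q → φ x = 1) {u : G} (hu : orderOf u = 2) (huM : u ∉ M₀)
    (hyu : u⁻¹ * y * u ∈ M₀) :
    (∀ x ∈ M₀, u⁻¹ * x * u ∈ M₀ → x ∈ C₀ → x = 1) ∧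
    (∀ l ∈ L₀, ∃ d ∈ M₀, u⁻¹ * d * u ∈ M₀ ∧ l⁻¹ * d ∈ C₀) ∧
    φ ⟨u⁻¹ * y * u, hyu⟩ = φ ⟨y, hyL.1⟩ := by
  classical
  haveI : Fact q.Prime := ⟨hc.h.hq⟩
  haveI : Fact (Nat.Prime 2) := ⟨Nat.prime_two⟩
  have hd := hc.toBigData
  set D := M₀ ⊓ (M₀).map (MulAut.conj u).toMonoidHom with hDdef
  have hmemD : ∀ {x : G}, x ∈ D ↔ x ∈ M₀ ∧ u⁻¹ * x * u ∈ M₀ := fun {x} => by
    rw [hDdef, Subgroup.mem_inf, CfsgLib.Involutions.mem_map_conj]
  have hodd : Odd (Nat.card D) := hd.stronglyEmbedded.2.2 u huM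
  have hDC : ∀ x ∈ D, x ∈ C₀ → x = 1 := by
    intro x hx hxC
    rw [hc.C_eq_P] at hxC
    by_contra hx1
    have h2 := hodd.of_dvd_nat (Subgroup.orderOf_dvd_natCard _ hx)
    rw [orderOf_eq_two (hd.sq x hxC) hx1] at h2
    exact absurd h2 (by decide)
  have hyD : y ∈ D := hmemD.2 ⟨hyL.1, hyu⟩
  obtain ⟨hL, hqk⟩ := hc.card_L_eq ha ha1 hyL hy hya
  set k0 := Nat.card (P : Subgroup G) - 1 with hk0
  have hk0d : k0 ∣ Nat.card D := by
    have h1 := hd.relIndex_eq (T := D) inf_le_left ha ha1 fun b hb hb1 =>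
      (Cfsg.Agent.S1225.result M₀ hd.stronglyEmbedded u hu huM a b (orderOf_eq_two (hd.sq a ha) ha1)
        (Subgroup.le_normalizer ha) (orderOf_eq_two (hd.sq b hb) hb1) (Subgroup.le_normalizer hb)).1
    have h2 : (Subgroup.centralizer ({a} : Set G)).relIndex D ∣ Nat.card D := Subgroup.index_dvd_card _
    rwa [show (Subgroup.centralizer ({a} : Set G)).relIndex D = k0 by omega] at h2
  have hqD : q ∣ Nat.card D := hy ▸ Subgroup.orderOf_dvd_natCard _ hyD
  have hdvd : q * k0 ∣ Nat.card D :=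
    Nat.Coprime.mul_dvd_of_dvd_of_dvd ((Nat.Prime.coprime_iff_not_dvd hc.h.hq).2 hqk) hqD hk0d
  choose g hgL g' hg'C hg using hc.dec
  let f : D → L₀ := fun x => ⟨g x x.2.1, hgL x x.2.1⟩
  have hfC : ∀ x : D, (f x : G)⁻¹ * x ∈ C₀ := fun x => by
    show (g x x.2.1)⁻¹ * (x : G) ∈ C₀
    conv => arg 2; arg 2; rw [hg x x.2.1]
    rw [inv_mul_cancel_left]
    exact hg'C x x.2.1
  have hfinj : Function.Injective f := by
    intro x z hxz
    have h1 := hfC x
    have h2 := hfC z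
    rw [hxz] at h1
    refine Subtype.ext (inv_mul_eq_one.1 (hDC _ (D.mul_mem (D.inv_mem x.2) z.2) ?_))
    have := mul_mem (inv_mem h1) h2
    rwa [show ((f z : G)⁻¹ * (x : G))⁻¹ * ((f z : G)⁻¹ * (z : G)) = (x : G)⁻¹ * z by group] at this
  have hDcard : Nat.card D = Nat.card L₀ := le_antisymm (Nat.card_le_card_of_injective f hfinj)
    (by rw [hL]; exact Nat.le_of_dvd Nat.card_pos hdvd)
  have hfbij : Function.Bijective f := hfinj.bijective_of_nat_card_le (le_of_eq hDcard.symm)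
  refine ⟨fun x hx hxu hxC => hDC x (hmemD.2 ⟨hx, hxu⟩) hxC, fun l hl => ?_, ?_⟩
  · obtain ⟨x, hx⟩ := hfbij.2 ⟨l, hl⟩
    have h1 := hfC x
    rw [hx] at h1
    exact ⟨x, x.2.1, (hmemD.1 x.2).2, h1⟩
  -- elements inverted by `u`
  have huu : u * u = 1 := CfsgLib.Involutions.mul_self_eq_one hu
  have hui : u⁻¹ = u := CfsgLib.Involutions.inv_eq_self hu
  have hconjD : ∀ x ∈ D, u * x * u ∈ D := fun x hx => by
    obtain ⟨h1, h2⟩ := hmemD.1 hx
    rw [hui] at h2
    refine hmemD.2 ⟨h2, ?_⟩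
    rw [hui, show u * (u * x * u) * u = (u * u) * x * (u * u) by group, huu, one_mul, mul_one]
    exact h1
  let I := {x : G // x ∈ D ∧ u * x * u = x⁻¹}
  have hI : Nat.card I ≤ k0 := by
    obtain ⟨-, -, -, -, hcnt⟩ := hd.exists_swap huM
    have : Nat.card I ≤ Nat.card {i : G // orderOf i = 2 ∧ i⁻¹ * u ∈ M₀} := by
      refine Nat.card_le_card_of_injective (fun x : I => ⟨u * x, orderOf_eq_two ?_ ?_, ?_⟩) fun x z hxz =>
        Subtype.ext (mul_left_cancel (congrArg Subtype.val hxz :))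
      · calc u * (x : G) * (u * (x : G)) = (u * (x : G) * u) * x := by group
          _ = 1 := by rw [x.2.2, inv_mul_cancel]
      · intro e
        exact huM (by rw [eq_inv_of_mul_eq_one_left e]; exact inv_mem x.2.1.1)
      · rw [mul_inv_rev, mul_assoc, inv_mul_cancel, mul_one]
        exact inv_mem x.2.1.1
    omega
  let Cu := D ⊓ Subgroup.centralizer ({u} : Set G)
  let h : D → I := fun x => ⟨(x : G)⁻¹ * (u * x * u), D.mul_mem (D.inv_mem x.2) (hconjD x x.2), by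
    calc u * ((x : G)⁻¹ * (u * x * u)) * u = (u * (x : G)⁻¹ * u) * x * (u * u) := by group
      _ = (u⁻¹ * (x : G)⁻¹ * u⁻¹) * x := by rw [huu, hui, mul_one]
      _ = ((x : G)⁻¹ * (u * x * u))⁻¹ := by group⟩
  let r : I → D := Function.invFun h
  have hCu : Nat.card D ≤ k0 * Nat.card Cu := by
    have hmem : ∀ x : D, (x : G) * (r (h x) : G)⁻¹ ∈ Cu := fun x => by
      refine ⟨D.mul_mem x.2 (D.inv_mem (r (h x)).2), Subgroup.mem_centralizer_singleton_iff.2 ?_⟩
      have he : h (r (h x)) = h x := Function.invFun_eq ⟨x, rfl⟩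
      have he' : (r (h x) : G)⁻¹ * (u * (r (h x) : G) * u) = (x : G)⁻¹ * (u * x * u) := congrArg Subtype.val he
      set z := (r (h x) : G)
      calc (x : G) * z⁻¹ * u = x * (z⁻¹ * (u * z * u)) * u⁻¹ * z⁻¹ := by group
        _ = x * ((x : G)⁻¹ * (u * x * u)) * u⁻¹ * z⁻¹ := by rw [he']
        _ = u * ((x : G) * z⁻¹) := by group
    refine (Nat.card_le_card_of_injective (fun x : D => (h x, (⟨_, hmem x⟩ : Cu))) fun x z hxz => ?_).trans ?_
    · obtain ⟨h1, h2⟩ := Prod.mk.inj hxz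
      have h3 : (x : G) * (r (h x) : G)⁻¹ = (z : G) * (r (h z) : G)⁻¹ := congrArg Subtype.val h2
      rw [h1] at h3
      exact Subtype.ext (mul_right_cancel h3)
    · rw [Nat.card_prod]
      exact Nat.mul_le_mul_right _ hI
  have hCu1 : Cu ≠ ⊥ := by
    intro e
    rw [e, Subgroup.card_bot, mul_one, hDcard, hL] at hCu
    have := hc.h.two_lt
    have : 0 < k0 := by have := hc.big; omega
    nlinarith
  obtain ⟨⟨c, hcD, hcu⟩, hc1⟩ := Subgroup.ne_bot_iff_exists_ne_one.1 hCu1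
  replace hcD : c ∈ D := hcD
  have hco : orderOf c = q := by
    have h1 := hc.h.orderOf_dvd_of_commute (Or.inl hu) (Subgroup.mem_centralizer_singleton_iff.1 hcu)
    have h2 := (Nat.coprime_two_right.2 (hodd.of_dvd_nat (Subgroup.orderOf_dvd_natCard _ hcD))).dvd_of_dvd_mul_left h1
    exact ((Nat.dvd_prime hc.h.hq).1 h2).resolve_left fun e => hc1 (Subtype.ext (orderOf_eq_one_iff.1 e))
  -- the kernel has order prime to `q`
  haveI hA : Fintype (Multiplicative (ZMod q)) := inferInstance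
  have hAcard : Nat.card (Multiplicative (ZMod q)) = q := by
    rw [Nat.card_congr (Multiplicative.toAdd (α := ZMod q)), Nat.card_zmod]
  have hker : ¬ q ∣ Nat.card φ.ker := by
    intro hd'
    have h1 := φ.ker.card_mul_index
    have h2 : φ.ker.index = q := by
      rw [Subgroup.index_ker]
      refine ((Nat.dvd_prime hc.h.hq).1 ((Subgroup.card_subgroup_dvd_card φ.range).trans (dvd_of_eq hAcard))).resolve_left fun e => hφy ?_
      have := Subgroup.card_eq_one.1 e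
      exact Subgroup.mem_bot.1 (this ▸ ⟨_, rfl⟩)
    have h3 : Nat.card M₀ = Nat.card (P : Subgroup G) * Nat.card L₀ := by
      have := Subgroup.card_mul_index ((C₀).subgroupOf M₀)
      rw [Nat.card_congr (Subgroup.subgroupOfEquivOfLe BigData.C_le_M).toEquiv] at this
      rw [← this, hc.card_L, Subgroup.relIndex, hc.C_eq_P]
    rw [h2, h3] at h1
    have h4 : q * q ∣ Nat.card (P : Subgroup G) * Nat.card L₀ := h1 ▸ Nat.mul_dvd_mul_right hd' q
    obtain ⟨n, hn⟩ := P.isPGroup'.exists_card_eq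
    rw [hn] at h4
    have h5 : (q * q).Coprime (2 ^ n) := Nat.Coprime.pow_right n
      (Nat.Coprime.mul_left hc.h.coprime_two.symm hc.h.coprime_two.symm)
    exact hc.not_sq_dvd_L (h5.dvd_of_dvd_mul_left h4)
  have hφc : φ ⟨c, hcD.1⟩ ≠ 1 := by
    intro e
    have h1 := Subgroup.orderOf_dvd_natCard _ (MonoidHom.mem_ker.2 e)
    rw [Subgroup.orderOf_mk, hco] at h1
    exact hker h1
  have hkey : ∀ x (hx : x ∈ D), φ ⟨u * x * u, (hconjD x hx).1⟩ = φ ⟨x, hx.1⟩ := by
    intro x hx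
    obtain ⟨i, hi⟩ := Subgroup.mem_zpowers_iff.1 (mem_zpowers_of_prime_card hAcard hφc (g' := φ ⟨x, hx.1⟩))
    set z := x * (c ^ i)⁻¹ with hz
    have hzD : z ∈ D := D.mul_mem hx (D.inv_mem (zpow_mem hcD i))
    have hzφ : φ ⟨z, hzD.1⟩ = 1 := by
      rw [show (⟨z, hzD.1⟩ : M₀) = ⟨x, hx.1⟩ * ((⟨c, hcD.1⟩ : M₀) ^ i)⁻¹ from Subtype.ext (by simp [hz]),
        map_mul, map_inv, map_zpow, hi, mul_inv_cancel]
    have hzq : (orderOf (⟨u * z * u, (hconjD z hzD).1⟩ : M₀)).Coprime q := by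
      have h1 := Subgroup.orderOf_dvd_natCard _ (MonoidHom.mem_ker.2 hzφ)
      rw [Subgroup.orderOf_mk] at h1 ⊢
      rw [show u * z * u = u * z * u⁻¹ by rw [hui], CfsgLib.Involutions.orderOf_conj]
      exact (((Nat.Prime.coprime_iff_not_dvd hc.h.hq).2 hker).coprime_dvd_right h1).symm
    have huc : u * c ^ i = c ^ i * u :=
      ((show Commute c u from Subgroup.mem_centralizer_singleton_iff.1 hcu).zpow_left i).eq.symm
    have hdec : (⟨u * x * u, (hconjD x hx).1⟩ : M₀) = ⟨u * z * u, (hconjD z hzD).1⟩ * (⟨c, hcD.1⟩ : M₀) ^ i := by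
      refine Subtype.ext ?_
      show u * x * u = u * z * u * ((⟨c, hcD.1⟩ : M₀) ^ i : M₀)
      rw [SubgroupClass.coe_zpow]
      calc u * x * u = u * z * (c ^ i * u) := by rw [hz]; group
        _ = u * z * (u * c ^ i) := by rw [huc]
        _ = u * z * u * c ^ i := by group
    rw [hdec, map_mul, hφ _ hzq, one_mul, map_zpow, hi]
  have e1 : (⟨u⁻¹ * y * u, hyu⟩ : M₀) = ⟨u * y * u, (hconjD y hyD).1⟩ := Subtype.ext (by
    show u⁻¹ * y * u = u * y * u
    rw [hui])
  rw [e1]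
  exact hkey y hyD

end Compl

end CfsgLib.NoThreeOrders
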