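import Cfsg.Agent.Lib.NoThreeOrders.Rank3Three
import Cfsg.Agent.Lib.Involutions.ReeExclusion

/-!
No simple group with elements of order `2q` has an elementary abelian Sylow 2-subgroup of order at
least eight.
-/

set_option autoImplicit false
set_option linter.style.haveILetI false
set_option linter.unusedSectionVars false

open Cfsg
open scoped IsMulCommutative Pointwise

namespace CfsgLib.NoThreeOrders

universe u

variable {G : Type u} [Group G] [Finite G] {q : ℕ} {P : Sylow 2 G} {W : Subgroup G} {p : ℕ} {k : G}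

local notation "M₀" => Subgroup.normalizer ((P : Subgroup G) : Set G)
local notation "C₀" => Subgroup.centralizer ((P : Subgroup G) : Set G)
local notation "L₀" => (Subgroup.normalizer ((P : Subgroup G) : Set G) ⊓ Subgroup.normalizer (Subgroup.zpowers k : Set G) : Subgroup G)

namespace Compl

theorem card_P_le (hc : Compl G 3 P W p k) {a y : G} (ha : a ∈ (P : Subgroup G)) (ha1 : a ≠ 1)
    (hyL : y ∈ L₀) (hy : orderOf y = 3) (hya : Commute y a) : Nat.card (P : Subgroup G) ≤ 8 := by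
  have hd := hc.toBigData
  haveI := hd.comm'
  haveI : Fact p.Prime := ⟨hc.hp⟩
  obtain ⟨φ, hφy, -⟩ := hc.exists_hom ha ha1 hyL hy hya
  let v : ℤ → G := fun i => k ^ i * a * (k ^ i)⁻¹
  have hvP : ∀ i, v i ∈ (P : Subgroup G) := fun i =>
    (Subgroup.mem_normalizer_iff.1 (zpow_mem hc.k_mem i) a).1 ha
  have hva : ∀ i j, k ^ i * v j * (k ^ i)⁻¹ = v (i + j) := fun i j => by
    simp only [v, zpow_add]; group
  have hper : ∀ i j : ℤ, (p : ℤ) ∣ i - j → v i = v j := fun i j h => by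
    have : k ^ i = k ^ j := by
      rw [← hc.k_ord, orderOf_dvd_iff_zpow_eq_one, zpow_sub, mul_inv_eq_one] at h
      exact h
    simp only [v, this]
  obtain ⟨j, hj⟩ := exists_conj_eq_zpow hyL.2
  have hyv : ∀ i, y * v i * y⁻¹ = v (j * i) := fun i => by
    show y * (k ^ i * a * (k ^ i)⁻¹) * y⁻¹ = k ^ (j * i) * a * (k ^ (j * i))⁻¹
    rw [show y * (k ^ i * a * (k ^ i)⁻¹) * y⁻¹ = (y * k ^ i * y⁻¹) * (y * a * y⁻¹) * (y * k ^ i * y⁻¹)⁻¹ by group,
      ← conj_zpow, hj, ← zpow_mul, conj_eq_of_commute hya]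
  have hy3 : y ^ 3 = 1 := by rw [← hy, pow_orderOf_eq_one]
  have hj3 : (p : ℤ) ∣ j ^ 3 - 1 := by
    have h1 : y ^ 3 * k * (y ^ 3)⁻¹ = k ^ (j ^ 3) := by
      calc y ^ 3 * k * (y ^ 3)⁻¹ = y * (y * (y * k * y⁻¹) * y⁻¹) * y⁻¹ := by rw [pow_three]; group
        _ = k ^ (j ^ 3) := by rw [hj, ← conj_zpow, hj, ← zpow_mul, ← conj_zpow, hj, ← zpow_mul]; ring_nf
    rw [hy3, one_mul, inv_one, mul_one] at h1
    rw [← hc.k_ord, orderOf_dvd_iff_zpow_eq_one, zpow_sub, zpow_one, ← h1, mul_inv_cancel]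
  have hj1 : ¬ (p : ℤ) ∣ j - 1 := fun h => by
    rw [← hc.k_ord, orderOf_dvd_iff_zpow_eq_one, zpow_sub, zpow_one, mul_inv_eq_one] at h
    exact hc.k_ne_one (hc.free_of_order_q hy (Subgroup.mem_zpowers k) (mul_inv_eq_iff_eq_mul.1 (hj.trans h)))
  have hjsum : (p : ℤ) ∣ 1 + j + j ^ 2 := by
    have hp' : Prime (p : ℤ) := Nat.prime_iff_prime_int.1 hc.hp
    rcases hp'.dvd_or_dvd (show (p : ℤ) ∣ (j - 1) * (1 + j + j ^ 2) by
      rwa [show (j - 1) * (1 + j + j ^ 2) = j ^ 3 - 1 by ring]) with h | h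
    · exact absurd h hj1
    · exact h
  have hcommP : ∀ u ∈ (P : Subgroup G), ∀ w ∈ (P : Subgroup G), Commute u w :=
    fun u hu w hw => hc.h.commute_of_isPGroup P.isPGroup' hu hw
  -- products over an orbit of `y` are `1` or `a`
  have hw : ∀ i, v i * v (j * i) * v (j * (j * i)) = 1 ∨ v i * v (j * i) * v (j * (j * i)) = a := by
    intro i
    have hmem := mul_mem (mul_mem (hvP i) (hvP (j * i))) (hvP (j * (j * i)))
    refine hc.fixed_P ha ha1 hyL hy hya φ hφy hmem (mul_inv_eq_iff_eq_mul.1 ?_)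
    have h3 : v (j * (j * (j * i))) = v i := hper _ _ (by
      rw [show j * (j * (j * i)) - i = (j ^ 3 - 1) * i by ring]; exact hj3.mul_right i)
    rw [show y * (v i * v (j * i) * v (j * (j * i))) * y⁻¹ =
      (y * v i * y⁻¹) * (y * v (j * i) * y⁻¹) * (y * v (j * (j * i)) * y⁻¹) by group, hyv, hyv, hyv, h3]
    calc v (j * i) * v (j * (j * i)) * v i = v i * (v (j * i) * v (j * (j * i))) :=
          (hcommP _ (mul_mem (hvP _) (hvP _)) _ (hvP i)).eq
      _ = v i * v (j * i) * v (j * (j * i)) := (mul_assoc _ _ _).symm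
  set S : Subgroup G := Subgroup.zpowers (v 0) ⊔ Subgroup.zpowers (v 1) ⊔ Subgroup.zpowers (v 2) with hS
  have hv0 : v 0 = a := by simp [v]
  have hSP : S ≤ (P : Subgroup G) :=
    sup_le (sup_le (Subgroup.zpowers_le.2 (hvP 0)) (Subgroup.zpowers_le.2 (hvP 1))) (Subgroup.zpowers_le.2 (hvP 2))
  have h0S : v 0 ∈ S := Subgroup.mem_sup_left (Subgroup.mem_sup_left (Subgroup.mem_zpowers _))
  have h1S : v 1 ∈ S := Subgroup.mem_sup_left (Subgroup.mem_sup_right (Subgroup.mem_zpowers _))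
  have h2S : v 2 ∈ S := Subgroup.mem_sup_right (Subgroup.mem_zpowers _)
  have hsq : ∀ i, v i * v i = 1 := fun i => hd.sq _ (hvP i)
  -- the cubic relation
  have h3S : v 3 ∈ S := by
    have hA : k ^ (2 : ℤ) * (v 1 * v (j * 1) * v (j * (j * 1))) * (k ^ (2 : ℤ))⁻¹ ∈ S := by
      rcases hw 1 with e | e <;> rw [e]
      · simp
      · exact h2S
    have hB : k ^ (1 : ℤ) * (v (1 + j) * v (j * (1 + j)) * v (j * (j * (1 + j)))) * (k ^ (1 : ℤ))⁻¹ ∈ S := by
      rcases hw (1 + j) with e | e <;> rw [e]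
      · simp
      · exact h1S
    have hC : v (1 + j + j ^ 2) ∈ S := by
      have : v (1 + j + j ^ 2) = v 0 := hper _ _ (by simpa using hjsum)
      rw [this]; exact h0S
    rw [show k ^ (2 : ℤ) * (v 1 * v (j * 1) * v (j * (j * 1))) * (k ^ (2 : ℤ))⁻¹ =
        (k ^ (2 : ℤ) * v 1 * (k ^ (2 : ℤ))⁻¹) * (k ^ (2 : ℤ) * v (j * 1) * (k ^ (2 : ℤ))⁻¹) *
          (k ^ (2 : ℤ) * v (j * (j * 1)) * (k ^ (2 : ℤ))⁻¹) by group, hva, hva, hva] at hA
    rw [show k ^ (1 : ℤ) * (v (1 + j) * v (j * (1 + j)) * v (j * (j * (1 + j)))) * (k ^ (1 : ℤ))⁻¹ =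
        (k ^ (1 : ℤ) * v (1 + j) * (k ^ (1 : ℤ))⁻¹) * (k ^ (1 : ℤ) * v (j * (1 + j)) * (k ^ (1 : ℤ))⁻¹) *
          (k ^ (1 : ℤ) * v (j * (j * (1 + j))) * (k ^ (1 : ℤ))⁻¹) by group, hva, hva, hva] at hB
    rw [show (2 : ℤ) + 1 = 3 by norm_num, show (2 : ℤ) + j * 1 = 2 + j by ring,
      show (2 : ℤ) + j * (j * 1) = 2 + j ^ 2 by ring] at hA
    rw [show (1 : ℤ) + (1 + j) = 2 + j by ring, show (1 : ℤ) + j * (1 + j) = 1 + j + j ^ 2 by ring,
      hper ((1 : ℤ) + j * (j * (1 + j))) (2 + j ^ 2) (by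
        rw [show (1 : ℤ) + j * (j * (1 + j)) - (2 + j ^ 2) = j ^ 3 - 1 by ring]; exact hj3)] at hB
    have hprod : v 3 = (v 3 * v (2 + j) * v (2 + j ^ 2)) * (v (2 + j) * v (1 + j + j ^ 2) * v (2 + j ^ 2)) *
        v (1 + j + j ^ 2) := by
      set b := v (2 + j)
      set c := v (2 + j ^ 2)
      set e := v (1 + j + j ^ 2)
      have hcb : Commute c b := hcommP _ (hvP _) _ (hvP _)
      have hce : Commute c e := hcommP _ (hvP _) _ (hvP _)
      calc v 3 = v 3 * (b * b) * (c * c) * (e * e) := by rw [hsq, hsq, hsq, mul_one, mul_one, mul_one]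
        _ = v 3 * b * (b * c) * (c * e) * e := by group
        _ = v 3 * b * (c * b) * (e * c) * e := by rw [hcb.eq, hce.eq]
        _ = (v 3 * b * c) * (b * e * c) * e := by group
    rw [hprod]
    exact mul_mem (mul_mem hA hB) hC
  -- `S` is invariant under `k`
  have hkS : Subgroup.zpowers k ≤ Subgroup.normalizer (S : Set G) := by
    refine Subgroup.zpowers_le.2 (CfsgLib.CoprimeAction.mem_normalizer_of_conj_mem fun x hx => ?_)
    have hle : S ≤ S.comap (MulAut.conj k).toMonoidHom := by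
      have key : ∀ i, v (1 + i) ∈ S → Subgroup.zpowers (v i) ≤ S.comap (MulAut.conj k).toMonoidHom := by
        intro i hi
        rw [Subgroup.zpowers_le, Subgroup.mem_comap]
        show k * v i * k⁻¹ ∈ S
        have := hva 1 i
        rw [zpow_one] at this
        rw [this]; exact hi
      exact sup_le (sup_le (key 0 (by simpa using h1S)) (key 1 (by norm_num; exact h2S)))
        (key 2 (by norm_num; exact h3S))
    exact hle hx
  have hPS : (P : Subgroup G) ≤ S := by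
    intro w hwP
    haveI : Fact (Nat.Prime 2) := ⟨Nat.prime_two⟩
    refine mem_of_orbitProd (N := Subgroup.zpowers k) (V := (P : Subgroup G)) hy Nat.prime_three hyL.2
      (fun n hn h => hc.free_of_order_q hy hn h) hcommP (Subgroup.zpowers_le.2 hc.k_mem) hyL.1 ?_
      (fun u hu h => hc.k_free hu (Subgroup.mem_zpowers k) hc.k_ne_one (h k (Subgroup.mem_zpowers k)))
      (fun u hu x hx => ?_) hwP
    · obtain ⟨n, hn⟩ := P.isPGroup'.exists_card_eq
      rw [hn, Nat.card_zpowers, hc.k_ord]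
      exact Nat.Coprime.pow_left n ((Nat.coprime_primes Nat.prime_two hc.hp).2 (Ne.symm hc.hp2))
    · refine (Subgroup.mem_normalizer_iff.1 (hkS hx) _).1 ?_
      have hmem := orbitProd_mem (V := (P : Subgroup G)) hyL.1 hu 3
      have hfix : Commute y (orbitProd y u 3) := by
        refine mul_inv_eq_iff_eq_mul.1 ?_
        have e : orbitProd y u 3 = u * (y * u * y⁻¹) * (y ^ 2 * u * (y ^ 2)⁻¹) := by
          simp [orbitProd, List.range_succ]; group
        rw [e]
        have h2 : y ^ 2 * u * (y ^ 2)⁻¹ ∈ (P : Subgroup G) :=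
          (Subgroup.mem_normalizer_iff.1 (pow_mem hyL.1 2) u).1 hu
        have h1 : y * u * y⁻¹ ∈ (P : Subgroup G) := (Subgroup.mem_normalizer_iff.1 hyL.1 u).1 hu
        calc y * (u * (y * u * y⁻¹) * (y ^ 2 * u * (y ^ 2)⁻¹)) * y⁻¹
            = (y * u * y⁻¹) * (y ^ 2 * u * (y ^ 2)⁻¹) * (y ^ 3 * u * (y ^ 3)⁻¹) := by group
          _ = (y * u * y⁻¹) * (y ^ 2 * u * (y ^ 2)⁻¹) * u := by rw [hy3]; group
          _ = u * ((y * u * y⁻¹) * (y ^ 2 * u * (y ^ 2)⁻¹)) := (hcommP _ (mul_mem h1 h2) _ hu).eq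
          _ = u * (y * u * y⁻¹) * (y ^ 2 * u * (y ^ 2)⁻¹) := (mul_assoc _ _ _).symm
      rcases hc.fixed_P ha ha1 hyL hy hya φ hφy hmem hfix with e | e <;> rw [e]
      · exact one_mem _
      · exact hv0 ▸ h0S
  have hnorm : ∀ X Y : Subgroup G, X ≤ (P : Subgroup G) → Y ≤ (P : Subgroup G) →
      Y ≤ Subgroup.normalizer (X : Set G) := fun X Y hX hY u hu =>
    CfsgLib.CoprimeAction.mem_normalizer_of_conj_mem fun x hx => by
      rw [conj_eq_of_commute (hcommP u (hY hu) x (hX hx))]; exact hx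
  have hz : ∀ i, Nat.card (Subgroup.zpowers (v i)) ≤ 2 := fun i => by
    rw [Nat.card_zpowers]
    exact Nat.le_of_dvd two_pos (orderOf_dvd_of_pow_eq_one (by rw [pow_two]; exact hsq i))
  have hzP : ∀ i, Subgroup.zpowers (v i) ≤ (P : Subgroup G) := fun i => Subgroup.zpowers_le.2 (hvP i)
  have hcard : ∀ X Y : Subgroup G, X ≤ (P : Subgroup G) → Y ≤ (P : Subgroup G) →
      Nat.card ↥(X ⊔ Y) ≤ Nat.card X * Nat.card Y := fun X Y hX hY =>
    Nat.le_of_dvd (Nat.mul_pos Nat.card_pos Nat.card_pos)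
      (CfsgLib.Balance.card_sup_dvd_of_normalized (hnorm X Y hX hY))
  calc Nat.card (P : Subgroup G) ≤ Nat.card S := Subgroup.card_le_of_le hPS
    _ ≤ Nat.card ↥(Subgroup.zpowers (v 0) ⊔ Subgroup.zpowers (v 1)) * Nat.card (Subgroup.zpowers (v 2)) :=
        hcard _ _ (sup_le (hzP 0) (hzP 1)) (hzP 2)
    _ ≤ 4 * 2 := by
        gcongr
        · exact (hcard _ _ (hzP 0) (hzP 1)).trans (le_trans (Nat.mul_le_mul (hz 0) (hz 1)) (by norm_num))
        · exact hz 2
    _ = 8 := by norm_num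

theorem false_of_three (hc : Compl G 3 P W p k) {a y : G} (ha : a ∈ (P : Subgroup G)) (ha1 : a ≠ 1)
    (hyL : y ∈ L₀) (hy : orderOf y = 3) (hya : Commute y a) : False := by
  have hd := hc.toBigData
  haveI := hc.simple
  haveI : Fact (Nat.Prime 2) := ⟨Nat.prime_two⟩
  obtain ⟨φ, hφy, -⟩ := hc.exists_hom ha ha1 hyL hy hya
  have h8 : Nat.card (P : Subgroup G) = 8 := le_antisymm (hc.card_P_le ha ha1 hyL hy hya) hc.big
  have ha2 := orderOf_eq_two (hd.sq a ha) ha1
  haveI := hc.h.isSolvable_centralizer (a := a) (Or.inl ha2)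
  set C := Subgroup.centralizer ({a} : Set G) with hC
  have hO : centralizerPPrimeCore 2 a = ⊥ := (hc.core_eq a ha ha1).trans hc.W_eq_bot
  have hyC : y ∈ C := Subgroup.mem_centralizer_singleton_iff.2 hya.eq
  have hPC : (P : Subgroup G) ≤ C := hd.toBigTwo.le_centralizer ha
  have hyn : Subgroup.zpowers y ≤ Subgroup.normalizer ((P : Subgroup G) : Set G) := Subgroup.zpowers_le.2 hyL.1
  have hdec : ∀ x, x ∈ C ↔ x ∈ (P : Subgroup G) ⊔ Subgroup.zpowers y := by
    refine fun x => ⟨fun hx => ?_, fun hx => (sup_le hPC (Subgroup.zpowers_le.2 hyC)) hx⟩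
    obtain ⟨l, hl, c, hcC, rfl⟩ := hc.dec x (hd.centralizer_le_normalizer ha ha1 hx)
    have hcP : c ∈ (P : Subgroup G) := hc.C_eq_P ▸ hcC
    have hlC : l ∈ C := by
      have := mul_mem hx (inv_mem (hPC hcP))
      rwa [mul_inv_cancel_right] at this
    have hly : l ∈ Subgroup.zpowers y := hc.fix_eq_zpowers ha ha1 hyL hy hya ▸ ⟨hl, hlC⟩
    exact mul_mem (Subgroup.mem_sup_right hly) (Subgroup.mem_sup_left hcP)
  have hmul : ∀ x ∈ C, ∃ e ∈ (P : Subgroup G), ∃ g ∈ Subgroup.zpowers y, x = e * g := by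
    intro x hx
    have h1 := (hdec x).1 hx
    rw [← SetLike.mem_coe, Subgroup.coe_mul_of_right_le_normalizer_left _ _ hyn] at h1
    obtain ⟨e, he, g, hg, rfl⟩ := h1
    exact ⟨e, he, g, hg, rfl⟩
  have hinf : ∀ e ∈ (P : Subgroup G), e ∈ Subgroup.zpowers y → e = 1 := by
    intro e he hey
    have h1 := orderOf_dvd_of_pow_eq_one (show e ^ 2 = 1 by rw [pow_two]; exact hd.sq e he)
    have h2 := Subgroup.orderOf_dvd_natCard _ hey
    rw [Nat.card_zpowers, hy] at h2
    exact orderOf_eq_one_iff.1 (Nat.eq_one_of_dvd_coprimes (by norm_num : Nat.Coprime 2 3) h1 h2)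
  have hcardC : Nat.card C = 24 := by
    have hbij : Function.Bijective (fun x : ↥(P : Subgroup G) × ↥(Subgroup.zpowers y) =>
        (⟨(x.1 : G) * x.2, mul_mem (hPC x.1.2) (Subgroup.zpowers_le.2 hyC x.2.2)⟩ : C)) := by
      constructor
      · rintro ⟨e, g⟩ ⟨e', g'⟩ h
        have h' : (e : G) * g = e' * g' := congrArg Subtype.val h
        have h1 : (e' : G)⁻¹ * e = (g' : G) * (g : G)⁻¹ := by
          calc (e' : G)⁻¹ * e = (e' : G)⁻¹ * ((e : G) * g) * (g : G)⁻¹ := by group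
            _ = _ := by rw [h']; group
        have h2 := hinf _ (mul_mem (inv_mem e'.2) e.2) (h1 ▸ mul_mem g'.2 (inv_mem g.2))
        have e1 : e' = e := Subtype.ext (inv_mul_eq_one.1 h2)
        subst e1
        exact Prod.ext rfl (Subtype.ext (mul_left_cancel h'))
      · rintro ⟨x, hx⟩
        obtain ⟨e, he, g, hg, rfl⟩ := hmul x hx
        exact ⟨(⟨e, he⟩, ⟨g, hg⟩), rfl⟩
    rw [← Nat.card_eq_of_bijective _ hbij, Nat.card_prod, h8, Nat.card_zpowers, hy]
  have hna : y ∉ (P : Subgroup G) := fun h => by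
    have := hinf y h (Subgroup.mem_zpowers y)
    rw [this, orderOf_one] at hy
    omega
  refine CfsgLib.Involutions.false_of_two_A4_centralizer hc.nonab P h8 ha2 (fun e he he1 => ?_) hyC
    (by rw [hy]; decide) (by rw [hO, Subgroup.mem_bot, ← hy, pow_orderOf_eq_one]) ?_ ?_ ?_ ?_
  · obtain ⟨n, -, hn⟩ := hd.transitive' ha ha1 he he1
    exact isConj_iff.2 ⟨n, hn⟩
  · rw [hO, Subgroup.card_bot, mul_one]; exact hcardC
  · rw [hO, Subgroup.card_bot, mul_one]
    have hbij : Function.Bijective (fun x : Subgroup.zpowers a × Subgroup.zpowers y =>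
        (⟨(x.1 : G) * x.2, mul_mem (hPC (Subgroup.zpowers_le.2 ha x.1.2)) (Subgroup.zpowers_le.2 hyC x.2.2), by
          rw [Subgroup.mem_bot]
          have hc1 : Commute ((x.1 : G) * x.2) y := by
            obtain ⟨i, hi⟩ := Subgroup.mem_zpowers_iff.1 x.1.2
            obtain ⟨i', hi'⟩ := Subgroup.mem_zpowers_iff.1 x.2.2
            rw [← hi, ← hi']
            exact (hya.symm.zpow_left i).mul_left ((Commute.refl y).zpow_left i')
          rw [conj_eq_of_commute hc1, mul_inv_cancel]⟩ :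
          {x : G // x ∈ C ∧ x * y * x⁻¹ * y⁻¹ ∈ (⊥ : Subgroup G)})) := by
      constructor
      · rintro ⟨e, g⟩ ⟨e', g'⟩ h
        have h' : (e : G) * g = e' * g' := congrArg Subtype.val h
        have h1 : (e' : G)⁻¹ * e = (g' : G) * (g : G)⁻¹ := by
          calc (e' : G)⁻¹ * e = (e' : G)⁻¹ * ((e : G) * g) * (g : G)⁻¹ := by group
            _ = _ := by rw [h']; group
        have h2 := hinf _ (Subgroup.zpowers_le.2 ha (mul_mem (inv_mem e'.2) e.2)) (h1 ▸ mul_mem g'.2 (inv_mem g.2))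
        have e1 : e' = e := Subtype.ext (inv_mul_eq_one.1 h2)
        subst e1
        exact Prod.ext rfl (Subtype.ext (mul_left_cancel h'))
      · rintro ⟨x, hx, hxy⟩
        obtain ⟨e, he, g, hg, rfl⟩ := hmul x hx
        rw [Subgroup.mem_bot, mul_inv_eq_one] at hxy
        have hgy : Commute g y := by
          obtain ⟨i, rfl⟩ := Subgroup.mem_zpowers_iff.1 hg
          exact (Commute.refl y).zpow_left i
        have hey : Commute e y := by
          refine mul_inv_eq_iff_eq_mul.1 ?_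
          calc e * y * e⁻¹ = e * (g * y * g⁻¹) * e⁻¹ := by rw [conj_eq_of_commute hgy]
            _ = e * g * y * (e * g)⁻¹ := by group
            _ = y := hxy
        have hea : e ∈ Subgroup.zpowers a := by
          rcases hc.fixed_P ha ha1 hyL hy hya φ hφy he hey.symm with rfl | rfl
          · exact one_mem _
          · exact Subgroup.mem_zpowers _
        exact ⟨(⟨e, hea⟩, ⟨g, hg⟩), rfl⟩
    rw [← Nat.card_eq_of_bijective _ hbij, Nat.card_prod, Nat.card_zpowers, Nat.card_zpowers, ha2, hy]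
  · rw [hO, Subgroup.mem_bot]
    intro h; rw [h, orderOf_one] at hy; omega
  · intro x hx hxy
    rw [hO, Subgroup.mem_bot] at hxy
    obtain ⟨e, he, g, hg, rfl⟩ := hmul x hx
    have hgy : Commute g y := by
      obtain ⟨i, rfl⟩ := Subgroup.mem_zpowers_iff.1 hg
      exact (Commute.refl y).zpow_left i
    rw [show e * g * y * (e * g)⁻¹ = e * (g * y * g⁻¹) * e⁻¹ by group, conj_eq_of_commute hgy] at hxy
    have h2 : (y * y)⁻¹ = y := by
      rw [inv_eq_iff_mul_eq_one]
      have : y ^ 3 = 1 := by rw [← hy, pow_orderOf_eq_one]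
      rwa [pow_three, ← mul_assoc] at this
    have hmem : e * (y * e⁻¹ * y⁻¹) ∈ (P : Subgroup G) :=
      mul_mem he ((Subgroup.mem_normalizer_iff.1 hyL.1 e⁻¹).1 (inv_mem he))
    rw [show e * (y * e⁻¹ * y⁻¹) = (e * y * e⁻¹ * y) * (y * y)⁻¹ by group, hxy, one_mul, h2] at hmem
    exact hna hmem

end Compl

/-- No simple group with an element of order `2q` has such Sylow 2-subgroups. -/
theorem BigTwo.false_of_orderOf (hb : BigTwo G q P) (hex : ∃ g : G, orderOf g = 2 * q) : False := by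
  obtain ⟨W, hd⟩ := hb.exists_data
  by_cases hQ : ∀ r : ℕ, r.Prime → r ∣ (C₀).relIndex M₀ → r = q
  · exact hd.false_of_qQuotient hex hQ
  obtain ⟨p, k, hc⟩ := hd.exists_compl hQ
  obtain ⟨a, ha, ha1, y, hyL, hy, hya⟩ := hc.exists_fixer_L hex
  have h3 := hc.eq_three ha ha1 hyL hy hya
  subst h3
  exact hc.false_of_three ha ha1 hyL hy hya

end CfsgLib.NoThreeOrders
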