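import Mathlib

/-!
The transfer of an element of prime order, as a product over its fixed points.
-/

set_option autoImplicit false
set_option linter.style.haveILetI false
set_option linter.unusedSectionVars false

open MulAction

namespace CfsgLib.NoThreeOrders

variable {G : Type*} [Group G] [Finite G]

theorem out_conj_mem {M : Subgroup G} {y : G} (ω : {ω : G ⧸ M // y • ω = ω}) :
    ω.1.out⁻¹ * y * ω.1.out ∈ M := by
  have h : (QuotientGroup.mk (y * ω.1.out) : G ⧸ M) = QuotientGroup.mk ω.1.out := by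
    have h1 : y • (QuotientGroup.mk ω.1.out : G ⧸ M) = QuotientGroup.mk ω.1.out := by
      rw [QuotientGroup.out_eq']; exact ω.2
    exact h1
  have h2 := QuotientGroup.eq.1 h.symm
  rwa [← mul_assoc] at h2

/-- In a nonabelian simple group the fixed-point product of an element of order `q` is trivial. -/
theorem prod_fixed_eq_one [IsSimpleGroup G] (hna : ¬ IsMulCommutative G) {M : Subgroup G} {A : Type*}
    [CommGroup A] (φ : M →* A) {y : G} {q : ℕ} [Fact q.Prime] (hyq : y ^ q = 1)
    [Fintype {ω : G ⧸ M // y • ω = ω}] :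
    ∏ ω : {ω : G ⧸ M // y • ω = ω}, φ ⟨ω.1.out⁻¹ * y * ω.1.out, out_conj_mem ω⟩ = 1 := by
  classical
  have hV : MonoidHom.transfer φ y = 1 := by
    rcases (MonoidHom.normal_ker (MonoidHom.transfer φ)).eq_bot_or_eq_top with e | e
    · exact absurd (IsMulCommutative.of_comm fun a b => (MonoidHom.ker_eq_bot_iff _).1 e
        (by rw [map_mul, map_mul, mul_comm])) hna
    · exact MonoidHom.mem_ker.1 (e ▸ Subgroup.mem_top y)
  haveI : Fintype (G ⧸ M) := Fintype.ofFinite _
  haveI : Fintype (Quotient (orbitRel (Subgroup.zpowers y) (G ⧸ M))) := Fintype.ofFinite _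
  rw [MonoidHom.transfer_eq_prod_quotient_orbitRel_zpowers_quot] at hV
  rw [← hV]
  have hfix : ∀ (ω : G ⧸ M), y • ω = ω → ∀ ω' : G ⧸ M,
      (orbitRel (Subgroup.zpowers y) (G ⧸ M)).r ω' ω → ω' = ω := by
    intro ω hω ω' hrel
    obtain ⟨⟨g, hg⟩, e⟩ := (MulAction.orbitRel_apply).1 hrel
    obtain ⟨i, rfl⟩ := Subgroup.mem_zpowers_iff.1 hg
    have : y ^ i ∈ MulAction.stabilizer G ω := zpow_mem (MulAction.mem_stabilizer_iff.2 hω) i
    rw [← e]
    exact MulAction.mem_stabilizer_iff.1 this
  refine Finset.prod_of_injOn (fun ω => Quotient.mk _ ω.1) ?_ (fun _ _ => Finset.mem_univ _) ?_ ?_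
  · intro a _ b _ hab
    exact Subtype.ext (hfix b.1 b.2 a.1 (Quotient.exact hab))
  · intro c _ hc
    have hnf : ¬ y • c.out = c.out := fun hf => hc ⟨⟨c.out, hf⟩, Finset.mem_coe.2 (Finset.mem_univ _), c.out_eq⟩
    have hper : Function.minimalPeriod (y • ·) c.out = q := by
      have hp : Function.IsPeriodicPt (y • ·) q c.out := by
        rw [Function.IsPeriodicPt, Function.IsFixedPt, smul_iterate, hyq]
        exact one_smul G c.out
      rcases (Nat.dvd_prime (Fact.out : q.Prime)).1 hp.minimalPeriod_dvd with e | e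
      · exact absurd (Function.minimalPeriod_eq_one_iff_isFixedPt.1 e) hnf
      · exact e
    convert φ.map_one using 2
    refine Subtype.ext ?_
    show c.out.out⁻¹ * y ^ Function.minimalPeriod (y • ·) c.out * c.out.out = 1
    rw [hper, hyq]
    group
  · intro ω _
    have hout : (Quotient.mk (orbitRel (Subgroup.zpowers y) (G ⧸ M)) ω.1).out = ω.1 :=
      hfix ω.1 ω.2 _ (Quotient.mk_out ω.1)
    have hper : Function.minimalPeriod (y • ·) ω.1 = 1 :=
      Function.minimalPeriod_eq_one_iff_isFixedPt.2 ω.2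
    congr 1
    refine Subtype.ext ?_
    show ω.1.out⁻¹ * y * ω.1.out = (Quotient.mk (orbitRel (Subgroup.zpowers y) (G ⧸ M)) ω.1).out.out⁻¹ *
      y ^ Function.minimalPeriod (y • ·) (Quotient.mk (orbitRel (Subgroup.zpowers y) (G ⧸ M)) ω.1).out *
      (Quotient.mk (orbitRel (Subgroup.zpowers y) (G ⧸ M)) ω.1).out.out
    rw [hout, hper, pow_one]

end CfsgLib.NoThreeOrders
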