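import Cfsg.Agent.Lib.NoThreeOrders.Rank3Basic
import Cfsg.Agent.Lib.NoThreeOrders.Transfer

/-!
The case where `N(P)/C(P)` is a `q`-group.
-/

set_option autoImplicit false
set_option linter.style.haveILetI false
set_option linter.unusedSectionVars false

open Cfsg
open scoped IsMulCommutative Pointwise

namespace CfsgLib.NoThreeOrders.BigData

variable {G : Type*} [Group G] [Finite G] {q : ℕ} {P : Sylow 2 G} {W : Subgroup G}
  (hd : BigData G q P W)

local notation "M₀" => Subgroup.normalizer ((P : Subgroup G) : Set G)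
local notation "C₀" => Subgroup.centralizer ((P : Subgroup G) : Set G)

include hd

/-- With `W` trivial an element of order `q` commutes with an involution of `P`. -/
theorem exists_fixer (hW : W = ⊥) (hex : ∃ g : G, orderOf g = 2 * q) :
    ∃ a ∈ (P : Subgroup G), a ≠ 1 ∧ ∃ y : G, orderOf y = q ∧ Commute y a ∧ y ∈ M₀ ∧ y ∉ C₀ := by
  obtain ⟨g, hg⟩ := hex
  obtain ⟨a, ha, ha1⟩ := hd.exists_ne_one
  have hu : orderOf (g ^ q) = 2 := by
    rw [orderOf_pow' g hd.h.hq.ne_zero, hg, Nat.gcd_eq_right (dvd_mul_left q 2),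
      Nat.mul_div_cancel _ hd.h.hq.pos]
  obtain ⟨c, hc⟩ := hd.exists_conj_mem_P hu ha ha1
  have hy : orderOf (c⁻¹ * g ^ 2 * c) = q := by
    rw [show c⁻¹ * g ^ 2 * c = c⁻¹ * g ^ 2 * c⁻¹⁻¹ by rw [inv_inv], CfsgLib.Involutions.orderOf_conj,
      orderOf_pow' g two_ne_zero, hg, Nat.gcd_eq_right (dvd_mul_right 2 q), Nat.mul_div_cancel_left _ two_pos]
  have hcomm : Commute (c⁻¹ * g ^ 2 * c) a := by
    have e : g ^ 2 * g ^ q = g ^ q * g ^ 2 := ((Commute.refl g).pow_pow 2 q).eq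
    rw [← hc] at e
    calc c⁻¹ * g ^ 2 * c * a = c⁻¹ * (g ^ 2 * (c * a * c⁻¹)) * c := by group
      _ = c⁻¹ * ((c * a * c⁻¹) * g ^ 2) * c := by rw [e]
      _ = a * (c⁻¹ * g ^ 2 * c) := by group
  refine ⟨a, ha, ha1, _, hy, hcomm, hd.centralizer_le_normalizer ha ha1
    (Subgroup.mem_centralizer_singleton_iff.2 hcomm.eq), fun hC => ?_⟩
  rw [(hd.W_eq_bot_iff).1 hW] at hC
  have h2 := orderOf_dvd_of_pow_eq_one (show (c⁻¹ * g ^ 2 * c) ^ 2 = 1 by rw [pow_two]; exact hd.sq _ hC)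
  rw [hy] at h2
  exact hd.h.hq2 ((Nat.prime_dvd_prime_iff_eq hd.h.hq Nat.prime_two).1 h2)

omit [Finite G] hd in
theorem eq_prime_of_pow_add_one {p e n : ℕ} (hp : Odd p) (hp3 : 3 ≤ p) (he : p ^ e + 1 = 2 ^ n)
    (hn : 2 ≤ n) : e = 1 := by
  have h4 : 4 ∣ p ^ e + 1 := he ▸ (pow_dvd_pow 2 hn)
  rcases Nat.even_or_odd e with ⟨f, hf⟩ | ho
  · exfalso
    obtain ⟨j, hj⟩ := hp.pow (n := f)
    rw [hf, pow_add, hj] at h4
    obtain ⟨c, hc⟩ := h4
    ring_nf at hc
    omega
  · by_contra he1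
    -- `p ^ e + 1 = (p + 1) * (odd number)`
    have hdvd : p + 1 ∣ p ^ e + 1 := by
      have := ho.nat_add_dvd_pow_add_pow p 1
      rwa [one_pow] at this
    obtain ⟨c, hc⟩ := hdvd
    obtain ⟨i, -, hi⟩ := (Nat.dvd_prime_pow Nat.prime_two).1 (show c ∣ 2 ^ n from he ▸ hc ▸ dvd_mul_left c (p + 1))
    rcases i with _ | i
    · rw [hi, pow_zero, mul_one] at hc
      have h1 : p ^ 1 < p ^ e := Nat.pow_lt_pow_right (by omega) (by obtain ⟨k, hk⟩ := ho; omega)
      rw [pow_one] at h1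
      omega
    · -- the cofactor is odd: reduce modulo two
      have hodd : (c : ℤ) % 2 = 1 := by
        have hgeo : ((p : ℤ) + 1) * (∑ k ∈ Finset.range e, (-(p : ℤ)) ^ k) = (p : ℤ) ^ e + 1 := by
          have := geom_sum_mul (-(p : ℤ)) e
          rw [Odd.neg_pow ho] at this
          linear_combination -this
        have hc' : ((p : ℤ) + 1) * (c : ℤ) = (p : ℤ) ^ e + 1 := by exact_mod_cast hc.symm
        have hceq : (c : ℤ) = ∑ k ∈ Finset.range e, (-(p : ℤ)) ^ k :=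
          mul_left_cancel₀ (by positivity) (hc'.trans hgeo.symm)
        rw [hceq, Finset.sum_int_mod, Finset.sum_congr rfl fun k _ => ?_, Finset.sum_const, Finset.card_range,
          nsmul_eq_mul, mul_one]
        · obtain ⟨k, hk⟩ := ho
          omega
        · have : Odd ((-(p : ℤ)) ^ k) := (Int.odd_coe_nat p |>.2 hp).neg.pow
          exact Int.odd_iff.1 this
      rw [hi, pow_succ] at hodd
      push_cast at hodd
      omega

/-- The case where `N(P)/C(P)` is a `q`-group is impossible. -/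
theorem false_of_qQuotient (hex : ∃ g : G, orderOf g = 2 * q)
    (hQ : ∀ r : ℕ, r.Prime → r ∣ (C₀).relIndex M₀ → r = q) : False := by
  classical
  haveI : Fact q.Prime := ⟨hd.h.hq⟩
  haveI := hd.simple
  set Cs := (C₀).subgroupOf M₀ with hCs
  obtain ⟨e0, he0⟩ : ∃ e0 : ℕ, Cs.index = q ^ e0 :=
    ⟨_, Nat.eq_prime_pow_of_unique_prime_dvd Subgroup.index_ne_zero_of_finite fun {d} => hQ d⟩
  -- point stabilisers
  have hstab : ∀ a ∈ (P : Subgroup G), a ≠ 1 →
      ((Subgroup.centralizer ({a} : Set G)).relIndex M₀ + 1 = Nat.card (P : Subgroup G)) ∧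
      (Subgroup.centralizer ({a} : Set G)).relIndex M₀ ∣ q ^ e0 := fun a ha ha1 =>
    ⟨hd.relIndex_eq le_rfl ha ha1 fun b hb hb1 => hd.transitive' ha ha1 hb hb1,
      he0 ▸ Subgroup.index_dvd_of_le fun x (hx : x ∈ Cs) => hd.C_le_centralizer ha hx⟩
  obtain ⟨a, ha, ha1⟩ := hd.exists_ne_one
  obtain ⟨hk, hkd⟩ := hstab a ha ha1
  obtain ⟨e, -, hke⟩ := (Nat.dvd_prime_pow hd.h.hq).1 hkd
  obtain ⟨n, hn⟩ : ∃ n, Nat.card (P : Subgroup G) = 2 ^ n := P.isPGroup'.exists_card_eq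
  have hn2 : 2 ≤ n := by
    by_contra hlt
    have := Nat.pow_le_pow_right two_pos (show n ≤ 1 by omega)
    have := hd.big
    omega
  have he1 := eq_prime_of_pow_add_one hd.h.odd_q hd.h.two_lt (e := e) (by rw [← hke, hk, hn]) hn2
  subst he1
  rw [pow_one] at hke
  -- the stabiliser is the centralizer
  set π := QuotientGroup.mk' Cs
  have hCeq : ∀ b ∈ (P : Subgroup G), b ≠ 1 → ∀ x ∈ M₀, Commute x b → x ∈ C₀ := by
    intro b hb hb1 x hx hxb
    set Sb := (Subgroup.centralizer ({b} : Set G)).subgroupOf M₀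
    have hCSb : Cs ≤ Sb := fun z hz => hd.C_le_centralizer hb hz
    have hidx : (Sb.map π).index = q := by
      rw [Subgroup.index_map_eq Sb (QuotientGroup.mk'_surjective Cs) (by rwa [QuotientGroup.ker_mk'])]
      have h1 := (hstab b hb hb1).1
      rw [show Sb.index = (Subgroup.centralizer ({b} : Set G)).relIndex M₀ from rfl]
      omega
    have hmin : (Nat.card (M₀ ⧸ Cs)).minFac = q := by
      rw [← Subgroup.index_eq_card, he0]
      refine Nat.Prime.pow_minFac hd.h.hq ?_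
      rintro rfl
      rw [pow_zero] at hkd
      have := Nat.dvd_one.1 hkd
      rw [hke] at this
      exact hd.h.hq.ne_one this
    haveI hn' : (Sb.map π).Normal := Subgroup.normal_of_index_eq_minFac_card (hidx.trans hmin.symm)
    have hSn : Sb.Normal := by
      have := Subgroup.comap_map_eq π Sb
      rw [QuotientGroup.ker_mk', sup_eq_left.2 hCSb] at this
      rw [← this]
      exact hn'.comap π
    refine Subgroup.mem_centralizer_iff.2 fun c hc => ?_
    by_cases hc1 : c = 1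
    · rw [hc1, one_mul, mul_one]
    obtain ⟨m, hm, hmc⟩ := hd.transitive' hb hb1 hc hc1
    have h1 := hSn.conj_mem ⟨x, hx⟩ (Subgroup.mem_centralizer_singleton_iff.2 hxb.eq) ⟨m⁻¹, inv_mem hm⟩
    have h2 : m⁻¹ * x * m⁻¹⁻¹ * b = b * (m⁻¹ * x * m⁻¹⁻¹) := Subgroup.mem_centralizer_singleton_iff.1 h1
    rw [← hmc]
    calc m * b * m⁻¹ * x = m * (b * (m⁻¹ * x * m⁻¹⁻¹)) * m⁻¹ := by group
      _ = m * ((m⁻¹ * x * m⁻¹⁻¹) * b) * m⁻¹ := by rw [h2]
      _ = x * (m * b * m⁻¹) := by group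
  by_cases hW : W = ⊥
  · obtain ⟨b, hb, hb1, y, -, hyb, hyM, hyC⟩ := hd.exists_fixer hW hex
    exact hyC (hCeq b hb hb1 y hyM hyb)
  have hcard : Cs.index = q := by
    have hle : Cs = (Subgroup.centralizer ({a} : Set G)).subgroupOf M₀ := by
      refine le_antisymm (fun z hz => hd.C_le_centralizer ha hz) fun z hz => ?_
      exact hCeq a ha ha1 z z.2 (Subgroup.mem_centralizer_singleton_iff.1 hz)
    rw [hle]; exact hke
  -- a `q`-Sylow subgroup of `M` and a central element in `W`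
  have hWn : W.subgroupOf M₀ ≤ (⊤ : Subgroup M₀) := le_top
  haveI : (W.subgroupOf M₀).Normal :=
    Subgroup.normal_subgroupOf_iff_le_normalizer (hd.W_le_C.trans C_le_M) |>.2 hd.M_le_normalizer_W
  have hWq : IsPGroup q (W.subgroupOf M₀) := hd.hW.comap_of_injective (M₀).subtype (M₀).subtype_injective
  obtain ⟨S, hS⟩ := hWq.exists_le_sylow
  obtain ⟨x, hxW, hx1, hxS⟩ : ∃ x ∈ W, x ≠ 1 ∧ ∀ s ∈ (S : Subgroup M₀), Commute (s : G) x := by
    letI : MulAction (S : Subgroup M₀) W :=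
      { smul := fun s w => ⟨(s : M₀).1 * w * ((s : M₀).1)⁻¹,
          (Subgroup.mem_normalizer_iff.1 (hd.M_le_normalizer_W (s : M₀).2) w).1 w.2⟩
        one_smul := fun w => Subtype.ext (by show (1 : G) * w * (1 : G)⁻¹ = w; simp)
        mul_smul := fun s t w => Subtype.ext (by
          show ((s : M₀).1 * (t : M₀).1) * w * ((s : M₀).1 * (t : M₀).1)⁻¹ =
            (s : M₀).1 * ((t : M₀).1 * w * ((t : M₀).1)⁻¹) * ((s : M₀).1)⁻¹
          group) }
    have hdvd : q ∣ Nat.card W := by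
      obtain ⟨j, hj⟩ := hd.hW.exists_card_eq
      rcases j with _ | j
      · exact absurd (Subgroup.card_eq_one.1 (by simpa using hj)) hW
      · exact hj ▸ dvd_pow_self q (Nat.succ_ne_zero j)
    have h1W : (1 : W) ∈ MulAction.fixedPoints (S : Subgroup M₀) W := fun s => Subtype.ext (by
      show (s : M₀).1 * (1 : G) * ((s : M₀).1)⁻¹ = 1; simp)
    obtain ⟨w, hw, hw1⟩ := S.isPGroup'.exists_fixed_point_of_prime_dvd_card_of_fixed_point (α := W) hdvd h1W
    refine ⟨w, w.2, fun e => hw1 (Subtype.ext e.symm), fun s hs => ?_⟩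
    exact mul_inv_eq_iff_eq_mul.1 (congrArg Subtype.val (hw ⟨s, hs⟩))
  have hxM : x ∈ M₀ := C_le_M (hd.W_le_C hxW)
  have hxo : orderOf x = q := orderOf_eq_prime (hd.h.pow_q_of_isPGroup hd.hW hxW) hx1
  have hqs : ∀ s ∈ (S : Subgroup M₀), (s : G) ^ q = 1 := fun s hs =>
    hd.h.pow_q_of_isPGroup (S.isPGroup'.map (M₀).subtype) (Subgroup.mem_map_of_mem _ hs)
  -- `M` centralises `x`
  have hxcent : M₀ ≤ Subgroup.centralizer ({x} : Set G) := by
    intro m hm
    let f : S → M₀ ⧸ Cs := fun s => π s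
    have hsurj : ∀ z : M₀ ⧸ Cs, ∃ s ∈ (S : Subgroup M₀), π s = z := by
      have hq' : IsPGroup q (M₀ ⧸ Cs) := IsPGroup.of_card (n := 1) (by
        rw [← Subgroup.index_eq_card, hcard, pow_one])
      have htop : ((S.mapSurjective (QuotientGroup.mk'_surjective Cs)) : Subgroup (M₀ ⧸ Cs)) = ⊤ :=
        ((S.mapSurjective (QuotientGroup.mk'_surjective Cs)).is_maximal'
          (hq'.to_subgroup ⊤) le_top).symm
      intro z
      have : z ∈ ((S : Subgroup M₀).map π) := by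
        show z ∈ ((S.mapSurjective (QuotientGroup.mk'_surjective Cs)) : Subgroup (M₀ ⧸ Cs))
        rw [htop]; exact Subgroup.mem_top z
      exact this
    obtain ⟨s, hs, hse⟩ := hsurj (π ⟨m, hm⟩)
    have hcm : (s : G)⁻¹ * m ∈ C₀ := by
      have h0 : s⁻¹ * (⟨m, hm⟩ : M₀) ∈ Cs := (QuotientGroup.eq (s := Cs)).1 hse
      exact h0
    rw [hd.centralizer_P] at hcm
    have hle : (P : Subgroup G) ⊔ W ≤ Subgroup.centralizer ({x} : Set G) := by
      refine sup_le (fun b hb => Subgroup.mem_centralizer_singleton_iff.2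
        (Subgroup.mem_centralizer_iff.1 (hd.hPW hb) x hxW).symm) fun w hw => ?_
      exact Subgroup.mem_centralizer_singleton_iff.2
        (hxS ⟨w, C_le_M (hd.W_le_C hw)⟩ (hS hw)).eq
    have hsx : (s : G) ∈ Subgroup.centralizer ({x} : Set G) :=
      Subgroup.mem_centralizer_singleton_iff.2 (hxS s hs).eq
    have := Subgroup.mul_mem _ hsx (hle hcm)
    rwa [mul_inv_cancel_left] at this
  haveI := hd.h.isSolvable_centralizer (a := x) (Or.inr hxo)
  have hcx : Subgroup.centralizer ({x} : Set G) ≤ M₀ :=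
    hd.solvable_le _ (Subgroup.le_normalizer.trans hxcent)
  -- `x` fixes no other point
  have hxfix : ∀ g : G, g⁻¹ * x * g ∈ M₀ → g ∈ M₀ := by
    intro g hgx
    by_contra hg
    by_cases hC : g⁻¹ * x * g ∈ C₀
    · have hcomm : ∀ b ∈ (P : Subgroup G), Commute b (g⁻¹ * x * g) := fun b hb =>
        (Subgroup.mem_centralizer_iff.1 hC b hb)
      have hgt : g * a * g⁻¹ ∈ M₀ := hcx (Subgroup.mem_centralizer_singleton_iff.2 (by
        calc g * a * g⁻¹ * x = g * (a * (g⁻¹ * x * g)) * g⁻¹ := by group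
          _ = g * ((g⁻¹ * x * g) * a) * g⁻¹ := by rw [(hcomm a ha).eq]
          _ = x * (g * a * g⁻¹) := by group))
      exact hg (CfsgLib.Involutions.mem_of_conj_mem_of_stronglyEmbedded hd.stronglyEmbedded
        (Subgroup.le_normalizer ha) (orderOf_eq_two (hd.sq a ha) ha1) hgt)
    obtain ⟨u, hu2, -, hug, -⟩ := hd.exists_swap hg
    set m := u⁻¹ * g with hm
    have huu : u⁻¹ = u := CfsgLib.Involutions.inv_eq_self hu2
    have hu2' : u * u = 1 := CfsgLib.Involutions.mul_self_eq_one hu2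
    set x'' := u⁻¹ * x * u with hx''
    have hx''M : x'' ∈ M₀ := by
      have : x'' = m * (g⁻¹ * x * g) * m⁻¹ := by rw [hx'', hm]; group
      rw [this]
      exact Subgroup.mul_mem _ (Subgroup.mul_mem _ hug hgx) (Subgroup.inv_mem _ hug)
    have hx''C : x'' ∉ C₀ := by
      intro hh
      refine hC ?_
      have : g⁻¹ * x * g = m⁻¹ * x'' * m⁻¹⁻¹ := by rw [hx'', hm]; group
      rw [this]
      exact conj_mem_C (Subgroup.inv_mem _ hug) hh
    have hc'' : Commute x'' x := Subgroup.mem_centralizer_singleton_iff.1 (hxcent hx''M)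
    set d := x * x'' with hddef
    have hd1 : d ≠ 1 := by
      intro e
      have : x'' = x⁻¹ := eq_inv_of_mul_eq_one_right e
      exact hx''C (this ▸ inv_mem (hd.W_le_C hxW))
    have hdo : orderOf d = q := by
      refine orderOf_eq_prime ?_ hd1
      rw [hddef, hc''.symm.mul_pow, hd.h.pow_q_of_isPGroup hd.hW hxW, one_mul, hx'']
      have := conj_pow (i := q) (a := u⁻¹) (b := x)
      rw [inv_inv, hd.h.pow_q_of_isPGroup hd.hW hxW] at this
      rw [this]; group
    have hud : Commute u d := by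
      have h1 : u * x'' = x * u := by rw [hx'']; group
      have h2 : u * x = x'' * u := by
        rw [hx'', huu]
        calc u * x = u * x * (u * u) := by rw [hu2', mul_one]
          _ = u * x * u * u := by group
      calc u * d = (u * x) * x'' := by rw [hddef, mul_assoc]
        _ = x'' * (u * x'') := by rw [h2, mul_assoc]
        _ = x'' * x * u := by rw [h1, ← mul_assoc]
        _ = d * u := by rw [hc''.eq]
    obtain ⟨c, hc⟩ := hd.exists_conj_mem_P hu2 ha ha1
    set d' := c⁻¹ * d * c with hd'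
    have hd'o : orderOf d' = q := by
      rw [hd', show c⁻¹ * d * c = c⁻¹ * d * c⁻¹⁻¹ by rw [inv_inv], CfsgLib.Involutions.orderOf_conj, hdo]
    have hd'a : Commute d' a := by
      calc d' * a = c⁻¹ * (d * (c * a * c⁻¹)) * c := by rw [hd']; group
        _ = c⁻¹ * ((c * a * c⁻¹) * d) * c := by rw [hc, hud.eq]
        _ = a * d' := by rw [hd']; group
    have hd'C : d' ∈ C₀ := hCeq a ha ha1 d'
      (hd.centralizer_le_normalizer ha ha1 (Subgroup.mem_centralizer_singleton_iff.2 hd'a.eq)) hd'a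
    haveI := hd.h.isSolvable_centralizer (a := d') (Or.inr hd'o)
    have hPd' : (P : Subgroup G) ≤ Subgroup.centralizer ({d'} : Set G) := fun b hb =>
      Subgroup.mem_centralizer_singleton_iff.2 (Subgroup.mem_centralizer_iff.1 hd'C b hb)
    set p := c⁻¹ * x * c with hp
    have hpM : p ∈ M₀ := hd.solvable_le _ hPd' (Subgroup.mem_centralizer_singleton_iff.2 (by
      have : Commute x d := (Commute.refl x).mul_right hc''.symm
      calc p * d' = c⁻¹ * (x * d) * c := by rw [hp, hd']; group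
        _ = c⁻¹ * (d * x) * c := by rw [this.eq]
        _ = d' * p := by rw [hp, hd']; group))
    have hz : a * (p * a⁻¹ * p⁻¹) ∈ (P : Subgroup G) :=
      Subgroup.mul_mem _ ha ((Subgroup.mem_normalizer_iff.1 hpM _).1 (inv_mem ha))
    have hzeq : a * (p * a⁻¹ * p⁻¹) = c⁻¹ * (x'' * x⁻¹) * c := by
      calc a * (p * a⁻¹ * p⁻¹) = c⁻¹ * (((c * a * c⁻¹) * x * (c * a * c⁻¹)⁻¹) * x⁻¹) * c := by rw [hp]; group
        _ = c⁻¹ * (x'' * x⁻¹) * c := by rw [hc, hx'', huu]
    have hzq : (a * (p * a⁻¹ * p⁻¹)) ^ q = 1 := by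
      rw [hzeq]
      have e1 := conj_pow (i := q) (a := c⁻¹) (b := x'' * x⁻¹)
      rw [inv_inv] at e1
      rw [e1, hc''.inv_right.mul_pow, inv_pow, hd.h.pow_q_of_isPGroup hd.hW hxW, inv_one, mul_one, hx'']
      have e2 := conj_pow (i := q) (a := u⁻¹) (b := x)
      rw [inv_inv, hd.h.pow_q_of_isPGroup hd.hW hxW] at e2
      rw [e2]; group
    have hz1 : a * (p * a⁻¹ * p⁻¹) = 1 := by
      have h2 := orderOf_dvd_of_pow_eq_one (show (a * (p * a⁻¹ * p⁻¹)) ^ 2 = 1 by rw [pow_two]; exact hd.sq _ hz)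
      exact orderOf_eq_one_iff.1 (Nat.eq_one_of_dvd_coprimes hd.h.coprime_two h2 (orderOf_dvd_of_pow_eq_one hzq))
    rw [hzeq] at hz1
    have : x'' = x := by
      have e : x'' * x⁻¹ = 1 := by
        calc x'' * x⁻¹ = c * (c⁻¹ * (x'' * x⁻¹) * c) * c⁻¹ := by group
          _ = 1 := by rw [hz1]; group
      exact mul_inv_eq_one.1 e
    exact hx''C (this ▸ hd.W_le_C hxW)
  -- transfer
  obtain ⟨s, hs, hsC⟩ : ∃ s ∈ (S : Subgroup M₀), (s : G) ∉ C₀ := by
    by_contra hall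
    push Not at hall
    have hle : (S : Subgroup M₀) ≤ Cs := fun s hs => hall s hs
    have := Subgroup.index_dvd_of_le hle
    rw [hcard] at this
    exact S.not_dvd_index this
  haveI : IsCyclic (M₀ ⧸ Cs) := isCyclic_of_prime_card (p := q) (by rw [← Subgroup.index_eq_card, hcard])
  letI : CommGroup (M₀ ⧸ Cs) := IsCyclic.commGroup
  haveI : Fintype (M₀ ⧸ Cs) := Fintype.ofFinite _
  set y := (s : G) with hy
  haveI : Fintype {ω : G ⧸ M₀ // y • ω = ω} := Fintype.ofFinite _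
  have hprod := prod_fixed_eq_one hd.nonab π (M := M₀) (y := y) (hqs s hs)
  set f : {ω : G ⧸ M₀ // y • ω = ω} → M₀ ⧸ Cs := fun ω => π ⟨ω.1.out⁻¹ * y * ω.1.out, out_conj_mem ω⟩
  have hfmk : ∀ (g : G) (hg : g⁻¹ * y * g ∈ M₀) (hω : y • (QuotientGroup.mk g : G ⧸ M₀) = QuotientGroup.mk g),
      f ⟨QuotientGroup.mk g, hω⟩ = π ⟨g⁻¹ * y * g, hg⟩ := by
    intro g hg hω
    obtain ⟨m, hm⟩ := QuotientGroup.mk_out_eq_mul M₀ g
    have : (⟨(QuotientGroup.mk g : G ⧸ M₀).out⁻¹ * y * (QuotientGroup.mk g : G ⧸ M₀).out, out_conj_mem ⟨_, hω⟩⟩ : M₀) =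
        m⁻¹ * ⟨g⁻¹ * y * g, hg⟩ * m := Subtype.ext (by
          show (QuotientGroup.mk g : G ⧸ M₀).out⁻¹ * y * (QuotientGroup.mk g : G ⧸ M₀).out = _
          rw [hm]; simp [mul_assoc])
    show π _ = _
    rw [this, map_mul, map_mul, map_inv, mul_comm (π m)⁻¹, inv_mul_cancel_right]
  have hyM : y ∈ M₀ := (s : M₀).2
  have hxy : Commute x y := (Subgroup.mem_centralizer_singleton_iff.1 (hxcent hyM) : Commute y x).symm
  let X := Subgroup.zpowers x
  have hXy : ∀ g : X, Commute (g : G) y := fun g => by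
    obtain ⟨i, hi⟩ := Subgroup.mem_zpowers_iff.1 g.2
    rw [← hi]; exact hxy.zpow_left i
  letI : MulAction X {ω : G ⧸ M₀ // y • ω = ω} :=
    { smul := fun g ω => ⟨(g : G) • ω.1, by rw [← mul_smul, ← (hXy g).eq, mul_smul, ω.2]⟩
      one_smul := fun ω => Subtype.ext (one_smul G ω.1)
      mul_smul := fun g h ω => Subtype.ext (mul_smul (g : G) (h : G) ω.1) }
  have hinv : ∀ (g : X) ω, f (g • ω) = f ω := by
    rintro g ⟨ω, hω⟩
    obtain ⟨z, rfl⟩ := QuotientGroup.mk_surjective ω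
    have hz : z⁻¹ * y * z ∈ M₀ := by
      have h1 : (QuotientGroup.mk (y * z) : G ⧸ M₀) = QuotientGroup.mk z := hω
      have h2 := QuotientGroup.eq.1 h1.symm
      rwa [← mul_assoc] at h2
    have hgz : ((g : G) * z)⁻¹ * y * ((g : G) * z) = z⁻¹ * y * z := by
      calc ((g : G) * z)⁻¹ * y * ((g : G) * z) = z⁻¹ * ((g : G)⁻¹ * (y * (g : G))) * z := by group
        _ = z⁻¹ * ((g : G)⁻¹ * ((g : G) * y)) * z := by rw [← (hXy g).eq]
        _ = z⁻¹ * y * z := by group
    refine (hfmk _ (hgz ▸ hz) _).trans ?_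
    rw [hfmk z hz hω]
    exact congrArg π (Subtype.ext hgz)
  have hpt : y • (QuotientGroup.mk 1 : G ⧸ M₀) = QuotientGroup.mk 1 := by
    show (QuotientGroup.mk (y * 1) : G ⧸ M₀) = _
    rw [mul_one, QuotientGroup.eq]
    simpa using inv_mem hyM
  set p₀ : {ω : G ⧸ M₀ // y • ω = ω} := ⟨QuotientGroup.mk 1, hpt⟩
  have hfp : f p₀ = π s := (hfmk 1 (by simpa using hyM) hpt).trans (congrArg π (Subtype.ext (by simp [hy])))
  have hA : ∀ z : M₀ ⧸ Cs, z ^ q = 1 := fun z => by
    rw [← orderOf_dvd_iff_pow_eq_one, ← hcard, Subgroup.index_eq_card]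
    exact orderOf_dvd_natCard z
  have hfix1 : ∀ ω, (∀ g : X, g • ω = ω) → ω = p₀ := by
    rintro ⟨ω, hω⟩ hg
    obtain ⟨z, rfl⟩ := QuotientGroup.mk_surjective ω
    have h1 : (QuotientGroup.mk (x * z) : G ⧸ M₀) = QuotientGroup.mk z :=
      congrArg Subtype.val (hg ⟨x, Subgroup.mem_zpowers x⟩)
    have h2 := QuotientGroup.eq.1 h1.symm
    rw [← mul_assoc] at h2
    refine Subtype.ext (QuotientGroup.eq.2 ?_)
    simpa using inv_mem (hxfix z h2)
  have hXq : IsPGroup q X := IsPGroup.of_card (n := 1) (by rw [Nat.card_zpowers, hxo, pow_one])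
  rw [show (∏ ω : {ω : G ⧸ M₀ // y • ω = ω}, π ⟨ω.1.out⁻¹ * y * ω.1.out, out_conj_mem ω⟩) = ∏ ω, f ω from rfl,
    ← Finset.prod_fiberwise Finset.univ f, Finset.prod_eq_single (f p₀)] at hprod
  · rw [Finset.prod_congr rfl (g := fun _ => f p₀) fun ω hω => (Finset.mem_filter.1 hω).2, Finset.prod_const] at hprod
    haveI : Fintype X := Fintype.ofFinite X
    letI : MulAction X {ω : {ω : G ⧸ M₀ // y • ω = ω} // f ω = f p₀} :=
      { smul := fun g ω => ⟨g • ω.1, (hinv g ω.1).trans ω.2⟩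
        one_smul := fun ω => Subtype.ext (one_smul X ω.1)
        mul_smul := fun g h ω => Subtype.ext (mul_smul g h ω.1) }
    have hmod := hXq.card_modEq_card_fixedPoints {ω : {ω : G ⧸ M₀ // y • ω = ω} // f ω = f p₀}
    have hfx : Nat.card (MulAction.fixedPoints X {ω : {ω : G ⧸ M₀ // y • ω = ω} // f ω = f p₀}) = 1 := by
      have hp : (⟨p₀, rfl⟩ : {ω : {ω : G ⧸ M₀ // y • ω = ω} // f ω = f p₀}) ∈
          MulAction.fixedPoints X {ω : {ω : G ⧸ M₀ // y • ω = ω} // f ω = f p₀} := fun g => Subtype.ext (Subtype.ext (by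
        show (g : G) • (QuotientGroup.mk 1 : G ⧸ M₀) = QuotientGroup.mk 1
        show (QuotientGroup.mk ((g : G) * 1) : G ⧸ M₀) = _
        rw [mul_one, QuotientGroup.eq]
        obtain ⟨i, hi⟩ := Subgroup.mem_zpowers_iff.1 g.2
        simpa [← hi] using inv_mem (zpow_mem hxM i)))
      refine Nat.card_eq_one_iff_unique.2 ⟨⟨fun u v => ?_⟩, ⟨⟨_, hp⟩⟩⟩
      exact Subtype.ext (Subtype.ext ((hfix1 u.1.1 fun g => congrArg Subtype.val (u.2 g)).trans
        (hfix1 v.1.1 fun g => congrArg Subtype.val (v.2 g)).symm))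
    rw [hfx, Nat.card_eq_fintype_card, Fintype.card_subtype] at hmod
    rw [← Nat.div_add_mod (Finset.univ.filter fun ω => f ω = f p₀).card q, hmod,
      Nat.mod_eq_of_lt hd.h.hq.one_lt, pow_succ, pow_mul, hA, one_pow, one_mul, hfp] at hprod
    exact hsC ((QuotientGroup.eq_one_iff s).1 hprod)
  · intro a _ hne
    rw [Finset.prod_congr rfl (g := fun _ => a) fun ω hω => (Finset.mem_filter.1 hω).2, Finset.prod_const]
    letI : MulAction X {ω : {ω : G ⧸ M₀ // y • ω = ω} // f ω = a} :=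
      { smul := fun g ω => ⟨g • ω.1, (hinv g ω.1).trans ω.2⟩
        one_smul := fun ω => Subtype.ext (one_smul X ω.1)
        mul_smul := fun g h ω => Subtype.ext (mul_smul g h ω.1) }
    have hmod := hXq.card_modEq_card_fixedPoints {ω : {ω : G ⧸ M₀ // y • ω = ω} // f ω = a}
    have hfx : Nat.card (MulAction.fixedPoints X {ω : {ω : G ⧸ M₀ // y • ω = ω} // f ω = a}) = 0 := by
      refine Nat.card_eq_zero.2 (Or.inl ⟨fun u => hne ?_⟩)
      rw [← u.1.2, hfix1 u.1.1 fun g => congrArg Subtype.val (u.2 g)]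
    rw [hfx, Nat.card_eq_fintype_card, Fintype.card_subtype] at hmod
    obtain ⟨c, hc⟩ := Nat.modEq_zero_iff_dvd.1 hmod
    rw [hc, pow_mul, hA, one_pow]
  · simp

end CfsgLib.NoThreeOrders.BigData
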