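import Cfsg.Agent.Lib.NoThreeOrders.Rank3CentralW
import Cfsg.Agent.Lib.NoThreeOrders.Rank3Mersenne

/-!
The case `C(P) = P`: a homomorphism of `N(P)` onto a group of order `q`.
-/

set_option autoImplicit false
set_option linter.style.haveILetI false
set_option linter.unusedSectionVars false

open Cfsg
open scoped IsMulCommutative Pointwise

namespace CfsgLib.NoThreeOrders

variable {G : Type*} [Group G] [Finite G] {q : ℕ}

omit [Finite G] in
/-- Elements normalising a cyclic subgroup act on its generator by powers. -/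
theorem exists_conj_eq_zpow {k g : G} (hg : g ∈ Subgroup.normalizer (Subgroup.zpowers k : Set G)) :
    ∃ i : ℤ, g * k * g⁻¹ = k ^ i := by
  obtain ⟨i, hi⟩ := Subgroup.mem_zpowers_iff.1 ((Subgroup.mem_normalizer_iff.1 hg k).1 (Subgroup.mem_zpowers k))
  exact ⟨i, hi.symm⟩

omit [Finite G] in
/-- Commutators of elements normalising a cyclic subgroup centralise it. -/
theorem commutator_commute {k g h : G} (hg : g ∈ Subgroup.normalizer (Subgroup.zpowers k : Set G))
    (hh : h ∈ Subgroup.normalizer (Subgroup.zpowers k : Set G)) :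
    Commute (g * h * g⁻¹ * h⁻¹) k := by
  obtain ⟨i, hi⟩ := exists_conj_eq_zpow hg
  obtain ⟨j, hj⟩ := exists_conj_eq_zpow hh
  have hkey : ∀ (x : G) (u v : ℤ), x * k * x⁻¹ = k ^ u → x * k ^ v * x⁻¹ = k ^ (u * v) := fun x u v hu => by
    rw [← conj_zpow, hu, ← zpow_mul]
  have hsame : (g * h) * k * (g * h)⁻¹ = (h * g) * k * (h * g)⁻¹ := by
    calc (g * h) * k * (g * h)⁻¹ = g * (h * k * h⁻¹) * g⁻¹ := by group
      _ = k ^ (i * j) := by rw [hj, hkey g i j hi]
      _ = h * (g * k * g⁻¹) * h⁻¹ := by rw [hi, hkey h j i hj, mul_comm]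
      _ = (h * g) * k * (h * g)⁻¹ := by group
  set z := (h * g)⁻¹ * (g * h) with hz
  have h1 : Commute z k := by
    refine mul_inv_eq_iff_eq_mul.1 ?_
    calc z * k * z⁻¹ = (h * g)⁻¹ * ((g * h) * k * (g * h)⁻¹) * (h * g) := by rw [hz]; group
      _ = k := by rw [hsame]; group
  have hzc : g * h * g⁻¹ * h⁻¹ = (h * g) * z * (h * g)⁻¹ := by rw [hz]; group
  have hhg : h * g ∈ Subgroup.normalizer (Subgroup.zpowers k : Set G) := mul_mem hh hg
  obtain ⟨u, hu⟩ := exists_conj_eq_zpow (inv_mem hhg)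
  rw [inv_inv] at hu
  rw [hzc]
  calc h * g * z * (h * g)⁻¹ * k = (h * g) * (z * ((h * g)⁻¹ * k * (h * g))) * (h * g)⁻¹ := by group
    _ = (h * g) * (((h * g)⁻¹ * k * (h * g)) * z) * (h * g)⁻¹ := by rw [hu, (h1.zpow_right u).eq]
    _ = k * (h * g * z * (h * g)⁻¹) := by group

/-- The automorphism group of a group of prime order is cyclic. -/
theorem isCyclic_mulAut {k : G} (hk : (orderOf k).Prime) : IsCyclic (MulAut (Subgroup.zpowers k)) := by
  haveI : Fact (orderOf k).Prime := ⟨hk⟩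
  haveI : IsCyclic (ZMod (Nat.card (Subgroup.zpowers k)))ˣ := by
    rw [Nat.card_zpowers]; infer_instance
  exact isCyclic_of_injective (IsCyclic.mulAutMulEquiv (Subgroup.zpowers k)).toMonoidHom
    (IsCyclic.mulAutMulEquiv (Subgroup.zpowers k)).injective

/-- An image in a cyclic group has order dividing any exponent. -/
theorem card_range_dvd {H A : Type*} [Group H] [Group A] [Finite H] [IsCyclic A] (f : H →* A) {e : ℕ}
    (he : ∀ x, f x ^ e = 1) : Nat.card f.range ∣ e := by
  obtain ⟨g, hg⟩ := IsCyclic.exists_generator (α := f.range)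
  rw [← orderOf_eq_card_of_forall_mem_zpowers hg]
  refine orderOf_dvd_of_pow_eq_one ?_
  obtain ⟨x, hx⟩ := g.2
  exact Subtype.ext (by rw [SubgroupClass.coe_pow, ← hx]; exact he x)

namespace Compl

variable {P : Sylow 2 G} {W : Subgroup G} {p : ℕ} {k : G} (hc : Compl G q P W p k)

local notation "M₀" => Subgroup.normalizer ((P : Subgroup G) : Set G)
local notation "C₀" => Subgroup.centralizer ((P : Subgroup G) : Set G)
local notation "L₀" => (Subgroup.normalizer ((P : Subgroup G) : Set G) ⊓ Subgroup.normalizer (Subgroup.zpowers k : Set G) : Subgroup G)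

include hc

theorem C_eq_P : C₀ = (P : Subgroup G) := hc.toBigData.W_eq_bot_iff.1 hc.W_eq_bot

/-- A `q`-subgroup of `L` has order at most `q`. -/
theorem card_qGroup_le {T : Subgroup G} (hT : T ≤ L₀) (hTq : IsPGroup q T) : Nat.card T ≤ q := by
  haveI := isCyclic_mulAut (hc.k_ord.symm ▸ hc.hp : (orderOf k).Prime)
  set N := Subgroup.normalizer (Subgroup.zpowers k : Set G)
  set f := (Subgroup.zpowers k).normalizerMonoidHom.comp (Subgroup.inclusion (hT.trans inf_le_right : T ≤ N))
  have hinj : Function.Injective f := by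
    refine (injective_iff_map_eq_one f).2 fun x hx => Subtype.ext ?_
    have h1 : (x : G) ∈ Subgroup.centralizer (Subgroup.zpowers k : Set G) := by
      have : Subgroup.inclusion (hT.trans inf_le_right : T ≤ N) x ∈ (Subgroup.zpowers k).normalizerMonoidHom.ker := hx
      rw [Subgroup.normalizerMonoidHom_ker] at this
      exact this
    by_contra hx1
    have hxo : orderOf (x : G) = q := by
      haveI : Fact q.Prime := ⟨hc.h.hq⟩
      exact orderOf_eq_prime (hc.h.pow_q_of_isPGroup hTq x.2) hx1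
    exact hc.k_ne_one (hc.free_of_order_q hxo (Subgroup.mem_zpowers k)
      (Subgroup.mem_centralizer_iff.1 h1 k (Subgroup.mem_zpowers k)).symm)
  have h1 : Nat.card f.range ∣ q := card_range_dvd f fun x => by
    rw [← map_pow, show x ^ q = 1 from Subtype.ext (hc.h.pow_q_of_isPGroup hTq x.2), map_one]
  rw [Nat.card_congr (MonoidHom.ofInjective hinj).toEquiv]
  exact Nat.le_of_dvd hc.h.hq.pos h1

theorem not_sq_dvd_L : ¬ q * q ∣ Nat.card L₀ := by
  intro hd
  haveI : Fact q.Prime := ⟨hc.h.hq⟩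
  obtain ⟨T, hT⟩ := Sylow.exists_subgroup_card_pow_prime q (G := L₀) (n := 2) (by rwa [pow_two])
  have h1 := hc.card_qGroup_le (T := T.map (L₀).subtype) (Subgroup.map_subtype_le _)
    ((IsPGroup.of_card hT).map _)
  rw [Subgroup.card_map_of_injective (L₀).subtype_injective, hT, pow_two] at h1
  exact absurd h1 (by have := hc.h.two_lt; nlinarith)

/-- An element of order `q` of `L` fixing an involution of `P`. -/
theorem exists_fixer_L (hex : ∃ g : G, orderOf g = 2 * q) :
    ∃ a ∈ (P : Subgroup G), a ≠ 1 ∧ ∃ y ∈ L₀, orderOf y = q ∧ Commute y a := by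
  obtain ⟨a, ha, ha1, y, hy, hya, hyM, hyC⟩ := hc.toBigData.exists_fixer hc.W_eq_bot hex
  obtain ⟨l, hl, c, hcC, rfl⟩ := hc.dec y hyM
  have hla : Commute l a := by
    have := hya.mul_left (show Commute c a from (Subgroup.mem_centralizer_iff.1 hcC a ha).symm).inv_left
    rwa [mul_assoc, mul_inv_cancel, mul_one] at this
  refine ⟨a, ha, ha1, l, hl, ((Nat.dvd_prime hc.h.hq).1 (hc.orderOf_dvd_of_fix hl ha ha1 hla)).resolve_left ?_, hla⟩
  intro h
  rw [orderOf_eq_one_iff.1 h, one_mul] at hyC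
  exact hyC hcC

theorem fix_eq_zpowers {a y : G} (ha : a ∈ (P : Subgroup G)) (ha1 : a ≠ 1) (hyL : y ∈ L₀)
    (hy : orderOf y = q) (hya : Commute y a) :
    L₀ ⊓ Subgroup.centralizer ({a} : Set G) = Subgroup.zpowers y := by
  haveI : Fact q.Prime := ⟨hc.h.hq⟩
  have hle : Subgroup.zpowers y ≤ L₀ ⊓ Subgroup.centralizer ({a} : Set G) :=
    Subgroup.zpowers_le.2 ⟨hyL, Subgroup.mem_centralizer_singleton_iff.2 hya.eq⟩
  refine (Subgroup.eq_of_le_of_card_ge hle ?_).symm
  rw [Nat.card_zpowers, hy]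
  refine hc.card_qGroup_le inf_le_left fun x => ⟨1, Subtype.ext ?_⟩
  rw [pow_one]
  exact orderOf_dvd_iff_pow_eq_one.1 (hc.orderOf_dvd_of_fix x.2.1 ha ha1
    (Subgroup.mem_centralizer_singleton_iff.1 x.2.2))

theorem card_L_eq {a y : G} (ha : a ∈ (P : Subgroup G)) (ha1 : a ≠ 1) (hyL : y ∈ L₀) (hy : orderOf y = q)
    (hya : Commute y a) :
    Nat.card L₀ = q * (Nat.card (P : Subgroup G) - 1) ∧ ¬ q ∣ Nat.card (P : Subgroup G) - 1 := by
  have h1 := hc.toBigData.relIndex_eq (T := L₀) inf_le_left ha ha1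
    fun b hb hb1 => hc.transitive_L ha ha1 hb hb1
  have h2 := Subgroup.card_mul_index ((Subgroup.centralizer ({a} : Set G)).subgroupOf L₀)
  have h3 : Nat.card ((Subgroup.centralizer ({a} : Set G)).subgroupOf L₀) = q := by
    rw [← Subgroup.card_map_of_injective (L₀).subtype_injective, Subgroup.subgroupOf_map_subtype,
      inf_comm, hc.fix_eq_zpowers ha ha1 hyL hy hya, Nat.card_zpowers, hy]
  rw [h3] at h2
  rw [Subgroup.relIndex] at h1
  have h4 : Nat.card L₀ = q * (Nat.card (P : Subgroup G) - 1) := by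
    rw [← h2, show Nat.card (P : Subgroup G) - 1 = ((Subgroup.centralizer ({a} : Set G)).subgroupOf L₀).index by omega]
  exact ⟨h4, fun hd => hc.not_sq_dvd_L (h4 ▸ Nat.mul_dvd_mul_left q hd)⟩

/-- The homomorphism of `M` onto a group of order `q`. -/
theorem exists_hom {a y : G} (ha : a ∈ (P : Subgroup G)) (ha1 : a ≠ 1) (hyL : y ∈ L₀) (hy : orderOf y = q)
    (hya : Commute y a) :
    ∃ φ : M₀ →* Multiplicative (ZMod q), φ ⟨y, hyL.1⟩ ≠ 1 ∧
      ∀ x : M₀, (orderOf x).Coprime q → φ x = 1 := by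
  haveI : Fact q.Prime := ⟨hc.h.hq⟩
  haveI : Fact (Nat.Prime 2) := ⟨Nat.prime_two⟩
  set ys : M₀ := ⟨y, hyL.1⟩
  have hys : orderOf ys = q := by rw [Subgroup.orderOf_mk]; exact hy
  obtain ⟨hL, hqk⟩ := hc.card_L_eq ha ha1 hyL hy hya
  obtain ⟨n, hn⟩ := P.isPGroup'.exists_card_eq
  have hMcard : Nat.card M₀ = 2 ^ n * (q * (2 ^ n - 1)) := by
    have h1 := Subgroup.card_mul_index ((C₀).subgroupOf M₀)
    rw [Nat.card_congr (Subgroup.subgroupOfEquivOfLe BigData.C_le_M).toEquiv, hc.C_eq_P] at h1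
    have h2 := hc.card_L
    rw [hc.C_eq_P, Subgroup.relIndex, hL] at h2
    rw [← h1, ← h2, hn]
  have hne : 2 ^ n - 1 ≠ 0 := by
    have := hc.big
    omega
  have hfac : (Nat.card M₀).factorization q = 1 := by
    have hq0 := hc.h.hq.ne_zero
    rw [hMcard, Nat.factorization_mul (by positivity) (mul_ne_zero hq0 hne), Nat.factorization_mul hq0 hne,
      Finsupp.add_apply, Finsupp.add_apply,
      Nat.factorization_eq_zero_of_not_dvd (fun h => hc.h.hq2
        ((Nat.prime_dvd_prime_iff_eq hc.h.hq Nat.prime_two).1 (hc.h.hq.dvd_of_dvd_pow h))),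
      Nat.Prime.factorization_self hc.h.hq, Nat.factorization_eq_zero_of_not_dvd (n := 2 ^ n - 1) (hn ▸ hqk), zero_add, add_zero]
  let S : Sylow q M₀ := Sylow.ofCard (Subgroup.zpowers ys) (by rw [Nat.card_zpowers, hys, hfac, pow_one])
  have hNC : Subgroup.normalizer ((S : Subgroup M₀) : Set M₀) ≤ Subgroup.centralizer ((S : Subgroup M₀) : Set M₀) := by
    intro m hm
    obtain ⟨i, hi⟩ := exists_conj_eq_zpow (k := ys) hm
    have hi' : (m : G) * y * (m : G)⁻¹ = y ^ i := congrArg Subtype.val hi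
    obtain ⟨l, hl, c, hcC, he⟩ := hc.dec m m.2
    have hly : l * y * l⁻¹ = y ^ i := by
      refine hc.eq_of_mem_L (mul_mem (mul_mem hl hyL) (inv_mem hl)) (zpow_mem hyL i) ?_
      rw [← hi', he]
      have : (l * y * l⁻¹)⁻¹ * (l * c * y * (l * c)⁻¹) = l * (y⁻¹ * c * y * c⁻¹) * l⁻¹ := by group
      rw [this]
      refine BigData.conj_mem_C hl.1 (mul_mem ?_ (inv_mem hcC))
      have := BigData.conj_mem_C (inv_mem hyL.1) hcC
      rwa [inv_inv] at this
    have hcomm := commutator_commute hl.2 hyL.2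
    have hpow : l * y * l⁻¹ * y⁻¹ = y ^ (i - 1) := by rw [hly, zpow_sub_one]
    have hone : y ^ (i - 1) = 1 := by
      by_contra hne'
      have hyo : orderOf (y ^ (i - 1)) = q := orderOf_eq_prime (by
        rw [← zpow_natCast, ← zpow_mul, mul_comm, zpow_mul, zpow_natCast, ← hy, pow_orderOf_eq_one, one_zpow]) hne'
      exact hc.k_ne_one (hc.free_of_order_q hyo (Subgroup.mem_zpowers k) (hpow ▸ hcomm))
    have hyi : y ^ i = y := by
      rw [zpow_sub_one, mul_inv_eq_one] at hone
      exact hone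
    rw [Subgroup.mem_centralizer_iff]
    intro z hz
    obtain ⟨j, rfl⟩ := Subgroup.mem_zpowers_iff.1 hz
    have hmy : Commute m ys := Subtype.ext (mul_inv_eq_iff_eq_mul.1 (hi'.trans hyi))
    exact (hmy.zpow_right j).symm.eq
  have hc' := MonoidHom.ker_transferSylow_isComplement' S hNC
  set ψ := MonoidHom.transferSylow S hNC with hψ
  haveI : IsCyclic (S : Subgroup M₀) := inferInstanceAs (IsCyclic (Subgroup.zpowers ys))
  have hScard : Nat.card (S : Subgroup M₀) = q := by
    show Nat.card (Subgroup.zpowers ys) = q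
    rw [Nat.card_zpowers, hys]
  let e : (S : Subgroup M₀) ≃* Multiplicative (ZMod q) := mulEquivOfCyclicCardEq (by
    rw [hScard, Nat.card_congr (Multiplicative.toAdd (α := ZMod q)), Nat.card_zmod])
  refine ⟨e.toMonoidHom.comp ψ, fun h1 => ?_, fun x hx => ?_⟩
  · have hker : ys ∈ ψ.ker := e.map_eq_one_iff.1 h1
    have hd := Subgroup.orderOf_dvd_natCard _ hker
    rw [hys, ← hc'.index_eq_card] at hd
    exact S.not_dvd_index hd
  · show e (ψ x) = 1
    rw [orderOf_eq_one_iff.1 (Nat.eq_one_of_dvd_coprimes hx (orderOf_map_dvd ψ x)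
      ((orderOf_dvd_natCard (ψ x)).trans (dvd_of_eq hScard))), map_one]

end Compl

end CfsgLib.NoThreeOrders
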