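import Cfsg.Agent.Lib.NoThreeOrders.Odd
import Cfsg.Agent.Lib.Balance.ConnectedFunctor
import Cfsg.Agent.Lib.Signalizer.SFT.Completion
import Cfsg.Agent.Lib.Involutions.StronglyEmbedded
import Cfsg.Agent.S0205
import Cfsg.Agent.S1225

/-!
Elementary abelian Sylow 2-subgroups of order at least eight in a simple group: the normalizer of the
Sylow subgroup is strongly embedded.
-/

set_option autoImplicit false
set_option linter.style.haveILetI false
set_option linter.unusedSectionVars false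

open Cfsg
open scoped IsMulCommutative Pointwise

namespace CfsgLib.NoThreeOrders

/-- A simple nonabelian group with elementary abelian Sylow 2-subgroup of order at least eight. -/
structure BigTwo (G : Type*) [Group G] (q : ℕ) (P : Sylow 2 G) : Prop where
  simple : IsSimpleGroup G
  nonab : ¬ IsMulCommutative G
  h : TwoQ G q
  big : 8 ≤ Nat.card (P : Subgroup G)

variable {G : Type*} [Group G] [Finite G] {q : ℕ}

theorem conj_eq_of_commute {a b : G} (h : Commute a b) : a * b * a⁻¹ = b := by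
  rw [h.eq, mul_inv_cancel_right]

theorem TwoQ.sylow_sq (h : TwoQ G q) (P : Sylow 2 G) : ∀ a ∈ (P : Subgroup G), a * a = 1 :=
  fun _ ha => h.mul_self_of_isPGroup P.isPGroup' ha

theorem not_isCyclic_of_card {E : Subgroup G} (hE2 : ∀ a ∈ E, a * a = 1) (h4 : 4 ≤ Nat.card E) :
    ¬ IsCyclic E := by
  intro hc
  obtain ⟨g, hg⟩ := hc.exists_generator
  have h1 : orderOf g = Nat.card E := orderOf_eq_card_of_forall_mem_zpowers hg
  have h2 : orderOf g ∣ 2 := orderOf_dvd_of_pow_eq_one (Subtype.ext (by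
    show (g : G) ^ 2 = 1
    rw [pow_two]; exact hE2 _ g.2))
  have := Nat.le_of_dvd two_pos h2
  omega

/-- In a solvable group containing the Sylow subgroup, the image of `P` modulo the odd core is normal and
self-centralising. -/
theorem sylow_modulo_core (P : Sylow 2 G) [IsMulCommutative (P : Subgroup G)] (X : Subgroup G)
    [Group.IsSolvable X] (hPX : (P : Subgroup G) ≤ X) :
    let E := ((P.subtype hPX : Sylow 2 X) : Subgroup X)
    (pPrimeCore 2 X ⊔ E).Normal ∧ Subgroup.centralizer (E : Set X) ≤ pPrimeCore 2 X ⊔ E := by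
  haveI : Fact (Nat.Prime 2) := ⟨Nat.prime_two⟩
  intro E
  let π := QuotientGroup.mk' (pPrimeCore 2 X)
  set Eb := E.map π
  have hEcomm : ∀ a ∈ E, ∀ b ∈ E, a * b = b * a := fun a ha b hb => by
    have h := congrArg (fun z : (P : Subgroup G) => (z : G))
      (mul_comm (⟨(a : G), ha⟩ : (P : Subgroup G)) ⟨(b : G), hb⟩)
    exact Subtype.ext h
  obtain ⟨S, hS⟩ : ∃ S : Sylow 2 (X ⧸ pPrimeCore 2 X), (S : Subgroup _) = Eb :=
    ⟨(P.subtype hPX).mapSurjective (QuotientGroup.mk'_surjective _), rfl⟩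
  have hQS : pCore 2 (X ⧸ pPrimeCore 2 X) ≤ Eb := hS ▸ CfsgLib.Cores.pCore_le_sylow S
  have hcent : Eb ≤ Subgroup.centralizer (pCore 2 (X ⧸ pPrimeCore 2 X) : Set (X ⧸ pPrimeCore 2 X)) := by
    rintro _ ⟨a, ha, rfl⟩
    rw [Subgroup.mem_centralizer_iff]
    intro z hz
    obtain ⟨b, hb, rfl⟩ := hQS hz
    rw [← map_mul, ← map_mul, hEcomm a ha b hb]
  have heq : Eb = pCore 2 (X ⧸ pPrimeCore 2 X) :=
    le_antisymm (hcent.trans CfsgLib.Balance.centralizer_pCore_le_of_isSolvable) hQS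
  have hcomap : Eb.comap π = pPrimeCore 2 X ⊔ E := by
    rw [Subgroup.comap_map_eq, QuotientGroup.ker_mk', sup_comm]
  constructor
  · rw [← hcomap, heq]
    exact Subgroup.Normal.comap inferInstance _
  · intro x hx
    rw [← hcomap, Subgroup.mem_comap]
    have hxc : π x ∈ Subgroup.centralizer (pCore 2 (X ⧸ pPrimeCore 2 X) : Set (X ⧸ pPrimeCore 2 X)) := by
      rw [← heq, Subgroup.mem_centralizer_iff]
      rintro _ ⟨a, ha, rfl⟩
      rw [← map_mul, ← map_mul, Subgroup.mem_centralizer_iff.1 hx a ha]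
    rw [heq]
    exact CfsgLib.Balance.centralizer_pCore_le_of_isSolvable hxc

/-- Frattini: a solvable overgroup of `P` is its odd core times the normalizer of `P`. -/
theorem exists_decomp_solvable (P : Sylow 2 G) [IsMulCommutative (P : Subgroup G)] (X : Subgroup G)
    [Group.IsSolvable X] (hPX : (P : Subgroup G) ≤ X) {x : G} (hx : x ∈ X) :
    ∃ k ∈ (pPrimeCore 2 X).map X.subtype,
      k⁻¹ * x ∈ Subgroup.normalizer ((P : Subgroup G) : Set G) := by
  haveI : Fact (Nat.Prime 2) := ⟨Nat.prime_two⟩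
  obtain ⟨hn, -⟩ := sylow_modulo_core P X hPX
  set E := ((P.subtype hPX : Sylow 2 X) : Subgroup X)
  haveI := hn
  let S : Sylow 2 ↥(pPrimeCore 2 X ⊔ E) := (P.subtype hPX).subtype le_sup_right
  have htop := Sylow.normalizer_sup_eq_top S
  have hmapS : (S : Subgroup ↥(pPrimeCore 2 X ⊔ E)).map (pPrimeCore 2 X ⊔ E).subtype = E :=
    Subgroup.map_subgroupOf_eq_of_le le_sup_right
  rw [hmapS] at htop
  have hx' : (⟨x, hx⟩ : X) ∈ Subgroup.normalizer (E : Set X) ⊔ pPrimeCore 2 X := by
    have : Subgroup.normalizer (E : Set X) ⊔ (pPrimeCore 2 X ⊔ E) ≤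
        Subgroup.normalizer (E : Set X) ⊔ pPrimeCore 2 X :=
      sup_le le_sup_left (sup_le le_sup_right (Subgroup.le_normalizer.trans le_sup_left))
    exact this (htop ▸ Subgroup.mem_top _)
  rw [sup_comm, ← SetLike.mem_coe, Subgroup.normal_mul] at hx'
  obtain ⟨k, hk, n, hn', he⟩ := hx'
  refine ⟨k, ⟨k, hk, rfl⟩, ?_⟩
  have e : (k : G)⁻¹ * x = n := by
    rw [← show (k : G) * n = x from congrArg Subtype.val he]; group
  rw [e]
  refine CfsgLib.CoprimeAction.mem_normalizer_of_conj_mem fun a ha => ?_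
  exact (Subgroup.mem_normalizer_iff.1 hn' ⟨a, hPX ha⟩).1 ha

namespace BigTwo

variable {P : Sylow 2 G} (hb : BigTwo G q P)
include hb

theorem comm : IsMulCommutative (P : Subgroup G) := isMulCommutative_of_mul_self (hb.h.sylow_sq P)

theorem noncyclic : ¬ IsCyclic (P : Subgroup G) :=
  not_isCyclic_of_card (hb.h.sylow_sq P) (by have := hb.big; omega)

theorem le_centralizer {t : G} (ht : t ∈ (P : Subgroup G)) :
    (P : Subgroup G) ≤ Subgroup.centralizer ({t} : Set G) := fun a ha => by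
  haveI := hb.comm
  rw [Subgroup.mem_centralizer_singleton_iff]
  exact congrArg Subtype.val (mul_comm (⟨a, ha⟩ : (P : Subgroup G)) ⟨t, ht⟩)

theorem P_ne_bot : (P : Subgroup G) ≠ ⊥ := fun e => by
  have := hb.big
  rw [e, Subgroup.card_bot] at this
  omega

theorem ne_top_of_odd {W : Subgroup G} (hW : Odd (Nat.card W)) (hW1 : W ≠ ⊥) :
    Subgroup.normalizer (W : Set G) ≠ ⊤ := by
  haveI := hb.simple
  intro e
  haveI := Subgroup.normalizer_eq_top_iff.1 e
  rcases IsSimpleGroup.eq_bot_or_eq_top_of_normal W inferInstance with e' | e'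
  · exact hW1 e'
  · subst e'
    rw [Subgroup.card_top] at hW
    have := Cfsg.Agent.S0205.result hW
    exact hb.nonab (IsMulCommutative.of_comm (IsSimpleGroup.comm_iff_isSolvable.2 this))

theorem normalizer_ne_top : Subgroup.normalizer ((P : Subgroup G) : Set G) ≠ ⊤ := by
  haveI := hb.simple
  intro e
  haveI := Subgroup.normalizer_eq_top_iff.1 e
  rcases IsSimpleGroup.eq_bot_or_eq_top_of_normal (P : Subgroup G) inferInstance with e' | e'
  · exact hb.P_ne_bot e'
  · refine hb.nonab (IsMulCommutative.of_comm fun a b => ?_)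
    have ha : a ∈ (P : Subgroup G) := e' ▸ Subgroup.mem_top a
    have hb' : b ∈ (P : Subgroup G) := e' ▸ Subgroup.mem_top b
    exact (hb.h.commute_of_isPGroup P.isPGroup' ha hb').eq

/-- A proper overgroup of `N(P)` and of the centralizers of the involutions of `P` is strongly
embedded. -/
theorem stronglyEmbedded {M : Subgroup G} (hM : M ≠ ⊤)
    (hN : Subgroup.normalizer ((P : Subgroup G) : Set G) ≤ M)
    (hC : ∀ t ∈ (P : Subgroup G), t ≠ 1 → Subgroup.centralizer ({t} : Set G) ≤ M) :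
    IsStronglyEmbedded M := by
  haveI : Fact (Nat.Prime 2) := ⟨Nat.prime_two⟩
  haveI := hb.comm
  have hPM : (P : Subgroup G) ≤ M := Subgroup.le_normalizer.trans hN
  have heven : Even (Nat.card M) := by
    rw [even_iff_two_dvd]
    obtain ⟨k, hk⟩ := P.isPGroup'.exists_card_eq
    refine (dvd_pow_self 2 (n := k) ?_).trans (hk ▸ Subgroup.card_dvd_of_le hPM)
    rintro rfl
    have := hb.big
    omega
  rw [CfsgLib.Involutions.isStronglyEmbedded_iff_conj hM heven]
  have key : ∀ x ∈ M, orderOf x = 2 → ∃ m ∈ M, m * x * m⁻¹ ∈ (P : Subgroup G) := by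
    intro x hx hx2
    obtain ⟨Q, hQ⟩ := (IsPGroup.of_card (p := 2) (n := 1) (by
      rw [Nat.card_zpowers, Subgroup.orderOf_mk, hx2, pow_one]) :
      IsPGroup 2 (Subgroup.zpowers (⟨x, hx⟩ : M))).exists_le_sylow
    obtain ⟨m, hm⟩ := MulAction.exists_smul_eq M Q (P.subtype hPM)
    refine ⟨m, m.2, ?_⟩
    have h1 : MulAut.conj m (⟨x, hx⟩ : M) ∈ ((m • Q : Sylow 2 M) : Subgroup M) := by
      rw [Sylow.coe_subgroup_smul]
      exact ⟨_, hQ (Subgroup.mem_zpowers _), rfl⟩
    rw [hm] at h1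
    exact h1
  intro t ht ht2 g hg
  obtain ⟨m₁, hm₁, h₁⟩ := key t ht ht2
  obtain ⟨m₂, hm₂, h₂⟩ := key _ hg (by rw [CfsgLib.Involutions.orderOf_conj, ht2])
  set e := m₁ * t * m₁⁻¹
  set z := m₂ * g * m₁⁻¹ with hz
  have hze : (z⁻¹)⁻¹ * e * z⁻¹ = m₂ * (g * t * g⁻¹) * m₂⁻¹ := by simp only [hz, e]; group
  obtain ⟨n, hn, he⟩ := P.conj_eq_normalizer_conj_of_mem e z⁻¹ h₁ (by rw [hze]; exact h₂)
  have hnz : n * z ∈ Subgroup.centralizer ({e} : Set G) := by
    rw [Subgroup.mem_centralizer_singleton_iff]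
    rw [inv_inv] at he
    calc n * z * e = n * (z * e * z⁻¹) * z := by group
      _ = n * (n⁻¹ * e * n) * z := by rw [he]
      _ = e * (n * z) := by group
  have he1 : e ≠ 1 := fun h => by
    have : orderOf e = 2 := by rw [CfsgLib.Involutions.orderOf_conj, ht2]
    rw [h, orderOf_one] at this
    omega
  have hzM : z ∈ M := (M.mul_mem_cancel_left (hN hn)).1 (hC e h₁ he1 hnz)
  have : g = m₂⁻¹ * z * m₁ := by rw [hz]; group
  rw [this]
  exact M.mul_mem (M.mul_mem (M.inv_mem hm₂) hzM) hm₁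

/-- A strongly embedded overgroup of `N(P)` makes `N(P)` transitive on the involutions of `P`. -/
theorem transitive {M : Subgroup G} (hse : IsStronglyEmbedded M) {a b : G}
    (ha : a ∈ (P : Subgroup G)) (ha1 : a ≠ 1) (hb' : b ∈ (P : Subgroup G)) (hb1 : b ≠ 1) :
    ∃ n ∈ Subgroup.normalizer ((P : Subgroup G) : Set G), n * a * n⁻¹ = b := by
  haveI : Fact (Nat.Prime 2) := ⟨Nat.prime_two⟩
  haveI := hb.simple
  haveI := hb.comm
  have ha2 := orderOf_eq_two (hb.h.sylow_sq P a ha) ha1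
  have hb2 := orderOf_eq_two (hb.h.sylow_sq P b hb') hb1
  obtain ⟨hM, heven, hodd⟩ := hse
  obtain ⟨⟨s, hs⟩, hs2⟩ := exists_prime_orderOf_dvd_card' (G := M) 2 heven.two_dvd
  rw [Subgroup.orderOf_mk] at hs2
  obtain ⟨u, hu2, huM⟩ : ∃ u : G, orderOf u = 2 ∧ u ∉ M := by
    by_contra hall
    push Not at hall
    refine hM ((Subgroup.eq_top_iff' M).2 fun g => ?_)
    exact CfsgLib.Involutions.mem_of_conj_mem_of_stronglyEmbedded ⟨hM, heven, hodd⟩ hs hs2
      (hall _ (by rw [CfsgLib.Involutions.orderOf_conj, hs2]))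
  obtain ⟨c, hc⟩ := isConj_iff.1 ((Cfsg.Agent.S1225.result M ⟨hM, heven, hodd⟩ u hu2 huM s s hs2 hs hs2 hs).2 a b ha2 hb2)
  obtain ⟨n, hn, he⟩ := P.conj_eq_normalizer_conj_of_mem a c⁻¹ ha (by rw [inv_inv, hc]; exact hb')
  rw [inv_inv, hc] at he
  exact ⟨n⁻¹, inv_mem hn, by rw [inv_inv, ← he]⟩

/-- The subgroup generated by the odd cores is centralised by `P`. -/
theorem exists_signalizer : ∃ W : Subgroup G, IsPGroup q W ∧
    (P : Subgroup G) ≤ Subgroup.centralizer (W : Set G) ∧
    ∀ t ∈ (P : Subgroup G), t ≠ 1 → centralizerPPrimeCore 2 t = W := by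
  haveI : Fact (Nat.Prime 2) := ⟨Nat.prime_two⟩
  haveI := hb.comm
  have h := hb.h
  have hsq := h.sylow_sq P
  have hA : IsElementaryAbelian 2 (P : Subgroup G) :=
    ⟨hb.comm, fun a ha => by rw [pow_two]; exact hsq a ha⟩
  have hsol : ∀ t ∈ (P : Subgroup G), t ≠ 1 → Group.IsSolvable (Subgroup.centralizer ({t} : Set G)) :=
    fun t ht ht1 => h.isSolvable_centralizer (Or.inl (orderOf_eq_two (hsq t ht) ht1))
  have hθ : IsSolvableSignalizerFunctor 2 (P : Subgroup G) (centralizerPPrimeCore 2) := by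
    refine ⟨⟨fun a _ _ => CfsgLib.Balance.centralizerPPrimeCore_le_centralizer 2 a,
      fun a _ _ => CfsgLib.Balance.not_dvd_card_centralizerPPrimeCore a, fun a ha _ b hb' x hx => ?_,
      fun a ha ha1 b hb' hb1 => ?_⟩, fun a ha ha1 => ?_⟩
    · exact CfsgLib.CoprimeAction.conj_mem
        (CfsgLib.Balance.centralizer_le_normalizer_centralizerPPrimeCore 2 a (hb.le_centralizer ha hb')) hx
    · haveI := hsol b hb' hb1
      exact inf_le_core (orderOf_eq_two (hsq a ha) ha1) (Subgroup.centralizer ({b} : Set G))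
        (hb.le_centralizer hb' ha)
    · haveI := hsol a ha ha1
      exact CfsgLib.CoprimeAction.isSolvable_of_le (CfsgLib.Balance.centralizerPPrimeCore_le_centralizer 2 a)
  obtain ⟨hmem, hinf⟩ := CfsgLib.Signalizer.SFT.closure_mem_and_inf_eq hA hb.big hθ
  set W := signalizerClosure (P : Subgroup G) (centralizerPPrimeCore 2)
  have hPW : (P : Subgroup G) ≤ Subgroup.normalizer (W : Set G) := fun g hg =>
    CfsgLib.CoprimeAction.mem_normalizer_of_conj_mem fun x hx => hmem.2.2.1 g hg x hx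
  have hWq : IsPGroup q W := h.isPGroup_of_odd hsq hb.noncyclic hPW
    (Nat.not_even_iff_odd.1 fun he => hmem.2.1 (even_iff_two_dvd.1 he))
  have hNW : Subgroup.normalizer ((P : Subgroup G) : Set G) ≤ Subgroup.normalizer (W : Set G) := by
    intro g hg
    refine CfsgLib.CoprimeAction.mem_normalizer_of_conj_mem fun x hx => ?_
    have hle : W ≤ W.comap (MulAut.conj g).toMonoidHom := by
      refine iSup_le fun a y hy => ?_
      rw [Subgroup.mem_comap]
      refine Subgroup.mem_iSup_of_mem ⟨g * a * g⁻¹, (Subgroup.mem_normalizer_iff.1 hg _).1 a.2.1,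
        fun e => a.2.2 (conj_eq_one_iff.1 e)⟩ ?_
      have := CfsgLib.Balance.map_centralizerPPrimeCore (p := 2) (MulAut.conj g) (a : G)
      exact this ▸ Subgroup.mem_map_of_mem _ hy
    simpa using hle hx
  -- `P` centralises `W`
  have hcentral : (P : Subgroup G) ≤ Subgroup.centralizer (W : Set G) := by
    by_cases hW : W = ⊥
    · intro a _
      rw [hW, Subgroup.mem_centralizer_iff]
      intro x hx
      rw [Subgroup.mem_bot.1 hx, one_mul, mul_one]
    have hWodd : Odd (Nat.card W) := Nat.not_even_iff_odd.1 fun he => hmem.2.1 (even_iff_two_dvd.1 he)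
    have hse : IsStronglyEmbedded (Subgroup.normalizer (W : Set G)) := by
      refine hb.stronglyEmbedded (hb.ne_top_of_odd hWodd hW) hNW fun t ht ht1 c hc => ?_
      haveI := hsol t ht ht1
      obtain ⟨k, hk, hkn⟩ := exists_decomp_solvable P _ (hb.le_centralizer ht) hc
      have hkW : k ∈ W := (hinf t ht ht1 ▸ (hk : k ∈ centralizerPPrimeCore 2 t) :
        k ∈ W ⊓ Subgroup.centralizer ({t} : Set G)).1
      have := Subgroup.mul_mem _ (Subgroup.le_normalizer hkW) (hNW hkn)
      rwa [mul_inv_cancel_left] at this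
    by_contra hnot
    have hfaith : ∀ a ∈ (P : Subgroup G), (∀ w ∈ W, Commute a w) → a = 1 := by
      intro a ha hcomm
      by_contra ha1
      refine hnot fun b hb' => Subgroup.mem_centralizer_iff.2 fun w hw => ?_
      by_cases hb1 : b = 1
      · rw [hb1, one_mul, mul_one]
      obtain ⟨n, hn, hnab⟩ := hb.transitive hse ha ha1 hb' hb1
      have := hcomm _ ((Subgroup.mem_normalizer_iff''.1 (hNW hn) w).1 hw)
      calc w * b = n * ((n⁻¹ * w * n) * a) * n⁻¹ := by rw [← hnab]; group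
        _ = n * (a * (n⁻¹ * w * n)) * n⁻¹ := by rw [this.eq]
        _ = b * w := by rw [← hnab]; group
    -- all elements of `N(P)` centralise `P`
    obtain ⟨a, ha, ha1⟩ : ∃ a ∈ (P : Subgroup G), a ≠ 1 := by
      obtain ⟨⟨a, ha⟩, ha1⟩ := Subgroup.ne_bot_iff_exists_ne_one.1 hb.P_ne_bot
      exact ⟨a, ha, fun e => ha1 (Subtype.ext e)⟩
    refine hb.noncyclic ⟨⟨a, ha⟩, fun ⟨b, hb'⟩ => ?_⟩
    by_cases hb1 : b = 1
    · exact ⟨0, Subtype.ext (by simp [hb1])⟩
    obtain ⟨n, hn, hnab⟩ := hb.transitive hse ha ha1 hb' hb1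
    have hc := h.commute_of_faithful hsq hWq hPW (hNW hn) hn hfaith a ha
    rw [conj_eq_of_commute hc] at hnab
    subst hnab
    exact Subgroup.mem_zpowers _
  refine ⟨W, hWq, hcentral, fun t ht ht1 => ?_⟩
  rw [← hinf t ht ht1]
  refine inf_eq_left.2 fun w hw => Subgroup.mem_centralizer_singleton_iff.2 ?_
  exact Subgroup.mem_centralizer_iff.1 (hcentral ht) w hw

end BigTwo

/-- The data on `M = N(P)`. -/
structure BigData (G : Type*) [Group G] (q : ℕ) (P : Sylow 2 G) (W : Subgroup G) : Prop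
    extends BigTwo G q P where
  hW : IsPGroup q W
  hPW : (P : Subgroup G) ≤ Subgroup.centralizer (W : Set G)
  core_eq : ∀ t ∈ (P : Subgroup G), t ≠ 1 → centralizerPPrimeCore 2 t = W

theorem BigTwo.exists_data {P : Sylow 2 G} (hb : BigTwo G q P) : ∃ W, BigData G q P W := by
  obtain ⟨W, h1, h2, h3⟩ := hb.exists_signalizer
  exact ⟨W, hb, h1, h2, h3⟩

namespace BigData

variable {P : Sylow 2 G} {W : Subgroup G} (hd : BigData G q P W)
include hd

theorem centralizer_le_normalizer {t : G} (ht : t ∈ (P : Subgroup G)) (ht1 : t ≠ 1) :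
    Subgroup.centralizer ({t} : Set G) ≤ Subgroup.normalizer ((P : Subgroup G) : Set G) := by
  intro c hc
  haveI := hd.toBigTwo.comm
  haveI := hd.h.isSolvable_centralizer (Or.inl (orderOf_eq_two (hd.h.sylow_sq P t ht) ht1))
  obtain ⟨k, hk, hkn⟩ := exists_decomp_solvable P _ (hd.toBigTwo.le_centralizer ht) hc
  have hkW : k ∈ W := hd.core_eq t ht ht1 ▸ (hk : k ∈ centralizerPPrimeCore 2 t)
  have hkN : k ∈ Subgroup.normalizer ((P : Subgroup G) : Set G) :=
    CfsgLib.CoprimeAction.mem_normalizer_of_conj_mem fun a ha => by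
      have : Commute k a := (Subgroup.mem_centralizer_iff.1 (hd.hPW ha) k hkW)
      rw [conj_eq_of_commute this]
      exact ha
  have := Subgroup.mul_mem _ hkN hkn
  rwa [mul_inv_cancel_left] at this

theorem stronglyEmbedded : IsStronglyEmbedded (Subgroup.normalizer ((P : Subgroup G) : Set G)) :=
  hd.toBigTwo.stronglyEmbedded hd.toBigTwo.normalizer_ne_top le_rfl fun _ ht ht1 =>
    hd.centralizer_le_normalizer ht ht1

theorem exists_ne_one : ∃ t ∈ (P : Subgroup G), t ≠ 1 := by
  obtain ⟨⟨a, ha⟩, ha1⟩ := Subgroup.ne_bot_iff_exists_ne_one.1 hd.toBigTwo.P_ne_bot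
  exact ⟨a, ha, fun e => ha1 (Subtype.ext e)⟩

theorem centralizer_P : Subgroup.centralizer ((P : Subgroup G) : Set G) = (P : Subgroup G) ⊔ W := by
  haveI := hd.toBigTwo.comm
  refine le_antisymm ?_ (sup_le ?_ fun w hw => Subgroup.mem_centralizer_iff.2 fun a ha =>
    (Subgroup.mem_centralizer_iff.1 (hd.hPW ha) w hw).symm)
  · obtain ⟨t, ht, ht1⟩ := hd.exists_ne_one
    haveI := hd.h.isSolvable_centralizer (Or.inl (orderOf_eq_two (hd.h.sylow_sq P t ht) ht1))
    intro c hc
    have hcC : c ∈ Subgroup.centralizer ({t} : Set G) :=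
      Subgroup.mem_centralizer_singleton_iff.2 (Subgroup.mem_centralizer_iff.1 hc t ht).symm
    have h2 := (sylow_modulo_core P _ (hd.toBigTwo.le_centralizer ht)).2
      (x := ⟨c, hcC⟩) (Subgroup.mem_centralizer_iff.2 fun a ha =>
        Subtype.ext (Subgroup.mem_centralizer_iff.1 hc _ ha))
    have h3 := Subgroup.mem_map_of_mem (Subgroup.centralizer ({t} : Set G)).subtype h2
    rw [Subgroup.map_sup] at h3
    refine (sup_le ?_ ?_ : _ ≤ (P : Subgroup G) ⊔ W) h3
    · exact (hd.core_eq t ht ht1).le.trans le_sup_right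
    · rintro _ ⟨a, ha, rfl⟩
      exact Subgroup.mem_sup_left ha
  · exact fun a ha => Subgroup.mem_centralizer_iff.2 fun b hb' =>
      congrArg Subtype.val (mul_comm (⟨b, hb'⟩ : (P : Subgroup G)) ⟨a, ha⟩)

/-- A solvable overgroup of `P` lies in `N(P)`. -/
theorem solvable_le (X : Subgroup G) [Group.IsSolvable X] (hPX : (P : Subgroup G) ≤ X) :
    X ≤ Subgroup.normalizer ((P : Subgroup G) : Set G) := by
  haveI := hd.toBigTwo.comm
  intro x hx
  obtain ⟨k, hk, hkn⟩ := exists_decomp_solvable P X hPX hx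
  have hK : (pPrimeCore 2 X).map X.subtype ≤ Subgroup.normalizer ((P : Subgroup G) : Set G) := by
    refine CfsgLib.CoprimeAction.le_of_centralizers hd.toBigTwo.noncyclic
      (hPX.trans (le_normalizer_map_pPrimeCore 2 X))
      (coprime_two_group (hd.h.sylow_sq P) (odd_card_map_pPrimeCore X)) fun a ha ha1 => ?_
    exact inf_le_right.trans (hd.centralizer_le_normalizer ha ha1)
  have := Subgroup.mul_mem _ (hK hk) hkn
  rwa [mul_inv_cancel_left] at this

end BigData

end CfsgLib.NoThreeOrders
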