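import Cfsg.Agent.Lib.NoThreeOrders.Rank3Count
import Cfsg.Agent.Lib.Balance.CentralizerCore

/-!
The case `C(P) = P`: the number of fixed points forces `q = 3`.
-/

set_option autoImplicit false
set_option linter.style.haveILetI false
set_option linter.unusedSectionVars false

open Cfsg
open scoped IsMulCommutative Pointwise

namespace CfsgLib.NoThreeOrders

variable {G : Type*} [Group G] [Finite G]

theorem mk_smul_eq_iff {M : Subgroup G} {g x : G} :
    x • (QuotientGroup.mk g : G ⧸ M) = QuotientGroup.mk g ↔ g⁻¹ * x * g ∈ M := by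
  show (QuotientGroup.mk (x * g) : G ⧸ M) = QuotientGroup.mk g ↔ _
  rw [eq_comm, QuotientGroup.eq, mul_assoc]

namespace Compl

variable {q : ℕ} {P : Sylow 2 G} {W : Subgroup G} {p : ℕ} {k : G} (hc : Compl G q P W p k)

local notation "M₀" => Subgroup.normalizer ((P : Subgroup G) : Set G)
local notation "C₀" => Subgroup.centralizer ((P : Subgroup G) : Set G)
local notation "L₀" => (Subgroup.normalizer ((P : Subgroup G) : Set G) ⊓ Subgroup.normalizer (Subgroup.zpowers k : Set G) : Subgroup G)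

include hc

/-- `C_P(y) = {1, a}`. -/
theorem fixed_P {a y : G} (ha : a ∈ (P : Subgroup G)) (ha1 : a ≠ 1) (hyL : y ∈ L₀) (hy : orderOf y = q)
    (hya : Commute y a) (φ : M₀ →* Multiplicative (ZMod q)) (hφy : φ ⟨y, hyL.1⟩ ≠ 1)
    {b : G} (hb : b ∈ (P : Subgroup G)) (hyb : Commute y b) : b = 1 ∨ b = a := by
  by_cases hb1 : b = 1
  · exact Or.inl hb1
  right
  haveI : Fact q.Prime := ⟨hc.h.hq⟩
  have hAcard : Nat.card (Multiplicative (ZMod q)) = q := by
    rw [Nat.card_congr (Multiplicative.toAdd (α := ZMod q)), Nat.card_zmod]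
  obtain ⟨l, hl, hlb⟩ := hc.transitive_L ha ha1 hb hb1
  obtain ⟨i, hi⟩ := Subgroup.mem_zpowers_iff.1 (mem_zpowers_of_prime_card hAcard hφy (g' := φ ⟨l, hl.1⟩))
  set f := l * (y ^ i)⁻¹ with hf
  have hfL : f ∈ L₀ := mul_mem hl (inv_mem (zpow_mem hyL i))
  have hfb : f * a * f⁻¹ = b := by
    calc f * a * f⁻¹ = l * ((y ^ i)⁻¹ * (a * y ^ i)) * l⁻¹ := by rw [hf]; group
      _ = l * ((y ^ i)⁻¹ * (y ^ i * a)) * l⁻¹ := by rw [(hya.zpow_left i).eq]
      _ = b := by rw [inv_mul_cancel_left, hlb]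
  have hfφ : φ ⟨f, hfL.1⟩ = 1 := by
    rw [show (⟨f, hfL.1⟩ : M₀) = ⟨l, hl.1⟩ * ((⟨y, hyL.1⟩ : M₀) ^ i)⁻¹ from Subtype.ext (by simp [hf]),
      map_mul, map_inv, map_zpow, hi, mul_inv_cancel]
  have hcomm : Commute (f⁻¹ * y * f) a := by
    calc f⁻¹ * y * f * a = f⁻¹ * (y * (f * a * f⁻¹)) * f := by group
      _ = f⁻¹ * ((f * a * f⁻¹) * y) * f := by rw [hfb, hyb.eq]
      _ = a * (f⁻¹ * y * f) := by group
  have hmem : f⁻¹ * y * f ∈ L₀ ⊓ Subgroup.centralizer ({a} : Set G) :=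
    Subgroup.mem_inf.2 ⟨mul_mem (mul_mem (inv_mem hfL) hyL) hfL, Subgroup.mem_centralizer_singleton_iff.2 hcomm.eq⟩
  rw [hc.fix_eq_zpowers ha ha1 hyL hy hya] at hmem
  obtain ⟨j, hj⟩ := Subgroup.mem_zpowers_iff.1 hmem
  have hφj : φ ⟨y, hyL.1⟩ ^ j = φ ⟨y, hyL.1⟩ := by
    rw [← map_zpow, show (⟨y, hyL.1⟩ : M₀) ^ j = (⟨f, hfL.1⟩ : M₀)⁻¹ * ⟨y, hyL.1⟩ * ⟨f, hfL.1⟩ from
      Subtype.ext (by simp [hj]), map_mul, map_mul, map_inv, hfφ, inv_one, one_mul, mul_one]
  have hyj : y ^ j = y := by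
    have h1 : (orderOf (φ ⟨y, hyL.1⟩) : ℤ) ∣ j - 1 := by
      rw [orderOf_dvd_iff_zpow_eq_one, zpow_sub, zpow_one, hφj, mul_inv_cancel]
    have h2 : orderOf (φ ⟨y, hyL.1⟩) = q :=
      orderOf_eq_prime (by
        have := pow_card_eq_one' (x := φ ⟨y, hyL.1⟩)
        rwa [hAcard] at this) hφy
    rw [h2, ← hy, orderOf_dvd_iff_zpow_eq_one, zpow_sub, zpow_one, mul_inv_eq_one] at h1
    exact h1
  have hfy : Commute f y := by
    rw [hyj] at hj
    calc f * y = f * (f⁻¹ * y * f) := by rw [← hj]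
      _ = y * f := by group
  by_cases hf1 : f = 1
  · rw [hf1] at hfb; simpa using hfb.symm
  have hfo : orderOf f = q := by
    have h1 := hc.h.orderOf_dvd_of_commute (Or.inr hy) hfy
    have h2 := (Nat.coprime_two_right.2 (hc.odd_orderOf hfL)).dvd_of_dvd_mul_left h1
    exact ((Nat.dvd_prime hc.h.hq).1 h2).resolve_left fun e => hf1 (orderOf_eq_one_iff.1 e)
  set T := Subgroup.zpowers f ⊔ Subgroup.zpowers y
  have hn : Subgroup.zpowers f ≤ Subgroup.normalizer (Subgroup.zpowers y : Set G) := by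
    refine Subgroup.zpowers_le.2 (CfsgLib.CoprimeAction.mem_normalizer_of_conj_mem fun x hx => ?_)
    obtain ⟨n, rfl⟩ := Subgroup.mem_zpowers_iff.1 hx
    rw [conj_eq_of_commute (hfy.zpow_right n)]
    exact hx
  have hTq : IsPGroup q T := CfsgLib.Balance.isPGroup_sup_of_normalized
    (IsPGroup.of_card (n := 1) (by rw [Nat.card_zpowers, hfo, pow_one]))
    (IsPGroup.of_card (n := 1) (by rw [Nat.card_zpowers, hy, pow_one]))
    (Subgroup.zpowers_le.2 (CfsgLib.CoprimeAction.mem_normalizer_of_conj_mem fun x hx => by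
      obtain ⟨n, rfl⟩ := Subgroup.mem_zpowers_iff.1 hx
      rw [conj_eq_of_commute (hfy.symm.zpow_right n)]
      exact hx))
  have hTle : T ≤ L₀ := sup_le (Subgroup.zpowers_le.2 hfL) (Subgroup.zpowers_le.2 hyL)
  have heq : Subgroup.zpowers y = T := Subgroup.eq_of_le_of_card_ge le_sup_right (by
    rw [Nat.card_zpowers, hy]; exact hc.card_qGroup_le hTle hTq)
  have hmemf : f ∈ Subgroup.zpowers y := heq ▸ Subgroup.mem_sup_left (Subgroup.mem_zpowers f)
  obtain ⟨n, hn'⟩ := Subgroup.mem_zpowers_iff.1 hmemf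
  have h1 : f * a * f⁻¹ = a := conj_eq_of_commute (hn' ▸ hya.zpow_left n)
  exact hfb.symm.trans h1

/-- The fixed points force `q = 3`. -/
theorem eq_three {a y : G} (ha : a ∈ (P : Subgroup G)) (ha1 : a ≠ 1) (hyL : y ∈ L₀) (hy : orderOf y = q)
    (hya : Commute y a) : q = 3 := by
  classical
  haveI : Fact q.Prime := ⟨hc.h.hq⟩
  haveI : Fact (Nat.Prime 2) := ⟨Nat.prime_two⟩
  haveI : Fact p.Prime := ⟨hc.hp⟩
  haveI := hc.simple
  have hd := hc.toBigData
  obtain ⟨φ, hφy, hφ⟩ := hc.exists_hom ha ha1 hyL hy hya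
  set pt : G ⧸ M₀ := QuotientGroup.mk 1 with hpt
  have hptfix : ∀ x ∈ M₀, x • pt = pt := fun x hx => mk_smul_eq_iff.2 (by simpa using hx)
  -- a representative involution for each fixed point
  have hswap : ∀ ω : G ⧸ M₀, y • ω = ω → ω ≠ pt → ∃ u : G, ∃ hyu : u⁻¹ * y * u ∈ M₀,
      orderOf u = 2 ∧ u ∉ M₀ ∧ QuotientGroup.mk u = ω := by
    intro ω hω hne
    obtain ⟨g, rfl⟩ := QuotientGroup.mk_surjective ω
    have hg : g ∉ M₀ := fun h => hne (QuotientGroup.eq.2 (by simpa using inv_mem h))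
    obtain ⟨u, hu, huM, hug, -⟩ := hd.exists_swap hg
    have he : (QuotientGroup.mk u : G ⧸ M₀) = QuotientGroup.mk g := QuotientGroup.eq.2 hug
    exact ⟨u, mk_smul_eq_iff.1 (by rw [he]; exact hω), hu, huM, he⟩
  -- transfer
  have hdvd : q ∣ Nat.card {ω : G ⧸ M₀ // y • ω = ω} := by
    haveI : Fintype {ω : G ⧸ M₀ // y • ω = ω} := Fintype.ofFinite _
    have hprod := prod_fixed_eq_one hc.nonab φ (y := y) (q := q) (by rw [← hy, pow_orderOf_eq_one])
    have hconst : ∀ ω : {ω : G ⧸ M₀ // y • ω = ω},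
        φ ⟨ω.1.out⁻¹ * y * ω.1.out, out_conj_mem ω⟩ = φ ⟨y, hyL.1⟩ := by
      rintro ⟨ω, hω⟩
      have hmk : ∀ (g : G) (hg : g⁻¹ * y * g ∈ M₀), QuotientGroup.mk g = ω →
          φ ⟨ω.out⁻¹ * y * ω.out, out_conj_mem ⟨ω, hω⟩⟩ = φ ⟨g⁻¹ * y * g, hg⟩ := by
        intro g hg hgω
        obtain ⟨m, hm⟩ := QuotientGroup.mk_out_eq_mul M₀ g
        rw [hgω] at hm
        have : (⟨ω.out⁻¹ * y * ω.out, out_conj_mem ⟨ω, hω⟩⟩ : M₀) = m⁻¹ * ⟨g⁻¹ * y * g, hg⟩ * m :=
          Subtype.ext (by simp [hm, mul_assoc])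
        rw [this, map_mul, map_mul, map_inv, mul_comm (φ m)⁻¹, inv_mul_cancel_right]
      by_cases hne : ω = pt
      · refine (hmk 1 (by simpa using hyL.1) hne.symm).trans (congrArg φ (Subtype.ext ?_))
        simp
      obtain ⟨u, hyu, hu, huM, hω'⟩ := hswap ω hω hne
      exact (hmk u hyu hω').trans (hc.twoPoint ha ha1 hyL hy hya φ hφy hφ hu huM hyu).2.2
    rw [Finset.prod_congr rfl fun ω _ => hconst ω, Finset.prod_const, Finset.card_univ,
      ← Nat.card_eq_fintype_card] at hprod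
    have h1 := orderOf_dvd_of_pow_eq_one hprod
    have hAcard : Nat.card (Multiplicative (ZMod q)) = q := by
      rw [Nat.card_congr (Multiplicative.toAdd (α := ZMod q)), Nat.card_zmod]
    rwa [show orderOf (φ ⟨y, hyL.1⟩) = q from orderOf_eq_prime (by
        have := pow_card_eq_one' (x := φ ⟨y, hyL.1⟩)
        rwa [hAcard] at this) hφy] at h1
  -- the fixed points of `y` and `k`
  let B := {ω : G ⧸ M₀ // y • ω = ω ∧ k • ω = ω ∧ ω ≠ pt}
  have haM : a ∈ M₀ := Subgroup.le_normalizer ha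
  have haa : a * a = 1 := hd.sq a ha
  have hya' : ∀ ω : G ⧸ M₀, y • (a • ω) = a • (y • ω) := fun ω => by rw [← mul_smul, ← mul_smul, hya.eq]
  have hapt : ∀ ω : G ⧸ M₀, ω ≠ pt → a • ω ≠ pt := by
    intro ω hne e
    refine hne ?_
    rw [← one_smul G ω, ← haa, mul_smul, e, hptfix a haM]
  have hfixB : Nat.card {ω : G ⧸ M₀ // y • ω = ω} = 1 + 2 * Nat.card B := by
    let f : Option (B ⊕ B) → {ω : G ⧸ M₀ // y • ω = ω} := fun o => match o with
      | none => ⟨pt, hptfix y hyL.1⟩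
      | some (Sum.inl b) => ⟨b.1, b.2.1⟩
      | some (Sum.inr b) => ⟨a • b.1, by rw [hya', b.2.1]⟩
    have hdisj : ∀ b b' : B, a • b'.1 ≠ b.1 := by
      intro b b' e
      obtain ⟨u, hyu, hu, huM, hω⟩ := hswap b.1 b.2.1 b.2.2.2
      obtain ⟨h1, -, -⟩ := hc.twoPoint ha ha1 hyL hy hya φ hφy hφ hu huM hyu
      have hk1 : u⁻¹ * k * u ∈ M₀ := mk_smul_eq_iff.1 (by rw [hω]; exact b.2.2.1)
      have hk2 : u⁻¹ * (a * k * a⁻¹) * u ∈ M₀ := mk_smul_eq_iff.1 (by
        rw [hω, ← e, mul_smul, mul_smul, inv_smul_smul, b'.2.2.1])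
      have h := h1 (k⁻¹ * (a * k * a⁻¹)) (mul_mem (inv_mem hc.k_mem) (mul_mem (mul_mem haM hc.k_mem) (inv_mem haM)))
        (by rw [show u⁻¹ * (k⁻¹ * (a * k * a⁻¹)) * u = (u⁻¹ * k * u)⁻¹ * (u⁻¹ * (a * k * a⁻¹) * u) by group]
            exact mul_mem (inv_mem hk1) hk2)
        (by rw [hc.C_eq_P, show k⁻¹ * (a * k * a⁻¹) = (k⁻¹ * a * k) * a⁻¹ by group]
            exact mul_mem ((Subgroup.mem_normalizer_iff''.1 hc.k_mem a).1 ha) (inv_mem ha))
      refine ha1 (hc.k_free ha (Subgroup.mem_zpowers k) hc.k_ne_one ?_)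
      have e2 : a * k * a⁻¹ = k := (inv_mul_eq_one.1 h).symm
      exact (mul_inv_eq_iff_eq_mul.1 e2).symm
    have hf : Function.Bijective f := by
      constructor
      · intro o o' e
        have e' := congrArg Subtype.val e
        rcases o with _ | (b | b) <;> rcases o' with _ | (b' | b')
        · rfl
        · exact absurd e'.symm b'.2.2.2
        · exact absurd e'.symm (hapt _ b'.2.2.2)
        · exact absurd e' b.2.2.2
        · exact congrArg (fun z => some (Sum.inl z)) (Subtype.ext e')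
        · exact absurd e'.symm (hdisj b b')
        · exact absurd e' (hapt _ b.2.2.2)
        · exact absurd e' (hdisj b' b)
        · exact congrArg (fun z => some (Sum.inr z)) (Subtype.ext (smul_left_cancel a e'))
      · rintro ⟨ω, hω⟩
        by_cases hne : ω = pt
        · exact ⟨none, Subtype.ext hne.symm⟩
        obtain ⟨u, hyu, hu, huM, hωu⟩ := hswap ω hω hne
        obtain ⟨h1, h2, -⟩ := hc.twoPoint ha ha1 hyL hy hya φ hφy hφ hu huM hyu
        obtain ⟨d, hdM, hdu, hdk⟩ := h2 k hc.k_mem_L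
        rw [hc.C_eq_P] at hdk
        obtain ⟨e', he', hee⟩ := hc.exists_conj_of_mul (Subgroup.mem_zpowers k) hc.k_ne_one hdk
        rw [mul_inv_cancel_left] at hee
        obtain ⟨i, hi⟩ := exists_conj_eq_zpow hyL.2
        have he'M : e' ∈ M₀ := Subgroup.le_normalizer he'
        -- `y` acts on `⟨d⟩` as on `⟨k⟩`
        have hyd : y * d * y⁻¹ = d ^ i := by
          refine (inv_mul_eq_one.1 (h1 ((y * d * y⁻¹)⁻¹ * d ^ i) ?_ ?_ ?_))
          · exact mul_mem (inv_mem (mul_mem (mul_mem hyL.1 hdM) (inv_mem hyL.1))) (zpow_mem hdM i)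
          · rw [show u⁻¹ * ((y * d * y⁻¹)⁻¹ * d ^ i) * u =
                ((u⁻¹ * y * u) * (u⁻¹ * d * u) * (u⁻¹ * y * u)⁻¹)⁻¹ * (u⁻¹ * d ^ i * u) by group]
            refine mul_mem (inv_mem (mul_mem (mul_mem hyu hdu) (inv_mem hyu))) ?_
            have e3 := conj_zpow (i := i) (a := u⁻¹) (b := d)
            rw [inv_inv] at e3
            rw [← e3]
            exact zpow_mem hdu i
          · rw [← hee, conj_zpow, hc.C_eq_P]
            have hye : y * e' * y⁻¹ ∈ (P : Subgroup G) := (Subgroup.mem_normalizer_iff.1 hyL.1 e').1 he'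
            rw [show (y * (e' * k * e'⁻¹) * y⁻¹)⁻¹ * (e' * k ^ i * e'⁻¹) =
              (y * e' * y⁻¹) * ((y * k * y⁻¹)⁻¹ * ((y * e' * y⁻¹)⁻¹ * e') * k ^ i) * e'⁻¹ by group, hi]
            exact mul_mem (mul_mem hye ((Subgroup.mem_normalizer_iff''.1 (zpow_mem hc.k_mem i) _).1
              (mul_mem (inv_mem hye) he'))) (inv_mem he')
        have hki : k ^ i ≠ 1 := fun e0 => hc.k_ne_one (by
          rw [← hi] at e0
          exact conj_eq_one_iff.1 e0)
        have hz : Commute y e' := by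
          rw [← hee, conj_zpow] at hyd
          have hcomm : Commute (k ^ i) (e'⁻¹ * (y * e' * y⁻¹)) := by
            have e4 : (y * e' * y⁻¹) * k ^ i * (y * e' * y⁻¹)⁻¹ = e' * k ^ i * e'⁻¹ := by
              rw [← hyd, ← hi]; group
            calc k ^ i * (e'⁻¹ * (y * e' * y⁻¹)) = e'⁻¹ * (e' * k ^ i * e'⁻¹) * (y * e' * y⁻¹) := by group
              _ = e'⁻¹ * ((y * e' * y⁻¹) * k ^ i * (y * e' * y⁻¹)⁻¹) * (y * e' * y⁻¹) := by rw [e4]
              _ = e'⁻¹ * (y * e' * y⁻¹) * k ^ i := by group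
          have := hc.k_free (mul_mem (inv_mem he') ((Subgroup.mem_normalizer_iff.1 hyL.1 e').1 he'))
            (zpow_mem (Subgroup.mem_zpowers k) i) hki hcomm
          exact mul_inv_eq_iff_eq_mul.1 (inv_mul_eq_one.1 this).symm
        have hdω : d • ω = ω := by rw [← hωu]; exact mk_smul_eq_iff.2 hdu
        rcases hc.fixed_P ha ha1 hyL hy hya φ hφy he' hz with e5 | e5
        · rw [e5, one_mul, inv_one, mul_one] at hee
          exact ⟨some (Sum.inl ⟨ω, hω, hee ▸ hdω, hne⟩), rfl⟩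
        · rw [e5] at hee
          have hainv : a⁻¹ = a := inv_eq_of_mul_eq_one_right haa
          have hb : k • (a • ω) = a • ω := by
            have h3 : d • ω = ω := hdω
            rw [← hee, hainv, mul_smul, mul_smul] at h3
            calc k • (a • ω) = (a * a) • (k • (a • ω)) := by rw [haa, one_smul]
              _ = a • (a • (k • (a • ω))) := mul_smul _ _ _
              _ = a • ω := by rw [h3]
          refine ⟨some (Sum.inr ⟨a • ω, by rw [hya', hω], hb, hapt ω hne⟩), Subtype.ext ?_⟩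
          show a • (a • ω) = ω
          rw [← mul_smul, haa, one_smul]
    rw [← Nat.card_eq_of_bijective f hf, Finite.card_option, Nat.card_sum]
    ring
  have hB : Nat.card B ≠ 0 := by
    intro e
    rw [hfixB, e] at hdvd
    exact hc.h.hq.ne_one (Nat.dvd_one.1 (by simpa using hdvd))
  obtain ⟨⟨ω₀, hω₀y, hω₀k, hω₀ne⟩⟩ : Nonempty B := (Nat.card_ne_zero.1 hB).1
  obtain ⟨u, hyu, hu, huM, hu₀⟩ := hswap ω₀ hω₀y hω₀ne
  obtain ⟨h1u, -, -⟩ := hc.twoPoint ha ha1 hyL hy hya φ hφy hφ hu huM hyu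
  set N := Subgroup.normalizer (Subgroup.zpowers k : Set G) with hN
  -- `u` normalises `⟨k⟩`
  have hui : u⁻¹ = u := CfsgLib.Involutions.inv_eq_self hu
  have hku : u⁻¹ * k * u ∈ M₀ := mk_smul_eq_iff.1 (by rw [hu₀]; exact hω₀k)
  have huN : u ∈ N := by
    obtain ⟨l, hl, c, hcC, he⟩ := hc.dec _ hku
    have hk'o : (u⁻¹ * k * u) ^ p = 1 := by
      have e3 := conj_pow (i := p) (a := u⁻¹) (b := k)
      rw [inv_inv] at e3
      rw [e3, show k ^ p = 1 by rw [← hc.k_ord, pow_orderOf_eq_one]]; group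
    have hlp : l ^ p = 1 := by
      refine hc.eq_one_of_mem_L (pow_mem hl p) ?_
      have h0 : (QuotientGroup.mk' ((C₀).subgroupOf M₀) ⟨l, hl.1⟩) ^ p = 1 := by
        have : QuotientGroup.mk' ((C₀).subgroupOf M₀) ⟨l, hl.1⟩ = QuotientGroup.mk' _ ⟨_, hku⟩ :=
          QuotientGroup.eq.2 (show l⁻¹ * (u⁻¹ * k * u) ∈ C₀ by rw [he, inv_mul_cancel_left]; exact hcC)
        rw [this, ← map_pow, show (⟨_, hku⟩ : M₀) ^ p = 1 from Subtype.ext hk'o, map_one]
      rw [← map_pow] at h0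
      exact (QuotientGroup.eq_one_iff ((⟨l, hl.1⟩ : M₀) ^ p)).1 h0
    obtain ⟨i, hi⟩ := Subgroup.mem_zpowers_iff.1 (hc.order_p_mem hl hlp)
    have huu : u * u = 1 := CfsgLib.Involutions.mul_self_eq_one hu
    have heq : u⁻¹ * k * u = k ^ i := by
      refine (inv_mul_eq_one.1 (h1u ((k ^ i)⁻¹ * (u⁻¹ * k * u)) (mul_mem (inv_mem (zpow_mem hc.k_mem i)) hku) ?_ ?_)).symm
      · rw [show u⁻¹ * ((k ^ i)⁻¹ * (u⁻¹ * k * u)) * u = (u⁻¹ * k ^ i * u)⁻¹ * ((u⁻¹ * u⁻¹) * k * (u * u)) by group,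
          huu, hui, huu, one_mul, mul_one]
        refine mul_mem (inv_mem ?_) hc.k_mem
        have e3 := conj_zpow (i := i) (a := u⁻¹) (b := k)
        rw [inv_inv, hui] at e3
        rw [← e3]
        exact zpow_mem (by have := hku; rwa [hui] at this) i
      · rw [hi, he, inv_mul_cancel_left]; exact hcC
    refine CfsgLib.CoprimeAction.mem_normalizer_of_conj_mem fun x hx => ?_
    obtain ⟨j, rfl⟩ := Subgroup.mem_zpowers_iff.1 hx
    rw [← conj_zpow, show u * k * u⁻¹ = k ^ i by rw [← heq, hui], ← zpow_mul]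
    exact zpow_mem (Subgroup.mem_zpowers k) _
  -- automorphisms induced on `⟨k⟩`
  haveI := isCyclic_mulAut (hc.k_ord.symm ▸ hc.hp : (orderOf k).Prime)
  letI : CommGroup (MulAut (Subgroup.zpowers k)) := IsCyclic.commGroup
  set ψ := (Subgroup.zpowers k).normalizerMonoidHom with hψ
  set K := Subgroup.centralizer (Subgroup.zpowers k : Set G) with hK
  have hKk : ∀ x ∈ K, Commute k x := fun x hx => Subgroup.mem_centralizer_iff.1 hx k (Subgroup.mem_zpowers k)
  have hKN : K ≤ N := fun x hx => by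
    refine CfsgLib.CoprimeAction.mem_normalizer_of_conj_mem fun z hz => ?_
    rw [conj_eq_of_commute (Subgroup.mem_centralizer_iff.1 hx z hz).symm]
    exact hz
  have hKord : ∀ x ∈ K, ¬ 2 ∣ orderOf x ∧ ¬ q ∣ orderOf x := by
    intro x hx
    constructor <;> intro hd'
    · obtain ⟨i, hi⟩ := exists_pow_orderOf x hd'
      exact hc.k_ne_one (hc.h.eq_one_of_commute (Or.inl hi) hc.hp hc.hp2 hc.hpq hc.isPGroup_R
        (Subgroup.mem_zpowers k) ((hKk x hx).pow_right i))
    · obtain ⟨i, hi⟩ := exists_pow_orderOf x hd'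
      exact hc.k_ne_one (hc.h.eq_one_of_commute (Or.inr hi) hc.hp hc.hp2 hc.hpq hc.isPGroup_R
        (Subgroup.mem_zpowers k) ((hKk x hx).pow_right i))
  have hK2 : ¬ 2 ∣ Nat.card K := fun hd' => by
    obtain ⟨⟨x, hx⟩, hxo⟩ := exists_prime_orderOf_dvd_card' (G := K) 2 hd'
    rw [Subgroup.orderOf_mk] at hxo
    exact (hKord x hx).1 (dvd_of_eq hxo.symm)
  have hψker : ∀ x : N, ψ x = 1 ↔ (x : G) ∈ K := fun x => by
    rw [← MonoidHom.mem_ker, hψ, Subgroup.normalizerMonoidHom_ker]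
    rfl
  have hψexp : ∀ g : N, ψ g ^ (2 * q) = 1 := by
    intro g
    have hUK : Subgroup.zpowers u ≤ Subgroup.normalizer (K : Set G) := by
      refine Subgroup.zpowers_le.2 (CfsgLib.CoprimeAction.mem_normalizer_of_conj_mem fun x hx => ?_)
      have h0 : ψ (⟨u, huN⟩ * ⟨x, hKN hx⟩ * ⟨u, huN⟩⁻¹) = 1 := by
        rw [map_mul, map_mul, (hψker ⟨x, hKN hx⟩).2 hx, mul_one, map_inv, mul_inv_cancel]
      exact (hψker _).1 h0
    obtain ⟨n, hn, hgn⟩ := CfsgLib.Balance.exists_centralizer_lift (P := Subgroup.zpowers u) (M := K)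
      (IsPGroup.of_card (n := 1) (by rw [Nat.card_zpowers, hu, pow_one])) hK2 hUK (g : G) (fun x hx => by
        have hxN : x ∈ N := Subgroup.zpowers_le.2 huN hx
        have h0 : ψ (g⁻¹ * (⟨x, hxN⟩ * g * ⟨x, hxN⟩⁻¹)) = 1 := by
          rw [map_mul, map_mul, map_mul, map_inv, map_inv, mul_comm (ψ ⟨x, hxN⟩), mul_inv_cancel_right,
            inv_mul_cancel]
        exact (hψker _).1 h0)
    have hnu : Commute n u := (Subgroup.mem_centralizer_iff.1 hn u (Subgroup.mem_zpowers u)).symm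
    have hnN : n ∈ N := by
      have := N.mul_mem g.2 (hKN hgn)
      rwa [mul_inv_cancel_left] at this
    have hgψ : ψ g = ψ ⟨n, hnN⟩ := by
      have h0 : ψ (g⁻¹ * ⟨n, hnN⟩) = 1 := (hψker _).2 hgn
      rw [map_mul, map_inv, inv_mul_eq_one] at h0
      exact h0
    rw [hgψ, ← map_pow, show (⟨n, hnN⟩ : N) ^ (2 * q) = 1 from Subtype.ext
      (orderOf_dvd_iff_pow_eq_one.1 (hc.h.orderOf_dvd_of_commute (Or.inl hu) hnu)), map_one]
  have hyN : y ∈ N := hyL.2
  have hψy : orderOf (ψ ⟨y, hyN⟩) = q := by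
    refine orderOf_eq_prime (by rw [← map_pow, show (⟨y, hyN⟩ : N) ^ q = 1 from Subtype.ext (hy ▸ pow_orderOf_eq_one y), map_one]) ?_
    rw [Ne, hψker]
    exact fun hh => (hKord y hh).2 (dvd_of_eq hy.symm)
  have hψu : orderOf (ψ ⟨u, huN⟩) = 2 := by
    refine orderOf_eq_prime (by rw [← map_pow, show (⟨u, huN⟩ : N) ^ 2 = 1 from Subtype.ext (hu ▸ pow_orderOf_eq_one u), map_one]) ?_
    rw [Ne, hψker]
    exact fun hh => (hKord u hh).1 (dvd_of_eq hu.symm)
  have hNcard : Nat.card N = 2 * q * Nat.card K := by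
    have h1 := ψ.ker.card_mul_index
    rw [Subgroup.index_ker] at h1
    have h2 : Nat.card ψ.ker = Nat.card K := by
      rw [hψ, Subgroup.normalizerMonoidHom_ker]
      exact Nat.card_congr (Subgroup.subgroupOfEquivOfLe hKN).toEquiv
    have h3 : Nat.card ψ.range = 2 * q := Nat.dvd_antisymm (card_range_dvd ψ hψexp)
      (Nat.Coprime.mul_dvd_of_dvd_of_dvd hc.h.coprime_two
        ((dvd_of_eq hψu.symm).trans (Subgroup.orderOf_dvd_natCard _ ⟨_, rfl⟩))
        ((dvd_of_eq hψy.symm).trans (Subgroup.orderOf_dvd_natCard _ ⟨_, rfl⟩)))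
    rw [← h1, h2, h3, mul_comm]
  set KL := L₀ ⊓ K with hKL
  have hLcard : Nat.card L₀ = q * Nat.card KL := by
    set f := ψ.comp (Subgroup.inclusion (inf_le_right : L₀ ≤ N))
    have h1 := f.ker.card_mul_index
    rw [Subgroup.index_ker] at h1
    have h2 : Nat.card f.ker = Nat.card KL := by
      have : f.ker = KL.subgroupOf L₀ := by
        ext x
        exact (hψker _).trans ⟨fun h => ⟨x.2, h⟩, fun h => h.2⟩
      rw [this]
      exact Nat.card_congr (Subgroup.subgroupOfEquivOfLe inf_le_left).toEquiv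
    have h3 : Nat.card f.range = q := by
      refine Nat.dvd_antisymm ?_ ((dvd_of_eq hψy.symm).trans (Subgroup.orderOf_dvd_natCard _ ⟨⟨y, hyL⟩, rfl⟩))
      refine (Nat.coprime_two_right.2 (hc.odd_L.of_dvd_nat ?_)).dvd_of_dvd_mul_left (card_range_dvd f fun x => hψexp _)
      rw [← h1]; exact dvd_mul_left _ _
    rw [← h1, h2, h3, mul_comm]
  have hfreeK : ∀ x ∈ K, Commute y x → x = 1 := by
    intro x hx hcxy
    have h1 := hc.h.orderOf_dvd_of_commute (Or.inr hy) hcxy.symm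
    obtain ⟨h2, h3⟩ := hKord x hx
    refine orderOf_eq_one_iff.1 (Nat.eq_one_of_dvd_coprimes ?_ dvd_rfl h1)
    exact Nat.Coprime.mul_right ((Nat.Prime.coprime_iff_not_dvd Nat.prime_two).2 h2).symm
      ((Nat.Prime.coprime_iff_not_dvd hc.h.hq).2 h3).symm
  have hyK : y ∈ Subgroup.normalizer (K : Set G) := by
    refine CfsgLib.CoprimeAction.mem_normalizer_of_conj_mem fun x hx => ?_
    have h0 : ψ (⟨y, hyN⟩ * ⟨x, hKN hx⟩ * ⟨y, hyN⟩⁻¹) = 1 := by
      rw [map_mul, map_mul, (hψker ⟨x, hKN hx⟩).2 hx, mul_one, map_inv, mul_inv_cancel]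
    exact (hψker _).1 h0
  have hmodK : Nat.card K ≡ 1 [MOD q] := card_modEq_one hy hyK hfreeK
  have hmodKL : Nat.card KL ≡ 1 [MOD q] := card_modEq_one hy
    (CfsgLib.CoprimeAction.mem_normalizer_of_conj_mem fun x hx =>
      ⟨(Subgroup.mem_normalizer_iff.1 (Subgroup.le_normalizer hyL) x).1 hx.1, (Subgroup.mem_normalizer_iff.1 hyK x).1 hx.2⟩)
    fun x hx => hfreeK x hx.2
  -- the points fixed by `k`
  let Φ := {ω : G ⧸ M₀ // k • ω = ω}
  have hknorm : ∀ g ∈ N, g⁻¹ * k * g ∈ Subgroup.zpowers k := fun g hg =>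
    (Subgroup.mem_normalizer_iff''.1 hg k).1 (Subgroup.mem_zpowers k)
  have hΦ : Nat.card Φ * Nat.card L₀ = Nat.card N := by
    let f : N ⧸ (M₀).subgroupOf N → Φ :=
      Quotient.lift (fun g => ⟨QuotientGroup.mk (g : G),
        mk_smul_eq_iff.2 ((Subgroup.zpowers_le.2 hc.k_mem) (hknorm g g.2))⟩) fun g g' hgg =>
        Subtype.ext (QuotientGroup.eq.2 (Subgroup.mem_subgroupOf.1 ((QuotientGroup.leftRel_apply).1 hgg)))
    have hf : Function.Bijective f := by
      constructor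
      · intro g g'
        refine Quotient.inductionOn₂ g g' fun g g' e => Quotient.sound ((QuotientGroup.leftRel_apply).2 ?_)
        exact Subgroup.mem_subgroupOf.2 (QuotientGroup.eq.1 (congrArg Subtype.val e))
      · rintro ⟨ω, hω⟩
        obtain ⟨g, rfl⟩ := QuotientGroup.mk_surjective ω
        have hk' : g⁻¹ * k * g ∈ M₀ := mk_smul_eq_iff.1 hω
        obtain ⟨l, hl, c, hcC, he⟩ := hc.dec _ hk'
        have hk'o : (g⁻¹ * k * g) ^ p = 1 := by
          have e3 := conj_pow (i := p) (a := g⁻¹) (b := k)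
          rw [inv_inv] at e3
          rw [e3, show k ^ p = 1 by rw [← hc.k_ord, pow_orderOf_eq_one]]; group
        have hlp : l ^ p = 1 := by
          refine hc.eq_one_of_mem_L (pow_mem hl p) ?_
          have h0 : (QuotientGroup.mk' ((C₀).subgroupOf M₀) ⟨l, hl.1⟩) ^ p = 1 := by
            have : QuotientGroup.mk' ((C₀).subgroupOf M₀) ⟨l, hl.1⟩ = QuotientGroup.mk' _ ⟨_, hk'⟩ :=
              QuotientGroup.eq.2 (show l⁻¹ * (g⁻¹ * k * g) ∈ C₀ by rw [he, inv_mul_cancel_left]; exact hcC)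
            rw [this, ← map_pow, show (⟨_, hk'⟩ : M₀) ^ p = 1 from Subtype.ext hk'o, map_one]
          rw [← map_pow] at h0
          exact (QuotientGroup.eq_one_iff ((⟨l, hl.1⟩ : M₀) ^ p)).1 h0
        have hlk := hc.order_p_mem hl hlp
        have hl1 : l ≠ 1 := by
          intro e
          rw [e, one_mul] at he
          rw [hc.C_eq_P] at hcC
          have h2 := orderOf_dvd_of_pow_eq_one (show (g⁻¹ * k * g) ^ 2 = 1 by rw [he, pow_two]; exact hd.sq c hcC)
          rw [show g⁻¹ * k * g = g⁻¹ * k * g⁻¹⁻¹ by rw [inv_inv], CfsgLib.Involutions.orderOf_conj, hc.k_ord] at h2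
          exact hc.hp2 ((Nat.prime_dvd_prime_iff_eq hc.hp Nat.prime_two).1 h2)
        rw [hc.C_eq_P] at hcC
        obtain ⟨e', he', hee⟩ := hc.exists_conj_of_mul hlk hl1 hcC
        rw [← he] at hee
        have hgN : g * e' ∈ N := by
          have h4 : (g * e')⁻¹ ∈ N := by
            refine CfsgLib.CoprimeAction.mem_normalizer_of_conj_mem fun x hx => ?_
            obtain ⟨j, rfl⟩ := Subgroup.mem_zpowers_iff.1 hx
            rw [← conj_zpow]
            refine zpow_mem ?_ j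
            have : (g * e')⁻¹ * k * (g * e')⁻¹⁻¹ = l := by
              calc (g * e')⁻¹ * k * (g * e')⁻¹⁻¹ = e'⁻¹ * (g⁻¹ * k * g) * e' := by group
                _ = l := by rw [← hee]; group
            rw [this]
            exact hlk
          simpa using inv_mem h4
        refine ⟨QuotientGroup.mk ⟨g * e', hgN⟩, Subtype.ext (QuotientGroup.eq.2 ?_)⟩
        show (g * e')⁻¹ * g ∈ M₀
        rw [mul_inv_rev, inv_mul_cancel_right]
        exact inv_mem (Subgroup.le_normalizer he')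
    have h1 := ((M₀).subgroupOf N).index_mul_card
    rw [Subgroup.index_eq_card, Nat.card_eq_of_bijective f hf] at h1
    rw [← h1]
    congr 1
    rw [← Subgroup.card_map_of_injective N.subtype_injective, Subgroup.subgroupOf_map_subtype]
  have hΦB : Nat.card Φ ≡ 1 + Nat.card B [MOD q] := by
    letI : MulAction (Subgroup.zpowers y) Φ :=
      { smul := fun g ω => ⟨(g : G) • ω.1, by
          obtain ⟨j, hj⟩ := Subgroup.mem_zpowers_iff.1 g.2
          obtain ⟨i, hi⟩ := Subgroup.mem_zpowers_iff.1 (hknorm (g : G) (hj ▸ zpow_mem hyN j))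
          have : k • ((g : G) • ω.1) = (g : G) • ((k ^ i) • ω.1) := by
            rw [hi, ← mul_smul, ← mul_smul]; congr 1; group
          rw [this]
          congr 1
          exact MulAction.mem_stabilizer_iff.1 (zpow_mem (MulAction.mem_stabilizer_iff.2 ω.2 : k ∈ MulAction.stabilizer G ω.1) i)⟩
        one_smul := fun ω => Subtype.ext (one_smul G ω.1)
        mul_smul := fun g h ω => Subtype.ext (mul_smul (g : G) (h : G) ω.1) }
    have hY : IsPGroup q (Subgroup.zpowers y) := IsPGroup.of_card (n := 1) (by rw [Nat.card_zpowers, hy, pow_one])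
    refine (hY.card_modEq_card_fixedPoints Φ).trans ?_
    have : Nat.card (MulAction.fixedPoints (Subgroup.zpowers y) Φ) = Nat.card (Option B) := by
      have hstab : ∀ ω : G ⧸ M₀, y • ω = ω → ∀ g : Subgroup.zpowers y, (g : G) • ω = ω := fun ω hω g =>
        MulAction.mem_stabilizer_iff.1 (Subgroup.zpowers_le.2 (MulAction.mem_stabilizer_iff.2 hω) g.2)
      symm
      refine Nat.card_eq_of_bijective (fun o => match o with
        | none => ⟨⟨pt, hptfix k hc.k_mem⟩, fun g => Subtype.ext (hstab pt (hptfix y hyL.1) g)⟩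
        | some b => ⟨⟨b.1, b.2.2.1⟩, fun g => Subtype.ext (hstab b.1 b.2.1 g)⟩) ⟨?_, ?_⟩
      · intro o o' e
        have e' := congrArg (fun z => ((z : MulAction.fixedPoints (Subgroup.zpowers y) Φ).1).1) e
        rcases o with _ | b <;> rcases o' with _ | b'
        · rfl
        · exact absurd e'.symm b'.2.2.2
        · exact absurd e' b.2.2.2
        · exact congrArg some (Subtype.ext e')
      · rintro ⟨⟨ω, hω⟩, hfix⟩
        by_cases hne : ω = pt
        · exact ⟨none, Subtype.ext (Subtype.ext hne.symm)⟩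
        · exact ⟨some ⟨ω, congrArg Subtype.val (hfix ⟨y, Subgroup.mem_zpowers y⟩), hω, hne⟩, rfl⟩
    rw [this, Finite.card_option, add_comm]
  have hkey : Nat.card Φ * Nat.card KL = 2 * Nat.card K := by
    refine Nat.eq_of_mul_eq_mul_left hc.h.hq.pos ?_
    rw [hLcard, hNcard] at hΦ
    linarith
  have h2 : Nat.card Φ ≡ 2 [MOD q] := by
    have e1 := hmodKL.mul_left (Nat.card Φ)
    rw [mul_one, hkey] at e1
    exact e1.symm.trans (by simpa using hmodK.mul_left 2)
  have h3 : 1 + Nat.card B ≡ 2 [MOD q] := hΦB.symm.trans h2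
  have h4 : Nat.card B ≡ 1 [MOD q] := Nat.ModEq.add_left_cancel' 1 h3
  have h5 : 0 ≡ 3 [MOD q] := by
    rw [hfixB] at hdvd
    exact ((Nat.modEq_zero_iff_dvd.2 hdvd).symm).trans ((h4.mul_left 2).add_left 1)
  exact (Nat.prime_dvd_prime_iff_eq hc.h.hq Nat.prime_three).1 (Nat.modEq_zero_iff_dvd.1 h5.symm)

end Compl

end CfsgLib.NoThreeOrders
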