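import Cfsg.Agent.Lib.NoThreeOrders.Basic
import Cfsg.Agent.Lib.SL2.Torus
import Cfsg.Agent.Lib.SL2.Card
import Cfsg.Agent.Lib.Suzuki.LieBridge
import Cfsg.Agent.S0333

/-!
Consequences of the condition for the orders of the tori of `PSL₂(q)` and `Sz(q)`.
-/

set_option autoImplicit false
set_option linter.style.haveILetI false
set_option linter.unusedSectionVars false

open Cfsg
open scoped MatrixGroups

namespace CfsgLib.NoThreeOrders

variable {G : Type*} [Group G] [Finite G]

/-- Element orders are products of at most two primes. -/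
theorem NoThree.length_le (h : NoThree G) {n : ℕ} (g : G) (hd : n ∣ orderOf g) :
    n.primeFactorsList.length ≤ 2 := by
  by_contra hlt
  have hn0 : n ≠ 0 := fun e => (orderOf_pos g).ne' (Nat.eq_zero_of_zero_dvd (e ▸ hd))
  have hprime : ∀ p ∈ n.primeFactorsList, p.Prime := fun p hp => Nat.prime_of_mem_primeFactorsList hp
  have hprod := Nat.prod_primeFactorsList hn0
  match hl : n.primeFactorsList with
  | [] => simp [hl] at hlt
  | [_] => simp [hl] at hlt
  | [_, _] => simp [hl] at hlt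
  | a :: b :: c :: t =>
    rw [hl] at hprime hprod
    simp only [List.prod_cons] at hprod
    have ha := hprime a (by simp)
    have hb := (hprime b (by simp)).two_le
    have hc := (hprime c (by simp)).two_le
    obtain ⟨x₁, h₁⟩ := exists_orderOf_of_dvd g ((Dvd.intro (b * (c * t.prod)) hprod).trans hd)
    obtain ⟨x₂, h₂⟩ := exists_orderOf_of_dvd g
      ((Dvd.intro (c * t.prod) (by rw [mul_assoc]; exact hprod) : a * b ∣ n).trans hd)
    obtain ⟨x₃, h₃⟩ := exists_orderOf_of_dvd g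
      ((Dvd.intro t.prod (by rw [mul_assoc, mul_assoc]; exact hprod) : a * b * c ∣ n).trans hd)
    have hab : a < a * b := lt_mul_of_one_lt_right ha.pos (by omega)
    have habc : a * b < a * b * c := lt_mul_of_one_lt_right (Nat.mul_pos ha.pos (by omega)) (by omega)
    exact h a ha x₁ x₂ x₃ (by rw [h₁, h₂]; exact hab.ne) (by rw [h₂, h₃]; exact habc.ne)
      (by rw [h₁, h₃]; exact (hab.trans habc).ne)
      ⟨h₁ ▸ dvd_rfl, h₂ ▸ dvd_mul_right a b, h₃ ▸ (dvd_mul_right a b).trans (dvd_mul_right _ c)⟩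

theorem NoThree.not_eight (h : NoThree G) (g : G) : ¬ 8 ∣ orderOf g := by
  intro h8
  have := h.length_le g h8
  rw [show (8 : ℕ) = 2 ^ 3 by norm_num, Nat.Prime.primeFactorsList_pow Nat.prime_two] at this
  simp at this

theorem NoThree.of_equiv {H : Type*} [Group H] (h : NoThree G) (e : G ≃* H) : NoThree H :=
  h.of_surjective e.toMonoidHom e.surjective

/-- A torus of `SL₂` gives an element of `PSL₂` of half its order. -/
theorem exists_psl_torus {F : Type*} [Field F] [Fintype F] {e : ℕ}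
    (he : e = Fintype.card F - 1 ∨ e = Fintype.card F + 1) (he3 : 3 ≤ e) :
    ∃ y : Matrix.ProjectiveSpecialLinearGroup (Fin 2) F, e ∣ 2 * orderOf y := by
  obtain ⟨g, -, hg, -⟩ := CfsgLib.SL2.exists_torus_generator (F := F) (e := e)
    (by rwa [Nat.card_eq_fintype_card]) he3
  refine ⟨QuotientGroup.mk' _ g, hg ▸ orderOf_dvd_of_pow_eq_one ?_⟩
  have hmem : g ^ orderOf (QuotientGroup.mk' (Subgroup.center SL(2, F)) g) ∈ Subgroup.center SL(2, F) := by
    rw [← QuotientGroup.eq_one_iff]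
    exact (map_pow (QuotientGroup.mk' (Subgroup.center SL(2, F))) g _).trans (pow_orderOf_eq_one _)
  rw [mul_comm, pow_mul, pow_two]
  rcases (CfsgLib.SL2.mem_center_iff _).1 hmem with e' | e' <;> rw [e'] <;> simp

variable {F : Type*} [Field F] [Fintype F]

/-- Conditions on an even `q`. -/
theorem NoThree.even_torus (h : NoThree G) (iso : G ≃* Matrix.ProjectiveSpecialLinearGroup (Fin 2) F)
    (h4 : 4 ≤ Fintype.card F) (heven : 2 ∣ Fintype.card F) :
    (Fintype.card F + 1).primeFactorsList.length ≤ 2 ∧ (Fintype.card F - 1).primeFactorsList.length ≤ 2 := by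
  have key : ∀ e : ℕ, (e = Fintype.card F - 1 ∨ e = Fintype.card F + 1) → e.primeFactorsList.length ≤ 2 := by
    intro e he
    obtain ⟨y, hy⟩ := exists_psl_torus he (by omega)
    have hodd : ¬ 2 ∣ e := by omega
    have hd : e ∣ orderOf y := ((Nat.prime_two.coprime_iff_not_dvd).2 hodd).symm.dvd_of_dvd_mul_left hy
    exact h.length_le (iso.symm y) (by rwa [MulEquiv.orderOf_eq])
  exact ⟨key _ (Or.inr rfl), key _ (Or.inl rfl)⟩

/-- Conditions on an odd `q`. -/
theorem NoThree.odd_torus (h : NoThree G) (iso : G ≃* Matrix.ProjectiveSpecialLinearGroup (Fin 2) F)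
    (h5 : 5 ≤ Fintype.card F) (hodd : Odd (Fintype.card F)) :
    ((Fintype.card F + 1) / 2).primeFactorsList.length ≤ 2 ∧
      ((Fintype.card F - 1) / 2).primeFactorsList.length ≤ 2 := by
  have h2 := Nat.odd_iff.1 hodd
  have key : ∀ e : ℕ, (e = Fintype.card F - 1 ∨ e = Fintype.card F + 1) →
      (e / 2).primeFactorsList.length ≤ 2 := by
    intro e he
    obtain ⟨y, hy⟩ := exists_psl_torus he (by omega)
    rw [show e = 2 * (e / 2) by omega] at hy
    exact h.length_le (iso.symm y) (by rw [MulEquiv.orderOf_eq]; exact Nat.dvd_of_mul_dvd_mul_left two_pos hy)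
  exact ⟨key _ (Or.inr rfl), key _ (Or.inl rfl)⟩

/-- The order and the tori of a Suzuki group. -/
theorem NoThree.suzuki (h : NoThree G) (hS : Cfsg.Lie.IsoSuzuki G) :
    ∃ n : ℕ, 1 ≤ n ∧ IsSimpleGroup G ∧
      Nat.card G = (2 ^ (2 * n + 1)) ^ 2 * ((2 ^ (2 * n + 1)) ^ 2 + 1) * (2 ^ (2 * n + 1) - 1) ∧
      (2 ^ (2 * n + 1) - 1).primeFactorsList.length ≤ 2 ∧
      (2 ^ (2 * n + 1) - 2 ^ (n + 1) + 1).primeFactorsList.length ≤ 2 ∧
      (2 ^ (2 * n + 1) + 2 ^ (n + 1) + 1).primeFactorsList.length ≤ 2 := by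
  have hsimple := CfsgLib.Suzuki.isoSuzuki_isSimpleGroup hS
  obtain ⟨F, _, _, m, hm, hF, ⟨e0⟩⟩ := hS
  have hy := CfsgLib.Suzuki.Hyp.of_fintype hm hF
  let e : G ≃* Cfsg.Sz F m := e0.trans hy.lieEquiv.symm
  have key : ∀ {k : ℕ} (y : Cfsg.Sz F m), orderOf y = k → k.primeFactorsList.length ≤ 2 := fun y hk =>
    h.length_le (e.symm y) (by rw [MulEquiv.orderOf_eq, hk])
  have hcyc : ∀ {k : ℕ} {U : Subgroup (Cfsg.Sz F m)}, IsCyclic U → Nat.card U = k →
      k.primeFactorsList.length ≤ 2 := by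
    intro k U hU hk
    obtain ⟨u, hu⟩ := hU.exists_ofOrder_eq_natCard
    exact key (u : Cfsg.Sz F m) (by rw [Subgroup.orderOf_coe, hu, hk])
  refine ⟨m, hm, hsimple, ?_, ?_, ?_, ?_⟩
  · rw [Nat.card_congr e.toEquiv, hy.card_group]
  · obtain ⟨t, ht⟩ := IsCyclic.exists_ofOrder_eq_natCard (α := Fˣ)
    refine key (hy.dG t) ?_
    rw [orderOf_injective hy.dG (fun s t => hy.d_injective), ht, Nat.card_units, Nat.card_eq_fintype_card, hF]
  · obtain ⟨U, hU, hk, -⟩ := Cfsg.Agent.S0333.result hm hF _ (Set.mem_insert_of_mem _ rfl)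
    exact hcyc hU hk
  · obtain ⟨U, hU, hk, -⟩ := Cfsg.Agent.S0333.result hm hF _ (Set.mem_insert _ _)
    exact hcyc hU hk

end CfsgLib.NoThreeOrders
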